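import Mathlib
import Cfsg.Prelude.Def_Characters
import Cfsg.Agent.Lib.Lead.CharCount
import Cfsg.Agent.Lib.Lead.CharQuot

set_option autoImplicit false

namespace Cfsg.Agent.Lib.Helper8

open Cfsg.Agent.Lib.Lead

open scoped ComplexConjugate

/-- the sum of `|χ(g)|/χ(1)` over the irreducible characters of degree at least `N` -/
theorem sum_norm_div_le {G : Type*} [Group G] [Finite G] (g : G) (N : ℝ) (hN : 0 < N) :
    ∑ᶠ χ : Cfsg.IrrCharacter G,
      (if N ≤ ‖(χ : G → ℂ) 1‖ then ‖(χ : G → ℂ) g‖ / ‖(χ : G → ℂ) 1‖ else 0) ≤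
      Real.sqrt ((Nat.card (ConjClasses G) : ℝ) *
        (Nat.card ↥(Subgroup.centralizer ({g} : Set G)) : ℝ)) / N := by
  classical
  have : Fintype G := Fintype.ofFinite G
  have : Fintype (Cfsg.IrrCharacter G) := Fintype.ofFinite (Cfsg.IrrCharacter G)
  rw [finsum_eq_sum_of_fintype]
  have h1 : ∀ χ : Cfsg.IrrCharacter G,
      (if N ≤ ‖(χ : G → ℂ) 1‖ then ‖(χ : G → ℂ) g‖ / ‖(χ : G → ℂ) 1‖ else 0) ≤
        ‖(χ : G → ℂ) g‖ / N := by
    intro χ
    split_ifs with h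
    · exact div_le_div_of_nonneg_left (norm_nonneg _) hN h
    · exact div_nonneg (norm_nonneg _) hN.le
  have h2 : (∑ χ : Cfsg.IrrCharacter G, ‖(χ : G → ℂ) g‖) ^ 2 ≤
      (Nat.card (ConjClasses G) : ℝ) * (Nat.card ↥(Subgroup.centralizer ({g} : Set G)) : ℝ) := by
    have h3 := sq_sum_le_card_mul_sum_sq (s := (Finset.univ : Finset (Cfsg.IrrCharacter G)))
      (f := fun χ : Cfsg.IrrCharacter G => ‖(χ : G → ℂ) g‖)
    have h4 : ∑ χ : Cfsg.IrrCharacter G, ‖(χ : G → ℂ) g‖ ^ 2 =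
        (Nat.card ↥(Subgroup.centralizer ({g} : Set G)) : ℝ) := by
      rw [← normSq_sum_irr g]
      apply Finset.sum_congr rfl
      intro χ _
      rw [Complex.normSq_eq_norm_sq]
    rw [h4, Finset.card_univ, ← Nat.card_eq_fintype_card, card_irr] at h3
    exact h3
  calc ∑ χ : Cfsg.IrrCharacter G,
        (if N ≤ ‖(χ : G → ℂ) 1‖ then ‖(χ : G → ℂ) g‖ / ‖(χ : G → ℂ) 1‖ else 0)
      ≤ ∑ χ : Cfsg.IrrCharacter G, ‖(χ : G → ℂ) g‖ / N :=
        Finset.sum_le_sum (fun χ _ => h1 χ)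
    _ = (∑ χ : Cfsg.IrrCharacter G, ‖(χ : G → ℂ) g‖) / N := by rw [Finset.sum_div]
    _ ≤ _ := by
        apply div_le_div_of_nonneg_right _ hN.le
        exact Real.le_sqrt_of_sq_le h2

end Cfsg.Agent.Lib.Helper8
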