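import Mathlib
import Cfsg.Prelude.Def_Characters
import Cfsg.Prelude.Def_Blocks
import Cfsg.Agent.Lib.Lead.CharMisc
import Cfsg.Agent.Lib.Lead.CharRing
import Cfsg.Agent.Lib.Lead.CharQuot
import Cfsg.Agent.Lib.Lead.CharInt
import Cfsg.Agent.Lib.Helper8.CharQuotient

set_option autoImplicit false

namespace Cfsg.Agent.Lib.Helper8

open Cfsg.Agent.Lib.Lead

open scoped ComplexConjugate

variable {G : Type*} [Group G]

/-- the preimage in `G` of a subset of `G ⧸ N` -/
theorem card_preimage_quotient [Finite G] (N : Subgroup G) [N.Normal] (P : G ⧸ N → Prop) :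
    Nat.card {x : G // P (x : G ⧸ N)} = Nat.card N * Nat.card {q : G ⧸ N // P q} := by
  rw [mul_comm, ← Nat.card_prod]
  apply Nat.card_congr
  refine ⟨fun x => (⟨(x.1 : G ⧸ N), x.2⟩,
      ⟨(Quotient.out (x.1 : G ⧸ N))⁻¹ * x.1, ?_⟩),
    fun y => ⟨Quotient.out y.1.1 * y.2.1, ?_⟩, ?_, ?_⟩
  · rw [← QuotientGroup.eq]
    exact QuotientGroup.out_eq' _
  · have e : ((Quotient.out y.1.1 * y.2.1 : G) : G ⧸ N) = y.1.1 := by
      rw [QuotientGroup.mk_mul, (QuotientGroup.eq_one_iff (y.2.1)).2 y.2.2, mul_one]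
      exact QuotientGroup.out_eq' _
    rw [e]
    exact y.1.2
  · intro x
    apply Subtype.ext
    show Quotient.out (x.1 : G ⧸ N) * ((Quotient.out (x.1 : G ⧸ N))⁻¹ * x.1) = x.1
    rw [mul_inv_cancel_left]
  · intro y
    have e : ((Quotient.out y.1.1 * y.2.1 : G) : G ⧸ N) = y.1.1 := by
      rw [QuotientGroup.mk_mul, (QuotientGroup.eq_one_iff (y.2.1)).2 y.2.2, mul_one]
      exact QuotientGroup.out_eq' _
    apply Prod.ext
    · apply Subtype.ext
      exact e
    · apply Subtype.ext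
      show (Quotient.out ((Quotient.out y.1.1 * y.2.1 : G) : G ⧸ N))⁻¹ *
        (Quotient.out y.1.1 * y.2.1) = y.2.1
      rw [e, inv_mul_cancel_left]

theorem class_eq_diff_iff [Finite G] (N M : Subgroup G) [hNn : N.Normal] [hMn : M.Normal]
    (hNM : N < M) (g : G) (hgM : g ∈ M) (hgN : g ∉ N) :
    {h : G | IsConj g h} = (M : Set G) \ (N : Set G) ↔
      ((∀ χ : Cfsg.IrrCharacter G, (∀ x ∈ N, (χ : G → ℂ) x = (χ : G → ℂ) 1) →
        ∀ x ∈ M, x ∉ N → ∀ y ∈ M, y ∉ N → (χ : G → ℂ) x = (χ : G → ℂ) y) ∧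
      (∀ χ : Cfsg.IrrCharacter G, (∃ x ∈ N, (χ : G → ℂ) x ≠ (χ : G → ℂ) 1) →
        (χ : G → ℂ) g = 0)) := by
  classical
  have : Fintype G := Fintype.ofFinite G
  have : Fintype (Cfsg.IrrCharacter G) := Fintype.ofFinite (Cfsg.IrrCharacter G)
  -- column orthogonality, split
  have hk := normSq_sum_irr g
  rw [← Finset.sum_filter_add_sum_filter_not Finset.univ
    (fun χ : Cfsg.IrrCharacter G => ∀ x ∈ N, (χ : G → ℂ) x = (χ : G → ℂ) 1),
    sum_normSq_over_normal N g] at hk
  -- class sizes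
  have hA := card_class_mul_card_centralizer g
  have hB := card_class_mul_card_centralizer (QuotientGroup.mk' N g)
  have hpre := card_preimage_quotient N (fun q => IsConj q (QuotientGroup.mk' N g))
  have hGN := Subgroup.card_eq_card_quotient_mul_card_subgroup N
  have hAB : Nat.card {x : G // IsConj x g} * Nat.card (Subgroup.centralizer ({g} : Set G)) =
      Nat.card {x : G // IsConj (x : G ⧸ N) (QuotientGroup.mk' N g)} *
        Nat.card (Subgroup.centralizer ({QuotientGroup.mk' N g} : Set (G ⧸ N))) := by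
    rw [hA, hpre, mul_assoc, hB, hGN, mul_comm]
  have hkpos : 0 < Nat.card (Subgroup.centralizer ({g} : Set G)) := Nat.card_pos
  have hApos : 0 < Nat.card {x : G // IsConj x g} := by
    have : Nonempty {x : G // IsConj x g} := ⟨⟨g, IsConj.refl g⟩⟩
    exact Nat.card_pos
  let ι : {x : G // IsConj x g} → {x : G // IsConj (x : G ⧸ N) (QuotientGroup.mk' N g)} :=
    fun x => ⟨x.1, by
      obtain ⟨c, hc⟩ := isConj_iff.1 x.2
      exact isConj_iff.2 ⟨QuotientGroup.mk' N c, by
        show (QuotientGroup.mk' N c) * (QuotientGroup.mk' N x.1) * (QuotientGroup.mk' N c)⁻¹ = _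
        rw [← map_inv, ← map_mul, ← map_mul, hc]⟩⟩
  have hinj : Function.Injective ι := by
    intro a b hab
    apply Subtype.ext
    have h1 : (ι a).1 = (ι b).1 := congrArg Subtype.val hab
    exact h1
  -- if the remaining characters vanish at g then the inclusion is bijective
  have hbij_of : (∀ χ : Cfsg.IrrCharacter G, (∃ x ∈ N, (χ : G → ℂ) x ≠ (χ : G → ℂ) 1) →
      (χ : G → ℂ) g = 0) → Function.Bijective ι := by
    intro hB'
    have hR : ∑ χ ∈ Finset.univ.filter (fun χ : Cfsg.IrrCharacter G =>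
        ¬ ∀ x ∈ N, (χ : G → ℂ) x = (χ : G → ℂ) 1), Complex.normSq ((χ : G → ℂ) g) = 0 := by
      apply Finset.sum_eq_zero
      intro χ hχ
      rw [Finset.mem_filter] at hχ
      have h1 : ∃ x ∈ N, (χ : G → ℂ) x ≠ (χ : G → ℂ) 1 := by
        by_contra h2
        apply hχ.2
        intro x hx
        by_contra h3
        exact h2 ⟨x, hx, h3⟩
      rw [hB' χ h1, map_zero]
    rw [hR, add_zero] at hk
    have hkk : Nat.card (Subgroup.centralizer ({QuotientGroup.mk' N g} : Set (G ⧸ N))) =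
        Nat.card (Subgroup.centralizer ({g} : Set G)) := by exact_mod_cast hk
    rw [hkk] at hAB
    have hcard := Nat.eq_of_mul_eq_mul_right hkpos hAB
    exact (Nat.bijective_iff_injective_and_card ι).2 ⟨hinj, hcard⟩
  constructor
  · intro hcls
    have hmemcls : ∀ x : G, x ∈ M → x ∉ N → IsConj g x := by
      intro x hxM hxN
      have : x ∈ (M : Set G) \ (N : Set G) := ⟨hxM, hxN⟩
      rw [← hcls] at this
      exact this
    refine ⟨fun χ _ x hxM hxN y hyM hyN => ?_, ?_⟩
    · rw [← (isConj_iff_irr g x).1 (hmemcls x hxM hxN) χ,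
        ← (isConj_iff_irr g y).1 (hmemcls y hyM hyN) χ]
    · -- the inclusion is surjective
      have hsurj : Function.Surjective ι := by
        rintro ⟨x, hx⟩
        obtain ⟨c, hc⟩ := isConj_iff.1 hx
        obtain ⟨c', rfl⟩ := QuotientGroup.mk'_surjective N c
        have h1 : ((c' * x * c'⁻¹ : G) : G ⧸ N) = (g : G ⧸ N) := by
          rw [QuotientGroup.mk_mul, QuotientGroup.mk_mul, QuotientGroup.mk_inv]
          exact hc
        have h2 : (c' * x * c'⁻¹)⁻¹ * g ∈ N := QuotientGroup.eq.1 h1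
        have hM' : c' * x * c'⁻¹ ∈ M := by
          have h3 : c' * x * c'⁻¹ = g * ((c' * x * c'⁻¹)⁻¹ * g)⁻¹ := by group
          rw [h3]
          exact M.mul_mem hgM (M.inv_mem (hNM.le h2))
        have hN' : c' * x * c'⁻¹ ∉ N := by
          intro h3
          apply hgN
          have h4 : g = (c' * x * c'⁻¹) * ((c' * x * c'⁻¹)⁻¹ * g) := by group
          rw [h4]
          exact N.mul_mem h3 h2
        have h5 : IsConj g (c' * x * c'⁻¹) := hmemcls _ hM' hN'
        have h6 : IsConj x (c' * x * c'⁻¹) := isConj_iff.2 ⟨c', rfl⟩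
        exact ⟨⟨x, h6.trans h5.symm⟩, rfl⟩
      have hcard : Nat.card {x : G // IsConj x g} =
          Nat.card {x : G // IsConj (x : G ⧸ N) (QuotientGroup.mk' N g)} :=
        Nat.card_congr (Equiv.ofBijective ι ⟨hinj, hsurj⟩)
      rw [hcard] at hAB
      have hBpos : 0 < Nat.card {x : G // IsConj (x : G ⧸ N) (QuotientGroup.mk' N g)} := by
        rw [← hcard]; exact hApos
      have hkk := Nat.eq_of_mul_eq_mul_left hBpos hAB
      rw [← hkk] at hk
      have hR : ∑ χ ∈ Finset.univ.filter (fun χ : Cfsg.IrrCharacter G =>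
          ¬ ∀ x ∈ N, (χ : G → ℂ) x = (χ : G → ℂ) 1), Complex.normSq ((χ : G → ℂ) g) = 0 := by
        linarith
      intro χ hχ
      have hmem : χ ∈ Finset.univ.filter (fun χ : Cfsg.IrrCharacter G =>
          ¬ ∀ x ∈ N, (χ : G → ℂ) x = (χ : G → ℂ) 1) := by
        rw [Finset.mem_filter]
        refine ⟨Finset.mem_univ _, fun h => ?_⟩
        obtain ⟨x, hx, hne⟩ := hχ
        exact hne (h x hx)
      have h0 := (Finset.sum_eq_zero_iff_of_nonneg
        (fun χ _ => Complex.normSq_nonneg _)).1 hR χ hmem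
      exact Complex.normSq_eq_zero.1 h0
  · rintro ⟨hA', hB'⟩
    have hbij := hbij_of hB'
    ext h
    constructor
    · intro hc
      obtain ⟨c, hc⟩ := isConj_iff.1 (show IsConj g h from hc)
      rw [← hc]
      refine ⟨hMn.conj_mem g hgM c, fun hn => hgN ?_⟩
      have h1 := hNn.conj_mem _ hn c⁻¹
      have h2 : c⁻¹ * (c * g * c⁻¹) * c⁻¹⁻¹ = g := by group
      rw [h2] at h1
      exact h1
    · rintro ⟨hhM, hhN⟩
      have hq : IsConj (h : G ⧸ N) (QuotientGroup.mk' N g) := by
        rw [isConj_iff_irr]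
        intro φ
        have hZ : ∀ x ∈ N, (inflIrr (QuotientGroup.mk' N) (QuotientGroup.mk'_surjective N) φ :
            G → ℂ) x = (inflIrr (QuotientGroup.mk' N) (QuotientGroup.mk'_surjective N) φ :
            G → ℂ) 1 := by
          intro x hx
          show (φ : G ⧸ N → ℂ) (QuotientGroup.mk' N x) = (φ : G ⧸ N → ℂ) (QuotientGroup.mk' N 1)
          have e : QuotientGroup.mk' N x = QuotientGroup.mk' N 1 := by
            rw [map_one]
            exact (QuotientGroup.eq_one_iff x).2 hx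
          rw [e]
        exact hA' (inflIrr (QuotientGroup.mk' N) (QuotientGroup.mk'_surjective N) φ) hZ
          h hhM hhN g hgM hgN
      obtain ⟨a, ha⟩ := hbij.2 ⟨h, hq⟩
      have e : a.1 = h := congrArg Subtype.val ha
      show IsConj g h
      rw [← e]
      exact a.2.symm

end Cfsg.Agent.Lib.Helper8
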