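import Mathlib
import Cfsg.Prelude.Def_Characters
import Cfsg.Agent.Lib.Lead.CharGal2

set_option autoImplicit false

namespace Cfsg.Agent.Lib.Helper8

open Cfsg.Agent.Lib.Lead

open scoped ComplexConjugate
open IntermediateField

variable {G : Type*} [Group G]

theorem pow_mem_iff_of_coprime8 [Finite G] (H : Subgroup G) (m : ℕ)
    (hm : m.Coprime (Nat.card G)) (g : G) : g ^ m ∈ H ↔ g ∈ H := by
  constructor
  · intro h
    have hcop : m.Coprime (orderOf g) := Nat.Coprime.coprime_dvd_right (orderOf_dvd_natCard g) hm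
    obtain ⟨k, hk⟩ := exists_pow_eq_self_of_coprime hcop
    rw [← hk]
    exact H.pow_mem h k
  · intro h
    exact H.pow_mem h m

/-- the sum of `|χ|²` over a set of elements closed under the Galois action is at least the
number of its elements at which `χ` does not vanish -/
theorem sum_normSq_ge_card_nonzero [Fintype G] [DecidableEq G] {V : Type*} [AddCommGroup V]
    [Module ℂ V] [FiniteDimensional ℂ V] (ρ : Representation ℂ G V)
    (T : Finset G) (hT : ∀ (m : ℕ), m.Coprime (Nat.card G) → ∀ g : G, g ∈ T ↔ g ^ m ∈ T) :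
    ((T.filter (fun g => ρ.character g ≠ 0)).card : ℝ) ≤ ∑ g ∈ T, ‖ρ.character g‖ ^ 2 := by
  classical
  have hn : Nat.card G ≠ 0 := Nat.card_pos.ne'
  have : FiniteDimensional ℚ ℚ⟮zetaC (Nat.card G)⟯ :=
    adjoin.finiteDimensional (zetaC_integral (Nat.card G) hn)
  choose x hx hxint hxσ using fun g : G => char_galois ρ g
  choose m hm hmσ using fun σ : ℚ⟮zetaC (Nat.card G)⟯ →ₐ[ℚ] ℂ => emb_gen (Nat.card G) hn σ
  have hd0 : 0 < Fintype.card (ℚ⟮zetaC (Nat.card G)⟯ →ₐ[ℚ] ℂ) :=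
    Fintype.card_pos_iff.mpr ⟨(ℚ⟮zetaC (Nat.card G)⟯).val⟩
  have hdpos : (0 : ℝ) < Fintype.card (ℚ⟮zetaC (Nat.card G)⟯ →ₐ[ℚ] ℂ) := by
    exact_mod_cast hd0
  -- each Galois orbit of a nonzero value contributes at least d
  have hAM : ∀ g : G, ρ.character g ≠ 0 →
      (Fintype.card (ℚ⟮zetaC (Nat.card G)⟯ →ₐ[ℚ] ℂ) : ℝ) ≤
      ∑ σ : ℚ⟮zetaC (Nat.card G)⟯ →ₐ[ℚ] ℂ, ‖σ (x g)‖ ^ 2 := by
    intro g hnz
    have hN := Algebra.norm_eq_prod_embeddings ℚ ℂ (x g)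
    obtain ⟨z, hz⟩ := IsIntegrallyClosed.isIntegral_iff.mp (Algebra.isIntegral_norm ℚ (hxint g))
    have hx0 : x g ≠ 0 := by
      intro h0
      apply hnz
      rw [← hx g, h0]
      rfl
    have hz0 : z ≠ 0 := by
      rintro rfl
      rw [map_zero] at hz
      exact hx0 (Algebra.norm_eq_zero_iff.mp hz.symm)
    have hprod : (1 : ℝ) ≤ ∏ σ : ℚ⟮zetaC (Nat.card G)⟯ →ₐ[ℚ] ℂ, ‖σ (x g)‖ ^ 2 := by
      rw [Finset.prod_pow, ← norm_prod, ← hN, ← hz]
      have h1 : ‖(algebraMap ℚ ℂ) ((algebraMap ℤ ℚ) z)‖ = |(z : ℝ)| := by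
        have : (algebraMap ℚ ℂ) ((algebraMap ℤ ℚ) z) = ((z : ℝ) : ℂ) := by simp
        rw [this, Complex.norm_real, Real.norm_eq_abs]
      rw [h1]
      have h2 : (1 : ℝ) ≤ |(z : ℝ)| := by
        have : (1 : ℤ) ≤ |z| := Int.one_le_abs hz0
        exact_mod_cast this
      nlinarith
    have hgm := Real.geom_mean_le_arith_mean (Finset.univ : Finset (ℚ⟮zetaC (Nat.card G)⟯ →ₐ[ℚ] ℂ))
      (fun _ => (1 : ℝ)) (fun σ => ‖σ (x g)‖ ^ 2) (fun _ _ => zero_le_one)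
      (by rw [Finset.sum_const, Finset.card_univ, nsmul_eq_mul, mul_one]; exact_mod_cast hd0)
      (fun σ _ => by positivity)
    simp only [Real.rpow_one, one_mul, Finset.sum_const, Finset.card_univ, nsmul_eq_mul,
      mul_one] at hgm
    have h3 : (1 : ℝ) ≤ (∏ σ : ℚ⟮zetaC (Nat.card G)⟯ →ₐ[ℚ] ℂ, ‖σ (x g)‖ ^ 2) ^
        ((Fintype.card (ℚ⟮zetaC (Nat.card G)⟯ →ₐ[ℚ] ℂ) : ℝ))⁻¹ :=
      Real.one_le_rpow hprod (by positivity)
    have h4 := h3.trans hgm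
    rw [le_div_iff₀ hdpos, one_mul] at h4
    exact h4
  -- double counting
  have hswap : ∑ g ∈ T, ∑ σ : ℚ⟮zetaC (Nat.card G)⟯ →ₐ[ℚ] ℂ, ‖σ (x g)‖ ^ 2 =
      (Fintype.card (ℚ⟮zetaC (Nat.card G)⟯ →ₐ[ℚ] ℂ) : ℝ) * ∑ g ∈ T, ‖ρ.character g‖ ^ 2 := by
    rw [Finset.sum_comm]
    have h1 : ∀ σ : ℚ⟮zetaC (Nat.card G)⟯ →ₐ[ℚ] ℂ, ∑ g ∈ T, ‖σ (x g)‖ ^ 2 =
        ∑ g ∈ T, ‖ρ.character g‖ ^ 2 := by
      intro σ
      apply Finset.sum_equiv (powCoprime (Nat.Coprime.symm (hm σ)))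
      · intro g
        exact hT (m σ) (hm σ) g
      · intro g _
        rw [hxσ g σ (m σ) (hmσ σ)]
        rfl
    rw [Finset.sum_congr rfl (fun σ _ => h1 σ), Finset.sum_const, Finset.card_univ, nsmul_eq_mul]
  have hlow : ((T.filter (fun g => ρ.character g ≠ 0)).card : ℝ) *
      (Fintype.card (ℚ⟮zetaC (Nat.card G)⟯ →ₐ[ℚ] ℂ) : ℝ) ≤
      ∑ g ∈ T, ∑ σ : ℚ⟮zetaC (Nat.card G)⟯ →ₐ[ℚ] ℂ, ‖σ (x g)‖ ^ 2 := by
    rw [← nsmul_eq_mul, ← Finset.sum_const]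
    calc ∑ _g ∈ T.filter (fun g => ρ.character g ≠ 0),
          (Fintype.card (ℚ⟮zetaC (Nat.card G)⟯ →ₐ[ℚ] ℂ) : ℝ)
        ≤ ∑ g ∈ T.filter (fun g => ρ.character g ≠ 0),
          ∑ σ : ℚ⟮zetaC (Nat.card G)⟯ →ₐ[ℚ] ℂ, ‖σ (x g)‖ ^ 2 := by
          apply Finset.sum_le_sum
          intro g hg
          rw [Finset.mem_filter] at hg
          exact hAM g hg.2
      _ ≤ ∑ g ∈ T, ∑ σ : ℚ⟮zetaC (Nat.card G)⟯ →ₐ[ℚ] ℂ, ‖σ (x g)‖ ^ 2 := by
          apply Finset.sum_le_sum_of_subset_of_nonneg (Finset.filter_subset _ _)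
          intro g _ _
          exact Finset.sum_nonneg (fun σ _ => by positivity)
  rw [hswap] at hlow
  have h5 : ((T.filter (fun g => ρ.character g ≠ 0)).card : ℝ) *
      (Fintype.card (ℚ⟮zetaC (Nat.card G)⟯ →ₐ[ℚ] ℂ) : ℝ) ≤
      (∑ g ∈ T, ‖ρ.character g‖ ^ 2) * (Fintype.card (ℚ⟮zetaC (Nat.card G)⟯ →ₐ[ℚ] ℂ) : ℝ) := by
    rw [mul_comm (∑ g ∈ T, ‖ρ.character g‖ ^ 2)]
    exact hlow
  exact le_of_mul_le_mul_right h5 hdpos

theorem restrict_norm_le_zeros [Finite G] (H : Subgroup G) (χ : Cfsg.IrrCharacter G) :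
    (Nat.card ↥H : ℝ)⁻¹ * ∑ᶠ h : ↥H, ‖(χ : G → ℂ) h‖ ^ 2 ≤
      1 + (Set.ncard ({x : G | (χ : G → ℂ) x = 0} \ (H : Set G)) : ℝ) / (Nat.card ↥H : ℝ) := by
  classical
  have : Fintype G := Fintype.ofFinite G
  have : Fintype H := Fintype.ofFinite H
  obtain ⟨n, ρ, hρ, hρχ⟩ := χ.2
  have hHpos : (0 : ℝ) < (Nat.card H : ℝ) := by exact_mod_cast Nat.card_pos
  rw [finsum_eq_sum_of_fintype]
  -- sum over H as a sum over a filter
  have hsumH : ∑ h : H, ‖(χ : G → ℂ) h‖ ^ 2 =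
      ∑ g ∈ Finset.univ.filter (fun g : G => g ∈ H), ‖ρ.character g‖ ^ 2 := by
    rw [hρχ]
    exact (Finset.sum_subtype (Finset.univ.filter (fun g : G => g ∈ H)) (by simp)
      (fun g => ‖(χ : G → ℂ) g‖ ^ 2)).symm
  have htot := sum_normSq_irr ρ
  rw [← Finset.sum_filter_add_sum_filter_not Finset.univ (fun g : G => g ∈ H)] at htot
  have hlow := sum_normSq_ge_card_nonzero ρ (Finset.univ.filter (fun g : G => ¬ g ∈ H))
    (fun m hm g => by
      simp only [Finset.mem_filter, Finset.mem_univ, true_and]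
      rw [pow_mem_iff_of_coprime8 H m hm g])
  -- cardinalities
  have hc1 : ((Finset.univ.filter (fun g : G => g ∈ H)).card : ℝ) = (Nat.card H : ℝ) := by
    rw [Nat.card_eq_fintype_card, Fintype.card_subtype]
  have hc2 : ((Finset.univ.filter (fun g : G => g ∈ H)).card : ℝ) +
      ((Finset.univ.filter (fun g : G => ¬ g ∈ H)).card : ℝ) = (Nat.card G : ℝ) := by
    rw [Nat.card_eq_fintype_card, ← Finset.card_univ (α := G)]
    exact_mod_cast Finset.card_filter_add_card_filter_not (s := (Finset.univ : Finset G))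
      (fun g : G => g ∈ H)
  have hc3 : (((Finset.univ.filter (fun g : G => ¬ g ∈ H)).filter
      (fun g => ρ.character g ≠ 0)).card : ℝ) +
      (((Finset.univ.filter (fun g : G => ¬ g ∈ H)).filter
      (fun g => ¬ ρ.character g ≠ 0)).card : ℝ) =
      ((Finset.univ.filter (fun g : G => ¬ g ∈ H)).card : ℝ) := by
    exact_mod_cast Finset.card_filter_add_card_filter_not
      (s := (Finset.univ.filter (fun g : G => ¬ g ∈ H))) (fun g => ρ.character g ≠ 0)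
  have hc4 : Set.ncard ({x : G | (χ : G → ℂ) x = 0} \ (H : Set G)) =
      ((Finset.univ.filter (fun g : G => ¬ g ∈ H)).filter
      (fun g => ¬ ρ.character g ≠ 0)).card := by
    rw [← Set.ncard_coe_finset]
    congr 1
    ext g
    simp only [Set.mem_sdiff, Set.mem_ofPred_eq, SetLike.mem_coe, Finset.coe_filter,
      Finset.mem_filter, Finset.mem_univ, true_and, not_not, hρχ]
    tauto
  rw [hsumH, hc4]
  have hfinal : ∑ g ∈ Finset.univ.filter (fun g : G => g ∈ H), ‖ρ.character g‖ ^ 2 ≤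
      (Nat.card H : ℝ) + (((Finset.univ.filter (fun g : G => ¬ g ∈ H)).filter
      (fun g => ¬ ρ.character g ≠ 0)).card : ℝ) := by
    linarith
  rw [inv_mul_le_iff₀ hHpos]
  have e : (Nat.card H : ℝ) * (1 + (((Finset.univ.filter (fun g : G => ¬ g ∈ H)).filter
      (fun g => ¬ ρ.character g ≠ 0)).card : ℝ) / (Nat.card H : ℝ)) =
      (Nat.card H : ℝ) + (((Finset.univ.filter (fun g : G => ¬ g ∈ H)).filter
      (fun g => ¬ ρ.character g ≠ 0)).card : ℝ) := by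
    field_simp
  rw [e]
  exact hfinal

end Cfsg.Agent.Lib.Helper8
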