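import Mathlib
import Cfsg.Prelude.Def_Characters
import Cfsg.Agent.Lib.Lead.CharGal2
import Cfsg.Agent.Lib.Lead.CharRing
import Cfsg.Agent.Lib.Lead.CharInd3
import Cfsg.Agent.Lib.Lead.CharTaketa
import Cfsg.Agent.Lib.Helper8.CharZeros
import Cfsg.Agent.Lib.Helper8.CharPermFS

set_option autoImplicit false

namespace Cfsg.Agent.Lib.Helper8

open Cfsg.Agent.Lib.Lead

open scoped ComplexConjugate
open IntermediateField

section cosetzeros

variable {G : Type*} [Group G]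

/-- the sum of `|χ|` over a set of elements closed under the Galois action is at least the
number of its elements at which `χ` does not vanish -/
theorem sum_norm_ge_card_nonzero [Fintype G] [DecidableEq G] {V : Type*} [AddCommGroup V]
    [Module ℂ V] [FiniteDimensional ℂ V] (ρ : Representation ℂ G V)
    (T : Finset G) (hT : ∀ (m : ℕ), m.Coprime (Nat.card G) → ∀ g : G, g ∈ T ↔ g ^ m ∈ T) :
    ((T.filter (fun g => ρ.character g ≠ 0)).card : ℝ) ≤ ∑ g ∈ T, ‖ρ.character g‖ := by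
  classical
  have hn : Nat.card G ≠ 0 := Nat.card_pos.ne'
  have : FiniteDimensional ℚ ℚ⟮zetaC (Nat.card G)⟯ :=
    adjoin.finiteDimensional (zetaC_integral (Nat.card G) hn)
  choose x hx hxint hxσ using fun g : G => char_galois ρ g
  choose m hm hmσ using fun σ : ℚ⟮zetaC (Nat.card G)⟯ →ₐ[ℚ] ℂ => emb_gen (Nat.card G) hn σ
  have hd0 : 0 < Fintype.card (ℚ⟮zetaC (Nat.card G)⟯ →ₐ[ℚ] ℂ) :=
    Fintype.card_pos_iff.mpr ⟨(ℚ⟮zetaC (Nat.card G)⟯).val⟩
  have hdpos : (0 : ℝ) < Fintype.card (ℚ⟮zetaC (Nat.card G)⟯ →ₐ[ℚ] ℂ) := by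
    exact_mod_cast hd0
  have hAM : ∀ g : G, ρ.character g ≠ 0 →
      (Fintype.card (ℚ⟮zetaC (Nat.card G)⟯ →ₐ[ℚ] ℂ) : ℝ) ≤
      ∑ σ : ℚ⟮zetaC (Nat.card G)⟯ →ₐ[ℚ] ℂ, ‖σ (x g)‖ := by
    intro g hnz
    have hN := Algebra.norm_eq_prod_embeddings ℚ ℂ (x g)
    obtain ⟨z, hz⟩ := IsIntegrallyClosed.isIntegral_iff.mp (Algebra.isIntegral_norm ℚ (hxint g))
    have hx0 : x g ≠ 0 := by
      intro h0
      apply hnz
      rw [← hx g, h0]
      rfl
    have hz0 : z ≠ 0 := by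
      rintro rfl
      rw [map_zero] at hz
      exact hx0 (Algebra.norm_eq_zero_iff.mp hz.symm)
    have hprod : (1 : ℝ) ≤ ∏ σ : ℚ⟮zetaC (Nat.card G)⟯ →ₐ[ℚ] ℂ, ‖σ (x g)‖ := by
      rw [← norm_prod, ← hN, ← hz]
      have h1 : ‖(algebraMap ℚ ℂ) ((algebraMap ℤ ℚ) z)‖ = |(z : ℝ)| := by
        have : (algebraMap ℚ ℂ) ((algebraMap ℤ ℚ) z) = ((z : ℝ) : ℂ) := by simp
        rw [this, Complex.norm_real, Real.norm_eq_abs]
      rw [h1]
      have h2 : (1 : ℤ) ≤ |z| := Int.one_le_abs hz0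
      exact_mod_cast h2
    have hgm := Real.geom_mean_le_arith_mean (Finset.univ : Finset (ℚ⟮zetaC (Nat.card G)⟯ →ₐ[ℚ] ℂ))
      (fun _ => (1 : ℝ)) (fun σ => ‖σ (x g)‖) (fun _ _ => zero_le_one)
      (by rw [Finset.sum_const, Finset.card_univ, nsmul_eq_mul, mul_one]; exact_mod_cast hd0)
      (fun σ _ => norm_nonneg _)
    simp only [Real.rpow_one, one_mul, Finset.sum_const, Finset.card_univ, nsmul_eq_mul,
      mul_one] at hgm
    have h3 : (1 : ℝ) ≤ (∏ σ : ℚ⟮zetaC (Nat.card G)⟯ →ₐ[ℚ] ℂ, ‖σ (x g)‖) ^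
        ((Fintype.card (ℚ⟮zetaC (Nat.card G)⟯ →ₐ[ℚ] ℂ) : ℝ))⁻¹ :=
      Real.one_le_rpow hprod (by positivity)
    have h4 := h3.trans hgm
    rw [le_div_iff₀ hdpos, one_mul] at h4
    exact h4
  have hswap : ∑ g ∈ T, ∑ σ : ℚ⟮zetaC (Nat.card G)⟯ →ₐ[ℚ] ℂ, ‖σ (x g)‖ =
      (Fintype.card (ℚ⟮zetaC (Nat.card G)⟯ →ₐ[ℚ] ℂ) : ℝ) * ∑ g ∈ T, ‖ρ.character g‖ := by
    rw [Finset.sum_comm]
    have h1 : ∀ σ : ℚ⟮zetaC (Nat.card G)⟯ →ₐ[ℚ] ℂ, ∑ g ∈ T, ‖σ (x g)‖ =
        ∑ g ∈ T, ‖ρ.character g‖ := by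
      intro σ
      apply Finset.sum_equiv (powCoprime (Nat.Coprime.symm (hm σ)))
      · intro g
        exact hT (m σ) (hm σ) g
      · intro g _
        rw [hxσ g σ (m σ) (hmσ σ)]
        rfl
    rw [Finset.sum_congr rfl (fun σ _ => h1 σ), Finset.sum_const, Finset.card_univ, nsmul_eq_mul]
  have hlow : ((T.filter (fun g => ρ.character g ≠ 0)).card : ℝ) *
      (Fintype.card (ℚ⟮zetaC (Nat.card G)⟯ →ₐ[ℚ] ℂ) : ℝ) ≤
      ∑ g ∈ T, ∑ σ : ℚ⟮zetaC (Nat.card G)⟯ →ₐ[ℚ] ℂ, ‖σ (x g)‖ := by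
    rw [← nsmul_eq_mul, ← Finset.sum_const]
    calc ∑ _g ∈ T.filter (fun g => ρ.character g ≠ 0),
          (Fintype.card (ℚ⟮zetaC (Nat.card G)⟯ →ₐ[ℚ] ℂ) : ℝ)
        ≤ ∑ g ∈ T.filter (fun g => ρ.character g ≠ 0),
          ∑ σ : ℚ⟮zetaC (Nat.card G)⟯ →ₐ[ℚ] ℂ, ‖σ (x g)‖ := by
          apply Finset.sum_le_sum
          intro g hg
          rw [Finset.mem_filter] at hg
          exact hAM g hg.2
      _ ≤ ∑ g ∈ T, ∑ σ : ℚ⟮zetaC (Nat.card G)⟯ →ₐ[ℚ] ℂ, ‖σ (x g)‖ := by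
          apply Finset.sum_le_sum_of_subset_of_nonneg (Finset.filter_subset _ _)
          intro g _ _
          exact Finset.sum_nonneg (fun σ _ => norm_nonneg _)
  rw [hswap] at hlow
  have h5 : ((T.filter (fun g => ρ.character g ≠ 0)).card : ℝ) *
      (Fintype.card (ℚ⟮zetaC (Nat.card G)⟯ →ₐ[ℚ] ℂ) : ℝ) ≤
      (∑ g ∈ T, ‖ρ.character g‖) * (Fintype.card (ℚ⟮zetaC (Nat.card G)⟯ →ₐ[ℚ] ℂ) : ℝ) := by
    rw [mul_comm (∑ g ∈ T, ‖ρ.character g‖)]
    exact hlow
  exact le_of_mul_le_mul_right h5 hdpos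

variable [Fintype G]

open Classical in
/-- the average of `|χ|²` over the coset `q` of `N` -/
noncomputable def cosetAvg (N : Subgroup G) [N.Normal] (χ : G → ℂ) (q : G ⧸ N) : ℂ :=
  (Nat.card N : ℂ)⁻¹ * ∑ g : G, if QuotientGroup.mk' N g = q then χ g * conj (χ g) else 0

theorem cosetAvg_mk (N : Subgroup G) [N.Normal] [Fintype N] (χ : G → ℂ) (x : G) :
    cosetAvg N χ (QuotientGroup.mk' N x) =
      (Nat.card N : ℂ)⁻¹ * ∑ n : N, χ ((n : G) * x) * conj (χ ((n : G) * x)) := by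
  classical
  unfold cosetAvg
  congr 1
  rw [← Equiv.sum_comp (Equiv.mulRight x)]
  have h := sum_extendByZero N (fun _ : N => (1 : ℂ))
    (fun g : G => χ (g * x) * conj (χ (g * x)))
  simp only [one_mul] at h
  rw [← h]
  apply Finset.sum_congr rfl
  intro g _
  have e0 : (Equiv.mulRight x) g = g * x := rfl
  by_cases hg : g ∈ N
  · have hg1 : QuotientGroup.mk' N g = 1 := (QuotientGroup.eq_one_iff g).2 hg
    have e : QuotientGroup.mk' N ((Equiv.mulRight x) g) = QuotientGroup.mk' N x := by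
      rw [e0, map_mul, hg1, one_mul]
    simp only [e, if_true]
    rw [e0, extendByZero_mem N _ hg, one_mul]
  · have e : ¬ QuotientGroup.mk' N ((Equiv.mulRight x) g) = QuotientGroup.mk' N x := by
      intro h1
      rw [e0, map_mul] at h1
      have hg1 : QuotientGroup.mk' N g = 1 := mul_right_cancel (h1.trans (one_mul _).symm)
      exact hg ((QuotientGroup.eq_one_iff g).1 hg1)
    simp only [e, if_false]
    rw [extendByZero_not_mem N _ hg, zero_mul]

theorem cosetAvg_classFun (N : Subgroup G) [N.Normal] (χ : G → ℂ)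
    (hχ : Cfsg.IsClassFunction G χ) : Cfsg.IsClassFunction (G ⧸ N) (cosetAvg N χ) := by
  classical
  intro q u
  obtain ⟨a, rfl⟩ := QuotientGroup.mk'_surjective N u
  unfold cosetAvg
  congr 1
  apply Fintype.sum_equiv (MulAut.conj a⁻¹).toEquiv
  intro g
  have e1 : (MulAut.conj a⁻¹).toEquiv g = a⁻¹ * g * a⁻¹⁻¹ := rfl
  rw [e1, hχ g a⁻¹]
  have e2 : (QuotientGroup.mk' N g =
      QuotientGroup.mk' N a * q * (QuotientGroup.mk' N a)⁻¹) ↔
      (QuotientGroup.mk' N (a⁻¹ * g * a⁻¹⁻¹) = q) := by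
    simp only [map_mul, map_inv, inv_inv]
    constructor
    · intro h
      rw [h]
      group
    · intro h
      rw [← h]
      group
  by_cases h : QuotientGroup.mk' N g = QuotientGroup.mk' N a * q * (QuotientGroup.mk' N a)⁻¹
  · have h' := e2.1 h
    simp only [h, h', if_true]
  · have h' : ¬ (QuotientGroup.mk' N (a⁻¹ * g * a⁻¹⁻¹) = q) := fun h' => h (e2.2 h')
    simp only [h, h', if_false]

theorem cosetAvg_inner (N : Subgroup G) [N.Normal] [Fintype (G ⧸ N)] (χ : G → ℂ)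
    (β : G ⧸ N → ℂ) :
    Cfsg.classInner (cosetAvg N χ) β =
      Cfsg.classInner χ (fun g => χ g * β (QuotientGroup.mk' N g)) := by
  classical
  unfold Cfsg.classInner cosetAvg
  have hcard : (Nat.card G : ℂ) = (Nat.card (G ⧸ N) : ℂ) * (Nat.card N : ℂ) := by
    have h0 := Subgroup.card_eq_card_quotient_mul_card_subgroup N
    exact_mod_cast h0
  have key : ∑ q : G ⧸ N, (∑ g : G, if QuotientGroup.mk' N g = q then χ g * conj (χ g) else 0) *
      conj (β q) = ∑ g : G, χ g * conj (χ g * β (QuotientGroup.mk' N g)) := by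
    simp_rw [Finset.sum_mul]
    rw [Finset.sum_comm]
    apply Finset.sum_congr rfl
    intro g _
    simp only [ite_mul, zero_mul, Finset.sum_ite_eq, Finset.mem_univ, if_true]
    rw [map_mul, mul_assoc]
  have h1 : ∑ q : G ⧸ N, ((Nat.card N : ℂ)⁻¹ *
      ∑ g : G, if QuotientGroup.mk' N g = q then χ g * conj (χ g) else 0) * conj (β q) =
      (Nat.card N : ℂ)⁻¹ * ∑ g : G, χ g * conj (χ g * β (QuotientGroup.mk' N g)) := by
    rw [← key, Finset.mul_sum]
    apply Finset.sum_congr rfl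
    intro q _
    rw [mul_assoc]
  rw [h1, hcard, mul_inv, mul_assoc]

theorem cosetAvg_isCharacter (N : Subgroup G) [N.Normal] (χ : Cfsg.IrrCharacter G) :
    Cfsg.IsCharacter (G ⧸ N) (cosetAvg N (χ : G → ℂ)) := by
  classical
  have : Fintype (G ⧸ N) := Fintype.ofFinite _
  apply isCharacter_of_nat_inner (cosetAvg_classFun N _ (isClassFunction_of_irr χ.2))
  intro β hβ
  rw [cosetAvg_inner]
  have hchar : Cfsg.IsCharacter G (fun g => (χ : G → ℂ) g * β (QuotientGroup.mk' N g)) :=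
    isCharacter_mul (isCharacter_of_isIrrCharacter χ.2)
      (isCharacter_comp (QuotientGroup.mk' N) (isCharacter_of_isIrrCharacter hβ))
  exact classInner_char_char_nat (isCharacter_of_isIrrCharacter χ.2) hchar

omit [Fintype G] in
/-- S4996 -/
theorem restrict_reducible_iff [Finite G] (N : Subgroup G) [N.Normal] (χ : Cfsg.IrrCharacter G) :
    ¬ Cfsg.IsIrrCharacter ↥N (fun n : ↥N => (χ : G → ℂ) n) ↔
      ∃ x : G, ∀ n : ↥N, (χ : G → ℂ) ((n : G) * x) = 0 := by
  classical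
  have : Fintype G := Fintype.ofFinite G
  have : Fintype N := Fintype.ofFinite N
  have : Fintype (G ⧸ N) := Fintype.ofFinite _
  have hN0 : (Nat.card N : ℂ) ≠ 0 := by exact_mod_cast Nat.card_pos.ne'
  have hQ0 : (Nat.card (G ⧸ N) : ℂ) ≠ 0 := by exact_mod_cast Nat.card_pos.ne'
  have hF := cosetAvg_isCharacter N χ
  have hzero : ∀ x : G, cosetAvg N (χ : G → ℂ) (QuotientGroup.mk' N x) = 0 ↔
      ∀ n : N, (χ : G → ℂ) ((n : G) * x) = 0 := by
    intro x
    rw [cosetAvg_mk]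
    constructor
    · intro h n
      have h1 := (mul_eq_zero.1 h).resolve_left (inv_ne_zero hN0)
      have h2 : ∑ n : N, Complex.normSq ((χ : G → ℂ) ((n : G) * x)) = 0 := by
        have h3 : ((∑ n : N, Complex.normSq ((χ : G → ℂ) ((n : G) * x)) : ℝ) : ℂ) = 0 := by
          rw [← h1]
          push_cast
          apply Finset.sum_congr rfl
          intro n _
          exact (Complex.mul_conj _).symm
        exact_mod_cast h3
      have h4 := (Finset.sum_eq_zero_iff_of_nonneg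
        (fun n _ => Complex.normSq_nonneg _)).1 h2 n (Finset.mem_univ n)
      exact Complex.normSq_eq_zero.1 h4
    · intro h
      rw [Finset.sum_eq_zero (fun n _ => by rw [h n, zero_mul]), mul_zero]
  have hF1 : cosetAvg N (χ : G → ℂ) 1 =
      Cfsg.classInner (fun n : N => (χ : G → ℂ) n) (fun n : N => (χ : G → ℂ) n) := by
    have h1 := cosetAvg_mk N (χ : G → ℂ) 1
    rw [map_one] at h1
    rw [h1]
    unfold Cfsg.classInner
    congr 1
    apply Finset.sum_congr rfl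
    intro n _
    rw [mul_one]
  have hFone : Cfsg.classInner (cosetAvg N (χ : G → ℂ)) (fun _ : G ⧸ N => (1 : ℂ)) = 1 := by
    rw [cosetAvg_inner]
    have h1 : (fun g : G => (χ : G → ℂ) g *
        (fun _ : G ⧸ N => (1 : ℂ)) (QuotientGroup.mk' N g)) = (χ : G → ℂ) := by
      funext g
      simp
    rw [h1]
    exact classInner_irr_self χ.2
  have hχN : Cfsg.IsCharacter N (fun n : N => (χ : G → ℂ) n) :=
    isCharacter_restrict N (isCharacter_of_isIrrCharacter χ.2)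
  obtain ⟨k, hk⟩ := classInner_char_char_nat hχN hχN
  constructor
  · intro hred
    by_contra hcon
    apply hred
    have hnz : ∀ q : G ⧸ N, cosetAvg N (χ : G → ℂ) q ≠ 0 := by
      intro q h0
      obtain ⟨x, rfl⟩ := QuotientGroup.mk'_surjective N q
      exact hcon ⟨x, (hzero x).1 h0⟩
    have hreal : ∀ q : G ⧸ N, cosetAvg N (χ : G → ℂ) q =
        ((‖cosetAvg N (χ : G → ℂ) q‖ : ℝ) : ℂ) := by
      intro q
      obtain ⟨x, rfl⟩ := QuotientGroup.mk'_surjective N q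
      rw [cosetAvg_mk]
      have h1 : (Nat.card N : ℂ)⁻¹ * ∑ n : N, (χ : G → ℂ) ((n : G) * x) *
          conj ((χ : G → ℂ) ((n : G) * x)) =
          (((Nat.card N : ℝ)⁻¹ * ∑ n : N, Complex.normSq ((χ : G → ℂ) ((n : G) * x)) : ℝ) : ℂ) := by
        push_cast
        congr 1
        apply Finset.sum_congr rfl
        intro n _
        exact Complex.mul_conj _
      rw [h1, Complex.norm_real, Real.norm_of_nonneg]
      exact mul_nonneg (inv_nonneg.2 (Nat.cast_nonneg _))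
        (Finset.sum_nonneg (fun n _ => Complex.normSq_nonneg _))
    obtain ⟨d, ρ, hρ⟩ := hF
    have hT : ∀ (m : ℕ), m.Coprime (Nat.card (G ⧸ N)) → ∀ q : G ⧸ N,
        q ∈ (Finset.univ.erase (1 : G ⧸ N)) ↔ q ^ m ∈ (Finset.univ.erase (1 : G ⧸ N)) := by
      intro m hm q
      simp only [Finset.mem_erase, Finset.mem_univ, and_true]
      have h1 := pow_mem_iff_of_coprime8 (⊥ : Subgroup (G ⧸ N)) m hm q
      rw [Subgroup.mem_bot, Subgroup.mem_bot] at h1
      exact not_congr h1.symm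
    have hAM := sum_norm_ge_card_nonzero ρ (Finset.univ.erase (1 : G ⧸ N)) hT
    rw [hρ] at hAM
    have hfilter : (Finset.univ.erase (1 : G ⧸ N)).filter
        (fun q => cosetAvg N (χ : G → ℂ) q ≠ 0) = Finset.univ.erase (1 : G ⧸ N) :=
      Finset.filter_true_of_mem (fun q _ => hnz q)
    rw [hfilter, Finset.card_erase_of_mem (Finset.mem_univ _), Finset.card_univ] at hAM
    have hsumF : ∑ q : G ⧸ N, ‖cosetAvg N (χ : G → ℂ) q‖ = (Fintype.card (G ⧸ N) : ℝ) := by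
      have h1 := hFone
      unfold Cfsg.classInner at h1
      simp only [map_one, mul_one] at h1
      have h2 : ∑ q : G ⧸ N, cosetAvg N (χ : G → ℂ) q = (Nat.card (G ⧸ N) : ℂ) := by
        have h3 := congrArg (fun z => (Nat.card (G ⧸ N) : ℂ) * z) h1
        simp only [mul_one] at h3
        rw [← h3, ← mul_assoc, mul_inv_cancel₀ hQ0, one_mul]
      have h3 : ((∑ q : G ⧸ N, ‖cosetAvg N (χ : G → ℂ) q‖ : ℝ) : ℂ) =
          ((Fintype.card (G ⧸ N) : ℝ) : ℂ) := by
        push_cast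
        rw [← Nat.card_eq_fintype_card, ← h2]
        exact Finset.sum_congr rfl (fun q _ => (hreal q).symm)
      exact_mod_cast h3
    rw [← Finset.add_sum_erase Finset.univ _ (Finset.mem_univ (1 : G ⧸ N))] at hsumF
    have hF1le : ‖cosetAvg N (χ : G → ℂ) 1‖ ≤ 1 := by
      rw [Nat.cast_sub Fintype.card_pos, Nat.cast_one] at hAM
      linarith
    rw [hF1, hk] at hF1le
    have hk1 : k ≤ 1 := by
      have h0 : ‖(k : ℂ)‖ = (k : ℝ) := Complex.norm_natCast k
      rw [h0] at hF1le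
      exact_mod_cast hF1le
    have hk0 : k ≠ 0 := by
      rintro rfl
      apply hnz 1
      rw [hF1, hk, Nat.cast_zero]
    have hk' : k = 1 := by omega
    apply isIrrCharacter_of_norm_one hχN
    rw [hk, hk', Nat.cast_one]
  · rintro ⟨x, hx⟩ hirr
    have hF1' : cosetAvg N (χ : G → ℂ) 1 = 1 := by
      rw [hF1]
      exact classInner_irr_self hirr
    have : Fintype (Cfsg.IrrCharacter (G ⧸ N)) := Fintype.ofFinite _
    obtain ⟨m, hmexp, hm⟩ := isCharacter_expansion hF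
    have hm1 : m (trivIrr (G ⧸ N)) = 1 := by
      have h0 := hm (trivIrr (G ⧸ N))
      have h1 : Cfsg.classInner (cosetAvg N (χ : G → ℂ)) (trivIrr (G ⧸ N) : G ⧸ N → ℂ) = 1 :=
        hFone
      rw [h1] at h0
      exact_mod_cast h0.symm
    have hmz : ∀ η : Cfsg.IrrCharacter (G ⧸ N), η ≠ trivIrr (G ⧸ N) → m η = 0 := by
      intro η hne
      by_contra h0
      have hc : Cfsg.classInner (cosetAvg N (χ : G → ℂ)) (η : G ⧸ N → ℂ) ≠ 0 := by
        rw [hm η]
        exact_mod_cast h0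
      have hc1 : Cfsg.classInner (cosetAvg N (χ : G → ℂ))
          (trivIrr (G ⧸ N) : G ⧸ N → ℂ) ≠ 0 := by
        rw [hm (trivIrr (G ⧸ N)), hm1]
        simp
      have e1 : (trivIrr (G ⧸ N) : G ⧸ N → ℂ) 1 = ((1 : ℕ) : ℂ) := by
        show (1 : ℂ) = ((1 : ℕ) : ℂ)
        simp
      have e2 : cosetAvg N (χ : G → ℂ) 1 = ((1 : ℕ) : ℂ) := by
        rw [hF1']
        simp
      have h1 := degree_add_le_of_constituents hF (trivIrr (G ⧸ N)).2 η.2
        (fun h => hne (Subtype.ext h.symm)) hc1 hc 1 _ 1 e1 (irr_charDegree η).1 e2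
      have h2 := (irr_charDegree η).2
      omega
    have hFeq : cosetAvg N (χ : G → ℂ) = fun _ => 1 := by
      conv_lhs => rw [hmexp]
      rw [Finset.sum_eq_single (trivIrr (G ⧸ N))
        (fun η _ hne => by rw [hmz η hne, Nat.cast_zero, zero_smul])
        (fun h => absurd (Finset.mem_univ _) h), hm1, Nat.cast_one, one_smul]
      rfl
    have h1 := (hzero x).2 hx
    rw [hFeq] at h1
    exact one_ne_zero h1

end cosetzeros

end Cfsg.Agent.Lib.Helper8
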