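import Mathlib
import Cfsg.Prelude.Def_Characters
import Cfsg.Prelude.Def_Blocks
import Cfsg.Prelude.Def_Solvable
import Cfsg.Agent.Lib.Lead.CharMisc
import Cfsg.Agent.Lib.Lead.CharRing
import Cfsg.Agent.Lib.Lead.CharQuot
import Cfsg.Agent.Lib.Lead.CharInd3
import Cfsg.Agent.Lib.Lead.CharGal2
import Cfsg.Agent.Lib.Lead.CharBurnside
import Cfsg.Agent.Lib.Lead.CharSmall
import Cfsg.Agent.Lib.Lead.CharCenter
import Cfsg.Agent.Lib.Lead.CharFrob
import Cfsg.Agent.Lib.Helper8.CharQuotient
import Cfsg.Agent.Lib.Helper8.CharCodegree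
import Cfsg.Agent.Lib.Helper8.CharCodegree2
import Cfsg.Agent.Lib.Helper8.CharPerfect

set_option autoImplicit false

namespace Cfsg.Agent.Lib.Helper8

open Cfsg.Agent.Lib.Lead

open scoped ComplexConjugate
open scoped commutatorElement
open scoped Pointwise

/-- a faithful irreducible character of prime codegree `p` has degree less than `p`, and the
group has a normal subgroup of order `p` -/
theorem faithful_prime_codegree_sylow {H : Type*} [Group H] [Finite H]
    (φ : Cfsg.IrrCharacter H)
    (hfaith : ∀ h : H, (φ : H → ℂ) h = (φ : H → ℂ) 1 → h = 1) (p : ℕ) (hp : p.Prime)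
    (hcard : Nat.card H = p * Cfsg.charDegree (φ : H → ℂ)) :
    Cfsg.charDegree (φ : H → ℂ) < p ∧ ∃ P : Subgroup H, P.Normal ∧ Nat.card P = p := by
  classical
  have : Fintype H := Fintype.ofFinite H
  have : Fintype (Cfsg.IrrCharacter H) := Fintype.ofFinite (Cfsg.IrrCharacter H)
  have hpF : Fact p.Prime := ⟨hp⟩
  obtain ⟨hd, hd0⟩ := irr_charDegree φ
  generalize Cfsg.charDegree (φ : H → ℂ) = d at hd hd0 hcard
  have hdpos : 0 < d := Nat.pos_of_ne_zero hd0
  -- step a : d < p
  have hφ1 : (φ : H → ℂ) ≠ fun _ => 1 := by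
    intro h1
    have hall : ∀ h : H, h = 1 := fun h => hfaith h (by rw [h1])
    have hsub : Subsingleton H := ⟨fun a b => by rw [hall a, hall b]⟩
    have hc1 : Nat.card H = 1 := Nat.card_unique
    rw [hc1] at hcard
    have : p ∣ 1 := Dvd.intro _ hcard.symm
    exact hp.one_lt.ne' (Nat.dvd_one.1 this)
  let χ₀ : Cfsg.IrrCharacter H := ⟨fun _ => 1, isIrrCharacter_one H⟩
  have hφχ₀ : φ ≠ χ₀ := fun h => hφ1 (congrArg Subtype.val h)
  have hsum := sum_sq_degrees_nat (K := H) (fun χ => Cfsg.charDegree (χ : H → ℂ))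
    (fun χ => (irr_charDegree χ).1)
  rw [← Finset.add_sum_erase _ _ (Finset.mem_univ χ₀)] at hsum
  have h0 : Cfsg.charDegree (χ₀ : H → ℂ) = 1 := by
    apply charDegree_eq_of
    show (1 : ℂ) = ((1 : ℕ) : ℂ)
    norm_num
  have hφd : Cfsg.charDegree (φ : H → ℂ) = d := charDegree_eq_of hd
  have hge : d ^ 2 ≤ ∑ χ ∈ Finset.univ.erase χ₀, Cfsg.charDegree (χ : H → ℂ) ^ 2 := by
    have := Finset.single_le_sum (f := fun χ : Cfsg.IrrCharacter H =>
      Cfsg.charDegree (χ : H → ℂ) ^ 2) (fun χ _ => Nat.zero_le _)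
      (Finset.mem_erase.2 ⟨hφχ₀, Finset.mem_univ φ⟩)
    simp only [hφd] at this
    exact this
  rw [h0, one_pow, hcard] at hsum
  have hdp : d < p := by
    by_contra hcon
    have hpd : p ≤ d := not_lt.1 hcon
    nlinarith
  -- step b : Sylow subgroups have order p
  have hfac : (Nat.card H).factorization p = 1 := by
    rw [hcard, Nat.factorization_mul hp.ne_zero hd0]
    have h1 : d.factorization p = 0 :=
      Nat.factorization_eq_zero_of_not_dvd (fun hdvd => absurd (Nat.le_of_dvd hdpos hdvd)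
        (not_le.2 hdp))
    simp [hp.factorization_self, h1]
  have hQcard : ∀ Q : Sylow p H, Nat.card Q = p := by
    intro Q
    rw [Sylow.card_eq_multiplicity, hfac, pow_one]
  have hQcomm : ∀ Q : Sylow p H, ∀ a ∈ (Q : Subgroup H), ∀ b ∈ (Q : Subgroup H),
      a * b = b * a := by
    intro Q a ha b hb
    have hcyc : IsCyclic Q := isCyclic_of_prime_card (hQcard Q)
    have := comm_of_cyclic (⟨a, ha⟩ : Q) ⟨b, hb⟩
    exact congrArg Subtype.val this
  have hQsum : ∀ Q : Sylow p H, (p : ℝ) * (d : ℝ) ≤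
      ∑ g ∈ Finset.univ.filter (fun g : H => g ∈ (Q : Subgroup H)), ‖(φ : H → ℂ) g‖ ^ 2 := by
    intro Q
    have : Fintype (Q : Subgroup H) := Fintype.ofFinite _
    have h1 := sum_normSq_abelian_ge (Q : Subgroup H) (hQcomm Q) (φ : H → ℂ)
      (isCharacter_of_isIrrCharacter φ.2) d hd
    rw [hQcard Q] at h1
    have h2 : ∑ g ∈ Finset.univ.filter (fun g : H => g ∈ (Q : Subgroup H)),
        ‖(φ : H → ℂ) g‖ ^ 2 = ∑ a : (Q : Subgroup H), ‖(φ : H → ℂ) a‖ ^ 2 :=
      Finset.sum_subtype (Finset.univ.filter (fun g : H => g ∈ (Q : Subgroup H))) (by simp)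
        (fun g => ‖(φ : H → ℂ) g‖ ^ 2)
    rw [h2]
    exact h1
  obtain ⟨n, ρ, hρ, hρφ⟩ := φ.2
  have htot : ∑ g : H, ‖(φ : H → ℂ) g‖ ^ 2 = (p : ℝ) * (d : ℝ) := by
    rw [← hρφ, sum_normSq_irr ρ, hcard]
    push_cast
    ring
  let P : Sylow p H := default
  -- step c : P is normal
  have hPn : (P : Subgroup H).Normal := by
    by_contra hnn
    obtain ⟨Q, hQ⟩ : ∃ Q : Sylow p H, Q ≠ P := by
      by_contra hall
      apply hnn
      rw [← Subgroup.normalizer_eq_top_iff, eq_top_iff]
      intro g _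
      have hg' : g • P = P := by
        by_contra hg
        exact hall ⟨g • P, hg⟩
      exact Sylow.smul_eq_iff_mem_normalizer.1 hg'
    have hinf : (P : Subgroup H) ⊓ (Q : Subgroup H) = ⊥ := by
      have h1 : Nat.card ((P : Subgroup H) ⊓ (Q : Subgroup H) : Subgroup H) ∣ p := by
        have h0 := Subgroup.card_dvd_of_le
          (inf_le_left : (P : Subgroup H) ⊓ (Q : Subgroup H) ≤ (P : Subgroup H))
        rw [hQcard P] at h0
        exact h0
      rcases (Nat.dvd_prime hp).1 h1 with h2 | h2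
      · exact Subgroup.card_eq_one.1 h2
      · exfalso
        apply hQ
        have h3 : (P : Subgroup H) ⊓ (Q : Subgroup H) = (P : Subgroup H) :=
          Subgroup.eq_of_le_of_card_ge inf_le_left (by rw [h2, hQcard P])
        have h4 : (P : Subgroup H) ≤ (Q : Subgroup H) := by
          rw [← h3]
          exact inf_le_right
        have h5 : (P : Subgroup H) = (Q : Subgroup H) :=
          Subgroup.eq_of_le_of_card_ge h4 (by rw [hQcard P, hQcard Q])
        exact (Sylow.ext h5).symm
    have hui := Finset.sum_union_inter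
      (s₁ := Finset.univ.filter (fun g : H => g ∈ (P : Subgroup H)))
      (s₂ := Finset.univ.filter (fun g : H => g ∈ (Q : Subgroup H)))
      (f := fun g => ‖(φ : H → ℂ) g‖ ^ 2)
    have hinter : Finset.univ.filter (fun g : H => g ∈ (P : Subgroup H)) ∩
        Finset.univ.filter (fun g : H => g ∈ (Q : Subgroup H)) = {1} := by
      ext g
      simp only [Finset.mem_inter, Finset.mem_filter, Finset.mem_univ, true_and,
        Finset.mem_singleton]
      constructor
      · rintro ⟨h1, h2⟩
        have h3 : g ∈ (P : Subgroup H) ⊓ (Q : Subgroup H) := ⟨h1, h2⟩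
        rw [hinf] at h3
        exact Subgroup.mem_bot.1 h3
      · rintro rfl
        exact ⟨Subgroup.one_mem _, Subgroup.one_mem _⟩
    rw [hinter, Finset.sum_singleton, hd, Complex.norm_natCast] at hui
    have hle : ∑ g ∈ Finset.univ.filter (fun g : H => g ∈ (P : Subgroup H)) ∪
        Finset.univ.filter (fun g : H => g ∈ (Q : Subgroup H)), ‖(φ : H → ℂ) g‖ ^ 2 ≤
        ∑ g : H, ‖(φ : H → ℂ) g‖ ^ 2 :=
      Finset.sum_le_sum_of_subset_of_nonneg (Finset.subset_univ _) (fun g _ _ => by positivity)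
    have h1 := hQsum P
    have h2 := hQsum Q
    have hdr : (d : ℝ) < (p : ℝ) := by exact_mod_cast hdp
    have hdr0 : (0 : ℝ) < (d : ℝ) := by exact_mod_cast hdpos
    nlinarith
  exact ⟨hdp, (P : Subgroup H), hPn, hQcard P⟩

/-- pairwise commuting generators generate a commutative subgroup -/
theorem closure_comm_of_comm {G : Type*} [Group G] (S : Set G)
    (hS : ∀ a ∈ S, ∀ b ∈ S, a * b = b * a) :
    ∀ a ∈ Subgroup.closure S, ∀ b ∈ Subgroup.closure S, a * b = b * a := by
  have h1 : Subgroup.closure S ≤ Subgroup.centralizer S := by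
    rw [Subgroup.closure_le]
    intro a ha
    rw [SetLike.mem_coe, Subgroup.mem_centralizer_iff]
    intro s hs
    exact hS s hs a ha
  have h2 : Subgroup.closure S ≤ Subgroup.centralizer (Subgroup.closure S : Set G) := by
    rw [Subgroup.closure_le]
    intro s hs
    rw [SetLike.mem_coe, Subgroup.mem_centralizer_iff]
    intro a ha
    have := (Subgroup.mem_centralizer_iff.1 (h1 ha)) s hs
    exact this.symm
  intro a ha b hb
  exact ((Subgroup.mem_centralizer_iff.1 (h2 hb)) a ha)

theorem faithful_prime_codegree_structure {G : Type*} [Group G] [Finite G]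
    (χ : Cfsg.IrrCharacter G)
    (hfaith : ∀ g : G, (χ : G → ℂ) g = (χ : G → ℂ) 1 → g = 1) (p : ℕ) (hp : p.Prime)
    (hcod : Nat.card G = p * Cfsg.charDegree (χ : G → ℂ)) :
    (IsCyclic G ∧ Nat.card G = p) ∨
      ∃ H : Subgroup G, Cfsg.IsFrobeniusComplement H ∧ Nat.card ↥(Cfsg.frobeniusKernel H) = p := by
  classical
  have : Fintype G := Fintype.ofFinite G
  have hpF : Fact p.Prime := ⟨hp⟩
  obtain ⟨hdp, P, hPn, hPcard⟩ := faithful_prime_codegree_sylow χ hfaith p hp hcod
  obtain ⟨hd, hd0⟩ := irr_charDegree χ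
  generalize Cfsg.charDegree (χ : G → ℂ) = d at hd hd0 hcod hdp
  have hdpos : 0 < d := Nat.pos_of_ne_zero hd0
  by_cases hd1 : d = 1
  · left
    rw [hd1, mul_one] at hcod
    exact ⟨isCyclic_of_prime_card hcod, hcod⟩
  right
  have hd2 : 1 < d := by omega
  obtain ⟨n, ρ, hρ, hρχ⟩ := χ.2
  have hfin : Module.finrank ℂ (Fin n → ℂ) = d := by
    have h1 : (Module.finrank ℂ (Fin n → ℂ) : ℂ) = (d : ℂ) := by
      rw [← hd, ← hρχ, Representation.char_one]
    exact_mod_cast h1
  have hPcyc : IsCyclic P := isCyclic_of_prime_card hPcard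
  have hPcomm : ∀ a ∈ P, ∀ b ∈ P, a * b = b * a := by
    intro a ha b hb
    have := comm_of_cyclic (⟨a, ha⟩ : P) ⟨b, hb⟩
    exact congrArg Subtype.val this
  -- P is self-centralizing
  have hself : ∀ c : G, (∀ x ∈ P, c * x = x * c) → c ∈ P := by
    intro c hc
    by_contra hcP
    have hS : ∀ a ∈ ((P : Set G) ∪ {c}), ∀ b ∈ ((P : Set G) ∪ {c}), a * b = b * a := by
      rintro a (ha | ha) b (hb | hb)
      · exact hPcomm a ha b hb
      · rw [Set.mem_singleton_iff] at hb
        rw [hb]
        exact (hc a ha).symm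
      · rw [Set.mem_singleton_iff] at ha
        rw [ha]
        exact hc b hb
      · rw [Set.mem_singleton_iff] at ha hb
        rw [ha, hb]
    have hA := closure_comm_of_comm _ hS
    have hle := degree_le_index_of_abelian ρ (Subgroup.closure ((P : Set G) ∪ {c})) hA
    rw [hfin] at hle
    have hPA : P ≤ Subgroup.closure ((P : Set G) ∪ {c}) := by
      intro x hx
      exact Subgroup.subset_closure (Or.inl hx)
    have hcA : c ∈ Subgroup.closure ((P : Set G) ∪ {c}) :=
      Subgroup.subset_closure (Or.inr rfl)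
    have hlt : Nat.card P < Nat.card (Subgroup.closure ((P : Set G) ∪ {c})) := by
      by_contra hnot
      have := Subgroup.eq_of_le_of_card_ge hPA (not_lt.1 hnot)
      exact hcP (this ▸ hcA)
    have hmul := Subgroup.card_mul_index (Subgroup.closure ((P : Set G) ∪ {c}))
    rw [hcod] at hmul
    rw [hPcard] at hlt
    nlinarith
  -- a complement
  have hPidx : P.index = d := by
    have h1 := Subgroup.card_mul_index P
    rw [hPcard, hcod] at h1
    exact Nat.eq_of_mul_eq_mul_left hp.pos h1
  have hcop : Nat.Coprime (Nat.card P) P.index := by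
    rw [hPcard, hPidx]
    exact (Nat.Prime.coprime_iff_not_dvd hp).2
      (fun hdvd => absurd (Nat.le_of_dvd hdpos hdvd) (not_le.2 hdp))
  obtain ⟨K, hK⟩ := Subgroup.exists_right_complement'_of_coprime hcop
  have hKcard : Nat.card K = d := by
    have h1 := hK.card_mul_card
    rw [hPcard, hcod] at h1
    exact Nat.eq_of_mul_eq_mul_left hp.pos h1
  have hdisj : P ⊓ K = ⊥ := disjoint_iff.1 hK.disjoint
  have hKfrob : Cfsg.IsFrobeniusComplement K := by
    refine ⟨?_, ?_, ?_⟩
    · intro h
      rw [h, Subgroup.card_bot] at hKcard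
      omega
    · intro h
      rw [h, Subgroup.card_top, hcod] at hKcard
      have : 1 < p := hp.one_lt
      nlinarith
    · intro g hg
      rw [eq_bot_iff]
      rintro x ⟨hxK, hxg⟩
      rw [Subgroup.mem_bot]
      have hxg' : g⁻¹ * x * g ∈ K := by
        have h1 := (Subgroup.mem_pointwise_smul_iff_inv_smul_mem).1 hxg
        have h2 : (MulAut.conj g)⁻¹ • x = g⁻¹ * x * g := by
          rw [← map_inv]
          simp [MulAut.smul_def]
        rw [h2] at h1
        exact h1
      have hgmem : g ∈ (P : Set G) * (K : Set G) := by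
        rw [hK.mul_eq]
        exact Set.mem_univ g
      obtain ⟨z, hz, k, hk, rfl⟩ := Set.mem_mul.1 hgmem
      have hz1 : z ≠ 1 := by
        rintro rfl
        apply hg
        rw [one_mul]
        exact hk
      have hzx : z⁻¹ * x * z ∈ K := by
        have h1 : z⁻¹ * x * z = k * ((z * k)⁻¹ * x * (z * k)) * k⁻¹ := by group
        rw [h1]
        exact K.mul_mem (K.mul_mem hk hxg') (K.inv_mem hk)
      have h3 : x⁻¹ * (z⁻¹ * x * z) ∈ P ⊓ K := by
        refine ⟨?_, K.mul_mem (K.inv_mem hxK) hzx⟩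
        have h4 : x⁻¹ * (z⁻¹ * x * z) = (x⁻¹ * z⁻¹ * x⁻¹⁻¹) * z := by group
        rw [h4]
        exact P.mul_mem (hPn.conj_mem _ (P.inv_mem hz) _) hz
      rw [hdisj, Subgroup.mem_bot] at h3
      have hcomm : x * z = z * x := by
        have h5 : z⁻¹ * x * z = x := by
          have := congrArg (fun t => x * t) h3
          simpa using this
        calc x * z = z * (z⁻¹ * x * z) := by group
          _ = z * x := by rw [h5]
      -- P is generated by z
      have hzP : Subgroup.zpowers z = P := by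
        have hle : Subgroup.zpowers z ≤ P := (Subgroup.zpowers_le).2 hz
        apply Subgroup.eq_of_le_of_card_ge hle
        have h6 : Nat.card (Subgroup.zpowers z) ∣ p := by
          rw [← hPcard]
          exact Subgroup.card_dvd_of_le hle
        rcases (Nat.dvd_prime hp).1 h6 with h7 | h7
        · exfalso
          apply hz1
          have h8 := Subgroup.card_eq_one.1 h7
          have h9 : z ∈ Subgroup.zpowers z := Subgroup.mem_zpowers z
          rw [h8] at h9
          exact Subgroup.mem_bot.1 h9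
        · rw [h7, hPcard]
      have hxP : x ∈ P := by
        apply hself
        intro y hy
        rw [← hzP] at hy
        obtain ⟨i, rfl⟩ := Subgroup.mem_zpowers_iff.1 hy
        exact (Commute.zpow_right (show Commute x z from hcomm) i).eq
      have h10 : x ∈ P ⊓ K := ⟨hxP, hxK⟩
      rw [hdisj] at h10
      exact Subgroup.mem_bot.1 h10
  refine ⟨K, hKfrob, ?_⟩
  obtain ⟨N, hNeq, hNn, hNK⟩ := frobenius_kernel K hKfrob
  have h1 := hNK.card_mul_card
  rw [hKcard, hcod] at h1
  have hNcard : Nat.card N = p := Nat.eq_of_mul_eq_mul_right hdpos h1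
  rw [← hNeq]
  exact hNcard

end Cfsg.Agent.Lib.Helper8
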