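import Mathlib
import Cfsg.Prelude.Def_Characters
import Cfsg.Agent.Lib.Lead.CharMisc
import Cfsg.Agent.Lib.Lead.CharRing
import Cfsg.Agent.Lib.Lead.CharBurnside
import Cfsg.Agent.Lib.Helper8.CharClassMul

set_option autoImplicit false

namespace Cfsg.Agent.Lib.Helper8

open Cfsg.Agent.Lib.Lead

open scoped ComplexConjugate

variable {G : Type*} [Group G]

/-- the character sum attached to products of two commutators -/
theorem sum_two_commutators [Fintype G] (χ : Cfsg.IrrCharacter G) (m : ℕ)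
    (hm : (χ : G → ℂ) 1 = (m : ℂ)) (u : G) :
    ∑ s : (G × G) × (G × G), (χ : G → ℂ)
      (u * ((s.1.1 * s.1.2 * s.1.1⁻¹ * s.1.2⁻¹) * (s.2.1 * s.2.2 * s.2.1⁻¹ * s.2.2⁻¹))) =
      (Nat.card G : ℂ) ^ 4 * (χ : G → ℂ) u / (m : ℂ) ^ 4 := by
  obtain ⟨n, ρ, hρ, hρχ⟩ := χ.2
  have hd : (Module.finrank ℂ (Fin n → ℂ) : ℂ) = (m : ℂ) := by
    rw [← hm, ← hρχ, Representation.char_one]
  rw [Fintype.sum_prod_type]
  have h1 : ∀ x : G × G, ∑ y : G × G, (χ : G → ℂ)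
      (u * ((x.1 * x.2 * x.1⁻¹ * x.2⁻¹) * (y.1 * y.2 * y.1⁻¹ * y.2⁻¹))) =
      (Nat.card G : ℂ) ^ 2 * (χ : G → ℂ) (u * (x.1 * x.2 * x.1⁻¹ * x.2⁻¹)) / (m : ℂ) ^ 2 := by
    intro x
    rw [← hρχ, ← hd, ← sum_char_mul_commutator ρ (u * (x.1 * x.2 * x.1⁻¹ * x.2⁻¹))]
    apply Finset.sum_congr rfl
    intro y _
    congr 1
    group
  rw [Finset.sum_congr rfl (fun x _ => h1 x)]
  have h2 : ∑ x : G × G, (Nat.card G : ℂ) ^ 2 *
      (χ : G → ℂ) (u * (x.1 * x.2 * x.1⁻¹ * x.2⁻¹)) / (m : ℂ) ^ 2 =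
      (Nat.card G : ℂ) ^ 2 / (m : ℂ) ^ 2 *
        ∑ x : G × G, (χ : G → ℂ) (u * (x.1 * x.2 * x.1⁻¹ * x.2⁻¹)) := by
    rw [Finset.mul_sum]
    apply Finset.sum_congr rfl
    intro x _
    ring
  rw [h2, ← hρχ, sum_char_mul_commutator ρ u, hd]
  ring

/-- if the sum of the inverse squares of the degrees is less than `2`, every element is a
product of two commutators -/
theorem two_commutators_of_sum_lt [Finite G]
    (h : ∑ᶠ χ : Cfsg.IrrCharacter G, 1 / ‖(χ : G → ℂ) 1‖ ^ 2 < (2 : ℝ)) (g : G) :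
    ∃ a b c d : G, (a * b * a⁻¹ * b⁻¹) * (c * d * c⁻¹ * d⁻¹) = g := by
  classical
  have : Fintype G := Fintype.ofFinite G
  have : Fintype (Cfsg.IrrCharacter G) := Fintype.ofFinite (Cfsg.IrrCharacter G)
  have hne : (Nat.card G : ℂ) ≠ 0 := by exact_mod_cast Nat.card_pos.ne'
  rw [finsum_eq_sum_of_fintype] at h
  by_contra hex
  have hempty : IsEmpty {s : (G × G) × (G × G) //
      (s.1.1 * s.1.2 * s.1.1⁻¹ * s.1.2⁻¹) * (s.2.1 * s.2.2 * s.2.1⁻¹ * s.2.2⁻¹) = g} :=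
    ⟨fun ⟨s, hs⟩ => hex ⟨s.1.1, s.1.2, s.2.1, s.2.2, hs⟩⟩
  have h1 := card_fiber_eq_sum_irr (fun s : (G × G) × (G × G) =>
    (s.1.1 * s.1.2 * s.1.1⁻¹ * s.1.2⁻¹) * (s.2.1 * s.2.2 * s.2.1⁻¹ * s.2.2⁻¹)) g
  rw [Nat.card_of_isEmpty, Nat.cast_zero] at h1
  have h2 : ∀ χ : Cfsg.IrrCharacter G,
      (χ : G → ℂ) 1 * ∑ s : (G × G) × (G × G), (χ : G → ℂ)
        (g⁻¹ * ((s.1.1 * s.1.2 * s.1.1⁻¹ * s.1.2⁻¹) * (s.2.1 * s.2.2 * s.2.1⁻¹ * s.2.2⁻¹))) =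
        (Nat.card G : ℂ) ^ 4 * ((χ : G → ℂ) g⁻¹ / (χ : G → ℂ) 1 ^ 3) := by
    intro χ
    obtain ⟨m, hm0, hm⟩ := irr_one χ.2
    have hm0' : (m : ℂ) ≠ 0 := by exact_mod_cast hm0
    rw [sum_two_commutators χ m hm, hm]
    field_simp
  rw [Finset.sum_congr rfl (fun χ _ => h2 χ), ← Finset.mul_sum] at h1
  have hT : ∑ χ : Cfsg.IrrCharacter G, (χ : G → ℂ) g⁻¹ / (χ : G → ℂ) 1 ^ 3 = 0 := by
    rcases mul_eq_zero.mp h1.symm with h3 | h3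
    · exact absurd h3 (inv_ne_zero hne)
    · rcases mul_eq_zero.mp h3 with h4 | h4
      · exact absurd h4 (pow_ne_zero 4 hne)
      · exact h4
  have hre := congrArg Complex.re hT
  rw [Complex.re_sum, Complex.zero_re] at hre
  -- lower bound for each term
  have hterm : ∀ χ : Cfsg.IrrCharacter G,
      -(1 / ‖(χ : G → ℂ) 1‖ ^ 2) ≤ ((χ : G → ℂ) g⁻¹ / (χ : G → ℂ) 1 ^ 3).re := by
    intro χ
    obtain ⟨n, ρ, hρ, hρχ⟩ := χ.2
    have hn0 : n ≠ 0 := by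
      obtain ⟨m, hm0, hm⟩ := irr_one χ.2
      rw [← hρχ, Representation.char_one] at hm
      have : Module.finrank ℂ (Fin n → ℂ) = m := by exact_mod_cast hm
      rw [Module.finrank_fin_fun] at this
      rw [this]
      exact hm0
    have hχ1 : (χ : G → ℂ) 1 = (n : ℂ) := by
      rw [← hρχ, Representation.char_one, Module.finrank_fin_fun]
    have hnorm : ‖(χ : G → ℂ) g⁻¹‖ ≤ (n : ℝ) := by
      have := norm_char_le ρ g⁻¹
      rw [Module.finrank_fin_fun] at this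
      rw [← hρχ]
      exact this
    have hnpos : (0 : ℝ) < (n : ℝ) := by exact_mod_cast Nat.pos_of_ne_zero hn0
    rw [hχ1]
    have e1 : ((χ : G → ℂ) g⁻¹ / (n : ℂ) ^ 3).re = ((χ : G → ℂ) g⁻¹).re / (n : ℝ) ^ 3 := by
      have : ((n : ℂ) ^ 3) = (((n ^ 3 : ℕ) : ℝ) : ℂ) := by push_cast; ring
      rw [this, Complex.div_ofReal_re]
      push_cast
      ring
    rw [e1, Complex.norm_natCast]
    have hre' : -(n : ℝ) ≤ ((χ : G → ℂ) g⁻¹).re := by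
      have h5 := Complex.abs_re_le_norm ((χ : G → ℂ) g⁻¹)
      have h6 := neg_abs_le (((χ : G → ℂ) g⁻¹).re)
      linarith
    have e2 : -(1 / (n : ℝ) ^ 2) = -(n : ℝ) / (n : ℝ) ^ 3 := by
      field_simp
    rw [e2]
    exact div_le_div_of_nonneg_right hre' (by positivity)
  -- the principal character
  let χ₀ : Cfsg.IrrCharacter G := ⟨fun _ => 1, isIrrCharacter_one G⟩
  have h0 : ((χ₀ : G → ℂ) g⁻¹ / (χ₀ : G → ℂ) 1 ^ 3).re = -(1 / ‖(χ₀ : G → ℂ) 1‖ ^ 2) + 2 := by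
    show ((1 : ℂ) / (1 : ℂ) ^ 3).re = -(1 / ‖(1 : ℂ)‖ ^ 2) + 2
    norm_num
  have hsum : ∑ χ : Cfsg.IrrCharacter G, -(1 / ‖(χ : G → ℂ) 1‖ ^ 2) + 2 ≤
      ∑ χ : Cfsg.IrrCharacter G, ((χ : G → ℂ) g⁻¹ / (χ : G → ℂ) 1 ^ 3).re := by
    rw [← Finset.add_sum_erase _ _ (Finset.mem_univ χ₀),
      ← Finset.add_sum_erase _ (fun χ : Cfsg.IrrCharacter G =>
        ((χ : G → ℂ) g⁻¹ / (χ : G → ℂ) 1 ^ 3).re) (Finset.mem_univ χ₀), h0]
    have := Finset.sum_le_sum (s := Finset.univ.erase χ₀) (fun χ _ => hterm χ)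
    linarith
  rw [Finset.sum_neg_distrib] at hsum
  linarith

end Cfsg.Agent.Lib.Helper8
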