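import Mathlib
import Cfsg.Prelude.Def_FusionSystem
import Cfsg.Prelude.Def_FusionComponents
import Cfsg.Agent.Lib.Helper8.Fusion
import Cfsg.Agent.Lib.Helper8.Fusion2
import Cfsg.Agent.Lib.Helper8.FusionAut
import Cfsg.Agent.Lib.Helper8.FusionMisc
import Cfsg.Agent.Lib.Helper8.FusionRS
import Cfsg.Agent.Lib.Helper8.FusionAgree
import Cfsg.Agent.Lib.Helper8.FusionAlperin
import Cfsg.Agent.Lib.Helper8.FusionHypAut
import Cfsg.Agent.Lib.Helper8.FusionNormal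
import Cfsg.Agent.Lib.Helper8.FusionChain
import Cfsg.Agent.Lib.Helper8.CentRad1
import Cfsg.Agent.Lib.Helper8.PStab1

set_option autoImplicit false

namespace Cfsg.Agent.Lib.Helper8

open Cfsg Cfsg.FusionSystem

variable {Ω : Type*} [Group Ω] {S : Subgroup Ω}

/-- elements of `S` inducing on `Q` an automorphism in `O_p(Aut_F(Q))` -/
def coreUp8 (F : FusionSystem S) (p : ℕ) (Q : Subgroup Ω) : Subgroup Ω :=
  ((((pCore p (F.autGroup Q)).map (F.autGroup Q).subtype).comap Q.normalizerMonoidHom).map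
    (Subgroup.normalizer (Q : Set Ω)).subtype) ⊓ S

theorem mem_coreUp8 (F : FusionSystem S) (p : ℕ) (Q : Subgroup Ω) (g : Ω) :
    g ∈ coreUp8 F p Q ↔ (g ∈ S ∧ ∃ hg : g ∈ Subgroup.normalizer (Q : Set Ω),
      Q.normalizerMonoidHom ⟨g, hg⟩ ∈ (pCore p (F.autGroup Q)).map (F.autGroup Q).subtype) := by
  constructor
  · intro h
    obtain ⟨h1, hgS⟩ := Subgroup.mem_inf.1 h
    obtain ⟨n, hn, rfl⟩ := h1
    exact ⟨hgS, n.2, hn⟩
  · rintro ⟨hgS, hg, hk⟩
    exact Subgroup.mem_inf.2 ⟨⟨⟨g, hg⟩, hk, rfl⟩, hgS⟩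

theorem coreUp_sc8 (F : FusionSystem S) [Finite S] (p : ℕ) {Q : Subgroup Ω} (hQ : F.IsNormal Q) :
    F.StronglyClosed (coreUp8 F p Q) := by
  have hQS := hQ.1
  have hQsc := fs_normal_stronglyClosed F hQ
  have hSN : S ≤ Subgroup.normalizer (Q : Set Ω) := fs_stronglyClosed_le_normalizer F hQsc
  refine ⟨fun g hg => ((mem_coreUp8 F p Q g).1 hg).1, ?_⟩
  intro P hP φ hφ x
  obtain ⟨hxS, hxN, hxK⟩ := (mem_coreUp8 F p Q (x : Ω)).1 (hP x.2)
  have hφS : φ x ∈ S := fs_map_mem F hφ x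
  have hφN : φ x ∈ Subgroup.normalizer (Q : Set Ω) := hSN hφS
  refine (mem_coreUp8 F p Q _).2 ⟨hφS, hφN, ?_⟩
  obtain ⟨ψ, hψ, hag, hmap⟩ := hQ.2 P φ hφ
  have hle : Q ≤ P ⊔ Q := le_sup_right
  have hψQ : ψ.comp (Subgroup.inclusion hle) ∈ F.Hom Q := fs_restrict_mem F hψ hle
  have hrange : (ψ.comp (Subgroup.inclusion hle)).range ≤ Q := by
    rintro _ ⟨z, rfl⟩
    have hle2 : (Q.subgroupOf (P ⊔ Q)).map ψ ≤ Q := le_of_eq hmap
    exact hle2 ⟨Subgroup.inclusion hle z, Subgroup.mem_subgroupOf.2 z.2, rfl⟩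
  obtain ⟨α₀, hα₀, hα₀v⟩ := fs_exists_aut_of_range_le F hψQ hrange
  have hα₀v' : ∀ z : Q, ((α₀ z : Q) : Ω) = ψ (Subgroup.inclusion hle z) := hα₀v
  have e4 : Q.normalizerMonoidHom ⟨φ x, hφN⟩ =
      α₀ * Q.normalizerMonoidHom ⟨x, hxN⟩ * α₀⁻¹ := by
    refine MulEquiv.ext (fun y => Subtype.ext ?_)
    show φ x * (y : Ω) * (φ x)⁻¹ = ((α₀ (Q.normalizerMonoidHom ⟨x, hxN⟩ (α₀⁻¹ y)) : Q) : Ω)
    have h1 := hα₀v' (α₀⁻¹ y)
    rw [MulAut.apply_inv_self] at h1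
    have h2 := hα₀v' (Q.normalizerMonoidHom ⟨x, hxN⟩ (α₀⁻¹ y))
    have e3 : Subgroup.inclusion hle (Q.normalizerMonoidHom ⟨x, hxN⟩ (α₀⁻¹ y)) =
        Subgroup.inclusion le_sup_left x * Subgroup.inclusion hle (α₀⁻¹ y) *
          (Subgroup.inclusion le_sup_left x)⁻¹ := Subtype.ext rfl
    rw [e3, map_mul, map_mul, map_inv, hag, ← h1] at h2
    exact h2.symm
  rw [e4]
  exact pcoreMap_conj8 p (F.autGroup Q) α₀ hα₀ _ hxK

/-- automorphisms of `P ≥ Q` in the system whose restriction to `Q` lies in `O_p(Aut_F(Q))` -/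
def resK8 (F : FusionSystem S) (p : ℕ) (Q P : Subgroup Ω) (hQP : Q ≤ P) :
    Subgroup (F.autGroup P) where
  carrier := {a | ∃ β ∈ (pCore p (F.autGroup Q)).map (F.autGroup Q).subtype,
    ∀ z : Q, ((β z : Q) : Ω) = (((a : MulAut P) (Subgroup.inclusion hQP z) : P) : Ω)}
  one_mem' := ⟨1, Subgroup.one_mem _, fun z => rfl⟩
  mul_mem' := by
    rintro a b ⟨β, hβ, ha⟩ ⟨γ, hγ, hb⟩
    refine ⟨β * γ, Subgroup.mul_mem _ hβ hγ, fun z => ?_⟩
    have e1 : (b : MulAut P) (Subgroup.inclusion hQP z) = Subgroup.inclusion hQP (γ z) :=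
      Subtype.ext (hb z).symm
    show ((β (γ z) : Q) : Ω) =
      (((a : MulAut P) ((b : MulAut P) (Subgroup.inclusion hQP z)) : P) : Ω)
    rw [e1]
    exact ha (γ z)
  inv_mem' := by
    rintro a ⟨β, hβ, ha⟩
    refine ⟨β⁻¹, Subgroup.inv_mem _ hβ, fun z => ?_⟩
    have h := ha (β⁻¹ z)
    rw [MulAut.apply_inv_self] at h
    have e1 : (a : MulAut P) (Subgroup.inclusion hQP (β⁻¹ z)) = Subgroup.inclusion hQP z :=
      Subtype.ext h.symm
    have e2 : ((a : MulAut P)⁻¹) (Subgroup.inclusion hQP z) = Subgroup.inclusion hQP (β⁻¹ z) := by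
      rw [← e1, MulAut.inv_apply_self]
    exact congrArg (fun w : P => (w : Ω)) e2.symm

theorem resK_normal8 (F : FusionSystem S) [Finite S] (p : ℕ) (Q P : Subgroup Ω) (hQP : Q ≤ P)
    (hPS : P ≤ S) (hQsc : F.StronglyClosed Q) : (resK8 F p Q P hQP).Normal := by
  constructor
  rintro a ⟨β, hβ, ha⟩ b
  have hbF : P.subtype.comp (b : MulAut P).toMonoidHom ∈ F.Hom P :=
    (mem_autGroup_iff F hPS _).1 b.2
  have hbQ := fs_restrict_mem F hbF hQP
  have hrange : ((P.subtype.comp (b : MulAut P).toMonoidHom).comp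
      (Subgroup.inclusion hQP)).range ≤ Q := by
    rintro _ ⟨z, rfl⟩
    exact hQsc.2 Q le_rfl _ hbQ z
  obtain ⟨γ, hγ, hγv⟩ := fs_exists_aut_of_range_le F hbQ hrange
  have hγv' : ∀ z : Q, (b : MulAut P) (Subgroup.inclusion hQP z) =
      Subgroup.inclusion hQP (γ z) := fun z => Subtype.ext (hγv z).symm
  refine ⟨γ * β * γ⁻¹, pcoreMap_conj8 p (F.autGroup Q) γ hγ β hβ, fun z => ?_⟩
  have hinv : (b : MulAut P)⁻¹ (Subgroup.inclusion hQP z) = Subgroup.inclusion hQP (γ⁻¹ z) := by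
    have h := hγv' (γ⁻¹ z)
    rw [MulAut.apply_inv_self] at h
    rw [← h, MulAut.inv_apply_self]
  have ha' : (a : MulAut P) (Subgroup.inclusion hQP (γ⁻¹ z)) =
      Subgroup.inclusion hQP (β (γ⁻¹ z)) := Subtype.ext (ha _).symm
  have e : ((b * a * b⁻¹ : F.autGroup P) : MulAut P) (Subgroup.inclusion hQP z) =
      Subgroup.inclusion hQP (γ (β (γ⁻¹ z))) := by
    show (b : MulAut P) ((a : MulAut P) ((b : MulAut P)⁻¹ (Subgroup.inclusion hQP z))) = _
    rw [hinv, ha', hγv']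
  exact congrArg (fun w : P => (w : Ω)) e.symm

theorem fix_mem_chainStab8 (F : FusionSystem S) [Finite S] {Q P : Subgroup Ω} (hQP : Q ≤ P)
    (hPS : P ≤ S) (hQsc : F.StronglyClosed Q) (hQc : centralizerIn S Q ≤ Q) (b : F.autGroup P)
    (hfix : ∀ y : P, (y : Ω) ∈ Q → (b : MulAut P) y = y) : b ∈ chainStab8 F Q P := by
  have hSN : S ≤ Subgroup.normalizer (Q : Set Ω) := fs_stronglyClosed_le_normalizer F hQsc
  refine ⟨hfix, fun y => ?_⟩
  apply hQc
  rw [mem_centralizerIn]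
  refine ⟨S.mul_mem (S.inv_mem (hPS y.2)) (hPS ((b : MulAut P) y).2), ?_⟩
  intro z hz
  have hyz : (y : Ω) * z * (y : Ω)⁻¹ ∈ Q :=
    (Subgroup.mem_normalizer_iff.1 (hSN (hPS y.2)) z).1 hz
  have h1 := hfix (y * ⟨z, hQP hz⟩ * y⁻¹) hyz
  have h2 := hfix ⟨z, hQP hz⟩ hz
  rw [map_mul, map_mul, map_inv, h2] at h1
  have h3 : (((b : MulAut P) y : P) : Ω) * z * (((b : MulAut P) y : P) : Ω)⁻¹ =
      (y : Ω) * z * (y : Ω)⁻¹ := congrArg (fun w : P => (w : Ω)) h1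
  obtain ⟨B, hB⟩ : ∃ B : Ω, B = (((b : MulAut P) y : P) : Ω) := ⟨_, rfl⟩
  rw [← hB] at h3 ⊢
  have e : (y : Ω)⁻¹ * B * z = (y : Ω)⁻¹ * (B * z * B⁻¹) * B := by group
  rw [e, h3]
  group

theorem resK_isPGroup8 (F : FusionSystem S) [Finite S] (p : ℕ) [Fact p.Prime]
    (hS : IsPGroup p S) (Q P : Subgroup Ω) (hQP : Q ≤ P) (hPS : P ≤ S)
    (hQsc : F.StronglyClosed Q) (hQc : centralizerIn S Q ≤ Q) :
    IsPGroup p (resK8 F p Q P hQP) := by
  rintro ⟨a, β, hβ, ha⟩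
  obtain ⟨k₁, hk₁⟩ := pcoreMap_isPGroup8 p (F.autGroup Q) ⟨β, hβ⟩
  have hβpow : β ^ (p ^ k₁) = 1 := congrArg Subtype.val hk₁
  have hpow : ∀ n : ℕ, ∀ z : Q, ((a : MulAut P) ^ n) (Subgroup.inclusion hQP z) =
      Subgroup.inclusion hQP ((β ^ n) z) := by
    intro n
    induction n with
    | zero =>
      intro z
      rfl
    | succ n ih =>
      intro z
      have e1 : (a : MulAut P) (Subgroup.inclusion hQP z) = Subgroup.inclusion hQP (β z) :=
        Subtype.ext (ha z).symm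
      rw [pow_succ, pow_succ, MulAut.mul_apply, MulAut.mul_apply, e1, ih]
  have hfix : ∀ y : P, (y : Ω) ∈ Q → ((a ^ (p ^ k₁) : F.autGroup P) : MulAut P) y = y := by
    intro y hy
    have h := hpow (p ^ k₁) ⟨y, hy⟩
    rw [hβpow] at h
    exact h
  have hb := fix_mem_chainStab8 F hQP hPS hQsc hQc (a ^ (p ^ k₁)) hfix
  obtain ⟨k₂, hk₂⟩ := chainStab_isPGroup8 F p hS Q P hPS ⟨a ^ (p ^ k₁), hb⟩
  have hk₂' : (a ^ (p ^ k₁)) ^ (p ^ k₂) = 1 := congrArg Subtype.val hk₂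
  refine ⟨k₁ + k₂, Subtype.ext ?_⟩
  show a ^ (p ^ (k₁ + k₂)) = 1
  rw [pow_add, pow_mul]
  exact hk₂'

theorem coreUp_le_cr8 (F : FusionSystem S) [Finite S] (p : ℕ) [Fact p.Prime] (hS : IsPGroup p S)
    {Q : Subgroup Ω} (hQ : F.IsNormal Q) (hQc : F.IsCentric Q) {P : Subgroup Ω}
    (hcen : F.IsCentric P) (hrad : F.IsRadical p P) : coreUp8 F p Q ≤ P := by
  have hPS := hcen.1
  have hQS := hQ.1
  have hQsc := fs_normal_stronglyClosed F hQ
  have hQP : Q ≤ P := fs_normal_le_of_centric_radical F p hS hQ hcen hrad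
  have hC : centralizerIn S P ≤ P := hcen.2 P (fs_isConj_refl F hPS)
  have hCQ : centralizerIn S Q ≤ Q := hQc.2 Q (fs_isConj_refl F hQS)
  have hUsc := coreUp_sc8 F p hQ
  have hUS : coreUp8 F p Q ≤ S := hUsc.1
  apply fs_le_of_normalizer_le hS hPS hUS (fs_stronglyClosed_le_normalizer F hUsc)
  intro q hq hqN
  obtain ⟨hqS, hqNQ, hqK⟩ := (mem_coreUp8 F p Q q).1 hq
  have hcq : P.normalizerMonoidHom ⟨q, hqN⟩ ∈ F.autGroup P :=
    autInducedBy_le_autGroup F hPS ((mem_autInducedBy_iff S P _).2 ⟨q, hqS, fun x => rfl⟩)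
  have hmem : (⟨P.normalizerMonoidHom ⟨q, hqN⟩, hcq⟩ : F.autGroup P) ∈ resK8 F p Q P hQP :=
    ⟨Q.normalizerMonoidHom ⟨q, hqNQ⟩, hqK, fun z => rfl⟩
  have hle := le_pCore8 (resK_normal8 F p Q P hQP hPS hQsc)
    (resK_isPGroup8 F p hS Q P hQP hPS hQsc hCQ)
  have hinn : P.normalizerMonoidHom ⟨q, hqN⟩ ∈ Inn P := by
    rw [← hrad.2]
    exact ⟨_, hle hmem, rfl⟩
  exact mem_of_conj_mem_inn hPS hC hqS hqN hinn

/-- the largest normal subgroup of a saturated system, when centric, is radical -/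
theorem core_radical8 (F : FusionSystem S) [Finite S] (p : ℕ) [Fact p.Prime] (hS : IsPGroup p S)
    (hF : F.IsSaturated p) (hc : F.IsCentric F.core) : coreUp8 F p F.core ≤ F.core := by
  have hQ := fs_isNormal_core F
  have hN : F.IsNormal (coreUp8 F p F.core) := by
    rw [fs_normal_iff_stronglyClosed F p hS hF]
    exact ⟨coreUp_sc8 F p hQ, fun P hcen hrad => coreUp_le_cr8 F p hS hQ hc hcen hrad⟩
  exact le_sSup hN

/-- a saturated subsystem of a constrained system over a strongly closed subgroup is constrained -/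
theorem normal_constrained8 (F : FusionSystem S) [Finite S] (p : ℕ) [Fact p.Prime]
    (hS : IsPGroup p S) (hF : F.IsConstrained p) {T : Subgroup Ω} (E : FusionSystem T)
    (hEsat : E.IsSaturated p) (hEF : E.IsSubsystemOf F) (hT : F.StronglyClosed T) :
    E.IsConstrained p := by
  obtain ⟨hFsat, Q₀, hQ₀n, hQ₀c⟩ := hF
  have hTS := hT.1
  haveI : Finite T := finite_of_le_fs hTS
  have hTp : IsPGroup p T := hS.to_le hTS
  have hcoreN : F.IsNormal F.core := fs_isNormal_core F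
  have hcoreC : F.IsCentric F.core := fs_centric_of_le F hQ₀c (le_sSup hQ₀n) hcoreN.1
  have hradc := core_radical8 F p hS hFsat hcoreC
  obtain ⟨Q, hQdef⟩ : ∃ Q : Subgroup Ω, Q = F.core := ⟨_, rfl⟩
  rw [← hQdef] at hcoreN hcoreC hradc
  have hQ : F.IsNormal Q := hcoreN
  have hQS := hQ.1
  have hQsc := fs_normal_stronglyClosed F hQ
  have hSNQ : S ≤ Subgroup.normalizer (Q : Set Ω) := fs_stronglyClosed_le_normalizer F hQsc
  have hSNT : S ≤ Subgroup.normalizer (T : Set Ω) := fs_stronglyClosed_le_normalizer F hT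
  obtain ⟨R, hRdef⟩ : ∃ R : Subgroup Ω, R = Q ⊓ T := ⟨_, rfl⟩
  have hRQ : R ≤ Q := by
    rw [hRdef]
    exact inf_le_left
  have hRT : R ≤ T := by
    rw [hRdef]
    exact inf_le_right
  have hRsc : F.StronglyClosed R := by
    refine ⟨hRT.trans hTS, fun P hP φ hφ x => ?_⟩
    rw [hRdef]
    exact Subgroup.mem_inf.2 ⟨hQsc.2 P (hP.trans hRQ) φ hφ x, hT.2 P (hP.trans hRT) φ hφ x⟩
  have hREsc : E.StronglyClosed R := ⟨hRT, fun P hP φ hφ x => hRsc.2 P hP φ (hEF P hφ) x⟩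
  have hcent : centralizerIn T R ≤ R := by
    intro g hg
    obtain ⟨hgT, hgC⟩ := mem_centralizerIn.1 hg
    have hgS : g ∈ S := hTS hgT
    have hgN : g ∈ Subgroup.normalizer (Q : Set Ω) := hSNQ hgS
    have hcg : Q.normalizerMonoidHom ⟨g, hgN⟩ ∈ F.autGroup Q :=
      autInducedBy_le_autGroup F hQS ((mem_autInducedBy_iff S Q _).2 ⟨g, hgS, fun x => rfl⟩)
    have hmem : (⟨Q.normalizerMonoidHom ⟨g, hgN⟩, hcg⟩ : F.autGroup Q) ∈ chainStab8 F T Q := by
      refine ⟨fun y hy => ?_, fun y => ?_⟩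
      · apply Subtype.ext
        show g * (y : Ω) * g⁻¹ = y
        have hyR : (y : Ω) ∈ R := by
          rw [hRdef]
          exact Subgroup.mem_inf.2 ⟨y.2, hy⟩
        have h := hgC y hyR
        rw [← h]
        group
      · show (y : Ω)⁻¹ * (g * (y : Ω) * g⁻¹) ∈ T
        have h1 : (y : Ω)⁻¹ * g * (y : Ω)⁻¹⁻¹ ∈ T :=
          (Subgroup.mem_normalizer_iff.1 (hSNT (S.inv_mem (hQS y.2))) g).1 hgT
        have e : (y : Ω)⁻¹ * (g * (y : Ω) * g⁻¹) = ((y : Ω)⁻¹ * g * (y : Ω)⁻¹⁻¹) * g⁻¹ := by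
          group
        rw [e]
        exact T.mul_mem h1 (T.inv_mem hgT)
    have hK := chainStab_le_pCore8 F p hS T Q hT hQS hmem
    have hgU : g ∈ coreUp8 F p Q := (mem_coreUp8 F p Q g).2 ⟨hgS, hgN, ⟨_, hK, rfl⟩⟩
    rw [hRdef]
    exact Subgroup.mem_inf.2 ⟨hradc hgU, hgT⟩
  have hRn : E.IsNormal R := by
    rw [fs_normal_iff_stronglyClosed E p hTp hEsat]
    refine ⟨hREsc, fun P hcen hradP => ?_⟩
    have hPT := hcen.1
    haveI : Finite P := finite_of_le_fs hPT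
    have hCP : centralizerIn T P ≤ P := hcen.2 P (fs_isConj_refl E hPT)
    have hTNR : T ≤ Subgroup.normalizer (R : Set Ω) := fs_stronglyClosed_le_normalizer E hREsc
    apply fs_le_of_normalizer_le hTp hPT hRT hTNR
    intro q hq hqN
    have hqT : q ∈ T := hRT hq
    have hBle : autInducedBy R P ≤ E.autGroup P :=
      (autInducedBy_mono hRT P).trans (autInducedBy_le_autGroup E hPT)
    haveI : Finite R := finite_of_le_fs (hRT.trans hTS)
    have hBp : IsPGroup p (autInducedBy R P) :=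
      autInducedBy_isPGroup (hS.to_le (hRT.trans hTS)) P
    have hBn : ∀ a ∈ E.autGroup P, ∀ k ∈ autInducedBy R P, a * k * a⁻¹ ∈ autInducedBy R P := by
      intro a ha k hk
      obtain ⟨r, hr, hkr⟩ := (mem_autInducedBy_iff R P k).1 hk
      have haE : P.subtype.comp a.toMonoidHom ∈ E.Hom P := (mem_autGroup_iff E hPT a).1 ha
      have haF : P.subtype.comp a.toMonoidHom ∈ F.Hom P := hEF P haE
      obtain ⟨ψ, hψ, hag, hmap⟩ := hQ.2 P _ haF
      have hrPQ : r ∈ P ⊔ Q := (le_sup_right : Q ≤ P ⊔ Q) (hRQ hr)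
      have hψr : ψ ⟨r, hrPQ⟩ ∈ R := by
        have hle : R ≤ P ⊔ Q := hRQ.trans le_sup_right
        exact hRsc.2 R le_rfl _ (fs_restrict_mem F hψ hle) ⟨r, hr⟩
      rw [mem_autInducedBy_iff]
      refine ⟨ψ ⟨r, hrPQ⟩, hψr, fun y => ?_⟩
      show ((a (k (a⁻¹ y)) : P) : Ω) = _
      have h1 := hag (k (a⁻¹ y))
      have h2 := hag (a⁻¹ y)
      have h2' : ψ (Subgroup.inclusion le_sup_left (a⁻¹ y)) = (y : Ω) := by
        rw [h2]
        show ((a (a⁻¹ y) : P) : Ω) = y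
        rw [MulAut.apply_inv_self]
      have e3 : Subgroup.inclusion le_sup_left (k (a⁻¹ y)) =
          (⟨r, hrPQ⟩ : ↥(P ⊔ Q)) * Subgroup.inclusion le_sup_left (a⁻¹ y) *
            (⟨r, hrPQ⟩ : ↥(P ⊔ Q))⁻¹ := Subtype.ext (hkr (a⁻¹ y))
      rw [e3, map_mul, map_mul, map_inv, h2'] at h1
      exact h1.symm
    have hBK := le_pcoreMap8 p (E.autGroup P) (autInducedBy R P) hBle hBn hBp
    have hinn : P.normalizerMonoidHom ⟨q, hqN⟩ ∈ Inn P := by
      rw [← hradP.2]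
      exact hBK ((mem_autInducedBy_iff R P _).2 ⟨q, hq, fun x => rfl⟩)
    exact mem_of_conj_mem_inn hPT hCP hqT hqN hinn
  have hRc : E.IsCentric R := by
    refine ⟨hRT, ?_⟩
    rintro R' ⟨φ, hφ, rfl⟩
    have hle : φ.range ≤ R := by
      rintro _ ⟨x, rfl⟩
      exact hREsc.2 R le_rfl φ hφ x
    rw [fs_range_eq_of_le E hφ hle]
    exact hcent
  exact ⟨hEsat, R, hRn, hRc⟩

theorem subnormal_constrained8 {T S : Subgroup Ω} (E : FusionSystem T) (F : FusionSystem S)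
    (p : ℕ) (hE : E.IsSubnormalIn F p) :
    Fact p.Prime → Finite S → IsPGroup p S → F.IsConstrained p → E.IsConstrained p := by
  induction hE with
  | refl F p => exact fun _ _ _ h => h
  | step h1 h2 ih =>
    intro hp hfin hS hF
    haveI := hp
    haveI := hfin
    have hT := h2.1.2.2.2.1
    have hD := normal_constrained8 _ _ hS hF _ h2.1.1 h2.1.2.2.1 hT
    exact ih hp (finite_of_le_fs hT.1) (hS.to_le hT.1) hD

end Cfsg.Agent.Lib.Helper8
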