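import Mathlib
import Cfsg.Prelude.Def_Solvable
import Cfsg.Agent.Lib.Helper5.InvAut5
import Cfsg.Agent.Lib.Helper8.FusionMisc
import Cfsg.Agent.Lib.Helper8.FusionRealized

set_option autoImplicit false

namespace Cfsg.Agent.Lib.Helper8

open Cfsg.Agent.Lib.Helper5

open scoped Pointwise

variable {G : Type*} [Group G]

/-- conjugation by an element `t` with `t * t = 1` on a subgroup it normalizes -/
def conjAut8 (t : G) (H : Subgroup G) (ht2 : t * t = 1) (ht : ∀ c ∈ H, t * c * t⁻¹ ∈ H) :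
    MulAut H where
  toFun c := ⟨t * c * t⁻¹, ht c c.2⟩
  invFun c := ⟨t * c * t⁻¹, ht c c.2⟩
  left_inv c := by
    apply Subtype.ext
    show t * (t * (c : G) * t⁻¹) * t⁻¹ = c
    calc t * (t * (c : G) * t⁻¹) * t⁻¹ = (t * t) * c * (t * t)⁻¹ := by group
      _ = c := by rw [ht2]; group
  right_inv c := by
    apply Subtype.ext
    show t * (t * (c : G) * t⁻¹) * t⁻¹ = c
    calc t * (t * (c : G) * t⁻¹) * t⁻¹ = (t * t) * c * (t * t)⁻¹ := by group
      _ = c := by rw [ht2]; group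
  map_mul' a b := by
    apply Subtype.ext
    show t * ((a * b : H) : G) * t⁻¹ = (t * a * t⁻¹) * (t * b * t⁻¹)
    rw [Subgroup.coe_mul]
    group

theorem conjAut8_apply (t : G) (H : Subgroup G) (ht2 : t * t = 1)
    (ht : ∀ c ∈ H, t * c * t⁻¹ ∈ H) (c : H) :
    ((conjAut8 t H ht2 ht c : H) : G) = t * c * t⁻¹ := rfl

/-- If centralizers of nontrivial `p`-elements have odd order (`p` odd) and an element `t`
with `t * t = 1` inverts a nontrivial `p`-element, then `t` inverts a Sylow `p`-subgroup. -/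
theorem inv_sylow8 [Finite G] (p : ℕ) [hp : Fact p.Prime] (hp2 : p ≠ 2)
    (hC : ∀ g : G, g ≠ 1 → (∃ k : ℕ, orderOf g = p ^ k) →
      Odd (Nat.card (Subgroup.centralizer ({g} : Set G))))
    (t w : G) (ht2 : t * t = 1) (hw1 : w ≠ 1) (hwp : ∃ k : ℕ, orderOf w = p ^ k)
    (htw : t * w * t⁻¹ = w⁻¹) :
    ∃ R : Sylow p G, ∀ y ∈ R, t * y * t⁻¹ = y⁻¹ := by
  classical
  have hti : t⁻¹ = t := inv_eq_of_mul_eq_one_left ht2
  have hpodd : Odd p := hp.out.odd_of_ne_two hp2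
  have ht1 : t ≠ 1 := by
    intro h
    rw [h, one_mul, inv_one, mul_one] at htw
    have hw2 : w ^ 2 = 1 := by
      rw [pow_two]
      nth_rewrite 1 [htw]
      exact inv_mul_cancel w
    obtain ⟨k, hk⟩ := hwp
    have hd : orderOf w ∣ 2 := orderOf_dvd_of_pow_eq_one hw2
    rw [hk] at hd
    have hodd : Odd (p ^ k) := hpodd.pow
    have h1 : p ^ k = 1 := by
      rcases (Nat.dvd_prime Nat.prime_two).mp hd with h | h
      · exact h
      · rw [h] at hodd
        exact absurd hodd (by decide)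
    rw [h1] at hk
    exact hw1 (orderOf_eq_one_iff.mp hk)
  have hto : orderOf t = 2 := orderOf_eq_prime (by rw [pow_two]; exact ht2) ht1
  have F : ∀ y : G, y ≠ 1 → (∃ k : ℕ, orderOf y = p ^ k) → t * y ≠ y * t := by
    intro y hy1 hyp hcomm
    have hodd := hC y hy1 hyp
    have hmem : t ∈ Subgroup.centralizer ({y} : Set G) := by
      rw [Subgroup.mem_centralizer_iff]
      intro h hh
      rw [Set.mem_singleton_iff] at hh
      rw [hh]
      exact hcomm.symm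
    have hd := orderOf_dvd_natCard (⟨t, hmem⟩ : Subgroup.centralizer ({y} : Set G))
    rw [Subgroup.orderOf_mk, hto] at hd
    exact (Nat.not_even_iff_odd.mpr hodd) (even_iff_two_dvd.mpr hd)
  set C₀ : Subgroup G := Subgroup.centralizer ({w} : Set G) with hC₀
  have hC₀mem : ∀ c : G, c ∈ C₀ ↔ w * c = c * w := by
    intro c
    rw [hC₀, Subgroup.mem_centralizer_iff]
    simp
  have hC₀odd : Odd (Nat.card C₀) := hC w hw1 hwp
  have htw' : t * w⁻¹ * t⁻¹ = w := by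
    have : t * w⁻¹ * t⁻¹ = (t * w * t⁻¹)⁻¹ := by group
    rw [this, htw, inv_inv]
  have htC₀ : ∀ c ∈ C₀, t * c * t⁻¹ ∈ C₀ := by
    intro c hc
    rw [hC₀mem] at hc ⊢
    have hc' : w⁻¹ * c = c * w⁻¹ := by
      calc w⁻¹ * c = w⁻¹ * (c * w) * w⁻¹ := by group
        _ = w⁻¹ * (w * c) * w⁻¹ := by rw [hc]
        _ = c * w⁻¹ := by group
    calc w * (t * c * t⁻¹) = (t * w⁻¹ * t⁻¹) * (t * c * t⁻¹) := by rw [htw']
      _ = t * (w⁻¹ * c) * t⁻¹ := by group
      _ = t * (c * w⁻¹) * t⁻¹ := by rw [hc']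
      _ = (t * c * t⁻¹) * (t * w⁻¹ * t⁻¹) := by group
      _ = (t * c * t⁻¹) * w := by rw [htw']
  let φ : MulAut C₀ := conjAut8 t C₀ ht2 htC₀
  have hφ2 : φ * φ = 1 := by
    ext c
    show t * (t * (c : G) * t⁻¹) * t⁻¹ = c
    calc t * (t * (c : G) * t⁻¹) * t⁻¹ = (t * t) * c * (t * t)⁻¹ := by group
      _ = c := by rw [ht2]; group
  have : Fintype (Sylow p C₀) := Fintype.ofFinite _
  have hcard : ¬ 2 ∣ Fintype.card (Sylow p C₀) := by
    intro h2
    have Q0 : Sylow p C₀ := default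
    have h3 : Nat.card (Sylow p C₀) ∣ (Q0 : Subgroup C₀).index := Sylow.card_dvd_index Q0
    have h4 : (Q0 : Subgroup C₀).index ∣ Nat.card C₀ := Subgroup.index_dvd_card _
    rw [Nat.card_eq_fintype_card] at h3
    exact (Nat.not_even_iff_odd.mpr hC₀odd) (even_iff_two_dvd.mpr (h2.trans (h3.trans h4)))
  have hσ : (MulAction.toPermHom (MulAut C₀) (Sylow p C₀) φ) ^ 2 ^ 1 = 1 := by
    rw [pow_one, ← map_pow, pow_two, hφ2, map_one]
  obtain ⟨Q, hQ⟩ := Equiv.Perm.exists_fixed_point_of_prime (p := 2) (n := 1) hcard hσ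
  have hQfix : φ • Q = Q := hQ
  have hQmem : ∀ c : C₀, c ∈ Q → φ c ∈ Q := by
    intro c hc
    have h1 : φ • c ∈ φ • (Q : Subgroup C₀) := Subgroup.smul_mem_pointwise_smul c φ _ hc
    rw [← Sylow.pointwise_smul_def, hQfix] at h1
    exact h1
  set R₀ : Subgroup G := (Q : Subgroup C₀).map C₀.subtype with hR₀
  have hR₀mem : ∀ y : G, y ∈ R₀ ↔ ∃ h : y ∈ C₀, (⟨y, h⟩ : C₀) ∈ Q := by
    intro y
    rw [hR₀, Subgroup.mem_map]
    constructor
    · rintro ⟨c, hc, rfl⟩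
      exact ⟨c.2, hc⟩
    · rintro ⟨h, hc⟩
      exact ⟨⟨y, h⟩, hc, rfl⟩
  have hR₀p : IsPGroup p R₀ := Q.isPGroup'.map C₀.subtype
  have htR₀ : ∀ y ∈ R₀, t * y * t⁻¹ ∈ R₀ := by
    intro y hy
    obtain ⟨h, hc⟩ := (hR₀mem y).mp hy
    exact (hR₀mem _).mpr ⟨htC₀ y h, hQmem ⟨y, h⟩ hc⟩
  have hwC₀ : w ∈ C₀ := (hC₀mem w).mpr rfl
  have hwR₀ : w ∈ R₀ := by
    rw [hR₀mem]
    refine ⟨hwC₀, ?_⟩
    have hn : (Subgroup.zpowers (⟨w, hwC₀⟩ : C₀)).Normal := by
      constructor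
      intro n hn g
      have hgn : g * n * g⁻¹ = n := by
        obtain ⟨k, rfl⟩ := Subgroup.mem_zpowers_iff.mp hn
        have hg : Commute g (⟨w, hwC₀⟩ : C₀) := by
          have := (hC₀mem g).mp g.2
          show g * ⟨w, hwC₀⟩ = ⟨w, hwC₀⟩ * g
          exact Subtype.ext this.symm
        have := (hg.zpow_right k).eq
        rw [this]
        group
      rw [hgn]
      exact hn
    have hpz : IsPGroup p (Subgroup.zpowers (⟨w, hwC₀⟩ : C₀)) := by
      obtain ⟨k, hk⟩ := hwp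
      apply IsPGroup.of_card (n := k)
      rw [Nat.card_zpowers, Subgroup.orderOf_mk, hk]
    exact pCore_le_sylow8 p Q (le_pCore8 hn hpz (Subgroup.mem_zpowers _))
  let γ : MulAut R₀ := conjAut8 t R₀ ht2 htR₀
  have hγ := invAut_fpf5 γ (fun h => by
      apply Subtype.ext
      show t * (t * (h : G) * t⁻¹) * t⁻¹ = h
      calc t * (t * (h : G) * t⁻¹) * t⁻¹ = (t * t) * h * (t * t)⁻¹ := by group
        _ = h := by rw [ht2]; group)
    (fun h hh => by
      by_contra h1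
      have hh' : t * (h : G) * t⁻¹ = h := congrArg Subtype.val hh
      have hne : (h : G) ≠ 1 := fun e => h1 (Subtype.ext e)
      obtain ⟨k, hk⟩ := (IsPGroup.iff_orderOf.mp hR₀p) h
      apply F (h : G) hne ⟨k, by rw [← hk, Subgroup.orderOf_coe]⟩
      calc t * (h : G) = t * h * t⁻¹ * t := by group
        _ = h * t := by rw [hh'])
  obtain ⟨-, hinv⟩ := hγ
  have hinv' : ∀ y ∈ R₀, t * y * t⁻¹ = y⁻¹ := fun y hy =>
    congrArg Subtype.val (hinv ⟨y, hy⟩)
  obtain ⟨P, hP⟩ := hR₀p.exists_le_sylow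
  refine ⟨P, ?_⟩
  suffices hPR : ∀ y ∈ P, y ∈ R₀ from fun y hy => hinv' y (hPR y hy)
  by_contra hne
  have hlt : R₀.subgroupOf (P : Subgroup G) < ⊤ := by
    rw [lt_top_iff_ne_top]
    intro htop
    apply hne
    intro y hy
    have : (⟨y, hy⟩ : (P : Subgroup G)) ∈ R₀.subgroupOf (P : Subgroup G) := by
      rw [htop]
      trivial
    exact Subgroup.mem_subgroupOf.mp this
  have hnil : Group.IsNilpotent (P : Subgroup G) := P.isPGroup'.isNilpotent
  have hnc := Group.normalizerCondition_of_isNilpotent (G := (P : Subgroup G))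
  have hlt2 := hnc _ hlt
  obtain ⟨y, hyN, hyR⟩ := SetLike.exists_of_lt hlt2
  have hyR' : (y : G) ∉ R₀ := fun h => hyR (Subgroup.mem_subgroupOf.mpr h)
  have hyN' : ∀ r ∈ R₀, (y : G)⁻¹ * r * (y : G) ∈ R₀ := by
    intro r hr
    have hrP : r ∈ (P : Subgroup G) := hP hr
    rw [Subgroup.mem_normalizer_iff''] at hyN
    have := (hyN ⟨r, hrP⟩).mp (Subgroup.mem_subgroupOf.mpr hr)
    exact Subgroup.mem_subgroupOf.mp this
  set y' : G := (y : G) with hy'
  have hyP : y' ∈ (P : Subgroup G) := y.2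
  set c : G := y' * t * y'⁻¹ * t⁻¹ with hc
  have hcC : ∀ r ∈ R₀, c * r = r * c := by
    intro r hr
    have e1 : t⁻¹ * r * t = r⁻¹ := by
      have := hinv' r hr
      rw [hti] at this ⊢
      exact this
    have e2 : y'⁻¹ * r⁻¹ * y' ∈ R₀ := hyN' r⁻¹ (R₀.inv_mem hr)
    have e3 : t * (y'⁻¹ * r⁻¹ * y') * t⁻¹ = (y'⁻¹ * r⁻¹ * y')⁻¹ := hinv' _ e2
    have e4 : c * r * c⁻¹ = r := by
      calc c * r * c⁻¹ = y' * (t * (y'⁻¹ * (t⁻¹ * r * t) * y') * t⁻¹) * y'⁻¹ := by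
            rw [hc]; group
        _ = y' * (t * (y'⁻¹ * r⁻¹ * y') * t⁻¹) * y'⁻¹ := by rw [e1]
        _ = y' * (y'⁻¹ * r⁻¹ * y')⁻¹ * y'⁻¹ := by rw [e3]
        _ = r := by group
    calc c * r = c * r * c⁻¹ * c := by group
      _ = r * c := by rw [e4]
  have hcC₀ : c ∈ C₀ := (hC₀mem c).mpr (hcC w hwR₀).symm
  have hcodd : Odd (orderOf c) := by
    have hd := orderOf_dvd_natCard (⟨c, hcC₀⟩ : C₀)
    rw [Subgroup.orderOf_mk] at hd
    exact Odd.of_dvd_nat hC₀odd hd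
  have htc : t * c * t⁻¹ = c⁻¹ := by
    have e0 : t * (t * y' * t⁻¹) * t⁻¹ = y' := by
      calc t * (t * y' * t⁻¹) * t⁻¹ = (t * t) * y' * (t * t)⁻¹ := by group
        _ = y' := by rw [ht2]; group
    calc t * c * t⁻¹ = (t * y' * t⁻¹) * (t * (t * y' * t⁻¹) * t⁻¹)⁻¹ := by rw [hc]; group
      _ = (t * y' * t⁻¹) * y'⁻¹ := by rw [e0]
      _ = c⁻¹ := by rw [hc]; group
  obtain ⟨j, hj⟩ := hcodd
  set d : G := c ^ (j + 1) with hd
  have hdd : d * d = c := by
    rw [hd, ← pow_add]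
    have : j + 1 + (j + 1) = orderOf c + 1 := by omega
    rw [this, pow_succ, pow_orderOf_eq_one, one_mul]
  have htd : t * d * t⁻¹ = d⁻¹ := by
    rw [hd, ← conj_pow, htc, inv_pow]
  have hdC : ∀ r ∈ R₀, d * r = r * d := by
    intro r hr
    have : Commute c r := hcC r hr
    exact (this.pow_left (j + 1)).eq
  set s : G := d⁻¹ * y' with hs
  have hst : s * t = t * s := by
    have e1 : y' * t * y'⁻¹ = c * t := by rw [hc]; group
    have e2 : d * t * d⁻¹ = c * t := by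
      have e5 : t * d⁻¹ * t⁻¹ = d := by
        have : t * d⁻¹ * t⁻¹ = (t * d * t⁻¹)⁻¹ := by group
        rw [this, htd, inv_inv]
      calc d * t * d⁻¹ = d * (t * d⁻¹ * t⁻¹) * t := by group
        _ = d * d * t := by rw [e5]
        _ = c * t := by rw [hdd]
    have e3 : s * t * s⁻¹ = t := by
      calc s * t * s⁻¹ = d⁻¹ * (y' * t * y'⁻¹) * d := by rw [hs]; group
        _ = d⁻¹ * (d * t * d⁻¹) * d := by rw [e1, e2]
        _ = t := by group
    calc s * t = s * t * s⁻¹ * s := by group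
      _ = t * s := by rw [e3]
  have hsp : ¬ p ∣ orderOf s := by
    intro hdvd
    have hzo : orderOf (s ^ (orderOf s / p)) = p :=
      orderOf_pow_orderOf_div (orderOf_pos s).ne' hdvd
    have hz1 : s ^ (orderOf s / p) ≠ 1 := by
      intro h
      rw [h, orderOf_one] at hzo
      exact hp.out.one_lt.ne hzo
    apply F _ hz1 ⟨1, by rw [hzo, pow_one]⟩
    have : Commute t s := hst.symm
    exact (this.pow_right _).eq
  set Cc : Subgroup G := Subgroup.centralizer (R₀ : Set G) with hCc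
  have hCcmem : ∀ e : G, e ∈ Cc ↔ ∀ r ∈ R₀, e * r = r * e := by
    intro e
    rw [hCc, Subgroup.mem_centralizer_iff]
    exact ⟨fun h r hr => (h r hr).symm, fun h r hr => (h r hr).symm⟩
  have hdCc : d ∈ Cc := (hCcmem d).mpr hdC
  have hsN : ∀ r ∈ R₀, s⁻¹ * r * s ∈ R₀ := by
    intro r hr
    have e1 : s⁻¹ * r * s = y'⁻¹ * (d * r * d⁻¹) * y' := by rw [hs]; group
    have e2 : d * r * d⁻¹ = r := by rw [hdC r hr]; group
    rw [e1, e2]
    exact hyN' r hr
  have hsCc : ∀ e ∈ Cc, s * e * s⁻¹ ∈ Cc := by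
    intro e he
    rw [hCcmem] at he ⊢
    intro r hr
    have h1 := he _ (hsN r hr)
    calc s * e * s⁻¹ * r = s * (e * (s⁻¹ * r * s)) * s⁻¹ := by group
      _ = s * ((s⁻¹ * r * s) * e) * s⁻¹ := by rw [h1]
      _ = r * (s * e * s⁻¹) := by group
  have hsn : ∀ m : ℕ, ∀ e ∈ Cc, s ^ m * e * (s ^ m)⁻¹ ∈ Cc := by
    intro m
    induction m with
    | zero =>
      intro e he
      simpa using he
    | succ m ihm =>
      intro e he
      have h1 := hsCc _ (ihm e he)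
      have e2 : s ^ (m + 1) * e * (s ^ (m + 1))⁻¹ = s * (s ^ m * e * (s ^ m)⁻¹) * s⁻¹ := by
        rw [pow_succ']
        group
      rw [e2]
      exact h1
  have hd' : d = y' * s⁻¹ := by rw [hs]; group
  have hpow : ∀ n : ℕ, y' ^ n * (s ^ n)⁻¹ ∈ Cc := by
    intro n
    induction n with
    | zero => simp
    | succ n ih =>
      have h2 := Cc.mul_mem ih (hsn n d hdCc)
      have e1 : y' ^ (n + 1) * (s ^ (n + 1))⁻¹ =
          (y' ^ n * (s ^ n)⁻¹) * (s ^ n * (y' * s⁻¹) * (s ^ n)⁻¹) := by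
        rw [pow_succ, pow_succ]
        group
      rw [e1, ← hd']
      exact h2
  have hyCc : y' ∈ Cc := by
    have h1 := hpow (orderOf s)
    rw [pow_orderOf_eq_one, inv_one, mul_one] at h1
    obtain ⟨k, hk⟩ := (IsPGroup.iff_orderOf.mp P.isPGroup') y
    have hk' : orderOf y' = p ^ k := by rw [← hk, hy', Subgroup.orderOf_coe]
    have hcop : Nat.Coprime (orderOf s) (orderOf y') := by
      rw [hk']
      exact Nat.Coprime.pow_right k ((Nat.Coprime.symm ((Nat.Prime.coprime_iff_not_dvd hp.out).mpr hsp)))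
    obtain ⟨m, hm⟩ := exists_pow_eq_self_of_coprime hcop
    rw [← hm]
    exact Cc.pow_mem h1 m
  -- now `R₀ ⊔ zpowers y'` is a `p`-subgroup of `C₀` containing `R₀`
  apply hyR'
  have hyC₀ : y' ∈ C₀ := (hC₀mem y').mpr (((hCcmem y').mp hyCc) w hwR₀).symm
  have hR₀C₀ : R₀ ≤ C₀ := by
    intro r hr
    exact ((hR₀mem r).mp hr).1
  set R₁ : Subgroup G := R₀ ⊔ Subgroup.zpowers y' with hR₁
  have hR₁P : R₁ ≤ (P : Subgroup G) := sup_le hP (by
    rw [Subgroup.zpowers_le]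
    exact hyP)
  have hR₁C₀ : R₁ ≤ C₀ := sup_le hR₀C₀ (by
    rw [Subgroup.zpowers_le]
    exact hyC₀)
  have hR₁p : IsPGroup p R₁ := P.isPGroup'.to_le hR₁P
  have hR₁p' : IsPGroup p (R₁.subgroupOf C₀) :=
    hR₁p.comap_of_injective C₀.subtype (Subgroup.subtype_injective C₀)
  have hQle : (Q : Subgroup C₀) ≤ R₁.subgroupOf C₀ := by
    intro q hq
    rw [Subgroup.mem_subgroupOf]
    have : (q : G) ∈ R₀ := (hR₀mem _).mpr ⟨q.2, hq⟩
    exact (le_sup_left : R₀ ≤ R₁) this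
  have heq := Q.is_maximal' hR₁p' hQle
  have hy1 : (⟨y', hyC₀⟩ : C₀) ∈ R₁.subgroupOf C₀ := by
    rw [Subgroup.mem_subgroupOf]
    exact (le_sup_right : Subgroup.zpowers y' ≤ R₁) (Subgroup.mem_zpowers y')
  rw [heq] at hy1
  exact (hR₀mem y').mpr ⟨hyC₀, hy1⟩

end Cfsg.Agent.Lib.Helper8
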