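import Mathlib
import Cfsg.Agent.Lib.Helper8.ClassStruct
import Cfsg.Agent.Lib.Helper8.InvSylow
import Cfsg.Agent.Lib.Helper8.CharCodegreeSylow

set_option autoImplicit false

namespace Cfsg.Agent.Lib.Helper8

open scoped Pointwise

variable {G : Type*} [Group G]

/-- no irreducible character of `p`-defect zero: no degree is divisible by the full `p`-part -/
theorem no_defect_zero8 [Finite G] (p : ℕ) [hp : Fact p.Prime]
    (h1 : ¬ ∃ χ : Cfsg.IrrCharacter G,
      (Cfsg.charDegree (χ : G → ℂ)).factorization p = (Nat.card G).factorization p) :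
    ∀ χ : Cfsg.IrrCharacter G,
      ¬ p ^ (Nat.card G).factorization p ∣ Cfsg.charDegree (χ : G → ℂ) := by
  have hpp : p.Prime := hp.out
  have hG0 : Nat.card G ≠ 0 := Nat.card_pos.ne'
  intro χ hχ
  apply h1
  refine ⟨χ, ?_⟩
  have hd0 := (irr_charDegree χ).2
  have hdd : Cfsg.charDegree (χ : G → ℂ) ∣ Nat.card G := by
    obtain ⟨N, -, -, -, hd⟩ := irr_ker_data χ
    exact hd.trans (Subgroup.index_dvd_card N)
  have h3 : (Nat.card G).factorization p ≤ (Cfsg.charDegree (χ : G → ℂ)).factorization p :=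
    (hpp.pow_dvd_iff_le_factorization hd0).mp hχ
  have h4 : (Cfsg.charDegree (χ : G → ℂ)).factorization p ≤ (Nat.card G).factorization p :=
    (Nat.factorization_le_iff_dvd hd0 hG0).mpr hdd p
  omega

theorem defect_zero_or_inverted_sylow8 [Finite G] (p : ℕ) [hp : Fact p.Prime] (hp2 : p ≠ 2)
    (hpG : p ∣ Nat.card G) (h2G : 2 ∣ Nat.card G)
    (hC : ∀ g : G, g ≠ 1 → (∃ k : ℕ, orderOf g = p ^ k) →
      Odd (Nat.card (Subgroup.centralizer ({g} : Set G)))) :
    (∃ χ : Cfsg.IrrCharacter G,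
      (Cfsg.charDegree (χ : G → ℂ)).factorization p = (Nat.card G).factorization p) ∨
    ∀ P : Sylow p G, ∃ t : G, t ≠ 1 ∧ t * t = 1 ∧ ∀ y ∈ P, t * y * t⁻¹ = y⁻¹ := by
  classical
  by_contra hcon
  rw [not_or] at hcon
  obtain ⟨h1, h2⟩ := hcon
  apply h2
  have hpp : p.Prime := hp.out
  have hG0 : Nat.card G ≠ 0 := Nat.card_pos.ne'
  let P₀ : Sylow p G := default
  have hPc : Nat.card (P₀ : Subgroup G) = p ^ (Nat.card G).factorization p :=
    P₀.card_eq_multiplicity
  have hc0 : (Nat.card G).factorization p ≠ 0 := by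
    have := hpp.factorization_pos_of_dvd hG0 hpG
    omega
  have hk := no_defect_zero8 p h1
  obtain ⟨x, hx⟩ := exists_prime_orderOf_dvd_card' 2 h2G
  have hx1 : x ≠ 1 := by
    intro h
    rw [h, orderOf_one] at hx
    omega
  have hx2 : x * x = 1 := by rw [← pow_two, ← hx]; exact pow_orderOf_eq_one x
  have hxi : x⁻¹ = x := inv_eq_of_mul_eq_one_left hx2
  have hCx : (Nat.card (Subgroup.centralizer ({x} : Set G))).factorization p = 0 := by
    apply Nat.factorization_eq_zero_of_not_dvd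
    intro hdvd
    obtain ⟨g, hg⟩ := exists_prime_orderOf_dvd_card' p hdvd
    have hgo : orderOf (g : G) = p := by rw [Subgroup.orderOf_coe]; exact hg
    have hg1 : (g : G) ≠ 1 := by
      intro h
      rw [h, orderOf_one] at hgo
      exact hpp.one_lt.ne hgo
    have hodd := hC (g : G) hg1 ⟨1, by rw [hgo, pow_one]⟩
    have hxc : x ∈ Subgroup.centralizer ({(g : G)} : Set G) := by
      rw [Subgroup.mem_centralizer_singleton_iff]
      have := g.2
      rw [Subgroup.mem_centralizer_singleton_iff] at this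
      exact this.symm
    have hd := orderOf_dvd_natCard (⟨x, hxc⟩ : Subgroup.centralizer ({(g : G)} : Set G))
    rw [Subgroup.orderOf_mk, hx] at hd
    exact (Nat.not_even_iff_odd.mpr hodd) (even_iff_two_dvd.mpr hd)
  obtain ⟨w, hw, hw1, a', b', hab⟩ := struct_exists8 p x (P₀ : Subgroup G)
    ((Nat.card G).factorization p) ((Nat.card G).factorization p) hc0 hPc hk (by rw [hCx]; omega)
  rw [hxi] at hab
  have e1 : a' * x * a'⁻¹ * (a' * x * a'⁻¹) = 1 := by
    calc a' * x * a'⁻¹ * (a' * x * a'⁻¹) = a' * (x * x) * a'⁻¹ := by group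
      _ = 1 := by rw [hx2]; group
  have e2 : b' * x * b'⁻¹ * (b' * x * b'⁻¹) = 1 := by
    calc b' * x * b'⁻¹ * (b' * x * b'⁻¹) = b' * (x * x) * b'⁻¹ := by group
      _ = 1 := by rw [hx2]; group
  have ht1 : a' * x * a'⁻¹ ≠ 1 := by
    intro h
    apply hx1
    have : x = a'⁻¹ * (a' * x * a'⁻¹) * a' := by group
    rw [this, h]
    group
  have htw : (a' * x * a'⁻¹) * w * (a' * x * a'⁻¹)⁻¹ = w⁻¹ := by
    rw [← hab]
    generalize a' * x * a'⁻¹ = g at e1 ⊢
    generalize b' * x * b'⁻¹ = s at e2 ⊢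
    have hg : g⁻¹ = g := inv_eq_of_mul_eq_one_left e1
    have hs : s⁻¹ = s := inv_eq_of_mul_eq_one_left e2
    rw [mul_inv_rev, hg, hs, ← mul_assoc, e1, one_mul]
  have hwp : ∃ k : ℕ, orderOf w = p ^ k := by
    obtain ⟨k, hk'⟩ := (IsPGroup.iff_orderOf.mp P₀.isPGroup') ⟨w, hw⟩
    exact ⟨k, by rw [← hk', Subgroup.orderOf_mk]⟩
  obtain ⟨R, hR⟩ := inv_sylow8 p hp2 hC (a' * x * a'⁻¹) w e1 hw1 hwp htw
  generalize a' * x * a'⁻¹ = t at e1 ht1 hR
  intro P
  obtain ⟨g, hg⟩ := MulAction.exists_smul_eq G R P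
  have hPmem : ∀ y : G, y ∈ (P : Subgroup G) ↔ g⁻¹ * y * g ∈ (R : Subgroup G) := by
    intro y
    rw [← hg, Sylow.coe_subgroup_smul, Subgroup.mem_pointwise_smul_iff_inv_smul_mem]
    have e : (MulAut.conj g)⁻¹ • y = g⁻¹ * y * g := by
      rw [← map_inv]
      show g⁻¹ * y * g⁻¹⁻¹ = _
      rw [inv_inv]
    rw [e]
  refine ⟨g * t * g⁻¹, ?_, ?_, ?_⟩
  · intro h
    apply ht1
    have : t = g⁻¹ * (g * t * g⁻¹) * g := by group
    rw [this, h]
    group
  · calc g * t * g⁻¹ * (g * t * g⁻¹) = g * (t * t) * g⁻¹ := by group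
      _ = 1 := by rw [e1]; group
  · intro y hy
    have h3 := hR _ ((hPmem y).mp hy)
    calc g * t * g⁻¹ * y * (g * t * g⁻¹)⁻¹ = g * (t * (g⁻¹ * y * g) * t⁻¹) * g⁻¹ := by group
      _ = g * (g⁻¹ * y * g)⁻¹ * g⁻¹ := by rw [h3]
      _ = y⁻¹ := by group

theorem defect_zero_or_normalizer_even8 [Finite G] (p : ℕ) [hp : Fact p.Prime] (hp2 : p ≠ 2)
    (hpG : p ∣ Nat.card G) (h2G : 2 ∣ Nat.card G)
    (hC : ∀ g : G, g ≠ 1 → (∃ k : ℕ, orderOf g = p ^ k) →
      Odd (Nat.card (Subgroup.centralizer ({g} : Set G)))) :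
    (∃ χ : Cfsg.IrrCharacter G,
      (Cfsg.charDegree (χ : G → ℂ)).factorization p = (Nat.card G).factorization p) ∨
    ∀ P : Sylow p G, Even (Nat.card (Subgroup.normalizer ((P : Subgroup G) : Set G))) ∧
      IsMulCommutative (P : Subgroup G) := by
  rcases defect_zero_or_inverted_sylow8 p hp2 hpG h2G hC with h | h
  · exact Or.inl h
  · right
    intro P
    obtain ⟨t, ht1, ht2, hinv⟩ := h P
    have hti : t⁻¹ = t := inv_eq_of_mul_eq_one_left ht2
    constructor
    · have hmem : t ∈ Subgroup.normalizer ((P : Subgroup G) : Set G) := by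
        rw [Subgroup.mem_normalizer_iff]
        intro y
        constructor
        · intro hy
          rw [hinv y hy]
          exact (P : Subgroup G).inv_mem hy
        · intro hy
          have h1 := hinv _ hy
          have h2 : t * (t * y * t⁻¹) * t⁻¹ = y := by
            calc t * (t * y * t⁻¹) * t⁻¹ = (t * t) * y * (t * t)⁻¹ := by group
              _ = y := by rw [ht2]; group
          rw [h2] at h1
          rw [h1]
          exact (P : Subgroup G).inv_mem hy
      have hto : orderOf t = 2 := orderOf_eq_prime (by rw [pow_two]; exact ht2) ht1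
      have hd := orderOf_dvd_natCard
        (⟨t, hmem⟩ : Subgroup.normalizer ((P : Subgroup G) : Set G))
      rw [Subgroup.orderOf_mk, hto] at hd
      exact even_iff_two_dvd.mpr hd
    · refine ⟨⟨fun a b => Subtype.ext ?_⟩⟩
      show (a : G) * b = b * a
      have ha := hinv a a.2
      have hb := hinv b b.2
      have hab := hinv (a * b) ((P : Subgroup G).mul_mem a.2 b.2)
      have e : t * ((a : G) * b) * t⁻¹ = (t * a * t⁻¹) * (t * b * t⁻¹) := by group
      rw [e, ha, hb] at hab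
      have e2 : ((a : G)⁻¹ * (b : G)⁻¹)⁻¹ = (((a : G) * b)⁻¹)⁻¹ := by rw [hab]
      rw [inv_inv, mul_inv_rev, inv_inv, inv_inv] at e2
      exact e2.symm

end Cfsg.Agent.Lib.Helper8
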