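import Mathlib
import Cfsg.Prelude
import Cfsg.Agent.Lib.Helper8.NilpCover

set_option autoImplicit false

namespace Cfsg.Agent.Lib.Helper8

open Cfsg

theorem normal_le_sylow_nc8 {K : Type*} [Group K] [Finite K] {p : ℕ} [Fact p.Prime]
    (N : Subgroup K) (hNn : N.Normal) (hN : IsPGroup p N) (P : Sylow p K) :
    N ≤ (P : Subgroup K) := by
  obtain ⟨Q, hQ⟩ := hN.exists_le_sylow
  obtain ⟨g, hg⟩ := MulAction.exists_smul_eq K Q P
  intro n hn
  have h1 : g⁻¹ * n * g ∈ N := by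
    have h0 := hNn.conj_mem n hn g⁻¹
    simpa using h0
  have h2 : g⁻¹ * n * g ∈ Q := hQ h1
  rw [← hg]
  exact (Cfsg.Agent.Lib.Helper7.mem_sylow_smul_iff g n Q).mpr h2

theorem eqorder_coprime_trivial_nc8 {G : Type*} [Group G] [Finite G] (N : Subgroup G)
    (heq : ∀ x : G, x ∉ N → ∀ n ∈ N, orderOf (x * n) = orderOf x)
    (K : Subgroup G) (hKn : K.Normal) (hK : Group.IsNilpotent ↥K)
    (y : G) (hyK : y ∈ K) (hyN : y ∉ N) (u : G) (hu : u ∈ N)
    (hco : (orderOf u).Coprime (orderOf y)) : u = 1 := by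
  haveI := hKn
  have h1 : orderOf (y * u) = orderOf y := heq y hyN u hu
  have h2 : (y * u) ^ orderOf y = 1 := by rw [← h1]; exact pow_orderOf_eq_one _
  have h3 : u ^ orderOf y ∈ K := by
    have hq : ((y * u : G) : G ⧸ K) = (u : G ⧸ K) := by
      rw [QuotientGroup.mk_mul, (QuotientGroup.eq_one_iff y).mpr hyK, one_mul]
    have hq2 : ((u ^ orderOf y : G) : G ⧸ K) = 1 := by
      rw [QuotientGroup.mk_pow, ← hq, ← QuotientGroup.mk_pow, h2]; rfl
    exact (QuotientGroup.eq_one_iff _).mp hq2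
  have h4 : u ∈ K := by
    have hb := Nat.gcd_eq_gcd_ab (orderOf y) (orderOf u)
    rw [show Nat.gcd (orderOf y) (orderOf u) = 1 from hco.symm] at hb
    have e : u = (u ^ orderOf y) ^ (Nat.gcdA (orderOf y) (orderOf u)) := by
      have e1 : u = u ^ ((1 : ℕ) : ℤ) := by simp
      rw [hb, zpow_add, zpow_mul, zpow_mul, zpow_natCast, zpow_natCast, pow_orderOf_eq_one,
        one_zpow, mul_one] at e1
      exact e1
    rw [e]
    exact K.zpow_mem h3 _
  have h5 : y * u = u * y := by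
    have h := Cfsg.Agent.Lib.Helper3.commute_of_coprime_of_isNilpotent ↥K
      (⟨y, hyK⟩ : ↥K) (⟨u, h4⟩ : ↥K) (orderOf y) (orderOf u)
      (Subtype.ext (pow_orderOf_eq_one y)) (Subtype.ext (pow_orderOf_eq_one u)) hco.symm
    exact congrArg Subtype.val h
  have h6 : orderOf (y * u) = orderOf y * orderOf u :=
    Commute.orderOf_mul_eq_mul_orderOf_of_coprime (show Commute y u from h5) hco.symm
  rw [h1] at h6
  have hpos : 0 < orderOf y := orderOf_pos y
  have h7 : orderOf u = 1 := by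
    have h8 : orderOf y * 1 = orderOf y * orderOf u := by rw [mul_one]; exact h6
    exact (Nat.eq_of_mul_eq_mul_left hpos h8).symm
  exact orderOf_eq_one_iff.mp h7

theorem exists_ppow_outside_nc8 {G : Type*} [Group G] [Finite G] (N K : Subgroup G) :
    ∀ (x : G), x ∈ K → x ∉ N →
      ∃ p : ℕ, p.Prime ∧ ∃ (e : ℕ) (y : G), y ∈ K ∧ y ∉ N ∧ y ^ (p ^ e) = 1 := by
  have main : ∀ (d : ℕ) (x : G), orderOf x = d → x ∈ K → x ∉ N →
      ∃ p : ℕ, p.Prime ∧ ∃ (e : ℕ) (y : G), y ∈ K ∧ y ∉ N ∧ y ^ (p ^ e) = 1 := by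
    intro d
    induction d using Nat.strong_induction_on with
    | _ d ih =>
      intro x hxd hxK hxN
      have hx1 : x ≠ 1 := fun h => hxN (by rw [h]; exact N.one_mem)
      have hd1 : orderOf x ≠ 1 := fun h => hx1 (orderOf_eq_one_iff.mp h)
      obtain ⟨p, hp, hpd⟩ := Nat.exists_prime_and_dvd hd1
      haveI : Fact p.Prime := ⟨hp⟩
      obtain ⟨e, m, s, t, hcop, h1, h2, h3⟩ := pprime_decomp_nc8 p x
      by_cases hcase : x ^ (p ^ e) ∈ N
      · refine ⟨p, hp, e, x ^ m, K.pow_mem hxK m, ?_, h2⟩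
        intro hm
        apply hxN
        rw [h3]
        exact N.mul_mem (N.zpow_mem hcase s) (N.zpow_mem hm t)
      · have hlt : orderOf (x ^ (p ^ e)) < d := by
          have d1 : orderOf (x ^ (p ^ e)) ∣ orderOf x := orderOf_pow_dvd (p ^ e)
          have d2 : orderOf (x ^ (p ^ e)) ∣ m := orderOf_dvd_of_pow_eq_one h1
          have hle : orderOf (x ^ (p ^ e)) ≤ orderOf x := Nat.le_of_dvd (orderOf_pos x) d1
          rcases Nat.lt_or_ge (orderOf (x ^ (p ^ e))) (orderOf x) with h | h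
          · rw [← hxd]; exact h
          · exfalso
            have heq' : orderOf (x ^ (p ^ e)) = orderOf x := le_antisymm hle h
            rw [heq'] at d2
            exact (Nat.Prime.coprime_iff_not_dvd hp).mp hcop.symm (dvd_trans hpd d2)
        exact ih _ hlt (x ^ (p ^ e)) rfl (K.pow_mem hxK _) hcase
  intro x hxK hxN
  exact main _ x rfl hxK hxN

theorem eqorder_s4107_nc8 {G : Type*} [Group G] [Finite G] (N : Subgroup G) [N.Normal]
    (hN1 : N ≠ ⊥) (hN2 : N ≠ ⊤)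
    (heq : ∀ x : G, x ∉ N → ∀ n ∈ N, orderOf (x * n) = orderOf x) :
    (N ≤ Cfsg.fittingSubgroup G ∨ Cfsg.fittingSubgroup G ≤ N) ∧
    (N < Cfsg.fittingSubgroup G → IsPrimePow (Nat.card (Cfsg.fittingSubgroup G))) := by
  have hFdef : Cfsg.fittingSubgroup G =
      sSup {K : Subgroup G | K.Normal ∧ Group.IsNilpotent ↥K} := rfl
  have key : ¬ (Cfsg.fittingSubgroup G ≤ N) → ∃ p : ℕ, p.Prime ∧ IsPGroup p ↥N := by
    intro hF
    have hex : ∃ K : Subgroup G, (K.Normal ∧ Group.IsNilpotent ↥K) ∧ ¬ K ≤ N := by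
      by_contra hcon
      push_neg at hcon
      apply hF
      rw [hFdef]
      exact sSup_le (fun K hK => hcon K hK)
    obtain ⟨K, ⟨hKn, hKnil⟩, hKN⟩ := hex
    obtain ⟨x, hxK, hxN⟩ := SetLike.not_le_iff_exists.mp hKN
    obtain ⟨p, hp, e, y, hyK, hyN, hye⟩ := exists_ppow_outside_nc8 N K x hxK hxN
    refine ⟨p, hp, ?_⟩
    haveI : Fact p.Prime := ⟨hp⟩
    rintro ⟨n, hn⟩
    obtain ⟨e', m, s, t, hcop, h1, h2, h3⟩ := pprime_decomp_nc8 p n
    refine ⟨e', Subtype.ext ?_⟩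
    show n ^ (p ^ e') = 1
    have hu : n ^ (p ^ e') ∈ N := N.pow_mem hn _
    have hco : (orderOf (n ^ (p ^ e'))).Coprime (orderOf y) := by
      have d1 : orderOf (n ^ (p ^ e')) ∣ m := orderOf_dvd_of_pow_eq_one h1
      have d2 : orderOf y ∣ p ^ e := orderOf_dvd_of_pow_eq_one hye
      exact Nat.Coprime.coprime_dvd_left d1
        (Nat.Coprime.coprime_dvd_right d2 (Nat.Coprime.pow_right e hcop))
    exact eqorder_coprime_trivial_nc8 N heq K hKn hKnil y hyK hyN _ hu hco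
  constructor
  · by_cases hF : Cfsg.fittingSubgroup G ≤ N
    · exact Or.inr hF
    · left
      obtain ⟨p, hp, hNp⟩ := key hF
      haveI : Fact p.Prime := ⟨hp⟩
      have hnil : Group.IsNilpotent ↥N := hNp.isNilpotent
      rw [hFdef]
      exact le_sSup ⟨inferInstance, hnil⟩
  · intro hlt
    have hF : ¬ (Cfsg.fittingSubgroup G ≤ N) := fun h => lt_irrefl _ (lt_of_lt_of_le hlt h)
    obtain ⟨p, hp, hNp⟩ := key hF
    haveI : Fact p.Prime := ⟨hp⟩
    obtain ⟨n₀, hn₀, hn₀1⟩ : ∃ n₀ ∈ N, n₀ ≠ 1 := by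
      by_contra hcon
      push_neg at hcon
      exact hN1 ((Subgroup.eq_bot_iff_forall _).mpr hcon)
    obtain ⟨b, hb⟩ := hNp ⟨n₀, hn₀⟩
    have hb' : n₀ ^ (p ^ b) = 1 := congrArg Subtype.val hb
    have hKp : ∀ K : Subgroup G, K.Normal → Group.IsNilpotent ↥K → IsPGroup p ↥K := by
      intro K hKn hKnil
      rintro ⟨f, hf⟩
      obtain ⟨e, m, s, t, hcop, h1, h2, h3⟩ := pprime_decomp_nc8 p f
      refine ⟨e, Subtype.ext ?_⟩
      show f ^ (p ^ e) = 1
      by_contra hg1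
      have hgK : f ^ (p ^ e) ∈ K := K.pow_mem hf _
      have d1 : orderOf (f ^ (p ^ e)) ∣ m := orderOf_dvd_of_pow_eq_one h1
      have hgN : f ^ (p ^ e) ∉ N := by
        intro hgN
        obtain ⟨c, hc⟩ := hNp ⟨f ^ (p ^ e), hgN⟩
        have hc' : (f ^ (p ^ e)) ^ (p ^ c) = 1 := congrArg Subtype.val hc
        have d2 : orderOf (f ^ (p ^ e)) ∣ p ^ c := orderOf_dvd_of_pow_eq_one hc'
        have d3 := Nat.dvd_gcd d1 d2
        rw [show Nat.gcd m (p ^ c) = 1 from Nat.Coprime.pow_right c hcop] at d3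
        exact hg1 (orderOf_eq_one_iff.mp (Nat.dvd_one.mp d3))
      have hco : (orderOf n₀).Coprime (orderOf (f ^ (p ^ e))) := by
        have d2 : orderOf n₀ ∣ p ^ b := orderOf_dvd_of_pow_eq_one hb'
        exact Nat.Coprime.coprime_dvd_left d2
          (Nat.Coprime.coprime_dvd_right d1 (Nat.Coprime.pow_left b hcop.symm))
      exact hn₀1 (eqorder_coprime_trivial_nc8 N heq K hKn hKnil _ hgK hgN n₀ hn₀ hco)
    obtain ⟨P⟩ : Nonempty (Sylow p G) := inferInstance
    have hFP : Cfsg.fittingSubgroup G ≤ (P : Subgroup G) := by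
      rw [hFdef]
      exact sSup_le (fun K hK => normal_le_sylow_nc8 K hK.1 (hKp K hK.1 hK.2) P)
    have hFp : IsPGroup p ↥(Cfsg.fittingSubgroup G) := P.isPGroup'.to_le hFP
    obtain ⟨k, hk⟩ := IsPGroup.iff_card.mp hFp
    have hk0 : k ≠ 0 := by
      intro hk0
      rw [hk0, pow_zero] at hk
      have hbot := Subgroup.eq_bot_of_card_eq _ hk
      rw [hbot] at hlt
      exact not_lt_bot hlt
    rw [hk]
    exact (Nat.Prime.isPrimePow hp).pow hk0

end Cfsg.Agent.Lib.Helper8
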