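import Mathlib
import Cfsg.Prelude.Def_FusionSystem
import Cfsg.Prelude.Def_FusionComponents
import Cfsg.Agent.Lib.Helper8.FusionQuasi
import Cfsg.Agent.Lib.Helper8.FusionAbelian2
import Cfsg.Agent.Lib.Helper8.FusionHypAut
import Cfsg.Agent.Lib.Helper8.FusionHyp
import Cfsg.Agent.Lib.Helper8.Fusion4

set_option autoImplicit false

namespace Cfsg.Agent.Lib.Helper8

open Cfsg Cfsg.FusionSystem

variable {Ω : Type*} [Group Ω] {S : Subgroup Ω}

theorem fs_center_map_fixed (F : FusionSystem S) [Finite S] {P : Subgroup Ω} {φ : P →* Ω}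
    (hφ : φ ∈ F.Hom P) (c : P) (hc : (c : Ω) ∈ F.center) : φ c = c := by
  have hcen := fs_isCentral_center F
  obtain ⟨ψ, -, h1, h2⟩ := hcen.2 P φ hφ
  have e : Subgroup.inclusion (le_sup_left : P ≤ P ⊔ F.center) c =
      Subgroup.inclusion (le_sup_right : F.center ≤ P ⊔ F.center) ⟨c, hc⟩ := Subtype.ext rfl
  rw [← h1 c, e, h2]

/-- the preimage of a central subgroup of the image system is fixed modulo the kernel -/
theorem factor_central_fix (F : FusionSystem S) {Ω' : Type*} [Group Ω'] {S' : Subgroup Ω'}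
    (θ : S →* Ω') (E : FusionSystem S') (hm : F.IsMorphism E θ) {W : Subgroup Ω'}
    (hW : E.IsCentral W) {P : Subgroup Ω} {φ : P →* Ω} (hφ : φ ∈ F.Hom P) (z : P)
    (hz : (z : Ω) ∈ preimageAlong θ W) :
    θ ⟨φ z, fs_map_mem F hφ z⟩ = θ ⟨z, fs_le F hφ z.2⟩ := by
  obtain ⟨φ', hφ', hP, hφval, hP', hind⟩ := hm.2 P φ hφ
  obtain ⟨ψ, -, h1, h2⟩ := hW.2 _ φ' hφ'
  obtain ⟨hzS, hzW⟩ := (mem_preimageAlong θ W _).1 hz
  have e : Subgroup.inclusion (le_sup_left : imageAlong θ P ≤ imageAlong θ P ⊔ W)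
      ⟨θ ⟨z, hP z.2⟩, hP' z⟩ =
      Subgroup.inclusion (le_sup_right : W ≤ imageAlong θ P ⊔ W) ⟨θ ⟨z, hzS⟩, hzW⟩ :=
    Subtype.ext rfl
  have h3 := h1 ⟨θ ⟨z, hP z.2⟩, hP' z⟩
  rw [e, h2] at h3
  exact (hind z).symm.trans h3.symm

theorem central_conj_algebra {G : Type*} [Group G] (T : Subgroup G) {a z C1 C2 C3 : G}
    (ha : a ∈ T) (hz : z ∈ T) (hC2 : C2 ∈ T)
    (comm1 : ∀ g ∈ T, g * C1 = C1 * g) (comm2 : ∀ g ∈ T, g * C2 = C2 * g)
    (comm3 : ∀ g ∈ T, g * C3 = C3 * g)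
    (h8 : (C1 * a) * (C2 * z) * (C1 * a)⁻¹ * (C2 * z)⁻¹ = C3) :
    a * z * a⁻¹ = C3 * z := by
  have t1 : a * C2 = C2 * a := comm2 a ha
  have t2 : (C2 * (a * z * a⁻¹)) * C1 = C1 * (C2 * (a * z * a⁻¹)) :=
    comm1 _ (T.mul_mem hC2 (T.mul_mem (T.mul_mem ha hz) (T.inv_mem ha)))
  have s1 : (C1 * a) * (C2 * z) * (C1 * a)⁻¹ = C2 * (a * z * a⁻¹) := by
    calc (C1 * a) * (C2 * z) * (C1 * a)⁻¹ = C1 * ((a * C2) * z * a⁻¹) * C1⁻¹ := by group
      _ = C1 * ((C2 * a) * z * a⁻¹) * C1⁻¹ := by rw [t1]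
      _ = (C1 * (C2 * (a * z * a⁻¹))) * C1⁻¹ := by group
      _ = ((C2 * (a * z * a⁻¹)) * C1) * C1⁻¹ := by rw [t2]
      _ = C2 * (a * z * a⁻¹) := by group
  have s2 : (C1 * a) * (C2 * z) * (C1 * a)⁻¹ = C3 * (C2 * z) := by
    rw [← h8]
    group
  have t3 : C2 * C3 = C3 * C2 := comm3 C2 hC2
  have s3 : C2 * (a * z * a⁻¹) = C2 * (C3 * z) := by
    rw [← s1, s2, ← mul_assoc, ← t3, mul_assoc]
  exact mul_left_cancel s3

/-- if `hyp(F) = S` then the factor system of `F` modulo `Z(F)` has trivial centre -/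
theorem factor_center_center_bot (F : FusionSystem S) [Finite S] (p : ℕ) [Fact p.Prime]
    (hS : IsPGroup p S) (hF : F.IsSaturated p) (hperf : F.hyperfocalSubgroup p = S)
    {Ω' : Type*} [Group Ω'] {S' : Subgroup Ω'} (θ : S →* Ω') (E : FusionSystem S')
    (hE : F.IsFactorSystem F.center θ E) : E.center = ⊥ := by
  have hp : p.Prime := Fact.out
  have hcen := fs_isCentral_center F
  have hZsc : F.StronglyClosed F.center := fs_central_stronglyClosed F hcen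
  have hm := factor_isSurjectiveMorphism F p hS hF F.center hZsc θ E hE
  obtain ⟨-, hker, hrange, hHom⟩ := hE
  have hZc : ∀ c ∈ F.center, ∀ s ∈ S, s * c = c * s := fun c hc s hs =>
    (Subgroup.mem_centralizer_iff.1 (center_le_centralizer F hc)) s hs
  rw [eq_bot_iff]
  refine sSup_le ?_
  intro W hW
  have hZ₂S : preimageAlong θ W ≤ S := preimageAlong_le θ W
  have hZZ₂ : F.center ≤ preimageAlong θ W := by
    intro c hc
    refine (mem_preimageAlong θ W c).2 ⟨hcen.1 hc, ?_⟩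
    rw [(hker ⟨c, hcen.1 hc⟩).2 hc]
    exact W.one_mem
  have K1 : ∀ (P : Subgroup Ω) (φ : P →* Ω) (hφ : φ ∈ F.Hom P) (z : P),
      (z : Ω) ∈ preimageAlong θ W → φ z * (z : Ω)⁻¹ ∈ F.center := by
    intro P φ hφ z hz
    have h := factor_central_fix F θ E hm.1 hW hφ z hz
    have h2 : θ (⟨φ z, fs_map_mem F hφ z⟩ * (⟨z, fs_le F hφ z.2⟩ : S)⁻¹) = 1 := by
      rw [map_mul, map_inv, h, mul_inv_cancel]
    exact (hker _).1 h2
  have K3 : ∀ (P : Subgroup Ω) (φ : P →* Ω) (hφ : φ ∈ F.Hom P) (x : P) (z : Ω),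
      z ∈ preimageAlong θ W → φ x * z * (φ x)⁻¹ = (x : Ω) * z * (x : Ω)⁻¹ := by
    intro P φ hφ x z hz
    have hPS := fs_le F hφ
    obtain ⟨φ', hφ', hP, hφval, hP', hind⟩ := hm.1.2 P φ hφ
    obtain ⟨ψ', hψ', h1, h2⟩ := hW.2 _ φ' hφ'
    obtain ⟨ψ₀, hψ₀, hP₀, hψ₀val, hP₀', hind₀⟩ := hm.2.2 _ (fs_le E hψ') ψ' hψ'
    have hxP₀ : (x : Ω) ∈ preimageAlong θ (imageAlong θ P ⊔ W) :=
      (mem_preimageAlong θ _ _).2 ⟨hPS x.2, Subgroup.mem_sup_left (hP' x)⟩
    have hzS := hZ₂S hz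
    have hzP₀ : z ∈ preimageAlong θ (imageAlong θ P ⊔ W) :=
      (mem_preimageAlong θ _ _).2 ⟨hzS, Subgroup.mem_sup_right ((mem_preimageAlong θ W z).1 hz).2⟩
    have hc₁ : ψ₀ ⟨x, hxP₀⟩ * (φ x)⁻¹ ∈ F.center := by
      have h3 := hind₀ ⟨x, hxP₀⟩
      have h4 := h1 ⟨θ ⟨x, hP x.2⟩, hP' x⟩
      have h5 := hind x
      have h6 : θ ⟨ψ₀ ⟨x, hxP₀⟩, hψ₀val ⟨x, hxP₀⟩⟩ = θ ⟨φ x, hφval x⟩ :=
        h3.symm.trans (h4.trans h5)
      have h7 : θ (⟨ψ₀ ⟨x, hxP₀⟩, hψ₀val ⟨x, hxP₀⟩⟩ * (⟨φ x, hφval x⟩ : S)⁻¹) = 1 := by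
        rw [map_mul, map_inv, h6, mul_inv_cancel]
      exact (hker _).1 h7
    have hc₂ : ψ₀ ⟨z, hzP₀⟩ * z⁻¹ ∈ F.center := K1 _ ψ₀ hψ₀ ⟨z, hzP₀⟩ hz
    have hc₃ : (x : Ω) * z * (x : Ω)⁻¹ * z⁻¹ ∈ F.center :=
      K1 S (conjHom S x) (F.conj_mem le_rfl (hPS x.2)) ⟨z, hzS⟩ hz
    have h8 := fs_center_map_fixed F hψ₀
      (⟨x, hxP₀⟩ * ⟨z, hzP₀⟩ * ⟨x, hxP₀⟩⁻¹ * ⟨z, hzP₀⟩⁻¹) hc₃
    rw [map_mul, map_mul, map_mul, map_inv, map_inv] at h8
    obtain ⟨C1, hC1⟩ : ∃ C1, C1 = ψ₀ ⟨x, hxP₀⟩ * (φ x)⁻¹ := ⟨_, rfl⟩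
    obtain ⟨C2, hC2⟩ : ∃ C2, C2 = ψ₀ ⟨z, hzP₀⟩ * z⁻¹ := ⟨_, rfl⟩
    have e1 : ψ₀ ⟨x, hxP₀⟩ = C1 * φ x := by
      rw [hC1]
      group
    have e2 : ψ₀ ⟨z, hzP₀⟩ = C2 * z := by
      rw [hC2]
      group
    rw [e1, e2] at h8
    rw [← hC1] at hc₁
    rw [← hC2] at hc₂
    have h9 := central_conj_algebra S (fs_map_mem F hφ x) hzS (hcen.1 hc₂) (hZc _ hc₁)
      (hZc _ hc₂) (hZc _ hc₃) h8
    rw [h9]
    show (x : Ω) * z * (x : Ω)⁻¹ * z⁻¹ * z = (x : Ω) * z * (x : Ω)⁻¹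
    group
  have K4 : ∀ z ∈ preimageAlong θ W, ∀ s ∈ S, s * z = z * s := by
    intro z hz
    have hle : F.hyperfocalSubgroup p ≤ Subgroup.centralizer {z} := by
      refine (Subgroup.closure_le _).2 ?_
      rintro _ ⟨P, α, x, hPS, -, rfl⟩
      have hφ : P.subtype.comp ((α : MulAut P) : P ≃* P).toMonoidHom ∈ F.Hom P :=
        (mem_autGroup_iff F hPS _).1 α.2
      have h' : (((α : MulAut P) x : P) : Ω) * z * (((α : MulAut P) x : P) : Ω)⁻¹ =
          (x : Ω) * z * (x : Ω)⁻¹ := K3 P _ hφ x z hz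
      rw [SetLike.mem_coe, Subgroup.mem_centralizer_iff]
      intro h hh
      rw [Set.mem_singleton_iff] at hh
      subst hh
      calc h * ((x : Ω)⁻¹ * (((α : MulAut P) x : P) : Ω))
          = ((x : Ω)⁻¹ * ((x : Ω) * h * (x : Ω)⁻¹)) * (((α : MulAut P) x : P) : Ω) := by group
        _ = ((x : Ω)⁻¹ * ((((α : MulAut P) x : P) : Ω) * h * (((α : MulAut P) x : P) : Ω)⁻¹)) *
              (((α : MulAut P) x : P) : Ω) := by rw [h']
        _ = ((x : Ω)⁻¹ * (((α : MulAut P) x : P) : Ω)) * h := by group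
    rw [hperf] at hle
    intro s hs
    exact ((Subgroup.mem_centralizer_iff.1 (hle hs)) z rfl).symm
  have K5 : ∀ α ∈ pResidual p (F.autGroup S), ∀ z : S, (z : Ω) ∈ preimageAlong θ W →
      ((α : MulAut S) z) = z := by
    intro α hα
    unfold pResidual at hα
    induction hα using Subgroup.closure_induction with
    | mem a ha =>
      intro z hz
      have hφ : S.subtype.comp ((a : MulAut S) : S ≃* S).toMonoidHom ∈ F.Hom S :=
        (mem_autGroup_iff F le_rfl _).1 a.2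
      have hc := K1 S _ hφ z hz
      obtain ⟨c, hcdef⟩ : ∃ c : S, c = (a : MulAut S) z * z⁻¹ := ⟨_, rfl⟩
      have hcZ : (c : Ω) ∈ F.center := by
        rw [hcdef]
        exact hc
      have haz : (a : MulAut S) z = c * z := by
        rw [hcdef]
        group
      have hfixc : (a : MulAut S) c = c := Subtype.ext (fs_center_map_fixed F hφ c hcZ)
      have hpow : ∀ k : ℕ, ((a : MulAut S) ^ k) z = c ^ k * z := by
        intro k
        induction k with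
        | zero => simp
        | succ k ih =>
          rw [pow_succ', MulAut.mul_apply, ih, map_mul, map_pow, hfixc, haz, ← mul_assoc,
            ← pow_succ]
      have h1 := hpow (orderOf (a : MulAut S))
      rw [pow_orderOf_eq_one, MulAut.one_apply] at h1
      have h2 : c ^ orderOf (a : MulAut S) = 1 := by
        have h3 : c ^ orderOf (a : MulAut S) * z = 1 * z := by
          rw [one_mul]
          exact h1.symm
        exact mul_right_cancel h3
      obtain ⟨j, hj⟩ := hS c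
      have h4 : orderOf c ∣ orderOf (a : MulAut S) := orderOf_dvd_of_pow_eq_one h2
      have h5 : orderOf c ∣ p ^ j := orderOf_dvd_of_pow_eq_one hj
      have hcop : Nat.Coprime (orderOf (a : MulAut S)) (p ^ j) := by
        rw [Subgroup.orderOf_coe]
        exact Nat.Coprime.pow_right j ha
      have h6 : c = 1 := orderOf_eq_one_iff.1 (Nat.eq_one_of_dvd_coprimes hcop h4 h5)
      rw [haz, h6, one_mul]
    | one =>
      intro z _
      rfl
    | mul a b _ _ iha ihb =>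
      intro z hz
      show (a : MulAut S) ((b : MulAut S) z) = z
      rw [ihb z hz, iha z hz]
    | inv a _ iha =>
      intro z hz
      have h : ((a : MulAut S)⁻¹ : MulAut S) ((a : MulAut S) z) = z := by
        rw [MulAut.inv_apply_self]
      rw [iha z hz] at h
      exact h
  obtain ⟨hsat1, hsat2⟩ := (fs_saturated_iff F p hS).1 hF
  obtain ⟨-, -, R, hR⟩ := hsat1 S (fs_top_fullyNormalized F)
  have hfinA : Finite (F.autGroup S) := finite_autGroup F le_rfl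
  have K6 : ∀ α ∈ F.autGroup S, ∀ z : S, (z : Ω) ∈ preimageAlong θ W → α z = z := by
    intro α hα z hz
    obtain ⟨r, hr, t, ht, hrt⟩ := exists_mul_pResidual_sylow R ⟨α, hα⟩
    have ht' : (t : MulAut S) ∈ autInducedBy S S := by
      rw [hR] at ht
      exact Subgroup.mem_subgroupOf.1 ht
    obtain ⟨g, hg, hgx⟩ := (mem_autInducedBy_iff S S _).1 ht'
    have htz : (t : MulAut S) z = z := by
      apply Subtype.ext
      rw [hgx z, K4 _ hz g hg]
      group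
    have e : α = (r : MulAut S) * (t : MulAut S) :=
      congrArg (fun w : F.autGroup S => (w : MulAut S)) hrt
    rw [e, MulAut.mul_apply, htz]
    exact K5 r hr z hz
  have K8 : F.IsCentral (preimageAlong θ W) := by
    rw [fs_central_iff_of_saturated F p hF]
    refine ⟨hZ₂S, ?_⟩
    rintro z hz y ⟨φ, hφ, rfl⟩
    have hzS := hZ₂S hz
    have hPzS : Subgroup.zpowers z ≤ S := by
      rw [Subgroup.zpowers_le]
      exact hzS
    have hφz : φ ⟨z, Subgroup.mem_zpowers z⟩ ∈ preimageAlong θ W := by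
      have h1 := K1 _ φ hφ ⟨z, Subgroup.mem_zpowers z⟩ hz
      have e : φ ⟨z, Subgroup.mem_zpowers z⟩ = (φ ⟨z, Subgroup.mem_zpowers z⟩ * z⁻¹) * z := by
        group
      rw [e]
      exact Subgroup.mul_mem _ (hZZ₂ h1) hz
    have hrc : ∀ y ∈ φ.range, ∀ s ∈ S, s * y = y * s := by
      rintro _ ⟨q, rfl⟩ s hs
      obtain ⟨k, hk⟩ := Subgroup.mem_zpowers_iff.1 q.2
      have e : q = (⟨z, Subgroup.mem_zpowers z⟩ : Subgroup.zpowers z) ^ k := by
        apply Subtype.ext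
        rw [Subgroup.coe_zpow]
        exact hk.symm
      rw [e, map_zpow]
      have hcomm : Commute s (φ ⟨z, Subgroup.mem_zpowers z⟩) := K4 _ hφz s hs
      exact (hcomm.zpow_right k).eq
    have hfc : F.IsFullyCentralized φ.range := by
      refine ⟨fs_range_le F hφ, fun Q _ => ?_⟩
      have h1 : centralizerIn S φ.range = S := le_antisymm inf_le_left (fun s hs =>
        mem_centralizerIn.2 ⟨hs, fun y hy => (hrc y hy s hs).symm⟩)
      rw [h1]
      exact Nat.card_le_card_of_injective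
        (Subgroup.inclusion (inf_le_left : centralizerIn S Q ≤ S)) (Subgroup.inclusion_injective _)
    have hrec := hsat2 _ hfc
    have hext : S ≤ extender S (Subgroup.zpowers z) φ := by
      refine le_trans ?_ (centralizerIn_le_extender S _ φ)
      intro s hs
      refine mem_centralizerIn.2 ⟨hs, fun h hh => ?_⟩
      obtain ⟨k, rfl⟩ := Subgroup.mem_zpowers_iff.1 hh
      have hcomm : Commute s z := K4 z hz s hs
      exact (hcomm.zpow_right k).eq.symm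
    obtain ⟨φ', hφ', hag⟩ := fs_receptive_extend F hrec hφ rfl hPzS hext
    obtain ⟨β, hβ, hβx⟩ := fs_exists_aut_of_range_le F hφ' (fs_range_le F hφ')
    have h1 := K6 β hβ ⟨z, hzS⟩ hz
    have h2 := hag ⟨z, Subgroup.mem_zpowers z⟩
    rw [← h2]
    have h3 := hβx ⟨z, hzS⟩
    have e : Subgroup.inclusion hPzS ⟨z, Subgroup.mem_zpowers z⟩ = (⟨z, hzS⟩ : S) := rfl
    rw [e, ← h3, h1]
  have hle : preimageAlong θ W ≤ F.center := le_sSup K8
  intro w hw
  have hwS' : w ∈ θ.range := by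
    rw [hrange]
    exact hW.1 hw
  obtain ⟨s, rfl⟩ := hwS'
  have hs : (s : Ω) ∈ F.center := hle ((mem_preimageAlong θ W _).2 ⟨s.2, hw⟩)
  rw [Subgroup.mem_bot]
  exact (hker s).2 hs

end Cfsg.Agent.Lib.Helper8
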