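import Mathlib
import Cfsg.Prelude.Def_FusionSystem
import Cfsg.Agent.Lib.Helper8.Fusion
import Cfsg.Agent.Lib.Helper8.FusionAut
import Cfsg.Agent.Lib.Helper8.FusionSat
import Cfsg.Agent.Lib.Helper8.FusionRS
import Cfsg.Agent.Lib.Helper8.FusionAlperin
import Cfsg.Agent.Lib.Helper8.FusionEssential
import Cfsg.Agent.Lib.Helper8.FusionEssGen
import Cfsg.Agent.Lib.Helper8.FusionInner

set_option autoImplicit false

namespace Cfsg.Agent.Lib.Helper8

open Cfsg Cfsg.FusionSystem

/-- core step: `f x - x` fixed and `2`-torsion, `f` of odd order at `x`, then `f x = x` -/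
theorem odd_fix_core {M : Type*} [AddCommGroup M] (f : M →+ M) (m : ℕ) (hm : Odd m) (x : M)
    (hfm : f^[m] x = x) (hv : f (f x - x) = f x - x) (h2 : 2 • (f x - x) = 0) : f x = x := by
  have hit : ∀ j : ℕ, f^[j] x = x + j • (f x - x) := by
    intro j
    induction j with
    | zero => simp
    | succ j ih =>
      rw [Function.iterate_succ_apply', ih, map_add, map_nsmul, hv, succ_nsmul]
      abel
  have h1 := hit m
  rw [hfm] at h1
  obtain ⟨t, rfl⟩ := hm
  have h3 : (2 * t + 1) • (f x - x) = f x - x := by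
    rw [add_smul, mul_comm, mul_smul, h2, smul_zero, zero_add, one_smul]
  rw [h3] at h1
  have h4 : f x - x = 0 := by
    have := h1
    exact left_eq_add.1 this
  exact sub_eq_zero.1 h4

/-- an odd-order additive endomorphism of a `2`-group with "thin" socle filtration is trivial -/
theorem add_end_eq_id {M : Type*} [AddCommGroup M] (K : ℕ) (hK : ∀ x : M, 2 ^ K • x = 0)
    (hD : ∀ (k : ℕ) (u w : M), 2 • u = 0 → (∃ y, u = 2 ^ k • y) → 2 • w = 0 →
      (∃ y, w = 2 ^ k • y) →
      (∃ y, u = 2 ^ (k + 1) • y) ∨ (∃ y, w = 2 ^ (k + 1) • y) ∨ (∃ y, u - w = 2 ^ (k + 1) • y))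
    (f : M →+ M) (m : ℕ) (hm : Odd m) (hfm : ∀ x, f^[m] x = x) : ∀ x, f x = x := by
  have hinj : Function.Injective f := by
    intro a b hab
    obtain ⟨t, rfl⟩ := hm
    have ha : f^[2 * t] (f a) = a := (Function.iterate_succ_apply f (2 * t) a).symm.trans (hfm a)
    have hb : f^[2 * t] (f b) = b := (Function.iterate_succ_apply f (2 * t) b).symm.trans (hfm b)
    rw [← ha, ← hb, hab]
  -- claim A
  have hA : ∀ d k : ℕ, K ≤ k + d → ∀ x : M, 2 • x = 0 → (∃ y, x = 2 ^ k • y) → f x = x := by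
    intro d
    induction d with
    | zero =>
      intro k hk x _ hx
      obtain ⟨y, rfl⟩ := hx
      have h0 : 2 ^ k • y = 0 := by
        obtain ⟨c, rfl⟩ := Nat.exists_eq_add_of_le (show K ≤ k from hk)
        rw [pow_add, mul_comm, mul_smul, hK, smul_zero]
      rw [h0, map_zero]
    | succ d ih =>
      intro k hk x h2x hx
      have ih' := ih (k + 1) (by omega)
      have h2f : 2 • f x = 0 := by rw [← map_nsmul, h2x, map_zero]
      have hfx : ∃ y, f x = 2 ^ k • y := by
        obtain ⟨y, rfl⟩ := hx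
        exact ⟨f y, map_nsmul f _ _⟩
      rcases hD k x (f x) h2x hx h2f hfx with h | h | h
      · exact ih' x h2x h
      · exact hinj (ih' (f x) h2f h)
      · have h3 : 2 • (x - f x) = 0 := by rw [smul_sub, h2x, h2f, sub_zero]
        have h4 := ih' (x - f x) h3 h
        apply odd_fix_core f m hm x (hfm x)
        · have h5 : f x - x = -(x - f x) := by abel
          rw [h5, map_neg, h4]
        · rw [smul_sub, h2x, h2f, sub_zero]
  -- claim B
  have hB : ∀ j : ℕ, ∀ x : M, 2 ^ j • x = 0 → f x = x := by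
    intro j
    induction j with
    | zero =>
      intro x hx
      rw [pow_zero, one_smul] at hx
      rw [hx, map_zero]
    | succ j ih =>
      intro x hx
      have h1 : 2 ^ j • (2 • x) = 0 := by rw [← mul_smul, ← pow_succ]; exact hx
      have h2 := ih _ h1
      have h3 : 2 • (f x - x) = 0 := by
        rw [smul_sub, ← map_nsmul, h2, sub_self]
      apply odd_fix_core f m hm x (hfm x) _ h3
      exact hA K 0 (by omega) _ h3 ⟨f x - x, by rw [pow_zero, one_smul]⟩
  intro x
  exact hB K x (hK x)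

/-- `2`-torsion in `ZMod (2 ^ a)` -/
theorem zmod_two_torsion (a : ℕ) (ha : 1 ≤ a) (t : ZMod (2 ^ a)) (h : 2 • t = 0) :
    t = 0 ∨ t = ((2 ^ (a - 1) : ℕ) : ZMod (2 ^ a)) := by
  have hne : NeZero (2 ^ a) := ⟨by positivity⟩
  have h1 : ((2 * t.val : ℕ) : ZMod (2 ^ a)) = 0 := by
    rw [Nat.cast_mul, ZMod.natCast_zmod_val, Nat.cast_ofNat, ← h, nsmul_eq_mul, Nat.cast_ofNat]
  rw [ZMod.natCast_eq_zero_iff] at h1
  have h2 : 2 ^ a = 2 * 2 ^ (a - 1) := by
    rw [← pow_succ']
    congr 1
    omega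
  have h1' : 2 * 2 ^ (a - 1) ∣ 2 * t.val := by rw [← h2]; exact h1
  have h3 : 2 ^ (a - 1) ∣ t.val := Nat.dvd_of_mul_dvd_mul_left (by norm_num) h1'
  obtain ⟨c, hc⟩ := h3
  have h4 : 2 ^ (a - 1) * c < 2 * 2 ^ (a - 1) := by rw [← h2, ← hc]; exact ZMod.val_lt t
  have h5 : c < 2 := by
    by_contra hcon
    have : 2 * 2 ^ (a - 1) ≤ 2 ^ (a - 1) * c := by
      rw [mul_comm]
      exact Nat.mul_le_mul_left _ (by omega)
    omega
  have h6 : t = ((t.val : ℕ) : ZMod (2 ^ a)) := (ZMod.natCast_zmod_val t).symm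
  interval_cases c
  · left
    rw [h6, hc, mul_zero, Nat.cast_zero]
  · right
    rw [h6, hc, mul_one]

/-- divisibility upgrade in `ZMod (2 ^ a)` when `a ≠ k + 1` -/
theorem zmod_upgrade (a k : ℕ) (ha : 1 ≤ a) (hak : a ≠ k + 1) (t : ZMod (2 ^ a)) (h : 2 • t = 0)
    (hy : ∃ y, t = 2 ^ k • y) : ∃ z, t = 2 ^ (k + 1) • z := by
  rcases zmod_two_torsion a ha t h with h0 | h0
  · exact ⟨0, by rw [h0, smul_zero]⟩
  · by_cases hka : a ≤ k
    · obtain ⟨y, rfl⟩ := hy
      refine ⟨0, ?_⟩
      rw [smul_zero]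
      obtain ⟨c, rfl⟩ := Nat.exists_eq_add_of_le hka
      rw [nsmul_eq_mul, Nat.cast_pow, pow_add]
      have : ((2 : ℕ) : ZMod (2 ^ a)) ^ a = 0 := by
        rw [← Nat.cast_pow]
        exact ZMod.natCast_self _
      rw [this, zero_mul, zero_mul]
    · refine ⟨((2 ^ (a - 1 - (k + 1)) : ℕ) : ZMod (2 ^ a)), ?_⟩
      rw [h0, nsmul_eq_mul, ← Nat.cast_mul, ← pow_add]
      congr 2
      omega

/-- the "thin socle filtration" property for products of cyclic `2`-groups of distinct orders -/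
theorem pi_zmod_thin (n : ℕ) (a : Fin n → ℕ) (ha : StrictMono a) (ha1 : ∀ i, 1 ≤ a i)
    (k : ℕ) (u w : (i : Fin n) → ZMod (2 ^ a i)) (hu2 : 2 • u = 0) (hu : ∃ y, u = 2 ^ k • y)
    (hw2 : 2 • w = 0) (hw : ∃ y, w = 2 ^ k • y) :
    (∃ y, u = 2 ^ (k + 1) • y) ∨ (∃ y, w = 2 ^ (k + 1) • y) ∨
      (∃ y, u - w = 2 ^ (k + 1) • y) := by
  have key : ∀ t : (i : Fin n) → ZMod (2 ^ a i), 2 • t = 0 → (∃ y, t = 2 ^ k • y) →
      (∀ i, a i = k + 1 → t i = 0) → ∃ z, t = 2 ^ (k + 1) • z := by
    intro t ht2 hty ht0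
    have hi : ∀ i, ∃ z : ZMod (2 ^ a i), t i = 2 ^ (k + 1) • z := by
      intro i
      by_cases hik : a i = k + 1
      · exact ⟨0, by rw [ht0 i hik, smul_zero]⟩
      · apply zmod_upgrade (a i) k (ha1 i) hik (t i)
        · have := congrFun ht2 i
          simpa using this
        · obtain ⟨y, hy⟩ := hty
          exact ⟨y i, by rw [hy]; rfl⟩
    choose z hz using hi
    exact ⟨z, funext fun i => by rw [hz i]; rfl⟩
  by_cases hex : ∃ i0, a i0 = k + 1
  · obtain ⟨i0, hi0⟩ := hex
    have huniq : ∀ i, a i = k + 1 → i = i0 := fun i hi => ha.injective (hi.trans hi0.symm)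
    have hu0 : 2 • u i0 = 0 := by
      have := congrFun hu2 i0
      simpa using this
    have hw0 : 2 • w i0 = 0 := by
      have := congrFun hw2 i0
      simpa using this
    rcases zmod_two_torsion (a i0) (ha1 i0) (u i0) hu0 with h1 | h1
    · left
      exact key u hu2 hu (fun i hi => by rw [huniq i hi]; exact h1)
    · rcases zmod_two_torsion (a i0) (ha1 i0) (w i0) hw0 with h2 | h2
      · right; left
        exact key w hw2 hw (fun i hi => by rw [huniq i hi]; exact h2)
      · right; right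
        apply key (u - w)
        · rw [smul_sub, hu2, hw2, sub_zero]
        · obtain ⟨y, hy⟩ := hu
          obtain ⟨y', hy'⟩ := hw
          exact ⟨y - y', by rw [smul_sub, hy, hy']⟩
        · intro i hi
          rw [huniq i hi, Pi.sub_apply, h1, h2, sub_self]
  · left
    exact key u hu2 hu (fun i hi => absurd ⟨i, hi⟩ hex)

/-- an odd-order automorphism of the multiplicative version of a product of cyclic `2`-groups of
distinct orders is trivial -/
theorem pi_zmod_aut_trivial (n : ℕ) (a : Fin n → ℕ) (ha : StrictMono a) (ha1 : ∀ i, 1 ≤ a i)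
    (β : MulAut (Multiplicative ((i : Fin n) → ZMod (2 ^ a i)))) (m : ℕ) (hm : Odd m)
    (hβ : β ^ m = 1) : β = 1 := by
  let f : ((i : Fin n) → ZMod (2 ^ a i)) →+ ((i : Fin n) → ZMod (2 ^ a i)) :=
    AddMonoidHom.toMultiplicative.symm β.toMonoidHom
  have hf : ∀ x, f x = Multiplicative.toAdd (β (Multiplicative.ofAdd x)) := fun x => rfl
  have hit : ∀ (j : ℕ) x, f^[j] x = Multiplicative.toAdd ((β ^ j) (Multiplicative.ofAdd x)) := by
    intro j
    induction j with
    | zero => intro x; simp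
    | succ j ih =>
      intro x
      rw [Function.iterate_succ_apply', ih, hf, pow_succ', MulAut.mul_apply]
      rfl
  have hK : ∀ x : (i : Fin n) → ZMod (2 ^ a i), 2 ^ (∑ i, a i) • x = 0 := by
    intro x
    funext i
    have h1 : a i ≤ ∑ i, a i := Finset.single_le_sum (fun _ _ => Nat.zero_le _) (Finset.mem_univ i)
    obtain ⟨c, hc⟩ := Nat.exists_eq_add_of_le h1
    rw [Pi.smul_apply, hc, nsmul_eq_mul, Nat.cast_pow, pow_add]
    have : ((2 : ℕ) : ZMod (2 ^ a i)) ^ a i = 0 := by
      rw [← Nat.cast_pow]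
      exact ZMod.natCast_self _
    rw [this, zero_mul, zero_mul]
    rfl
  have hfix := add_end_eq_id (∑ i, a i) hK (pi_zmod_thin n a ha ha1) f m hm
    (fun x => by rw [hit, hβ]; rfl)
  apply MulEquiv.ext
  intro x
  have := hfix (Multiplicative.toAdd x)
  rw [hf] at this
  exact congrArg Multiplicative.ofAdd this

variable {Ω : Type*} [Group Ω] {S : Subgroup Ω}

/-- S5331: abelian `2`-group with distinct invariants carries only the inner fusion system -/
theorem fs_inner_of_distinct [Finite S] (n : ℕ) (a : Fin n → ℕ) (ha : StrictMono a)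
    (ha1 : ∀ i, 1 ≤ a i) (e : ↥S ≃* Multiplicative ((i : Fin n) → ZMod (2 ^ a i)))
    (F : FusionSystem S) (hF : F.IsSaturated 2) (P : Subgroup Ω) :
    F.Hom P = (innerFusionSystem S).Hom P := by
  have hp2 : Fact (Nat.Prime 2) := ⟨Nat.prime_two⟩
  have hcomm : ∀ x y : S, x * y = y * x := by
    intro x y
    apply e.injective
    rw [map_mul, map_mul, mul_comm]
  have hcard : Nat.card S = 2 ^ (∑ i, a i) := by
    rw [Nat.card_congr e.toEquiv]
    have h1 : Nat.card (Multiplicative ((i : Fin n) → ZMod (2 ^ a i))) =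
        Nat.card ((i : Fin n) → ZMod (2 ^ a i)) := Nat.card_congr Multiplicative.toAdd
    rw [h1, Nat.card_pi]
    simp only [Nat.card_zmod]
    exact Finset.prod_pow_eq_pow_sum _ _ _
  have hS : IsPGroup 2 S := IsPGroup.of_card hcard
  have haut : F.IsFullyAutomized 2 S := ((fs_saturated_iff_rs F 2 hS).1 hF).1
  obtain ⟨-, R, hR⟩ := haut
  have hfin : Finite (F.autGroup S) := finite_autGroup F le_rfl
  have hRbot : (R : Subgroup (F.autGroup S)) = ⊥ := by
    rw [hR, eq_bot_iff]
    intro α hα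
    rw [Subgroup.mem_subgroupOf] at hα
    obtain ⟨g, hg, hαg⟩ := (mem_autInducedBy_iff S S _).1 hα
    rw [Subgroup.mem_bot]
    apply Subtype.ext
    ext x
    rw [hαg x]
    have := hcomm ⟨g, hg⟩ x
    have h2 : g * (x : Ω) = (x : Ω) * g := congrArg Subtype.val this
    rw [h2, mul_inv_cancel_right]
    rfl
  have hodd : ¬ 2 ∣ Nat.card (F.autGroup S) := by
    have h1 := R.not_dvd_index
    rw [hRbot, Subgroup.index_bot] at h1
    exact h1
  have htriv : ∀ α ∈ F.autGroup S, α = 1 := by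
    intro α hα
    have h1 : orderOf (⟨α, hα⟩ : F.autGroup S) ∣ Nat.card (F.autGroup S) := orderOf_dvd_natCard _
    have h2 : ¬ 2 ∣ orderOf (⟨α, hα⟩ : F.autGroup S) := fun h => hodd (h.trans h1)
    have h3 : Odd (orderOf (⟨α, hα⟩ : F.autGroup S)) := Nat.odd_iff.2 (by omega)
    have h4 : (MulAut.congr e α) ^ (orderOf (⟨α, hα⟩ : F.autGroup S)) = 1 := by
      rw [← map_pow]
      have h5 : α ^ (orderOf (⟨α, hα⟩ : F.autGroup S)) = 1 := by
        have := pow_orderOf_eq_one (⟨α, hα⟩ : F.autGroup S)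
        exact congrArg Subtype.val this
      rw [h5, map_one]
    have h6 := pi_zmod_aut_trivial n a ha ha1 (MulAut.congr e α) _ h3 h4
    exact (MulAut.congr e).injective (h6.trans (map_one _).symm)
  have hle : F ≤ innerFusionSystem S := by
    apply fs_alperin F 2 hS hF
    rintro Q (rfl | hQ)
    · intro α hα
      rw [htriv α hα]
      exact Subgroup.one_mem _
    · exfalso
      apply fs_essential_ne_top F 2 hS hF hQ
      obtain ⟨⟨hQS, hcen⟩, -, -⟩ := hQ
      apply le_antisymm hQS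
      refine le_trans ?_ (hcen Q (fs_isConj_refl F hQS))
      intro s hs
      refine Subgroup.mem_inf.2 ⟨hs, ?_⟩
      rw [Subgroup.mem_centralizer_iff]
      intro q hq
      have := hcomm ⟨q, hQS hq⟩ ⟨s, hs⟩
      exact congrArg Subtype.val this
  exact Set.Subset.antisymm (hle P) (inner_le F P)

end Cfsg.Agent.Lib.Helper8
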