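import Mathlib
import Cfsg.Prelude.Def_FusionSystem
import Cfsg.Agent.Lib.Helper8.FusionChain
import Cfsg.Agent.Lib.Helper8.FusionInner

set_option autoImplicit false

namespace Cfsg.Agent.Lib.Helper8

open Cfsg Cfsg.FusionSystem

variable {Ω : Type*} [Group Ω] {S : Subgroup Ω}

/-- the infimum of the first `j+1` terms of a sequence of subgroups -/
def infChain (Qn : ℕ → Subgroup Ω) (j : ℕ) : Subgroup Ω := ⨅ i : {i : ℕ // i ≤ j}, Qn i

theorem mem_infChain_iff (Qn : ℕ → Subgroup Ω) (j : ℕ) (x : Ω) :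
    x ∈ infChain Qn j ↔ ∀ i, i ≤ j → x ∈ Qn i := by
  unfold infChain
  rw [Subgroup.mem_iInf]
  constructor
  · intro h i hi
    exact h ⟨i, hi⟩
  · intro h i
    exact h i.1 i.2

theorem fs_eq_inner_of_focal_chain (F : FusionSystem S) [Finite S] (p : ℕ) [Fact p.Prime]
    (hS : IsPGroup p S) (hF : F.IsSaturated p) (n : ℕ) (Q : Fin (n + 1) → Subgroup Ω)
    (hQ0 : Q 0 = S) (hQn : Q (Fin.last n) = ⊥)
    (hstep : ∀ i : Fin n, Subgroup.closure {y : Ω | ∃ x ∈ Q i.castSucc,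
      ∃ φ ∈ F.Hom (Subgroup.zpowers x), y = x⁻¹ * φ ⟨x, Subgroup.mem_zpowers x⟩} ≤ Q i.succ) :
    F = innerFusionSystem S := by
  apply fs_eq_inner_of_aut_pGroup F p hS hF
  intro P hPS
  have hfinP : Finite P := finite_of_le_fs hPS
  have hPp : IsPGroup p P := hS.to_le hPS
  -- the sequence
  let Qn : ℕ → Subgroup Ω := fun j => if h : j ≤ n then Q ⟨j, by omega⟩ else ⊥
  have hQn0 : Qn 0 = S := by
    show (if h : 0 ≤ n then Q ⟨0, by omega⟩ else ⊥) = S
    rw [dif_pos (Nat.zero_le n)]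
    exact hQ0
  have hQnn : Qn n = ⊥ := by
    show (if h : n ≤ n then Q ⟨n, by omega⟩ else ⊥) = ⊥
    rw [dif_pos le_rfl]
    exact hQn
  have hkey : ∀ (α : MulAut P), P.subtype.comp α.toMonoidHom ∈ F.Hom P → ∀ i, i < n →
      ∀ x : P, (x : Ω) ∈ Qn i → ((α x : P) : Ω) * (x : Ω)⁻¹ ∈ Qn (i + 1) := by
    intro α hα i hi x hx
    have hx' : (x : Ω) ∈ Q (Fin.castSucc ⟨i, hi⟩) := by
      have h1 : Qn i = Q ⟨i, by omega⟩ := dif_pos (by omega)
      rw [h1] at hx
      exact hx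
    have hle : Subgroup.zpowers ((x : Ω)⁻¹) ≤ P := by
      rw [Subgroup.zpowers_le]
      exact P.inv_mem x.2
    have hφ := fs_restrict_mem F hα hle
    have hgen : ((x : Ω)⁻¹)⁻¹ * ((P.subtype.comp α.toMonoidHom).comp (Subgroup.inclusion hle))
        ⟨(x : Ω)⁻¹, Subgroup.mem_zpowers _⟩ ∈ Q (Fin.succ ⟨i, hi⟩) := by
      apply hstep ⟨i, hi⟩
      apply Subgroup.subset_closure
      exact ⟨(x : Ω)⁻¹, Subgroup.inv_mem _ hx', _, hφ, rfl⟩
    have h2 : ((P.subtype.comp α.toMonoidHom).comp (Subgroup.inclusion hle))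
        ⟨(x : Ω)⁻¹, Subgroup.mem_zpowers _⟩ = ((α x : P) : Ω)⁻¹ := by
      show ((α ⟨(x : Ω)⁻¹, _⟩ : P) : Ω) = _
      have e : (⟨(x : Ω)⁻¹, P.inv_mem x.2⟩ : P) = x⁻¹ := rfl
      rw [e, map_inv]
      rfl
    rw [h2] at hgen
    have h3 := Subgroup.inv_mem _ hgen
    have e3 : (((x : Ω)⁻¹)⁻¹ * ((α x : P) : Ω)⁻¹)⁻¹ = ((α x : P) : Ω) * (x : Ω)⁻¹ := by group
    rw [e3] at h3
    have h4 : Qn (i + 1) = Q ⟨i + 1, by omega⟩ := dif_pos (by omega)
    rw [h4]
    exact h3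
  intro a
  have haF : P.subtype.comp (a : MulAut P).toMonoidHom ∈ F.Hom P :=
    (mem_autGroup_iff F hPS _).1 a.2
  obtain ⟨k, hk⟩ := stab_pow hPp (fun j => (infChain Qn j).subgroupOf P)
    (by
      intro j x hx
      rw [Subgroup.mem_subgroupOf, mem_infChain_iff] at hx ⊢
      intro i hi
      exact hx i (by omega))
    (by
      rw [eq_top_iff]
      intro x _
      rw [Subgroup.mem_subgroupOf, mem_infChain_iff]
      intro i hi
      have hi0 : i = 0 := by omega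
      rw [hi0, hQn0]
      exact hPS x.2)
    (a : MulAut P) n
    (by
      intro j hj x hx
      rw [Subgroup.mem_subgroupOf, mem_infChain_iff] at hx ⊢
      intro i hi
      rcases Nat.eq_zero_or_pos i with hi0 | hipos
      · rw [hi0, hQn0]
        exact S.mul_mem (hPS ((a : MulAut P) x).2) (S.inv_mem (hPS x.2))
      · obtain ⟨i', rfl⟩ : ∃ i', i = i' + 1 := ⟨i - 1, by omega⟩
        exact hkey (a : MulAut P) haF i' (by omega) x (hx i' (by omega)))
    (by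
      refine ⟨0, ?_⟩
      intro x hx
      rw [Subgroup.mem_subgroupOf, mem_infChain_iff] at hx
      have h1 := hx n le_rfl
      rw [hQnn, Subgroup.mem_bot] at h1
      have hx1 : x = 1 := Subtype.ext h1
      rw [hx1, map_one])
  exact ⟨k, Subtype.ext hk⟩

end Cfsg.Agent.Lib.Helper8
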