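import Mathlib
import Cfsg.Prelude.Def_FusionSystem
import Cfsg.Agent.Lib.Helper4.PClosed
import Cfsg.Agent.Lib.Helper8.FusionAlperin
import Cfsg.Agent.Lib.Helper8.FusionSat
import Cfsg.Agent.Lib.Helper8.FusionAut
import Cfsg.Agent.Lib.Helper8.FusionNormal
import Cfsg.Agent.Lib.Helper8.FusionAbelian2

set_option autoImplicit false

namespace Cfsg.Agent.Lib.Helper8

open Cfsg Cfsg.FusionSystem

variable {Ω : Type*} [Group Ω] {S : Subgroup Ω}

/-- the full subsystem of `F₀` (over `U`) on a subgroup `T ≤ U` -/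
def fullSubOn {U : Subgroup Ω} (F₀ : FusionSystem U) (T : Subgroup Ω) (hTU : T ≤ U) :
    FusionSystem T where
  Hom P := {φ | φ ∈ F₀.Hom P ∧ P ≤ T ∧ ∀ x : P, φ x ∈ T}
  le_of_mem := by
    rintro P φ ⟨-, h1, h2⟩
    exact ⟨h1, h2⟩
  injective_of_mem := by
    rintro P φ ⟨h, -, -⟩
    exact F₀.injective_of_mem h
  conj_mem := by
    intro P g hP hg
    refine ⟨F₀.conj_mem (hP.trans hTU) (hTU hg), hP, fun x => ?_⟩
    show g * (x : Ω) * g⁻¹ ∈ T
    exact T.mul_mem (T.mul_mem hg (hP x.2)) (T.inv_mem hg)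
  comp_mem := by
    rintro P Q φ ψ ⟨hφ, hP, hφT⟩ ⟨hψ, hQ, hψT⟩ h
    exact ⟨F₀.comp_mem hφ hψ h, hP, fun x => hψT _⟩
  inv_mem := by
    rintro P φ ⟨hφ, hP, hφT⟩
    obtain ⟨ψ, hψ, hinv⟩ := F₀.inv_mem hφ
    refine ⟨ψ, ⟨hψ, ?_, ?_⟩, hinv⟩
    · rintro _ ⟨x, rfl⟩
      exact hφT x
    · rintro ⟨_, x, rfl⟩
      rw [hinv x]
      exact hP x.2

/-- S5199 -/
theorem normal_le_ppower_index [Finite S] (p : ℕ) [Fact p.Prime] (hS : IsPGroup p S)
    (F : FusionSystem S) {T U : Subgroup Ω} (E : FusionSystem T) (hE : E.IsNormalIn F p)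
    (F₀ : FusionSystem U) (hU : T ⊔ F.hyperfocalSubgroup p ≤ U)
    (hidx : F₀.HasPPowerIndexIn F p) : E.IsSubsystemOf F₀ := by
  have hTU : T ≤ U := le_sup_left.trans hU
  have hEsat : E.IsSaturated p := hE.1.1
  have hEF : E.IsSubsystemOf F := hE.1.2.2.1
  have hTS : T ≤ S := hE.1.2.2.2.1.1
  have hfinT : Finite T := Finite.of_injective (Subgroup.inclusion hTS) (Subgroup.inclusion_injective _)
  have hTp : IsPGroup p T := hS.to_le hTS
  have hkey : ∀ P : Subgroup Ω, (P = T ∨ E.IsEssential p P) →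
      E.autGroup P ≤ (fullSubOn F₀ T hTU).autGroup P := by
    intro P hP
    have hfn : E.IsFullyNormalized P := by
      rcases hP with rfl | hP
      · exact fs_top_fullyNormalized E
      · exact hP.2.1
    obtain ⟨-, hPT, R, hR⟩ := ((fs_saturated_iff E p hTp).1 hEsat).1 P hfn
    have hPU : P ≤ U := hPT.trans hTU
    have hfinA : Finite (E.autGroup P) := finite_autGroup E hPT
    have hsup := Cfsg.Agent.Lib.Helper4.pResidual_sup_sylow R
    have hEFaut : E.autGroup P ≤ F.autGroup P := by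
      unfold FusionSystem.autGroup
      apply Subgroup.closure_mono
      intro α hα
      exact hEF P hα
    have hres : pResidual p (E.autGroup P) ≤ (F₀.autGroup P).subgroupOf (E.autGroup P) := by
      unfold pResidual
      rw [Subgroup.closure_le]
      intro a ha
      have ha' : Nat.Coprime (orderOf a) p := ha
      show a ∈ (F₀.autGroup P).subgroupOf (E.autGroup P)
      rw [Subgroup.mem_subgroupOf]
      apply hidx.2.2 P hPU
      refine ⟨⟨(a : MulAut P), hEFaut a.2⟩, ?_, rfl⟩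
      apply Subgroup.subset_closure
      show Nat.Coprime (orderOf (⟨(a : MulAut P), hEFaut a.2⟩ : F.autGroup P)) p
      rw [← Subgroup.orderOf_coe] at ha' ⊢
      exact ha'
    have hsyl : (R : Subgroup (E.autGroup P)) ≤ (F₀.autGroup P).subgroupOf (E.autGroup P) := by
      rw [hR]
      intro a ha
      rw [Subgroup.mem_subgroupOf] at ha ⊢
      have h1 : autInducedBy T P ≤ F₀.autGroup P := by
        unfold autInducedBy
        rw [Subgroup.closure_le]
        rintro α ⟨g, hg, hα⟩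
        apply Subgroup.subset_closure
        show P.subtype.comp α.toMonoidHom ∈ F₀.Hom P
        have e : P.subtype.comp α.toMonoidHom = conjHom P g := by
          ext x
          exact hα x
        rw [e]
        exact F₀.conj_mem hPU (hTU hg)
      exact h1 ha
    have htop : (⊤ : Subgroup (E.autGroup P)) ≤ (F₀.autGroup P).subgroupOf (E.autGroup P) := by
      rw [← hsup]
      exact sup_le hres hsyl
    intro α hα
    have h1 : (⟨α, hα⟩ : E.autGroup P) ∈ (F₀.autGroup P).subgroupOf (E.autGroup P) :=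
      htop (Subgroup.mem_top _)
    rw [Subgroup.mem_subgroupOf] at h1
    have h2 : FsIso F₀ α := (mem_autGroup_iff F₀ hPU α).1 h1
    apply Subgroup.subset_closure
    exact ⟨h2, hPT, fun x => hPT (α x).2⟩
  have hle := fs_alperin E p hTp hEsat (fullSubOn F₀ T hTU) hkey
  intro P φ hφ
  exact (hle P hφ).1

end Cfsg.Agent.Lib.Helper8
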