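import Mathlib
import Cfsg.Prelude.Def_FusionSystem
import Cfsg.Prelude.Def_FusionComponents
import Cfsg.Agent.Lib.Helper8.Fusion

set_option autoImplicit false

namespace Cfsg.Agent.Lib.Helper8

open Cfsg Cfsg.FusionSystem

variable {Ω₁ Ω₂ : Type*} [Group Ω₁] [Group Ω₂] {S₁ : Subgroup Ω₁} {S₂ : Subgroup Ω₂}

theorem fst_mem_map (P : Subgroup (Ω₁ × Ω₂)) (x : P) :
    (x : Ω₁ × Ω₂).1 ∈ P.map (MonoidHom.fst Ω₁ Ω₂) := ⟨x, x.2, rfl⟩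

theorem snd_mem_map (P : Subgroup (Ω₁ × Ω₂)) (x : P) :
    (x : Ω₁ × Ω₂).2 ∈ P.map (MonoidHom.snd Ω₁ Ω₂) := ⟨x, x.2, rfl⟩

theorem map_fst_le {P : Subgroup (Ω₁ × Ω₂)} (hP : P ≤ S₁.prod S₂) :
    P.map (MonoidHom.fst Ω₁ Ω₂) ≤ S₁ := by
  rintro _ ⟨x, hx, rfl⟩
  exact (Subgroup.mem_prod.1 (hP hx)).1

theorem map_snd_le {P : Subgroup (Ω₁ × Ω₂)} (hP : P ≤ S₁.prod S₂) :
    P.map (MonoidHom.snd Ω₁ Ω₂) ≤ S₂ := by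
  rintro _ ⟨x, hx, rfl⟩
  exact (Subgroup.mem_prod.1 (hP hx)).2

/-- the product fusion system -/
def productSystem (F₁ : FusionSystem S₁) (F₂ : FusionSystem S₂) : FusionSystem (S₁.prod S₂) where
  Hom P := {φ | P ≤ S₁.prod S₂ ∧
      ∃ φ₁ ∈ F₁.Hom (P.map (MonoidHom.fst Ω₁ Ω₂)), ∃ φ₂ ∈ F₂.Hom (P.map (MonoidHom.snd Ω₁ Ω₂)),
        ∀ (x : P) (h₁ : (x : Ω₁ × Ω₂).1 ∈ P.map (MonoidHom.fst Ω₁ Ω₂))
          (h₂ : (x : Ω₁ × Ω₂).2 ∈ P.map (MonoidHom.snd Ω₁ Ω₂)),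
          φ x = (φ₁ ⟨(x : Ω₁ × Ω₂).1, h₁⟩, φ₂ ⟨(x : Ω₁ × Ω₂).2, h₂⟩)}
  le_of_mem := by
    rintro P φ ⟨hP, φ₁, hφ₁, φ₂, hφ₂, h⟩
    refine ⟨hP, fun x => ?_⟩
    rw [h x (fst_mem_map P x) (snd_mem_map P x)]
    exact Subgroup.mem_prod.2 ⟨fs_map_mem F₁ hφ₁ _, fs_map_mem F₂ hφ₂ _⟩
  injective_of_mem := by
    rintro P φ ⟨hP, φ₁, hφ₁, φ₂, hφ₂, h⟩ a b hab
    rw [h a (fst_mem_map P a) (snd_mem_map P a), h b (fst_mem_map P b) (snd_mem_map P b)] at hab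
    have h1 := F₁.injective_of_mem hφ₁ (congrArg Prod.fst hab)
    have h2 := F₂.injective_of_mem hφ₂ (congrArg Prod.snd hab)
    apply Subtype.ext
    exact Prod.ext (congrArg Subtype.val h1) (congrArg Subtype.val h2)
  conj_mem := by
    intro P g hP hg
    refine ⟨hP, conjHom _ g.1, F₁.conj_mem (map_fst_le hP) (Subgroup.mem_prod.1 hg).1,
      conjHom _ g.2, F₂.conj_mem (map_snd_le hP) (Subgroup.mem_prod.1 hg).2, ?_⟩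
    intro x h₁ h₂
    rfl
  comp_mem := by
    rintro P Q φ ψ ⟨hP, φ₁, hφ₁, φ₂, hφ₂, hφ⟩ ⟨hQ, ψ₁, hψ₁, ψ₂, hψ₂, hψ⟩ h
    have h1' : ∀ x₁ : P.map (MonoidHom.fst Ω₁ Ω₂), φ₁ x₁ ∈ Q.map (MonoidHom.fst Ω₁ Ω₂) := by
      rintro ⟨_, x, hx, rfl⟩
      have e := hφ ⟨x, hx⟩ (fst_mem_map P ⟨x, hx⟩) (snd_mem_map P ⟨x, hx⟩)
      have e1 := congrArg Prod.fst e
      exact ⟨φ ⟨x, hx⟩, h _, e1⟩
    have h2' : ∀ x₂ : P.map (MonoidHom.snd Ω₁ Ω₂), φ₂ x₂ ∈ Q.map (MonoidHom.snd Ω₁ Ω₂) := by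
      rintro ⟨_, x, hx, rfl⟩
      have e := hφ ⟨x, hx⟩ (fst_mem_map P ⟨x, hx⟩) (snd_mem_map P ⟨x, hx⟩)
      have e2 := congrArg Prod.snd e
      exact ⟨φ ⟨x, hx⟩, h _, e2⟩
    refine ⟨hP, ψ₁.comp (φ₁.codRestrict _ h1'), F₁.comp_mem hφ₁ hψ₁ h1',
      ψ₂.comp (φ₂.codRestrict _ h2'), F₂.comp_mem hφ₂ hψ₂ h2', ?_⟩
    intro x h₁ h₂
    have e := hφ x h₁ h₂
    have e' := hψ ⟨φ x, h x⟩ (fst_mem_map Q _) (snd_mem_map Q _)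
    show ψ ⟨φ x, h x⟩ = (ψ₁ ⟨φ₁ ⟨(x : Ω₁ × Ω₂).1, h₁⟩, _⟩, ψ₂ ⟨φ₂ ⟨(x : Ω₁ × Ω₂).2, h₂⟩, _⟩)
    rw [e']
    refine Prod.ext ?_ ?_
    · show ψ₁ ⟨(φ x).1, _⟩ = ψ₁ ⟨φ₁ ⟨(x : Ω₁ × Ω₂).1, h₁⟩, _⟩
      congr 1
      apply Subtype.ext
      exact congrArg Prod.fst e
    · show ψ₂ ⟨(φ x).2, _⟩ = ψ₂ ⟨φ₂ ⟨(x : Ω₁ × Ω₂).2, h₂⟩, _⟩
      congr 1
      apply Subtype.ext
      exact congrArg Prod.snd e
  inv_mem := by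
    rintro P φ ⟨hP, φ₁, hφ₁, φ₂, hφ₂, hφ⟩
    obtain ⟨ψ₁, hψ₁, hinv₁, -⟩ := fs_exists_inv F₁ hφ₁
    obtain ⟨ψ₂, hψ₂, hinv₂, -⟩ := fs_exists_inv F₂ hφ₂
    have hrange : φ.range ≤ S₁.prod S₂ := by
      rintro _ ⟨x, rfl⟩
      rw [hφ x (fst_mem_map P x) (snd_mem_map P x)]
      exact Subgroup.mem_prod.2 ⟨fs_map_mem F₁ hφ₁ _, fs_map_mem F₂ hφ₂ _⟩
    have hle₁ : φ.range.map (MonoidHom.fst Ω₁ Ω₂) ≤ φ₁.range := by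
      rintro _ ⟨_, ⟨x, rfl⟩, rfl⟩
      exact ⟨⟨_, fst_mem_map P x⟩, (congrArg Prod.fst (hφ x (fst_mem_map P x) (snd_mem_map P x))).symm⟩
    have hle₂ : φ.range.map (MonoidHom.snd Ω₁ Ω₂) ≤ φ₂.range := by
      rintro _ ⟨_, ⟨x, rfl⟩, rfl⟩
      exact ⟨⟨_, snd_mem_map P x⟩, (congrArg Prod.snd (hφ x (fst_mem_map P x) (snd_mem_map P x))).symm⟩
    refine ⟨MonoidHom.prod
        ((ψ₁.comp (Subgroup.inclusion hle₁)).comp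
          (((MonoidHom.fst Ω₁ Ω₂).comp φ.range.subtype).codRestrict _ (fun y => fst_mem_map _ y)))
        ((ψ₂.comp (Subgroup.inclusion hle₂)).comp
          (((MonoidHom.snd Ω₁ Ω₂).comp φ.range.subtype).codRestrict _ (fun y => snd_mem_map _ y))),
      ⟨hrange, ψ₁.comp (Subgroup.inclusion hle₁), fs_restrict_mem F₁ hψ₁ hle₁,
        ψ₂.comp (Subgroup.inclusion hle₂), fs_restrict_mem F₂ hψ₂ hle₂, fun x h₁ h₂ => rfl⟩, ?_⟩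
    intro x
    have e := hφ x (fst_mem_map P x) (snd_mem_map P x)
    refine Prod.ext ?_ ?_
    · have h1 := hinv₁ ⟨_, fst_mem_map P x⟩
      refine Eq.trans ?_ h1
      show ψ₁ ⟨(φ x).1, _⟩ = ψ₁ ⟨φ₁ ⟨(x : Ω₁ × Ω₂).1, _⟩, _⟩
      congr 1
      apply Subtype.ext
      exact congrArg Prod.fst e
    · have h2 := hinv₂ ⟨_, snd_mem_map P x⟩
      refine Eq.trans ?_ h2
      show ψ₂ ⟨(φ x).2, _⟩ = ψ₂ ⟨φ₂ ⟨(x : Ω₁ × Ω₂).2, _⟩, _⟩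
      congr 1
      apply Subtype.ext
      exact congrArg Prod.snd e

theorem isProductSystem_productSystem (F₁ : FusionSystem S₁) (F₂ : FusionSystem S₂) :
    IsProductSystem F₁ F₂ (productSystem F₁ F₂) := fun _ _ => Iff.rfl

end Cfsg.Agent.Lib.Helper8
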