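import Mathlib
import Cfsg.Prelude.Def_FusionSystem
import Cfsg.Agent.Lib.Helper8.FusionAlperin
import Cfsg.Agent.Lib.Helper8.FusionNormal

set_option autoImplicit false

namespace Cfsg.Agent.Lib.Helper8

open Cfsg Cfsg.FusionSystem

variable {Ω : Type*} [Group Ω] {S : Subgroup Ω}

/-- if there are no essential subgroups then `S` is normal in the system -/
theorem fs_top_normal_of_no_essential (F : FusionSystem S) [Finite S] (p : ℕ) [Fact p.Prime]
    (hS : IsPGroup p S) (hF : F.IsSaturated p) (h : ∀ P : Subgroup Ω, ¬ F.IsEssential p P) :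
    F.IsNormal S := by
  apply fs_normal_of_alperin F p hS hF
  rintro P (rfl | hess)
  · refine ⟨le_rfl, fun α _ => ?_⟩
    have e : P.subgroupOf P = ⊤ := Subgroup.subgroupOf_self P
    rw [e]
    rw [← MonoidHom.range_eq_map]
    exact MonoidHom.range_eq_top.2 α.surjective
  · exact absurd hess (h P)

theorem fs_not_essential_of_normal_sylow (F : FusionSystem S) [Finite S] (p : ℕ) [Fact p.Prime]
    (hS : IsPGroup p S) {P : Subgroup Ω}
    (hcl : ∃ R : Sylow p ↥(F.autGroup P), (R : Subgroup ↥(F.autGroup P)).Normal) :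
    ¬ F.IsEssential p P := by
  intro hess
  have hrad := fs_essential_radical F p hS P hess
  obtain ⟨hcen, hfn, hnorm, E, hE⟩ := hess
  obtain ⟨R, hRn⟩ := hcl
  have hPS := hcen.1
  have hfinA : Finite (F.autGroup P) := finite_autGroup F hPS
  have hle : (R : Subgroup (F.autGroup P)) ≤ (Inn P).subgroupOf (F.autGroup P) := by
    intro a ha
    rw [Subgroup.mem_subgroupOf, ← hrad.2]
    exact ⟨a, le_pCore8 hRn R.2 ha, rfl⟩
  have h1 : ((Inn P).subgroupOf (F.autGroup P)).index ∣ (R : Subgroup (F.autGroup P)).index :=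
    Subgroup.index_dvd_of_le hle
  have h2 : p ∣ ((Inn P).subgroupOf (F.autGroup P)).index := hE.1
  exact R.not_dvd_index (h2.trans h1)

end Cfsg.Agent.Lib.Helper8
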