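import Mathlib
import Cfsg.Prelude.Def_FusionSystem
import Cfsg.Agent.Lib.Helper8.FusionSmallExp
import Cfsg.Agent.Lib.Helper8.FusionResist

set_option autoImplicit false

namespace Cfsg.Agent.Lib.Helper8

open Cfsg Cfsg.FusionSystem

/-- a `p`-element normalizing the cyclic group generated by an element `x` with `x ^ p = 1`
centralizes `x` -/
theorem conj_eq_of_pow_prime {G : Type*} [Group G] {p : ℕ} [Fact p.Prime] {s x : G} {m : ℕ}
    (hs : s ^ (p ^ m) = 1) (h : s * x * s⁻¹ ∈ Subgroup.zpowers x) (hx : x ^ p = 1) :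
    s * x * s⁻¹ = x := by
  by_cases hx1 : x = 1
  · rw [hx1]
    group
  have hord : orderOf x = p := orderOf_eq_prime hx hx1
  have hfo : IsOfFinOrder x := isOfFinOrder_iff_pow_eq_one.2 ⟨p, (Fact.out : p.Prime).pos, hx⟩
  obtain ⟨k, hk⟩ := (hfo.mem_powers_iff_mem_zpowers.2 h)
  have hk' : x ^ k = s * x * s⁻¹ := hk
  have hpow : ∀ j : ℕ, s ^ j * x * (s ^ j)⁻¹ = x ^ (k ^ j) := by
    intro j
    induction j with
    | zero => simp
    | succ j ih =>
      have e : s ^ (j + 1) * x * (s ^ (j + 1))⁻¹ = s * (s ^ j * x * (s ^ j)⁻¹) * s⁻¹ := by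
        rw [pow_succ']
        group
      rw [e, ih]
      have e2 : s * x ^ (k ^ j) * s⁻¹ = (s * x * s⁻¹) ^ (k ^ j) := by
        rw [conj_pow]
      rw [e2, ← hk', ← pow_mul, pow_succ']
  have h1 := hpow (p ^ m)
  rw [hs] at h1
  have h2 : x ^ (k ^ (p ^ m)) = x ^ 1 := by
    rw [← h1]
    group
  have h3 : k ^ (p ^ m) ≡ 1 [MOD p] := by
    have h30 := pow_eq_pow_iff_modEq.1 h2
    rw [hord] at h30
    exact h30
  have h4 : ((k ^ (p ^ m) : ℕ) : ZMod p) = ((1 : ℕ) : ZMod p) := (ZMod.natCast_eq_natCast_iff _ _ _).2 h3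
  rw [Nat.cast_pow, ZMod.pow_card_pow] at h4
  have h5 : k ≡ 1 [MOD p] := (ZMod.natCast_eq_natCast_iff _ _ _).1 h4
  rw [← hk']
  have h6 : x ^ k = x ^ 1 := by
    rw [pow_eq_pow_iff_modEq, hord]
    exact h5
  rw [h6, pow_one]

theorem conj_eq_or_inv_of_pow_four {G : Type*} [Group G] {s x : G}
    (h : s * x * s⁻¹ ∈ Subgroup.zpowers x) (hx : x ^ 4 = 1) :
    s * x * s⁻¹ = x ∨ s * x * s⁻¹ = x⁻¹ := by
  have hfo : IsOfFinOrder x := isOfFinOrder_iff_pow_eq_one.2 ⟨4, by norm_num, hx⟩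
  obtain ⟨k, hk⟩ := (hfo.mem_powers_iff_mem_zpowers.2 h)
  have hk' : x ^ k = s * x * s⁻¹ := hk
  have hmod : x ^ k = x ^ (k % 4) := pow_eq_pow_mod k hx
  have hlt : k % 4 < 4 := Nat.mod_lt _ (by norm_num)
  have hx1_of : s * x * s⁻¹ = 1 → s * x * s⁻¹ = x := by
    intro h1
    have h2 : x = s⁻¹ * (s * x * s⁻¹) * s := by group
    rw [h1] at h2
    have h3 : x = 1 := by
      rw [h2]
      group
    rw [h3]
    group
  rw [hmod] at hk'
  interval_cases hr : k % 4
  · left
    apply hx1_of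
    rw [← hk', pow_zero]
  · left
    rw [← hk', pow_one]
  · left
    have h2 : (s * x * s⁻¹) ^ 2 = 1 := by
      rw [← hk', ← pow_mul]
      exact hx
    rw [conj_pow] at h2
    have h3 : x ^ 2 = s⁻¹ * (s * x ^ 2 * s⁻¹) * s := by group
    rw [h2] at h3
    have h4 : x ^ 2 = 1 := by
      rw [h3]
      group
    apply hx1_of
    rw [← hk', h4]
  · right
    rw [← hk']
    have h2 : x ^ 3 * x = 1 := by
      rw [← pow_succ]
      exact hx
    exact eq_inv_of_mul_eq_one_left h2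

variable {Ω : Type*} [Group Ω] {S : Subgroup Ω}

/-- elements of `P` in the focal subgroup of small order -/
def SmallFoc (F : FusionSystem S) (p : ℕ) {P : Subgroup Ω} (x : P) : Prop :=
  (x : Ω) ∈ F.focalSubgroup ∧ (x ^ p = 1 ∨ (p = 2 ∧ x ^ 4 = 1))

theorem smallFoc_aut (F : FusionSystem S) (p : ℕ) {P : Subgroup Ω} (hPS : P ≤ S)
    (a : F.autGroup P) {x : P} (hx : SmallFoc F p x) : SmallFoc F p ((a : MulAut P) x) := by
  have haF : P.subtype.comp (a : MulAut P).toMonoidHom ∈ F.Hom P :=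
    (mem_autGroup_iff F hPS _).1 a.2
  refine ⟨?_, ?_⟩
  · have h1 : (x : Ω)⁻¹ * (((a : MulAut P) x : P) : Ω) ∈ F.focalSubgroup :=
      Subgroup.subset_closure ⟨P, _, x, haF, rfl⟩
    have h2 := Subgroup.mul_mem _ hx.1 h1
    have e : (x : Ω) * ((x : Ω)⁻¹ * (((a : MulAut P) x : P) : Ω)) = (((a : MulAut P) x : P) : Ω) := by
      group
    rw [e] at h2
    exact h2
  · rcases hx.2 with h1 | ⟨h2, h1⟩
    · left
      rw [← map_pow, h1, map_one]
    · right
      refine ⟨h2, ?_⟩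
      rw [← map_pow, h1, map_one]

/-- the automorphisms fixing (or, for `p = 2`, fixing or inverting) every element of small order
of the focal subgroup -/
def smallStab (F : FusionSystem S) (p : ℕ) (P : Subgroup Ω) : Subgroup (F.autGroup P) where
  carrier := {β | ∀ x : P, SmallFoc F p x →
    ((β : MulAut P) x = x ∨ (p = 2 ∧ (β : MulAut P) x = x⁻¹))}
  one_mem' := by
    intro x _
    left
    rfl
  mul_mem' := by
    intro b₁ b₂ h₁ h₂ x hx
    show ((b₁ : MulAut P) ((b₂ : MulAut P) x) = x ∨ (p = 2 ∧ (b₁ : MulAut P) ((b₂ : MulAut P) x) = x⁻¹))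
    rcases h₂ x hx with h | ⟨hp, h⟩
    · rw [h]
      exact h₁ x hx
    · rw [h, map_inv]
      rcases h₁ x hx with h' | ⟨-, h'⟩
      · right
        exact ⟨hp, by rw [h']⟩
      · left
        rw [h', inv_inv]
  inv_mem' := by
    intro b h x hx
    show ((b : MulAut P)⁻¹ x = x ∨ (p = 2 ∧ (b : MulAut P)⁻¹ x = x⁻¹))
    rcases h x hx with h' | ⟨hp, h'⟩
    · left
      apply (b : MulAut P).injective
      rw [MulAut.apply_inv_self, h']
    · right
      refine ⟨hp, ?_⟩
      apply (b : MulAut P).injective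
      rw [MulAut.apply_inv_self, map_inv, h', inv_inv]

theorem smallStab_normal (F : FusionSystem S) (p : ℕ) {P : Subgroup Ω} (hPS : P ≤ S) :
    (smallStab F p P).Normal := by
  constructor
  intro n hn g x hx
  have hx' := smallFoc_aut F p hPS g⁻¹ hx
  show ((g : MulAut P) ((n : MulAut P) ((g : MulAut P)⁻¹ x)) = x ∨
    (p = 2 ∧ (g : MulAut P) ((n : MulAut P) ((g : MulAut P)⁻¹ x)) = x⁻¹))
  rcases hn _ hx' with h | ⟨hp, h⟩
  · left
    have h' : (n : MulAut P) ((g : MulAut P)⁻¹ x) = (g : MulAut P)⁻¹ x := h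
    rw [h', MulAut.apply_inv_self]
  · right
    refine ⟨hp, ?_⟩
    have h' : (n : MulAut P) ((g : MulAut P)⁻¹ x) = ((g : MulAut P)⁻¹ x)⁻¹ := h
    rw [h', map_inv, MulAut.apply_inv_self]

theorem smallStab_fix (F : FusionSystem S) (p : ℕ) [Fact p.Prime] {P : Subgroup Ω}
    (b : F.autGroup P) (hb : b ∈ smallStab F p P) (hcop : (orderOf b).Coprime p) (x : P)
    (hx : SmallFoc F p x) : (b : MulAut P) x = x := by
  rcases hb x hx with h | ⟨hp, h⟩
  · exact h
  · rw [hp] at hcop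
    have hodd : Odd (orderOf b) := Nat.coprime_two_right.1 hcop
    obtain ⟨j, hj⟩ := hodd
    have hpow : ∀ i : ℕ, ((b : MulAut P) ^ (2 * i)) x = x ∧
        ((b : MulAut P) ^ (2 * i + 1)) x = x⁻¹ := by
      intro i
      induction i with
      | zero => simp [h]
      | succ i ih =>
        have e1 : ((b : MulAut P) ^ (2 * (i + 1))) x = x := by
          have e : 2 * (i + 1) = (2 * i + 1) + 1 := by ring
          rw [e, pow_succ', MulAut.mul_apply, ih.2, map_inv, h, inv_inv]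
        refine ⟨e1, ?_⟩
        rw [pow_succ', MulAut.mul_apply, e1, h]
    have h1 := (hpow j).2
    have h2 : (b : MulAut P) ^ (2 * j + 1) = 1 := by
      rw [← hj, ← Subgroup.orderOf_coe]
      exact pow_orderOf_eq_one _
    rw [h2, MulAut.one_apply] at h1
    rw [h, ← h1]

theorem smallStab_isPGroup (F : FusionSystem S) [Finite S] (p : ℕ) [Fact p.Prime]
    (hS : IsPGroup p S) {P : Subgroup Ω} (hPS : P ≤ S) : IsPGroup p (smallStab F p P) := by
  have hfinP : Finite P := finite_of_le_fs hPS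
  have hPp : IsPGroup p P := hS.to_le hPS
  have hfinA := finite_autGroup F hPS
  apply isPGroup_of_coprime_trivial
  intro b hb
  have hb' : (orderOf (b : F.autGroup P)).Coprime p := by
    rw [Subgroup.orderOf_coe]
    exact hb
  have hγ : (orderOf ((b : F.autGroup P) : MulAut P)).Coprime p := by
    rw [Subgroup.orderOf_coe]
    exact hb'
  have hfix := smallStab_fix F p (b : F.autGroup P) b.2 hb'
  have haF : P.subtype.comp ((b : F.autGroup P) : MulAut P).toMonoidHom ∈ F.Hom P :=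
    (mem_autGroup_iff F hPS _).1 (b : F.autGroup P).2
  have hfoc : ∀ y ∈ autComm ((b : F.autGroup P) : MulAut P), (y : Ω) ∈ F.focalSubgroup := by
    have hle : autComm ((b : F.autGroup P) : MulAut P) ≤ (F.focalSubgroup).comap P.subtype := by
      unfold autComm
      rw [Subgroup.closure_le]
      rintro _ ⟨x, rfl⟩
      show ((x⁻¹ * ((b : F.autGroup P) : MulAut P) x : P) : Ω) ∈ F.focalSubgroup
      apply Subgroup.subset_closure
      exact ⟨P, _, x, haF, rfl⟩
    intro y hy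
    exact hle hy
  have hone : ((b : F.autGroup P) : MulAut P) = 1 := by
    apply aut_eq_one_of_centralizes_autComm hPp _ hγ
    by_contra hnc
    obtain ⟨R, hRL, hRinv, hRnc, hRexp⟩ := exists_small_exponent_aut hPp _ hγ
      (autComm _) (autComm_invariant _) hnc
    apply hRnc
    intro x hx
    exact hfix x ⟨hfoc x (hRL hx), hRexp x hx⟩
  exact Subtype.ext (Subtype.ext hone)

theorem autInducedBy_le_smallStab (F : FusionSystem S) [Finite S] (p : ℕ) [Fact p.Prime]
    (hS : IsPGroup p S) {P : Subgroup Ω} (hPS : P ≤ S)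
    (hnorm : ∀ x ∈ F.focalSubgroup, (x ^ p = 1 ∨ (p = 2 ∧ x ^ 4 = 1)) → ∀ s ∈ S,
      s * x * s⁻¹ ∈ Subgroup.zpowers x) :
    (autInducedBy S P).subgroupOf (F.autGroup P) ≤ smallStab F p P := by
  intro b hb x hx
  obtain ⟨s, hs, hsx⟩ := (mem_autInducedBy_iff S P _).1 (Subgroup.mem_subgroupOf.1 hb)
  have hxΩ : (x : Ω) ^ p = 1 ∨ (p = 2 ∧ (x : Ω) ^ 4 = 1) := by
    rcases hx.2 with h1 | ⟨h2, h1⟩
    · left
      rw [← Subgroup.coe_pow, h1]
      rfl
    · right
      refine ⟨h2, ?_⟩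
      rw [← Subgroup.coe_pow, h1]
      rfl
  have hz := hnorm (x : Ω) hx.1 hxΩ s hs
  obtain ⟨m, hm⟩ := hS ⟨s, hs⟩
  have hsm : s ^ (p ^ m) = 1 := congrArg (fun w : S => (w : Ω)) hm
  rcases hxΩ with h1 | ⟨h2, h1⟩
  · left
    apply Subtype.ext
    rw [hsx x]
    exact conj_eq_of_pow_prime hsm hz h1
  · rcases conj_eq_or_inv_of_pow_four hz h1 with h3 | h3
    · left
      apply Subtype.ext
      rw [hsx x]
      exact h3
    · right
      refine ⟨h2, ?_⟩
      apply Subtype.ext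
      rw [hsx x]
      exact h3

theorem fs_top_normal_of_small_normal (F : FusionSystem S) [Finite S] (p : ℕ) [Fact p.Prime]
    (hS : IsPGroup p S) (hF : F.IsSaturated p)
    (hnorm : ∀ x ∈ F.focalSubgroup, (x ^ p = 1 ∨ (p = 2 ∧ x ^ 4 = 1)) → ∀ s ∈ S,
      s * x * s⁻¹ ∈ Subgroup.zpowers x) : F.IsNormal S := by
  apply fs_top_normal_of_no_essential F p hS hF
  intro P hess
  have hPS : P ≤ S := hess.1.1
  obtain ⟨hn, hc⟩ := (fs_saturated_iff F p hS).1 hF
  obtain ⟨-, -, R, hR⟩ := hn P hess.2.1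
  apply fs_not_essential_of_normal_sylow F p hS ?_ hess
  refine ⟨R, ?_⟩
  have hle : (R : Subgroup (F.autGroup P)) ≤ smallStab F p P := by
    rw [hR]
    exact autInducedBy_le_smallStab F p hS hPS hnorm
  have heq := R.3 (smallStab_isPGroup F p hS hPS) hle
  have hnor := smallStab_normal F p hPS
  rw [heq] at hnor
  exact hnor

end Cfsg.Agent.Lib.Helper8
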