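import Mathlib
import Cfsg.Prelude.Def_FusionSystem
import Cfsg.Agent.Lib.Helper8.FusionChain
import Cfsg.Agent.Lib.Helper8.FusionChain2
import Cfsg.Agent.Lib.Helper8.FusionNormal
import Cfsg.Agent.Lib.Helper8.FusionAgree

set_option autoImplicit false

namespace Cfsg.Agent.Lib.Helper8

open Cfsg Cfsg.FusionSystem
open scoped commutatorElement

variable {Ω : Type*} [Group Ω] {S : Subgroup Ω}

theorem fs_stronglyClosed_weaklyClosed (F : FusionSystem S) [Finite S] {Q : Subgroup Ω}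
    (hQ : F.StronglyClosed Q) : F.WeaklyClosed Q := by
  refine ⟨hQ.1, fun φ hφ => ?_⟩
  apply fs_range_eq_of_le F hφ
  rintro _ ⟨x, rfl⟩
  exact hQ.2 Q le_rfl φ hφ x

theorem fs_weaklyClosed_bot (F : FusionSystem S) : F.WeaklyClosed ⊥ := by
  refine ⟨bot_le, fun φ hφ => ?_⟩
  rw [eq_bot_iff]
  rintro _ ⟨x, rfl⟩
  have hx : x = 1 := Subtype.ext (Subgroup.mem_bot.1 x.2)
  rw [hx, map_one]
  exact one_mem _

theorem fs_weaklyClosed_le_normalizer (F : FusionSystem S) [Finite S] {X : Subgroup Ω}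
    (hX : F.WeaklyClosed X) : S ≤ Subgroup.normalizer (X : Set Ω) := by
  intro s hs
  have hfin : Finite X := finite_of_le_fs hX.1
  apply mem_normalizer_of_conj_mem_finite
  intro y hy
  have h1 := hX.2 (conjHom X s) (F.conj_mem hX.1 hs)
  have h2 : conjHom X s ⟨y, hy⟩ ∈ (conjHom X s).range := ⟨⟨y, hy⟩, rfl⟩
  rw [h1] at h2
  exact h2

theorem fs_weaklyClosed_aut_mem (F : FusionSystem S) {X P : Subgroup Ω} (hX : F.WeaklyClosed X)
    (hXP : X ≤ P) (hPS : P ≤ S) (a : F.autGroup P) (x : P) (hx : (x : Ω) ∈ X) :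
    (((a : MulAut P) x : P) : Ω) ∈ X := by
  have haF : P.subtype.comp (a : MulAut P).toMonoidHom ∈ F.Hom P :=
    (mem_autGroup_iff F hPS _).1 a.2
  have h1 := hX.2 _ (fs_restrict_mem F haF hXP)
  have h2 : ((P.subtype.comp (a : MulAut P).toMonoidHom).comp (Subgroup.inclusion hXP)) ⟨x, hx⟩ ∈
      ((P.subtype.comp (a : MulAut P).toMonoidHom).comp (Subgroup.inclusion hXP)).range :=
    ⟨⟨x, hx⟩, rfl⟩
  rw [h1] at h2
  exact h2

/-- the chain `P ≥ P ∩ Q ≥ Q_j ≥ Q_{j-1} ≥ ... ≥ Q_0` -/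
def chainDW (P Q : Subgroup Ω) (Qn : ℕ → Subgroup Ω) (j : ℕ) : ℕ → Subgroup Ω
  | 0 => P
  | 1 => Q ⊓ P
  | (t + 2) => Qn (j - t)

theorem fs_chain_le_weak (F : FusionSystem S) [Finite S] (p : ℕ) [Fact p.Prime]
    (hS : IsPGroup p S) {P Q : Subgroup Ω} (hcen : F.IsCentric P) (hrad : F.IsRadical p P)
    (hQsc : F.StronglyClosed Q)
    (Qn : ℕ → Subgroup Ω) (h0 : Qn 0 = ⊥) (hmono : ∀ j, Qn j ≤ Qn (j + 1))
    (hwc : ∀ j, F.WeaklyClosed (Qn j)) (hQ : ∀ j, Qn j ≤ Q)
    (hcomm : ∀ j, ⁅Qn (j + 1), Q⁆ ≤ Qn j) : ∀ j, Qn j ≤ P := by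
  have hPS := hcen.1
  have hmono' : Monotone Qn := monotone_nat_of_le_succ hmono
  intro j
  induction j with
  | zero =>
    rw [h0]
    exact bot_le
  | succ j ih =>
    have ih' : ∀ i, i ≤ j → Qn i ≤ P := fun i hi => (hmono' hi).trans ih
    apply fs_le_of_normalizer_le hS hPS (hwc (j + 1)).1
      (fs_weaklyClosed_le_normalizer F (hwc (j + 1)))
    intro q hq hqN
    have hqS : q ∈ S := (hwc (j + 1)).1 hq
    apply fs_mem_of_chain F p hS hcen hrad (chainDW P Q Qn j) le_rfl ?_ (j + 2) ?_ ?_ hqS hqN ?_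
    · intro t
      match t with
      | 0 => exact inf_le_right
      | 1 => exact le_inf (hQ j) ih
      | (t + 2) => exact hmono' (by omega)
    · intro t a x hx
      match t with
      | 0 => exact ((a : MulAut P) x).2
      | 1 =>
        exact Subgroup.mem_inf.2 ⟨fs_stronglyClosed_aut_mem F hQsc hPS a x
          (Subgroup.mem_inf.1 hx).1, ((a : MulAut P) x).2⟩
      | (t + 2) =>
        exact fs_weaklyClosed_aut_mem F (hwc (j - t)) (ih' (j - t) (by omega)) hPS a x hx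
    · intro a
      refine ⟨0, fun x hx => ?_⟩
      have hx' : (x : Ω) ∈ Qn (j - j) := hx
      rw [Nat.sub_self, h0, Subgroup.mem_bot] at hx'
      have hx1 : x = 1 := Subtype.ext hx'
      rw [hx1, map_one]
    · intro t ht x hxP hx
      match t with
      | 0 =>
        refine Subgroup.mem_inf.2 ⟨?_, ?_⟩
        · have hxN := fs_stronglyClosed_le_normalizer F hQsc (hPS hxP)
          have hqQ : q ∈ Q := hQ _ hq
          have h1 : x * q⁻¹ * x⁻¹ ∈ Q :=
            (Subgroup.mem_normalizer_iff.1 hxN _).1 (inv_mem hqQ)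
          have h2 := Q.mul_mem hqQ h1
          have e : q * x * q⁻¹ * x⁻¹ = q * (x * q⁻¹ * x⁻¹) := by group
          rw [e]
          exact h2
        · have h1 : q * x * q⁻¹ ∈ P := (Subgroup.mem_normalizer_iff.1 hqN _).1 hxP
          exact P.mul_mem h1 (P.inv_mem hxP)
      | 1 =>
        exact hcomm j (Subgroup.commutator_mem_commutator hq (Subgroup.mem_inf.1 hx).1)
      | (t + 2) =>
        have e : j - t = (j - (t + 1)) + 1 := by omega
        have hx' : x ∈ Qn (j - t) := hx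
        rw [e] at hx'
        have h1 : ⁅q, x⁆ ∈ ⁅Q, Qn (j - (t + 1) + 1)⁆ :=
          Subgroup.commutator_mem_commutator (hQ _ hq) hx'
        rw [Subgroup.commutator_comm] at h1
        exact hcomm _ h1

theorem fs_normal_of_weak_fin_chain (F : FusionSystem S) [Finite S] (p : ℕ) [Fact p.Prime]
    (hS : IsPGroup p S) (hF : F.IsSaturated p) {Q : Subgroup Ω} (hQsc : F.StronglyClosed Q)
    (n : ℕ) (C : Fin (n + 1) → Subgroup Ω) (h0 : C 0 = ⊥) (hlast : C (Fin.last n) = Q)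
    (hmono : Monotone C) (hcomm : ∀ i : Fin n, ⁅C i.succ, Q⁆ ≤ C i.castSucc)
    (hwc : ∀ i : Fin n, F.WeaklyClosed (C i.castSucc)) : F.IsNormal Q := by
  rw [fs_normal_iff_stronglyClosed F p hS hF]
  refine ⟨hQsc, fun P hcen hrad => ?_⟩
  have hlt : ∀ j : ℕ, min j n < n + 1 := fun j => Nat.lt_succ_of_le (Nat.min_le_right j n)
  have hQn0 : C ⟨min 0 n, hlt 0⟩ = ⊥ := by
    have e : (⟨min 0 n, hlt 0⟩ : Fin (n + 1)) = 0 := by
      apply Fin.ext
      simp
    rw [e]
    exact h0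
  have hQnn : C ⟨min n n, hlt n⟩ = Q := by
    have e : (⟨min n n, hlt n⟩ : Fin (n + 1)) = Fin.last n := by
      apply Fin.ext
      simp
    rw [e]
    exact hlast
  have hge : ∀ j, n ≤ j → C ⟨min j n, hlt j⟩ = Q := by
    intro j hj
    have e : (⟨min j n, hlt j⟩ : Fin (n + 1)) = Fin.last n := by
      apply Fin.ext
      show min j n = n
      omega
    rw [e]
    exact hlast
  have hlt' : ∀ j (hj : j < n), C ⟨min j n, hlt j⟩ = C (Fin.castSucc ⟨j, hj⟩) := by
    intro j hj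
    have e : (⟨min j n, hlt j⟩ : Fin (n + 1)) = Fin.castSucc ⟨j, hj⟩ := by
      apply Fin.ext
      show min j n = j
      omega
    rw [e]
  have hlt'' : ∀ j (hj : j < n), C ⟨min (j + 1) n, hlt (j + 1)⟩ = C (Fin.succ ⟨j, hj⟩) := by
    intro j hj
    have e : (⟨min (j + 1) n, hlt (j + 1)⟩ : Fin (n + 1)) = Fin.succ ⟨j, hj⟩ := by
      apply Fin.ext
      show min (j + 1) n = j + 1
      omega
    rw [e]
  have key := fs_chain_le_weak F p hS hcen hrad hQsc (fun j => C ⟨min j n, hlt j⟩) hQn0 ?_ ?_ ?_ ?_ n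
  · rw [← hQnn]
    exact key
  · intro j
    apply hmono
    rw [Fin.mk_le_mk]
    exact min_le_min_right n (Nat.le_succ j)
  · intro j
    show F.WeaklyClosed (C ⟨min j n, hlt j⟩)
    by_cases hj : j < n
    · rw [hlt' j hj]
      exact hwc ⟨j, hj⟩
    · rw [hge j (by omega)]
      exact fs_stronglyClosed_weaklyClosed F hQsc
  · intro j
    show C ⟨min j n, hlt j⟩ ≤ Q
    rw [← hlast]
    exact hmono (Fin.le_last _)
  · intro j
    show ⁅C ⟨min (j + 1) n, hlt (j + 1)⟩, Q⁆ ≤ C ⟨min j n, hlt j⟩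
    by_cases hj : j < n
    · rw [hlt' j hj, hlt'' j hj]
      exact hcomm ⟨j, hj⟩
    · rw [hge j (by omega), hge (j + 1) (by omega)]
      exact commutator_self_le Q

theorem fs_weak_fin_chain_of_normal (F : FusionSystem S) [Finite S] (p : ℕ) [Fact p.Prime]
    (hS : IsPGroup p S) {Q : Subgroup Ω} (hQ : F.IsNormal Q) :
    ∃ (n : ℕ) (C : Fin (n + 1) → Subgroup Ω), C 0 = ⊥ ∧ C (Fin.last n) = Q ∧ Monotone C ∧
      (∀ i : Fin n, ⁅C i.succ, Q⁆ ≤ C i.castSucc) ∧ ∀ i : Fin n, F.WeaklyClosed (C i.castSucc) := by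
  obtain ⟨n, Qs, h0, hlast, hmono, hstep⟩ := fs_fin_chain_of_normal F p hS hQ
  refine ⟨n, Qs, h0, hlast, hmono, ?_, ?_⟩
  · intro i
    rw [Subgroup.commutator_comm]
    exact (hstep i).2
  · intro i
    rcases Nat.eq_zero_or_pos (i : ℕ) with h | h
    · have e : Fin.castSucc i = 0 := by
        apply Fin.ext
        exact h
      rw [e, h0]
      exact fs_weaklyClosed_bot F
    · have h2 : (i : ℕ) - 1 < n := by
        have := i.2
        omega
      have e : Fin.castSucc i = (⟨(i : ℕ) - 1, h2⟩ : Fin n).succ := by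
        apply Fin.ext
        show (i : ℕ) = (i : ℕ) - 1 + 1
        omega
      rw [e]
      exact fs_stronglyClosed_weaklyClosed F (hstep _).1

end Cfsg.Agent.Lib.Helper8
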