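import Mathlib
import Cfsg.Prelude.Def_FusionSystem
import Cfsg.Agent.Lib.Helper8.FusionInnerSat

set_option autoImplicit false

namespace Cfsg.Agent.Lib.Helper8

open Cfsg Cfsg.FusionSystem

variable {Ω : Type*} [Group Ω] {S : Subgroup Ω}

/-- transport of a normal subgroup of an invariant subsystem by an automorphism of `T` -/
theorem fs_normal_transport (F : FusionSystem S) {T : Subgroup Ω} [Finite T] (p : ℕ)
    [Fact p.Prime] (hT : IsPGroup p T) (E : FusionSystem T) (hEsat : E.IsSaturated p)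
    (hinv : E.IsInvariantIn F) {R : Subgroup Ω} (hR : E.IsNormal R) (α : MulAut T)
    (hα : α ∈ F.autGroup T) :
    E.IsNormal ((R.subgroupOf T).map (T.subtype.comp α.toMonoidHom)) := by
  obtain ⟨hsub, hTsc, hconj, hfr⟩ := hinv
  have hRT : R ≤ T := hR.1
  have hRαT : (R.subgroupOf T).map (T.subtype.comp α.toMonoidHom) ≤ T := by
    rintro _ ⟨y, -, rfl⟩
    exact (α y).2
  apply fs_normal_of_extend E p hT hEsat hRαT
  intro P hPR ψ hψ
  have hPT : P ≤ T := hPR.trans hRαT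
  have hα' : α⁻¹ ∈ F.autGroup T := inv_mem hα
  obtain ⟨χ, hχ, hχe⟩ := hconj P hPT ψ hψ α⁻¹ hα'
  have hP'R : (P.subgroupOf T).map (T.subtype.comp (α⁻¹).toMonoidHom) ≤ R := by
    rintro _ ⟨y, hy, rfl⟩
    obtain ⟨r, hr, hry⟩ := hPR (Subgroup.mem_subgroupOf.1 hy)
    have e : y = α r := Subtype.ext hry.symm
    show ((α⁻¹ y : T) : Ω) ∈ R
    rw [e, MulAut.inv_apply_self]
    exact Subgroup.mem_subgroupOf.1 hr
  obtain ⟨β₀, hβ₀, hβ₀e⟩ := fs_extend_of_normal E hR _ hP'R χ hχ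
  have hβ₀E : R.subtype.comp β₀.toMonoidHom ∈ E.Hom R := (mem_autGroup_iff E hRT β₀).1 hβ₀
  obtain ⟨χ', hχ', hχ'e⟩ := hconj R hRT _ hβ₀E α hα
  have hmemα : ∀ r : R, ((α ⟨r, hRT r.2⟩ : T) : Ω) ∈
      (R.subgroupOf T).map (T.subtype.comp α.toMonoidHom) :=
    fun r => ⟨⟨r, hRT r.2⟩, Subgroup.mem_subgroupOf.2 r.2, rfl⟩
  have hχ'r : ∀ r : R, χ' ⟨(α ⟨r, hRT r.2⟩ : T), hmemα r⟩ =
      ((α ⟨((β₀ r : R) : Ω), hRT (β₀ r).2⟩ : T) : Ω) := by
    intro r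
    exact hχ'e r (hRT (β₀ r).2) (hmemα r)
  have hrange : χ'.range ≤ (R.subgroupOf T).map (T.subtype.comp α.toMonoidHom) := by
    rintro _ ⟨⟨y, r, hr, rfl⟩, rfl⟩
    have h1 := hχ'r ⟨r, Subgroup.mem_subgroupOf.1 hr⟩
    have h2 : χ' ⟨(T.subtype.comp α.toMonoidHom) r, ⟨r, hr, rfl⟩⟩ =
        χ' ⟨(α ⟨((⟨r, Subgroup.mem_subgroupOf.1 hr⟩ : R) : Ω), hRT (Subgroup.mem_subgroupOf.1 hr)⟩ : T),
          hmemα ⟨r, Subgroup.mem_subgroupOf.1 hr⟩⟩ := rfl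
    rw [h2, h1]
    exact hmemα (β₀ ⟨r, Subgroup.mem_subgroupOf.1 hr⟩)
  have hr := fs_range_eq_of_le E hχ' hrange
  refine ⟨fsEquiv χ' (E.injective_of_mem hχ') hr,
    (mem_autGroup_iff E hRαT _).2 (fsIso_fsEquiv E hχ' hr), ?_⟩
  intro x
  rw [fsEquiv_apply]
  have hrP' : ((α⁻¹ ⟨x, hPT x.2⟩ : T) : Ω) ∈
      (P.subgroupOf T).map (T.subtype.comp (α⁻¹).toMonoidHom) :=
    ⟨⟨x, hPT x.2⟩, Subgroup.mem_subgroupOf.2 x.2, rfl⟩
  have hrR : ((α⁻¹ ⟨x, hPT x.2⟩ : T) : Ω) ∈ R := hP'R hrP'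
  have h1 := hχ'r ⟨_, hrR⟩
  have hψT : ψ x ∈ T := (E.le_of_mem hψ).2 x
  have h2 := hχe x hψT hrP'
  have h3 := hβ₀e ⟨_, hrP'⟩
  have e1 : χ' (Subgroup.inclusion hPR x) =
      χ' ⟨(α ⟨((⟨_, hrR⟩ : R) : Ω), hRT hrR⟩ : T), hmemα ⟨_, hrR⟩⟩ := by
    congr 1
    apply Subtype.ext
    show (x : Ω) = ((α (α⁻¹ ⟨x, hPT x.2⟩) : T) : Ω)
    rw [MulAut.apply_inv_self]
  rw [e1, h1]
  have e2 : (⟨((β₀ ⟨_, hrR⟩ : R) : Ω), hRT (β₀ ⟨_, hrR⟩).2⟩ : T) = α⁻¹ ⟨ψ x, hψT⟩ := by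
    apply Subtype.ext
    exact h3.trans h2
  rw [e2, MulAut.apply_inv_self]

/-- the subgroup generated by the `F`-conjugates of a normal subgroup `R` of a weakly normal
subsystem is normal in `F` -/
theorem fs_normal_closure_of_weaklyNormal (F : FusionSystem S) [Finite S] (p : ℕ)
    [Fact p.Prime] (hS : IsPGroup p S) (hF : F.IsSaturated p) {T : Subgroup Ω}
    (E : FusionSystem T) (hE : E.IsWeaklyNormalIn F p) (R : Subgroup Ω) (hR : E.IsNormal R) :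
    F.IsNormal (Subgroup.closure {x : Ω | ∃ φ ∈ F.Hom R, ∃ r : R, x = φ r}) := by
  obtain ⟨hEsat, -, hinv⟩ := hE
  have hinv' := hinv
  obtain ⟨hsub, hTsc, hconj, hfr⟩ := hinv
  have hTS : T ≤ S := hTsc.1
  have hfinT : Finite T := finite_of_le_fs hTS
  have hTp : IsPGroup p T := hS.to_le hTS
  have hRT : R ≤ T := hR.1
  have hRsc : E.StronglyClosed R := fs_normal_stronglyClosed E hR
  -- the set of transports
  have hsc : SupClosed {Q : Subgroup Ω | E.IsNormal Q} := by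
    intro a ha b hb
    exact fs_isNormal_sup E ha hb
  have hfinN : {Q : Subgroup Ω | E.IsNormal Q}.Finite :=
    (finite_subgroups_le T).subset (fun Q hQ => hQ.1)
  have hsubset : {Q : Subgroup Ω | ∃ α ∈ F.autGroup T,
      Q = (R.subgroupOf T).map (T.subtype.comp α.toMonoidHom)} ⊆
      {Q : Subgroup Ω | E.IsNormal Q} := by
    rintro Q ⟨α, hα, rfl⟩
    exact fs_normal_transport F p hTp E hEsat hinv' hR α hα
  have hN1 : E.IsNormal (sSup {Q : Subgroup Ω | ∃ α ∈ F.autGroup T,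
      Q = (R.subgroupOf T).map (T.subtype.comp α.toMonoidHom)}) :=
    hsc.sSup_mem (hfinN.subset hsubset) (fs_isNormal_bot E) hsubset
  have heq : Subgroup.closure {x : Ω | ∃ φ ∈ F.Hom R, ∃ r : R, x = φ r} =
      sSup {Q : Subgroup Ω | ∃ α ∈ F.autGroup T,
        Q = (R.subgroupOf T).map (T.subtype.comp α.toMonoidHom)} := by
    apply le_antisymm
    · rw [Subgroup.closure_le]
      rintro _ ⟨φ, hφ, r, rfl⟩
      obtain ⟨α, hα, φ₀, hφ₀, hφα⟩ := hfr R hRT φ hφ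
      have h1 : φ₀ r ∈ R := hRsc.2 R le_rfl φ₀ hφ₀ r
      have h2 := hφα r (hRT h1)
      have h3 : (R.subgroupOf T).map (T.subtype.comp α.toMonoidHom) ≤
          sSup {Q : Subgroup Ω | ∃ α ∈ F.autGroup T,
            Q = (R.subgroupOf T).map (T.subtype.comp α.toMonoidHom)} :=
        le_sSup ⟨α, hα, rfl⟩
      apply h3
      rw [h2]
      exact ⟨⟨φ₀ r, hRT h1⟩, Subgroup.mem_subgroupOf.2 h1, rfl⟩
    · apply sSup_le
      rintro Q ⟨α, hα, rfl⟩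
      rintro _ ⟨y, hy, rfl⟩
      apply Subgroup.subset_closure
      have hαF : T.subtype.comp α.toMonoidHom ∈ F.Hom T := (mem_autGroup_iff F hTS α).1 hα
      exact ⟨(T.subtype.comp α.toMonoidHom).comp (Subgroup.inclusion hRT),
        fs_restrict_mem F hαF hRT, ⟨y, Subgroup.mem_subgroupOf.1 hy⟩, rfl⟩
  have hN : E.IsNormal (Subgroup.closure {x : Ω | ∃ φ ∈ F.Hom R, ∃ r : R, x = φ r}) := by
    rw [heq]
    exact hN1
  have hRsT : Subgroup.closure {x : Ω | ∃ φ ∈ F.Hom R, ∃ r : R, x = φ r} ≤ T := hN.1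
  -- invariance under Aut_F(T)
  have hαinv : ∀ α ∈ F.autGroup T, ∀ y ∈ Subgroup.closure {x : Ω | ∃ φ ∈ F.Hom R, ∃ r : R, x = φ r},
      ∀ hyT : y ∈ T, ((α ⟨y, hyT⟩ : T) : Ω) ∈
        Subgroup.closure {x : Ω | ∃ φ ∈ F.Hom R, ∃ r : R, x = φ r} := by
    intro α hα y hy
    have hαF : T.subtype.comp α.toMonoidHom ∈ F.Hom T := (mem_autGroup_iff F hTS α).1 hα
    induction hy using Subgroup.closure_induction with
    | mem y hy =>
      intro hyT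
      obtain ⟨φ, hφ, r, rfl⟩ := hy
      apply Subgroup.subset_closure
      have hφT : ∀ x : R, φ x ∈ T := fun x => hTsc.2 R hRT φ hφ x
      exact ⟨_, F.comp_mem hφ hαF hφT, r, rfl⟩
    | one =>
      intro hyT
      have e : (⟨1, hyT⟩ : T) = 1 := rfl
      rw [e, map_one]
      exact one_mem _
    | mul a b ha hb iha ihb =>
      intro hyT
      have haT := hRsT ha
      have hbT := hRsT hb
      have e : (⟨a * b, hyT⟩ : T) = ⟨a, haT⟩ * ⟨b, hbT⟩ := rfl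
      rw [e, map_mul]
      exact Subgroup.mul_mem _ (iha haT) (ihb hbT)
    | inv a ha iha =>
      intro hyT
      have haT := hRsT ha
      have e : (⟨a⁻¹, hyT⟩ : T) = (⟨a, haT⟩ : T)⁻¹ := rfl
      rw [e, map_inv]
      exact Subgroup.inv_mem _ (iha haT)
  apply fs_normal_of_extend F p hS hF (hRsT.trans hTS)
  intro P hPR φ hφ
  obtain ⟨α, hα, φ₀, hφ₀, hφα⟩ := hfr P (hPR.trans hRsT) φ hφ
  obtain ⟨β₀, hβ₀, hβ₀e⟩ := fs_extend_of_normal E hN P hPR φ₀ hφ₀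
  have hαF : T.subtype.comp α.toMonoidHom ∈ F.Hom T := (mem_autGroup_iff F hTS α).1 hα
  have hβ₀E := (mem_autGroup_iff E hRsT β₀).1 hβ₀
  have hβ₀F : (Subgroup.closure {x : Ω | ∃ φ ∈ F.Hom R, ∃ r : R, x = φ r}).subtype.comp
      β₀.toMonoidHom ∈ F.Hom _ := hsub _ hβ₀E
  have hβT : ∀ x, ((Subgroup.closure {x : Ω | ∃ φ ∈ F.Hom R, ∃ r : R, x = φ r}).subtype.comp
      β₀.toMonoidHom) x ∈ T := fun x => hRsT (β₀ x).2
  have hψ := F.comp_mem hβ₀F hαF hβT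
  have hrange : ((T.subtype.comp α.toMonoidHom).comp
      (((Subgroup.closure {x : Ω | ∃ φ ∈ F.Hom R, ∃ r : R, x = φ r}).subtype.comp
        β₀.toMonoidHom).codRestrict T hβT)).range ≤
      Subgroup.closure {x : Ω | ∃ φ ∈ F.Hom R, ∃ r : R, x = φ r} := by
    rintro _ ⟨x, rfl⟩
    exact hαinv α hα _ (β₀ x).2 (hRsT (β₀ x).2)
  have hr := fs_range_eq_of_le F hψ hrange
  refine ⟨fsEquiv _ (F.injective_of_mem hψ) hr,
    (mem_autGroup_iff F (hRsT.trans hTS) _).2 (fsIso_fsEquiv F hψ hr), ?_⟩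
  intro x
  rw [fsEquiv_apply]
  have h1 := hβ₀e x
  have hφ₀T : φ₀ x ∈ T := (E.le_of_mem hφ₀).2 x
  rw [hφα x hφ₀T]
  show ((α ⟨((β₀ (Subgroup.inclusion hPR x) : _) : Ω), _⟩ : T) : Ω) = _
  congr 2
  exact Subtype.ext h1

end Cfsg.Agent.Lib.Helper8
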