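import Mathlib
import Cfsg.Prelude.Def_Characters
import Cfsg.Prelude.Def_Blocks
import Cfsg.Agent.Lib.Lead.CharMisc
import Cfsg.Agent.Lib.Lead.CharRing
import Cfsg.Agent.Lib.Lead.CharQuot
import Cfsg.Agent.Lib.Lead.CharCount
import Cfsg.Agent.Lib.Lead.CharInd
import Cfsg.Agent.Lib.Lead.CharInd3
import Cfsg.Agent.Lib.Lead.CharNormal
import Cfsg.Agent.Lib.Lead.CharIto
import Cfsg.Agent.Lib.Lead.CharCliffordCorr
import Cfsg.Agent.Lib.Helper8.CharQuotient
import Cfsg.Agent.Lib.Helper8.CharExtraspecial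

set_option autoImplicit false

namespace Cfsg.Agent.Lib.Helper8

open Cfsg.Agent.Lib.Lead

open scoped ComplexConjugate

open scoped commutatorElement

variable {G : Type*} [Group G]

/-- the norm on `N` of a character induced from an extension (to the stabilizer) of an
irreducible character of the normal subgroup `N` -/
theorem ind_ext_norm8 [Fintype G] (N I : Subgroup G) [hN : N.Normal] [Fintype N] [Fintype I]
    (φ : N → ℂ) (hφ : Cfsg.IsIrrCharacter N φ)
    (hT : ∀ g : G, g ∈ I ↔ ∀ n : N, φ ⟨g * n * g⁻¹, hN.conj_mem (n : G) n.2 g⟩ = φ n)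
    (hNI : N ≤ I) (ψ : I → ℂ) (hψ : ∀ n : N, ψ ⟨n, hNI n.2⟩ = φ n) :
    ∑ n : N, Cfsg.indFun I ψ n * conj (Cfsg.indFun I ψ n) =
      (Nat.card N : ℂ) * (I.index : ℂ) := by
  classical
  have hI0 : (Nat.card I : ℂ) ≠ 0 := by exact_mod_cast Nat.card_pos.ne'
  have hN0 : (Nat.card N : ℂ) ≠ 0 := by exact_mod_cast Nat.card_pos.ne'
  have hval : ∀ n : N, Cfsg.indFun I ψ n =
      (Nat.card I : ℂ)⁻¹ * ∑ x : G, φ (conjHom N x n) := by
    intro n
    show (Nat.card I : ℂ)⁻¹ * ∑ x : G, Cfsg.extendByZero I ψ (x⁻¹ * (n : G) * x) = _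
    congr 1
    rw [← Equiv.sum_comp (Equiv.inv G) (fun x => φ (conjHom N x n))]
    apply Finset.sum_congr rfl
    intro x _
    have hmem : x⁻¹ * (n : G) * x ∈ N := by
      have := hN.conj_mem n n.2 x⁻¹
      rwa [inv_inv] at this
    rw [extendByZero_mem I ψ (hNI hmem), hψ ⟨_, hmem⟩]
    congr 1
    apply Subtype.ext
    show x⁻¹ * (n : G) * x = x⁻¹ * n * x⁻¹⁻¹
    rw [inv_inv]
  have hirr : ∀ x : G, Cfsg.IsIrrCharacter N (φ ∘ conjHom N x) :=
    fun x => isIrrCharacter_conjHom N x hφ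
  have heq : ∀ x y : G, (φ ∘ conjHom N x = φ ∘ conjHom N y) ↔ x * y⁻¹ ∈ I := by
    intro x y
    rw [hT]
    constructor
    · intro h n
      have h1 := congrFun h (conjHom N y⁻¹ n)
      simp only [Function.comp_apply] at h1
      rw [conjHom_mul, conjHom_mul, mul_inv_cancel, conjHom_one] at h1
      exact h1
    · intro h
      funext n
      have h1 := h (conjHom N y n)
      show φ (conjHom N x n) = φ (conjHom N y n)
      rw [← h1]
      congr 1
      show conjHom N x n = conjHom N (x * y⁻¹) (conjHom N y n)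
      rw [conjHom_mul]
      congr 1
      group
  have hinner : ∀ x y : G, ∑ n : N, φ (conjHom N x n) * conj (φ (conjHom N y n)) =
      (Nat.card N : ℂ) * (if x * y⁻¹ ∈ I then 1 else 0) := by
    intro x y
    have h1 := classInner_irr (hirr x) (hirr y)
    unfold Cfsg.classInner at h1
    simp only [Function.comp_apply] at h1
    have h2 : (if φ ∘ conjHom N x = φ ∘ conjHom N y then (1 : ℂ) else 0) =
        (if x * y⁻¹ ∈ I then 1 else 0) := by
      by_cases hxy : x * y⁻¹ ∈ I
      · rw [if_pos hxy, if_pos ((heq x y).mpr hxy)]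
      · rw [if_neg hxy, if_neg (fun h => hxy ((heq x y).mp h))]
    rw [← h2, ← h1]
    field_simp
  have hcount : ∀ y : G, ∑ x : G, (if x * y⁻¹ ∈ I then (1 : ℂ) else 0) = (Nat.card I : ℂ) := by
    intro y
    rw [Finset.sum_boole]
    congr 1
    rw [← Fintype.card_subtype, ← Nat.card_eq_fintype_card]
    exact Nat.card_congr ((Equiv.mulRight y⁻¹).subtypeEquiv (fun x => Iff.rfl))
  calc ∑ n : N, Cfsg.indFun I ψ n * conj (Cfsg.indFun I ψ n)
      = ∑ n : N, (Nat.card I : ℂ)⁻¹ * (Nat.card I : ℂ)⁻¹ *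
          ∑ x : G, ∑ y : G, φ (conjHom N x n) * conj (φ (conjHom N y n)) := by
        apply Finset.sum_congr rfl
        intro n _
        rw [hval n, map_mul, map_inv₀, Complex.conj_natCast, map_sum]
        rw [show ((Nat.card I : ℂ)⁻¹ * ∑ x : G, φ (conjHom N x n)) *
            ((Nat.card I : ℂ)⁻¹ * ∑ x : G, conj (φ (conjHom N x n))) =
            (Nat.card I : ℂ)⁻¹ * (Nat.card I : ℂ)⁻¹ * ((∑ x : G, φ (conjHom N x n)) *
              ∑ x : G, conj (φ (conjHom N x n))) by ring, Finset.sum_mul_sum]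
    _ = (Nat.card I : ℂ)⁻¹ * (Nat.card I : ℂ)⁻¹ *
          ∑ x : G, ∑ y : G, ∑ n : N, φ (conjHom N x n) * conj (φ (conjHom N y n)) := by
        rw [← Finset.mul_sum]
        congr 1
        rw [Finset.sum_comm]
        apply Finset.sum_congr rfl
        intro x _
        rw [Finset.sum_comm]
    _ = (Nat.card I : ℂ)⁻¹ * (Nat.card I : ℂ)⁻¹ *
          ∑ y : G, ∑ x : G, (Nat.card N : ℂ) * (if x * y⁻¹ ∈ I then 1 else 0) := by
        congr 1
        rw [Finset.sum_comm]
        apply Finset.sum_congr rfl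
        intro y _
        apply Finset.sum_congr rfl
        intro x _
        exact hinner x y
    _ = (Nat.card I : ℂ)⁻¹ * (Nat.card I : ℂ)⁻¹ *
          ∑ y : G, (Nat.card N : ℂ) * (Nat.card I : ℂ) := by
        congr 1
        apply Finset.sum_congr rfl
        intro y _
        rw [← Finset.mul_sum, hcount y]
    _ = (Nat.card N : ℂ) * (I.index : ℂ) := by
        rw [Finset.sum_const, Finset.card_univ, ← Nat.card_eq_fintype_card, nsmul_eq_mul,
          ← Subgroup.card_mul_index I, Nat.cast_mul]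
        field_simp

theorem minNormal_nonab_le_commutator8 (N : Subgroup G) (hN : N.Normal)
    (hmin : ∀ M : Subgroup G, M.Normal → M ≤ N → M = ⊥ ∨ M = N)
    (hna : ¬ IsMulCommutative N) : N ≤ commutator G := by
  have := hN
  have h1 : (⁅N, N⁆ : Subgroup G).Normal := Subgroup.commutator_normal N N
  have h2 : ⁅N, N⁆ ≤ N := Subgroup.commutator_le_right N N
  rcases hmin _ h1 h2 with h | h
  · exfalso
    apply hna
    refine ⟨⟨fun a b => ?_⟩⟩
    have hm : ⁅(a : G), (b : G)⁆ ∈ ⁅N, N⁆ := Subgroup.commutator_mem_commutator a.2 b.2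
    rw [h, Subgroup.mem_bot] at hm
    exact Subtype.ext (commutatorElement_eq_one_iff_mul_comm.mp hm)
  · rw [commutator_def]
    calc N = ⁅N, N⁆ := h.symm
      _ ≤ ⁅(⊤ : Subgroup G), ⊤⁆ := Subgroup.commutator_mono le_top le_top

theorem linear_twist_count8 [Finite G] (N : Subgroup G) (hN : N.Normal)
    (hmin : ∀ M : Subgroup G, M.Normal → M ≤ N → M = ⊥ ∨ M = N)
    (hna : ¬ IsMulCommutative N) (φ : Cfsg.IrrCharacter N) (I : Subgroup G)
    (hI : ∀ g : G, g ∈ I ↔ ∀ n n' : N, (n' : G) = g * (n : G) * g⁻¹ →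
      (φ : N → ℂ) n' = (φ : N → ℂ) n) (hNI : N ≤ I)
    (hext : ∃ ψ : Cfsg.IrrCharacter I, ∀ n : N,
      (ψ : I → ℂ) (Subgroup.inclusion hNI n) = (φ : N → ℂ) n) :
    Nat.card {χ : Cfsg.IrrCharacter G // Cfsg.charDegree (χ : G → ℂ) = 1} ≤
      I.index * Nat.card {χ : Cfsg.IrrCharacter G //
        Cfsg.charDegree (χ : G → ℂ) = Cfsg.charDegree (φ : N → ℂ) * I.index} := by
  classical
  have := hN
  have : Fintype G := Fintype.ofFinite G
  have : Fintype N := Fintype.ofFinite N
  have : Fintype I := Fintype.ofFinite I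
  have : Fintype (Cfsg.IrrCharacter G) := Fintype.ofFinite _
  have hG0 : (Nat.card G : ℂ) ≠ 0 := by exact_mod_cast Nat.card_pos.ne'
  have hN0 : (Nat.card N : ℂ) ≠ 0 := by exact_mod_cast Nat.card_pos.ne'
  obtain ⟨ψ, hψ⟩ := hext
  have hT : ∀ g : G, g ∈ I ↔
      ∀ n : N, (φ : N → ℂ) ⟨g * n * g⁻¹, hN.conj_mem (n : G) n.2 g⟩ = (φ : N → ℂ) n := by
    intro g
    rw [hI]
    constructor
    · intro h n
      exact h n _ rfl
    · intro h n n' hn'
      have : n' = ⟨g * n * g⁻¹, hN.conj_mem (n : G) n.2 g⟩ := Subtype.ext hn'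
      rw [this]
      exact h n
  have hψ' : ∀ n : N, (ψ : I → ℂ) ⟨n, hNI n.2⟩ = (φ : N → ℂ) n := hψ
  have hne : Cfsg.classInner (fun n : N => (ψ : I → ℂ) ⟨n, hNI n.2⟩) (φ : N → ℂ) ≠ 0 := by
    rw [show (fun n : N => (ψ : I → ℂ) ⟨n, hNI n.2⟩) = (φ : N → ℂ) from funext hψ',
      classInner_irr_self φ.2]
    exact one_ne_zero
  obtain ⟨χ₀, hχ₀⟩ : ∃ χ₀ : G → ℂ, χ₀ = Cfsg.indFun I (ψ : I → ℂ) := ⟨_, rfl⟩
  have hχ₀irr : Cfsg.IsIrrCharacter G χ₀ := by
    rw [hχ₀]
    exact (clifford_corr_inj N I (φ : N → ℂ) φ.2 hT hNI (ψ : I → ℂ) (ψ : I → ℂ) ψ.2 ψ.2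
      hne hne).1
  have hχ₀1 : χ₀ 1 = ((Cfsg.charDegree (φ : N → ℂ) * I.index : ℕ) : ℂ) := by
    rw [hχ₀, indFun_one]
    have h1 := hψ' 1
    have h2 : (⟨((1 : N) : G), hNI (1 : N).2⟩ : I) = 1 := rfl
    rw [h2] at h1
    rw [h1, (irr_charDegree φ).1]
    push_cast
    ring
  have hnorm : ∑ n : N, χ₀ n * conj (χ₀ n) = (Nat.card N : ℂ) * (I.index : ℂ) := by
    rw [hχ₀]
    exact ind_ext_norm8 N I (φ : N → ℂ) φ.2 hT hNI (ψ : I → ℂ) hψ'
  have hNcomm := minNormal_nonab_le_commutator8 N hN hmin hna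
  have hlin1 : ∀ lam : Cfsg.IrrCharacter G, Cfsg.charDegree (lam : G → ℂ) = 1 →
      (lam : G → ℂ) 1 = 1 := by
    intro lam h
    rw [(irr_charDegree lam).1, h, Nat.cast_one]
  have hlinN : ∀ lam : Cfsg.IrrCharacter G, Cfsg.charDegree (lam : G → ℂ) = 1 →
      ∀ n : N, (lam : G → ℂ) n = 1 := fun lam h n =>
    linear_trivial_on_commutator lam (hlin1 lam h) n (hNcomm n.2)
  have hlinnorm : ∀ lam : Cfsg.IrrCharacter G, Cfsg.charDegree (lam : G → ℂ) = 1 →
      ∀ g : G, (lam : G → ℂ) g * conj ((lam : G → ℂ) g) = 1 := by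
    intro lam h g
    have h1 := norm_linear_char lam.2 (hlin1 lam h) g
    rw [Complex.mul_conj, Complex.normSq_eq_norm_sq, h1]
    norm_num
  have hFirr : ∀ lam : Cfsg.IrrCharacter G, Cfsg.charDegree (lam : G → ℂ) = 1 →
      Cfsg.IsIrrCharacter G ((lam : G → ℂ) * χ₀) := by
    intro lam h
    apply isIrrCharacter_of_norm_one (isCharacter_mul (isCharacter_of_isIrrCharacter lam.2)
      (isCharacter_of_isIrrCharacter hχ₀irr))
    have h1 := classInner_irr_self hχ₀irr
    unfold Cfsg.classInner at h1 ⊢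
    rw [← h1]
    congr 1
    apply Finset.sum_congr rfl
    intro g _
    simp only [Pi.mul_apply, map_mul]
    calc (lam : G → ℂ) g * χ₀ g * (conj ((lam : G → ℂ) g) * conj (χ₀ g))
        = ((lam : G → ℂ) g * conj ((lam : G → ℂ) g)) * (χ₀ g * conj (χ₀ g)) := by ring
      _ = χ₀ g * conj (χ₀ g) := by rw [hlinnorm lam h g, one_mul]
  have hFdeg : ∀ lam : Cfsg.IrrCharacter G, Cfsg.charDegree (lam : G → ℂ) = 1 →
      Cfsg.charDegree ((lam : G → ℂ) * χ₀) = Cfsg.charDegree (φ : N → ℂ) * I.index := by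
    intro lam h
    apply charDegree_eq_of
    rw [Pi.mul_apply, hlin1 lam h, one_mul, hχ₀1]
  let F : {χ : Cfsg.IrrCharacter G // Cfsg.charDegree (χ : G → ℂ) = 1} →
      {χ : Cfsg.IrrCharacter G //
        Cfsg.charDegree (χ : G → ℂ) = Cfsg.charDegree (φ : N → ℂ) * I.index} :=
    fun lam => ⟨⟨(lam.1 : G → ℂ) * χ₀, hFirr lam.1 lam.2⟩, hFdeg lam.1 lam.2⟩
  have : Fintype {χ : Cfsg.IrrCharacter G //
      Cfsg.charDegree (χ : G → ℂ) = Cfsg.charDegree (φ : N → ℂ) * I.index} :=
    Fintype.ofFinite _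
  have hfib : ∀ c, Nat.card {a // F a = c} ≤ I.index := by
    intro c
    by_cases hemp : IsEmpty {a // F a = c}
    · have e := @Nat.card_of_isEmpty _ hemp
      rw [e]
      exact Nat.zero_le _
    · obtain ⟨⟨lam₀, hlam₀⟩⟩ := not_isEmpty_iff.mp hemp
      have hc0 : ((c : Cfsg.IrrCharacter G) : G → ℂ) = (lam₀.1 : G → ℂ) * χ₀ := by
        rw [← hlam₀]
      obtain ⟨Θ, hΘ⟩ : ∃ Θ : G → ℂ, Θ = ((c : Cfsg.IrrCharacter G) : G → ℂ) *
        (fun g => conj (χ₀ g)) := ⟨_, rfl⟩
      obtain ⟨Ψ, hΨ⟩ : ∃ Ψ : G → ℂ, Ψ = Cfsg.indFun N (fun _ : N => (1 : ℂ)) := ⟨_, rfl⟩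
      have hΘc : Cfsg.IsCharacter G Θ := by
        rw [hΘ]
        exact isCharacter_mul (isCharacter_of_isIrrCharacter c.1.2)
          (isCharacter_conj (isCharacter_of_isIrrCharacter hχ₀irr))
      have hΨc : Cfsg.IsCharacter G Ψ := by
        rw [hΨ]
        exact isCharacter_indFun N _ (isCharacter_one (G := N))
      obtain ⟨a, ha, ha'⟩ := isCharacter_expansion hΘc
      obtain ⟨b, hb, hb'⟩ := isCharacter_expansion hΨc
      have hcomb := classInner_comb (fun θ : Cfsg.IrrCharacter G => (b θ : ℂ))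
        (fun θ : Cfsg.IrrCharacter G => (a θ : ℂ))
      rw [← hb, ← ha] at hcomb
      have hfrob : ∀ χ : G → ℂ, Cfsg.IsClassFunction G χ →
          Cfsg.classInner Ψ χ = (Nat.card N : ℂ)⁻¹ * ∑ n : N, conj (χ n) := by
        intro χ hχ
        rw [hΨ, frobenius_reciprocity N _ χ hχ]
        unfold Cfsg.classInner
        congr 1
        apply Finset.sum_congr rfl
        intro n _
        rw [one_mul]
      have hval : Cfsg.classInner Ψ Θ = (I.index : ℂ) := by
        rw [hfrob Θ (isClassFunction_of_isCharacter hΘc)]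
        have h1 : ∀ n : N, conj (Θ n) = χ₀ n * conj (χ₀ n) := by
          intro n
          rw [hΘ, hc0]
          simp only [Pi.mul_apply, map_mul, Complex.conj_conj]
          rw [hlinN lam₀.1 lam₀.2 n, map_one, one_mul, mul_comm]
        rw [Finset.sum_congr rfl (fun n _ => h1 n), hnorm]
        field_simp
      have hsum : ∑ θ : Cfsg.IrrCharacter G, b θ * a θ = I.index := by
        have h1 : ((∑ θ : Cfsg.IrrCharacter G, b θ * a θ : ℕ) : ℂ) = (I.index : ℂ) := by
          rw [← hval, hcomb]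
          push_cast
          apply Finset.sum_congr rfl
          intro θ _
          rw [Complex.conj_natCast]
        exact_mod_cast h1
      have : Fintype {a // F a = c} := Fintype.ofFinite _
      let ι : {a // F a = c} → Cfsg.IrrCharacter G := fun x => x.1.1
      have hι : Function.Injective ι := fun x y hxy => Subtype.ext (Subtype.ext hxy)
      have h1 : ∀ x : {a // F a = c}, b (ι x) * a (ι x) = 1 := by
        intro x
        have hxc : ((c : Cfsg.IrrCharacter G) : G → ℂ) = (x.1.1 : G → ℂ) * χ₀ :=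
          (congrArg (fun z : {χ : Cfsg.IrrCharacter G //
            Cfsg.charDegree (χ : G → ℂ) = Cfsg.charDegree (φ : N → ℂ) * I.index} =>
              ((z : Cfsg.IrrCharacter G) : G → ℂ)) x.2).symm
        have ha1 : a (ι x) = 1 := by
          have h2 := ha' (ι x)
          have h3 : Cfsg.classInner Θ ((ι x : Cfsg.IrrCharacter G) : G → ℂ) = 1 := by
            have h4 := classInner_irr_self c.1.2
            unfold Cfsg.classInner at h4 ⊢
            rw [← h4]
            congr 1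
            apply Finset.sum_congr rfl
            intro g _
            rw [hΘ]
            nth_rewrite 3 [hxc]
            simp only [Pi.mul_apply, map_mul]
            ring
          rw [h3] at h2
          exact_mod_cast h2.symm
        have hb1 : b (ι x) = 1 := by
          have h2 := hb' (ι x)
          rw [hfrob _ (isClassFunction_of_irr (ι x).2)] at h2
          have h3 : ∀ n : N, conj (((ι x : Cfsg.IrrCharacter G) : G → ℂ) n) = 1 := by
            intro n
            have := hlinN x.1.1 x.1.2 n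
            show conj ((x.1.1 : G → ℂ) n) = 1
            rw [this, map_one]
          rw [Finset.sum_congr rfl (fun n _ => h3 n), Finset.sum_const, Finset.card_univ,
            ← Nat.card_eq_fintype_card, nsmul_eq_mul, mul_one, inv_mul_cancel₀ hN0] at h2
          exact_mod_cast h2.symm
        rw [ha1, hb1]
      calc Nat.card {a // F a = c} = Fintype.card {a // F a = c} := Nat.card_eq_fintype_card
        _ = ∑ _x : {a // F a = c}, 1 := by simp
        _ = ∑ x : {a // F a = c}, b (ι x) * a (ι x) :=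
            Finset.sum_congr rfl (fun x _ => (h1 x).symm)
        _ = ∑ θ ∈ Finset.univ.image ι, b θ * a θ :=
            (Finset.sum_image (s := Finset.univ) (g := ι) (f := fun θ => b θ * a θ)
              (fun x _ y _ h => hι h)).symm
        _ ≤ ∑ θ : Cfsg.IrrCharacter G, b θ * a θ :=
            Finset.sum_le_sum_of_subset (Finset.subset_univ _)
        _ = I.index := hsum
  rw [Nat.card_congr (Equiv.sigmaFiberEquiv F).symm, Nat.card_sigma]
  calc ∑ c, Nat.card {a // F a = c} ≤ ∑ _c : {χ : Cfsg.IrrCharacter G //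
        Cfsg.charDegree (χ : G → ℂ) = Cfsg.charDegree (φ : N → ℂ) * I.index}, I.index :=
        Finset.sum_le_sum (fun c _ => hfib c)
    _ = I.index * Nat.card {χ : Cfsg.IrrCharacter G //
        Cfsg.charDegree (χ : G → ℂ) = Cfsg.charDegree (φ : N → ℂ) * I.index} := by
        rw [Finset.sum_const, Finset.card_univ, ← Nat.card_eq_fintype_card, smul_eq_mul,
          mul_comm]

end Cfsg.Agent.Lib.Helper8
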