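import Mathlib
import Cfsg.Prelude.Def_Characters
import Cfsg.Prelude.Def_Blocks
import Cfsg.Agent.Lib.Lead.CharMisc
import Cfsg.Agent.Lib.Lead.CharRing
import Cfsg.Agent.Lib.Lead.CharFS
import Cfsg.Agent.Lib.Lead.CharInd
import Cfsg.Agent.Lib.Lead.CharInd3
import Cfsg.Agent.Lib.Lead.CharNormal

set_option autoImplicit false

namespace Cfsg.Agent.Lib.Helper8

open Cfsg.Agent.Lib.Lead

open scoped TensorProduct ComplexConjugate

theorem idempotent_trace_zero8 {W : Type*} [AddCommGroup W] [Module ℂ W]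
    [FiniteDimensional ℂ W] (E : W →ₗ[ℂ] W) (hE : E * E = E)
    (htr : LinearMap.trace ℂ W E = 0) : E = 0 := by
  have h : IsIdempotentElem E := hE
  have h1 := (LinearMap.IsIdempotentElem.isProj_range E h).trace
  rw [htr] at h1
  have h2 : Module.finrank ℂ (LinearMap.range E) = 0 := by exact_mod_cast h1.symm
  have h3 : LinearMap.range E = ⊥ := Submodule.finrank_eq_zero.mp h2
  exact LinearMap.range_eq_bot.mp h3

/-- a twisted Schur relation: if `∑ χ(α n) χ(β n) = 0` for homomorphisms `α β : N → H` and a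
character `χ` of `H`, then `∑ χ(h α(n) β(n)) = 0` for every `h`. -/
theorem twisted_sum_zero8 {H N : Type*} [Group H] [Group N] [Fintype N] {k : ℕ}
    (ρ : Representation ℂ H (Fin k → ℂ)) (α β : N →* H)
    (h0 : ∑ n : N, ρ.character (α n) * ρ.character (β n) = 0) (h : H) :
    ∑ n : N, ρ.character (h * α n * β n) = 0 := by
  classical
  have hN0 : (Nat.card N : ℂ) ≠ 0 := by exact_mod_cast Nat.card_pos.ne'
  let τ : N → Module.End ℂ ((Fin k → ℂ) ⊗[ℂ] (Fin k → ℂ)) :=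
    fun n => TensorProduct.map (ρ (α n)) (ρ (β n))
  have hτmul : ∀ n m, τ n * τ m = τ (n * m) := by
    intro n m
    show TensorProduct.map (ρ (α n)) (ρ (β n)) ∘ₗ TensorProduct.map (ρ (α m)) (ρ (β m))
      = TensorProduct.map (ρ (α (n * m))) (ρ (β (n * m)))
    rw [← TensorProduct.map_comp, map_mul, map_mul, map_mul, map_mul]
    rfl
  let P : Module.End ℂ ((Fin k → ℂ) ⊗[ℂ] (Fin k → ℂ)) := (Nat.card N : ℂ)⁻¹ • ∑ n, τ n
  have hPτ : ∀ m, P * τ m = P := by
    intro m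
    show ((Nat.card N : ℂ)⁻¹ • ∑ n, τ n) * τ m = (Nat.card N : ℂ)⁻¹ • ∑ n, τ n
    rw [smul_mul_assoc, Finset.sum_mul]
    congr 1
    simp only [hτmul]
    exact Fintype.sum_bijective (fun n => n * m) (Group.mulRight_bijective m) _ _ (fun _ => rfl)
  have hPP : P * P = P := by
    have : P * ((Nat.card N : ℂ)⁻¹ • ∑ n, τ n) = P := by
      rw [mul_smul_comm, Finset.mul_sum]
      simp only [hPτ]
      rw [Finset.sum_const, Finset.card_univ, ← Nat.card_eq_fintype_card,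
        ← Nat.cast_smul_eq_nsmul ℂ, smul_smul, inv_mul_cancel₀ hN0, one_smul]
    exact this
  have htr : LinearMap.trace ℂ ((Fin k → ℂ) ⊗[ℂ] (Fin k → ℂ)) P = 0 := by
    show LinearMap.trace ℂ _ ((Nat.card N : ℂ)⁻¹ • ∑ n, τ n) = 0
    rw [map_smul, map_sum]
    have h1 : ∀ n, LinearMap.trace ℂ ((Fin k → ℂ) ⊗[ℂ] (Fin k → ℂ)) (τ n) =
        ρ.character (α n) * ρ.character (β n) := fun n => LinearMap.trace_tensorProduct' _ _
    rw [Finset.sum_congr rfl (fun n _ => h1 n), h0, smul_zero]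
  have hP0 : P = 0 := idempotent_trace_zero8 P hPP htr
  have hsum0 : ∑ n, τ n = 0 := by
    have h1 : (Nat.card N : ℂ) • P = ∑ n, τ n := by
      show (Nat.card N : ℂ) • ((Nat.card N : ℂ)⁻¹ • ∑ n, τ n) = _
      rw [smul_smul, mul_inv_cancel₀ hN0, one_smul]
    rw [← h1, hP0, smul_zero]
  have hterm : ∀ n, ρ.character (h * α n * β n) =
      LinearMap.trace ℂ ((Fin k → ℂ) ⊗[ℂ] (Fin k → ℂ))
        ((TensorProduct.map (ρ h) LinearMap.id * τ n) *
          (TensorProduct.comm ℂ (Fin k → ℂ) (Fin k → ℂ)).toLinearMap) := by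
    intro n
    have e1 : TensorProduct.map (ρ h) LinearMap.id * τ n =
        TensorProduct.map (ρ h ∘ₗ ρ (α n)) (ρ (β n)) := by
      show TensorProduct.map (ρ h) LinearMap.id ∘ₗ TensorProduct.map (ρ (α n)) (ρ (β n)) = _
      rw [← TensorProduct.map_comp, LinearMap.id_comp]
    rw [e1]
    show _ = LinearMap.trace ℂ ((Fin k → ℂ) ⊗[ℂ] (Fin k → ℂ))
      (TensorProduct.map (ρ h ∘ₗ ρ (α n)) (ρ (β n)) ∘ₗ
        (TensorProduct.comm ℂ (Fin k → ℂ) (Fin k → ℂ)).toLinearMap)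
    rw [trace_map_comp_comm]
    have e2 : ρ (h * α n * β n) = (ρ h ∘ₗ ρ (α n)) ∘ₗ ρ (β n) := by
      rw [map_mul ρ, map_mul ρ]
      rfl
    show LinearMap.trace ℂ (Fin k → ℂ) (ρ (h * α n * β n)) = _
    rw [e2]
  rw [Finset.sum_congr rfl (fun n _ => hterm n), ← map_sum, ← Finset.sum_mul, ← Finset.mul_sum,
    hsum0, mul_zero, zero_mul, map_zero]

end Cfsg.Agent.Lib.Helper8
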