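import Mathlib
import Cfsg.Agent.Lib.Helper8.LinearTwist
import Cfsg.Agent.Lib.Helper8.TwistedSum
import Cfsg.Agent.Lib.Helper8.CharPermFS
import Cfsg.Agent.Lib.Lead.CharArtin

set_option autoImplicit false

namespace Cfsg.Agent.Lib.Helper8

open Cfsg.Agent.Lib.Lead

open scoped ComplexConjugate

variable {G : Type*} [Group G]

/-- the Frobenius–Schur sum of a character induced from the stabilizer of a real irreducible
character `φ` of a normal subgroup, for a character `ψ` of the stabilizer extending `φ` -/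
theorem fs_ind8 [Fintype G] (N I : Subgroup G) [hN : N.Normal] [Fintype N] [Fintype I]
    (φ : N → ℂ) (hφ : Cfsg.IsIrrCharacter N φ) (hφreal : ∀ n : N, conj (φ n) = φ n)
    (hT : ∀ g : G, g ∈ I ↔ ∀ n : N, φ ⟨g * n * g⁻¹, hN.conj_mem (n : G) n.2 g⟩ = φ n)
    (hNI : N ≤ I) (ψ : I → ℂ) (hψc : Cfsg.IsCharacter I ψ)
    (hψ : ∀ n : N, ψ ⟨n, hNI n.2⟩ = φ n) :
    (Nat.card G : ℂ)⁻¹ * ∑ g : G, Cfsg.indFun I ψ (g * g) =
      (Nat.card I : ℂ)⁻¹ * ∑ g : I, ψ (g * g) := by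
  classical
  have hG0 : (Nat.card G : ℂ) ≠ 0 := by exact_mod_cast Nat.card_pos.ne'
  have hI0 : (Nat.card I : ℂ) ≠ 0 := by exact_mod_cast Nat.card_pos.ne'
  have hN0 : (Nat.card N : ℂ) ≠ 0 := by exact_mod_cast Nat.card_pos.ne'
  obtain ⟨f, hf⟩ : ∃ f : G → ℂ, f = fun g => Cfsg.extendByZero I ψ (g * g) := ⟨_, rfl⟩
  -- step a
  have ha : ∑ g : G, Cfsg.indFun I ψ (g * g) =
      (Nat.card I : ℂ)⁻¹ * ((Nat.card G : ℂ) * ∑ g : G, f g) := by
    have h1 : ∀ x : G, ∑ g : G, Cfsg.extendByZero I ψ (x⁻¹ * (g * g) * x) = ∑ g : G, f g := by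
      intro x
      rw [← Equiv.sum_comp (MulAut.conj x⁻¹).toEquiv f]
      apply Finset.sum_congr rfl
      intro g _
      rw [hf]
      show _ = Cfsg.extendByZero I ψ ((x⁻¹ * g * x⁻¹⁻¹) * (x⁻¹ * g * x⁻¹⁻¹))
      congr 1
      group
    calc ∑ g : G, Cfsg.indFun I ψ (g * g)
        = ∑ g : G, (Nat.card I : ℂ)⁻¹ * ∑ x : G, Cfsg.extendByZero I ψ (x⁻¹ * (g * g) * x) :=
          rfl
      _ = (Nat.card I : ℂ)⁻¹ * ∑ x : G, ∑ g : G, Cfsg.extendByZero I ψ (x⁻¹ * (g * g) * x) := by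
          rw [← Finset.mul_sum, Finset.sum_comm]
      _ = (Nat.card I : ℂ)⁻¹ * ((Nat.card G : ℂ) * ∑ g : G, f g) := by
          rw [Finset.sum_congr rfl (fun x _ => h1 x), Finset.sum_const, Finset.card_univ,
            ← Nat.card_eq_fintype_card, nsmul_eq_mul]
  -- step c: the part outside `I` vanishes
  have hcoset : ∀ g : G, g ∉ I → ∑ n : N, f (g * n) = 0 := by
    intro g hg
    by_cases hgg : g * g ∈ I
    · obtain ⟨k, ρ, hρ⟩ := hψc
      let α : N →* I := (Subgroup.inclusion hNI).comp (conjHom N g⁻¹)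
      let β : N →* I := Subgroup.inclusion hNI
      have hα : ∀ n : N, ψ (α n) = φ (conjHom N g⁻¹ n) := fun n => hψ (conjHom N g⁻¹ n)
      have hβ : ∀ n : N, ψ (β n) = φ n := fun n => hψ n
      have h0 : ∑ n : N, ρ.character (α n) * ρ.character (β n) = 0 := by
        rw [hρ]
        have h1 := classInner_irr (isIrrCharacter_conjHom N g⁻¹ hφ) hφ
        have hne : φ ∘ conjHom N g⁻¹ ≠ φ := by
          intro heq
          apply hg
          have h2 : g⁻¹ ∈ I := by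
            rw [hT]
            intro n
            exact congrFun heq n
          have := I.inv_mem h2
          rwa [inv_inv] at this
        rw [if_neg hne] at h1
        unfold Cfsg.classInner at h1
        have h3 : ∑ n : N, (φ ∘ conjHom N g⁻¹) n * conj (φ n) = 0 := by
          rcases mul_eq_zero.mp h1 with h4 | h4
          · exact absurd (inv_eq_zero.mp h4) hN0
          · exact h4
        rw [← h3]
        apply Finset.sum_congr rfl
        intro n _
        rw [hα, hβ, hφreal]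
        rfl
      have h5 := twisted_sum_zero8 ρ α β h0 ⟨g * g, hgg⟩
      rw [hρ] at h5
      rw [← h5]
      apply Finset.sum_congr rfl
      intro n _
      have hmem : g * (n : G) * (g * (n : G)) ∈ I := by
        have e : g * (n : G) * (g * (n : G)) = (g * g) * (g⁻¹ * (n : G) * g⁻¹⁻¹) * n := by group
        rw [e]
        exact I.mul_mem (I.mul_mem hgg (α n).2) (hNI n.2)
      rw [hf]
      show Cfsg.extendByZero I ψ (g * (n : G) * (g * (n : G))) = _
      rw [extendByZero_mem I ψ hmem]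
      congr 1
      apply Subtype.ext
      show g * (n : G) * (g * (n : G)) = (g * g) * (g⁻¹ * (n : G) * g⁻¹⁻¹) * n
      group
    · apply Finset.sum_eq_zero
      intro n _
      rw [hf]
      show Cfsg.extendByZero I ψ (g * (n : G) * (g * (n : G))) = 0
      apply extendByZero_not_mem
      intro hmem
      apply hgg
      have e : g * g = (g * (n : G) * (g * (n : G))) * (n : G)⁻¹ * (g⁻¹ * (n : G)⁻¹ * g⁻¹⁻¹) := by
        group
      rw [e]
      have hc : g⁻¹ * (n : G)⁻¹ * g⁻¹⁻¹ ∈ N := hN.conj_mem _ (N.inv_mem n.2) g⁻¹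
      exact I.mul_mem (I.mul_mem hmem (I.inv_mem (hNI n.2))) (hNI hc)
  have hout : ∑ g : G, (if g ∈ I then 0 else f g) = 0 := by
    have h1 : ∑ n : N, ∑ g : G, (if g * (n : G) ∈ I then 0 else f (g * n)) =
        (Nat.card N : ℂ) * ∑ g : G, (if g ∈ I then 0 else f g) := by
      have h2 : ∀ n : N, ∑ g : G, (if g * (n : G) ∈ I then 0 else f (g * n)) =
          ∑ g : G, (if g ∈ I then 0 else f g) := by
        intro n
        exact Equiv.sum_comp (Equiv.mulRight (n : G)) (fun g => if g ∈ I then 0 else f g)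
      rw [Finset.sum_congr rfl (fun n _ => h2 n), Finset.sum_const, Finset.card_univ,
        ← Nat.card_eq_fintype_card, nsmul_eq_mul]
    have h3 : ∑ n : N, ∑ g : G, (if g * (n : G) ∈ I then 0 else f (g * n)) = 0 := by
      rw [Finset.sum_comm]
      apply Finset.sum_eq_zero
      intro g _
      by_cases hg : g ∈ I
      · apply Finset.sum_eq_zero
        intro n _
        rw [if_pos (I.mul_mem hg (hNI n.2))]
      · have h4 : ∀ n : N, (if g * (n : G) ∈ I then 0 else f (g * n)) = f (g * n) := by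
          intro n
          rw [if_neg]
          intro hmem
          apply hg
          have e : g = g * (n : G) * (n : G)⁻¹ := by group
          rw [e]
          exact I.mul_mem hmem (I.inv_mem (hNI n.2))
        rw [Finset.sum_congr rfl (fun n _ => h4 n)]
        exact hcoset g hg
    rw [h3] at h1
    rcases mul_eq_zero.mp h1.symm with h4 | h4
    · exact absurd h4 hN0
    · exact h4
  have hin : ∑ g : G, (if g ∈ I then f g else 0) = ∑ g : I, ψ (g * g) := by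
    rw [← Finset.sum_filter]
    rw [Finset.sum_subtype (Finset.univ.filter (fun g : G => g ∈ I)) (p := fun g : G => g ∈ I)
      (fun x => by simp) f]
    apply Finset.sum_congr rfl
    intro g _
    rw [hf]
    show Cfsg.extendByZero I ψ ((g : G) * (g : G)) = _
    rw [extendByZero_mem I ψ (I.mul_mem g.2 g.2)]
    rfl
  have hsplit : ∑ g : G, f g = ∑ g : I, ψ (g * g) := by
    rw [← hin]
    have h1 : ∀ g : G, f g = (if g ∈ I then f g else 0) + (if g ∈ I then 0 else f g) := by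
      intro g
      by_cases hg : g ∈ I
      · rw [if_pos hg, if_pos hg, add_zero]
      · rw [if_neg hg, if_neg hg, zero_add]
    rw [Finset.sum_congr rfl (fun g _ => h1 g), Finset.sum_add_distrib, hout, add_zero]
  rw [ha, hsplit]
  field_simp

theorem linear_twist_setup8 [Fintype G] (N : Subgroup G) (hN : N.Normal)
    (hmin : ∀ M : Subgroup G, M.Normal → M ≤ N → M = ⊥ ∨ M = N)
    (hna : ¬ IsMulCommutative N) (φ : Cfsg.IrrCharacter N) (I : Subgroup G)
    (hI : ∀ g : G, g ∈ I ↔ ∀ n n' : N, (n' : G) = g * (n : G) * g⁻¹ →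
      (φ : N → ℂ) n' = (φ : N → ℂ) n) (hNI : N ≤ I)
    (ψ : Cfsg.IrrCharacter I)
    (hψ : ∀ n : N, (ψ : I → ℂ) (Subgroup.inclusion hNI n) = (φ : N → ℂ) n) :
    Cfsg.IsIrrCharacter G (Cfsg.indFun I (ψ : I → ℂ)) ∧
    (∀ lam : Cfsg.IrrCharacter G, Cfsg.charDegree (lam : G → ℂ) = 1 →
      Cfsg.IsIrrCharacter G ((lam : G → ℂ) * Cfsg.indFun I (ψ : I → ℂ)) ∧
      Cfsg.charDegree ((lam : G → ℂ) * Cfsg.indFun I (ψ : I → ℂ)) =
        Cfsg.charDegree (φ : N → ℂ) * I.index ∧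
      (∀ g : G, (lam : G → ℂ) g * conj ((lam : G → ℂ) g) = 1) ∧ (lam : G → ℂ) 1 = 1) ∧
    (∀ χ : Cfsg.IrrCharacter G, Nat.card {lam : Cfsg.IrrCharacter G //
      Cfsg.charDegree (lam : G → ℂ) = 1 ∧
        (lam : G → ℂ) * Cfsg.indFun I (ψ : I → ℂ) = (χ : G → ℂ)} ≤ I.index) := by
  classical
  have := hN
  have : Fintype N := Fintype.ofFinite N
  have : Fintype I := Fintype.ofFinite I
  have : Fintype (Cfsg.IrrCharacter G) := Fintype.ofFinite _
  have hG0 : (Nat.card G : ℂ) ≠ 0 := by exact_mod_cast Nat.card_pos.ne'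
  have hN0 : (Nat.card N : ℂ) ≠ 0 := by exact_mod_cast Nat.card_pos.ne'
  have hT : ∀ g : G, g ∈ I ↔
      ∀ n : N, (φ : N → ℂ) ⟨g * n * g⁻¹, hN.conj_mem (n : G) n.2 g⟩ = (φ : N → ℂ) n := by
    intro g
    rw [hI]
    constructor
    · intro h n
      exact h n _ rfl
    · intro h n n' hn'
      have : n' = ⟨g * n * g⁻¹, hN.conj_mem (n : G) n.2 g⟩ := Subtype.ext hn'
      rw [this]
      exact h n
  have hψ' : ∀ n : N, (ψ : I → ℂ) ⟨n, hNI n.2⟩ = (φ : N → ℂ) n := hψ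
  have hne : Cfsg.classInner (fun n : N => (ψ : I → ℂ) ⟨n, hNI n.2⟩) (φ : N → ℂ) ≠ 0 := by
    rw [show (fun n : N => (ψ : I → ℂ) ⟨n, hNI n.2⟩) = (φ : N → ℂ) from funext hψ',
      classInner_irr_self φ.2]
    exact one_ne_zero
  obtain ⟨χ₀, hχ₀⟩ : ∃ χ₀ : G → ℂ, χ₀ = Cfsg.indFun I (ψ : I → ℂ) := ⟨_, rfl⟩
  rw [← hχ₀]
  have hχ₀irr : Cfsg.IsIrrCharacter G χ₀ := by
    rw [hχ₀]
    exact (clifford_corr_inj N I (φ : N → ℂ) φ.2 hT hNI (ψ : I → ℂ) (ψ : I → ℂ) ψ.2 ψ.2
      hne hne).1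
  have hχ₀1 : χ₀ 1 = ((Cfsg.charDegree (φ : N → ℂ) * I.index : ℕ) : ℂ) := by
    rw [hχ₀, indFun_one]
    have h1 := hψ' 1
    have h2 : (⟨((1 : N) : G), hNI (1 : N).2⟩ : I) = 1 := rfl
    rw [h2] at h1
    rw [h1, (irr_charDegree φ).1]
    push_cast
    ring
  have hnorm : ∑ n : N, χ₀ n * conj (χ₀ n) = (Nat.card N : ℂ) * (I.index : ℂ) := by
    rw [hχ₀]
    exact ind_ext_norm8 N I (φ : N → ℂ) φ.2 hT hNI (ψ : I → ℂ) hψ'
  have hNcomm := minNormal_nonab_le_commutator8 N hN hmin hna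
  have hlin1 : ∀ lam : Cfsg.IrrCharacter G, Cfsg.charDegree (lam : G → ℂ) = 1 →
      (lam : G → ℂ) 1 = 1 := by
    intro lam h
    rw [(irr_charDegree lam).1, h, Nat.cast_one]
  have hlinN : ∀ lam : Cfsg.IrrCharacter G, Cfsg.charDegree (lam : G → ℂ) = 1 →
      ∀ n : N, (lam : G → ℂ) n = 1 := fun lam h n =>
    linear_trivial_on_commutator lam (hlin1 lam h) n (hNcomm n.2)
  have hlinnorm : ∀ lam : Cfsg.IrrCharacter G, Cfsg.charDegree (lam : G → ℂ) = 1 →
      ∀ g : G, (lam : G → ℂ) g * conj ((lam : G → ℂ) g) = 1 := by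
    intro lam h g
    have h1 := norm_linear_char lam.2 (hlin1 lam h) g
    rw [Complex.mul_conj, Complex.normSq_eq_norm_sq, h1]
    norm_num
  have hFirr : ∀ lam : Cfsg.IrrCharacter G, Cfsg.charDegree (lam : G → ℂ) = 1 →
      Cfsg.IsIrrCharacter G ((lam : G → ℂ) * χ₀) := by
    intro lam h
    apply isIrrCharacter_of_norm_one (isCharacter_mul (isCharacter_of_isIrrCharacter lam.2)
      (isCharacter_of_isIrrCharacter hχ₀irr))
    have h1 := classInner_irr_self hχ₀irr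
    unfold Cfsg.classInner at h1 ⊢
    rw [← h1]
    congr 1
    apply Finset.sum_congr rfl
    intro g _
    simp only [Pi.mul_apply, map_mul]
    calc (lam : G → ℂ) g * χ₀ g * (conj ((lam : G → ℂ) g) * conj (χ₀ g))
        = ((lam : G → ℂ) g * conj ((lam : G → ℂ) g)) * (χ₀ g * conj (χ₀ g)) := by ring
      _ = χ₀ g * conj (χ₀ g) := by rw [hlinnorm lam h g, one_mul]
  have hFdeg : ∀ lam : Cfsg.IrrCharacter G, Cfsg.charDegree (lam : G → ℂ) = 1 →
      Cfsg.charDegree ((lam : G → ℂ) * χ₀) = Cfsg.charDegree (φ : N → ℂ) * I.index := by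
    intro lam h
    apply charDegree_eq_of
    rw [Pi.mul_apply, hlin1 lam h, one_mul, hχ₀1]
  refine ⟨hχ₀irr, fun lam h => ⟨hFirr lam h, hFdeg lam h, hlinnorm lam h, hlin1 lam h⟩, ?_⟩
  intro c
  by_cases hemp : IsEmpty {lam : Cfsg.IrrCharacter G //
      Cfsg.charDegree (lam : G → ℂ) = 1 ∧ (lam : G → ℂ) * χ₀ = (c : G → ℂ)}
  · have e := @Nat.card_of_isEmpty _ hemp
    rw [e]
    exact Nat.zero_le _
  · obtain ⟨⟨lam₀, hlam₀d, hlam₀⟩⟩ := not_isEmpty_iff.mp hemp
    have hc0 : (c : G → ℂ) = (lam₀ : G → ℂ) * χ₀ := hlam₀.symm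
    obtain ⟨Θ, hΘ⟩ : ∃ Θ : G → ℂ, Θ = (c : G → ℂ) * (fun g => conj (χ₀ g)) := ⟨_, rfl⟩
    obtain ⟨Ψ, hΨ⟩ : ∃ Ψ : G → ℂ, Ψ = Cfsg.indFun N (fun _ : N => (1 : ℂ)) := ⟨_, rfl⟩
    have hΘc : Cfsg.IsCharacter G Θ := by
      rw [hΘ]
      exact isCharacter_mul (isCharacter_of_isIrrCharacter c.2)
        (isCharacter_conj (isCharacter_of_isIrrCharacter hχ₀irr))
    have hΨc : Cfsg.IsCharacter G Ψ := by
      rw [hΨ]
      exact isCharacter_indFun N _ (isCharacter_one (G := N))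
    obtain ⟨a, ha, ha'⟩ := isCharacter_expansion hΘc
    obtain ⟨b, hb, hb'⟩ := isCharacter_expansion hΨc
    have hcomb := classInner_comb (fun θ : Cfsg.IrrCharacter G => (b θ : ℂ))
      (fun θ : Cfsg.IrrCharacter G => (a θ : ℂ))
    rw [← hb, ← ha] at hcomb
    have hfrob : ∀ χ : G → ℂ, Cfsg.IsClassFunction G χ →
        Cfsg.classInner Ψ χ = (Nat.card N : ℂ)⁻¹ * ∑ n : N, conj (χ n) := by
      intro χ hχ
      rw [hΨ, frobenius_reciprocity N _ χ hχ]
      unfold Cfsg.classInner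
      congr 1
      apply Finset.sum_congr rfl
      intro n _
      rw [one_mul]
    have hval : Cfsg.classInner Ψ Θ = (I.index : ℂ) := by
      rw [hfrob Θ (isClassFunction_of_isCharacter hΘc)]
      have h1 : ∀ n : N, conj (Θ n) = χ₀ n * conj (χ₀ n) := by
        intro n
        rw [hΘ, hc0]
        simp only [Pi.mul_apply, map_mul, Complex.conj_conj]
        rw [hlinN lam₀ hlam₀d n, map_one, one_mul, mul_comm]
      rw [Finset.sum_congr rfl (fun n _ => h1 n), hnorm]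
      field_simp
    have hsum : ∑ θ : Cfsg.IrrCharacter G, b θ * a θ = I.index := by
      have h1 : ((∑ θ : Cfsg.IrrCharacter G, b θ * a θ : ℕ) : ℂ) = (I.index : ℂ) := by
        rw [← hval, hcomb]
        push_cast
        apply Finset.sum_congr rfl
        intro θ _
        rw [Complex.conj_natCast]
      exact_mod_cast h1
    have : Fintype {lam : Cfsg.IrrCharacter G //
      Cfsg.charDegree (lam : G → ℂ) = 1 ∧ (lam : G → ℂ) * χ₀ = (c : G → ℂ)} := Fintype.ofFinite _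
    let ι : {lam : Cfsg.IrrCharacter G //
      Cfsg.charDegree (lam : G → ℂ) = 1 ∧ (lam : G → ℂ) * χ₀ = (c : G → ℂ)} →
        Cfsg.IrrCharacter G := fun x => x.1
    have hι : Function.Injective ι := fun x y hxy => Subtype.ext hxy
    have h1 : ∀ x : {lam : Cfsg.IrrCharacter G //
        Cfsg.charDegree (lam : G → ℂ) = 1 ∧ (lam : G → ℂ) * χ₀ = (c : G → ℂ)},
        b (ι x) * a (ι x) = 1 := by
      intro x
      have hxc : (c : G → ℂ) = (x.1 : G → ℂ) * χ₀ := x.2.2.symm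
      have ha1 : a (ι x) = 1 := by
        have h2 := ha' (ι x)
        have h3 : Cfsg.classInner Θ ((ι x : Cfsg.IrrCharacter G) : G → ℂ) = 1 := by
          have h4 := classInner_irr_self c.2
          unfold Cfsg.classInner at h4 ⊢
          rw [← h4]
          congr 1
          apply Finset.sum_congr rfl
          intro g _
          rw [hΘ]
          nth_rewrite 3 [hxc]
          simp only [Pi.mul_apply, map_mul]
          ring
        rw [h3] at h2
        exact_mod_cast h2.symm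
      have hb1 : b (ι x) = 1 := by
        have h2 := hb' (ι x)
        rw [hfrob _ (isClassFunction_of_irr (ι x).2)] at h2
        have h3 : ∀ n : N, conj (((ι x : Cfsg.IrrCharacter G) : G → ℂ) n) = 1 := by
          intro n
          have := hlinN x.1 x.2.1 n
          show conj ((x.1 : G → ℂ) n) = 1
          rw [this, map_one]
        rw [Finset.sum_congr rfl (fun n _ => h3 n), Finset.sum_const, Finset.card_univ,
          ← Nat.card_eq_fintype_card, nsmul_eq_mul, mul_one, inv_mul_cancel₀ hN0] at h2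
        exact_mod_cast h2.symm
      rw [ha1, hb1]
    calc Nat.card {lam : Cfsg.IrrCharacter G //
          Cfsg.charDegree (lam : G → ℂ) = 1 ∧ (lam : G → ℂ) * χ₀ = (c : G → ℂ)}
        = Fintype.card {lam : Cfsg.IrrCharacter G //
          Cfsg.charDegree (lam : G → ℂ) = 1 ∧ (lam : G → ℂ) * χ₀ = (c : G → ℂ)} :=
          Nat.card_eq_fintype_card
      _ = ∑ _x : {lam : Cfsg.IrrCharacter G //
          Cfsg.charDegree (lam : G → ℂ) = 1 ∧ (lam : G → ℂ) * χ₀ = (c : G → ℂ)}, 1 := by simp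
      _ = ∑ x : {lam : Cfsg.IrrCharacter G //
          Cfsg.charDegree (lam : G → ℂ) = 1 ∧ (lam : G → ℂ) * χ₀ = (c : G → ℂ)},
            b (ι x) * a (ι x) := Finset.sum_congr rfl (fun x _ => (h1 x).symm)
      _ = ∑ θ ∈ Finset.univ.image ι, b θ * a θ :=
          (Finset.sum_image (s := Finset.univ) (g := ι) (f := fun θ => b θ * a θ)
            (fun x _ y _ h => hι h)).symm
      _ ≤ ∑ θ : Cfsg.IrrCharacter G, b θ * a θ :=
          Finset.sum_le_sum_of_subset (Finset.subset_univ _)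
      _ = I.index := hsum

theorem linear_twist_count_real8 [Finite G] (N : Subgroup G) (hN : N.Normal)
    (hmin : ∀ M : Subgroup G, M.Normal → M ≤ N → M = ⊥ ∨ M = N)
    (hna : ¬ IsMulCommutative N) (φ : Cfsg.IrrCharacter N) (I : Subgroup G)
    (hI : ∀ g : G, g ∈ I ↔ ∀ n n' : N, (n' : G) = g * (n : G) * g⁻¹ →
      (φ : N → ℂ) n' = (φ : N → ℂ) n) (hNI : N ≤ I)
    (hext : ∃ ψ : Cfsg.IrrCharacter I,
      (Nat.card I : ℂ)⁻¹ * ∑ᶠ g : I, (ψ : I → ℂ) (g * g) = 1 ∧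
        ∀ n : N, (ψ : I → ℂ) (Subgroup.inclusion hNI n) = (φ : N → ℂ) n) :
    Nat.card {χ : Cfsg.IrrCharacter G // Cfsg.charDegree (χ : G → ℂ) = 1 ∧
        (Nat.card G : ℂ)⁻¹ * ∑ᶠ g : G, (χ : G → ℂ) (g * g) = 1} ≤
      I.index * Nat.card {χ : Cfsg.IrrCharacter G //
        Cfsg.charDegree (χ : G → ℂ) = Cfsg.charDegree (φ : N → ℂ) * I.index ∧
          (Nat.card G : ℂ)⁻¹ * ∑ᶠ g : G, (χ : G → ℂ) (g * g) = 1} := by
  classical
  have := hN
  have : Fintype G := Fintype.ofFinite G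
  have : Fintype N := Fintype.ofFinite N
  have : Fintype I := Fintype.ofFinite I
  obtain ⟨ψ, hψfs, hψ⟩ := hext
  rw [finsum_eq_sum_of_fintype] at hψfs
  have hψreal : ∀ g : I, conj ((ψ : I → ℂ) g) = (ψ : I → ℂ) g := by
    obtain ⟨z, hz, -, hzreal⟩ := fs_irr ψ
    apply hzreal
    rw [hψfs] at hz
    exact_mod_cast hz.symm
  have hφreal : ∀ n : N, conj ((φ : N → ℂ) n) = (φ : N → ℂ) n := by
    intro n
    rw [← hψ n]
    exact hψreal _
  have hT : ∀ g : G, g ∈ I ↔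
      ∀ n : N, (φ : N → ℂ) ⟨g * n * g⁻¹, hN.conj_mem (n : G) n.2 g⟩ = (φ : N → ℂ) n := by
    intro g
    rw [hI]
    constructor
    · intro h n
      exact h n _ rfl
    · intro h n n' hn'
      have : n' = ⟨g * n * g⁻¹, hN.conj_mem (n : G) n.2 g⟩ := Subtype.ext hn'
      rw [this]
      exact h n
  have hψ' : ∀ n : N, (ψ : I → ℂ) ⟨n, hNI n.2⟩ = (φ : N → ℂ) n := hψ
  obtain ⟨hχ₀irr, hlin, hfib⟩ := linear_twist_setup8 N hN hmin hna φ I hI hNI ψ hψ
  have hfs₀ : (Nat.card G : ℂ)⁻¹ * ∑ g : G, Cfsg.indFun I (ψ : I → ℂ) (g * g) = 1 := by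
    rw [fs_ind8 N I (φ : N → ℂ) φ.2 hφreal hT hNI (ψ : I → ℂ)
      (isCharacter_of_isIrrCharacter ψ.2) hψ']
    exact hψfs
  have hFfs : ∀ lam : Cfsg.IrrCharacter G, Cfsg.charDegree (lam : G → ℂ) = 1 →
      (Nat.card G : ℂ)⁻¹ * ∑ᶠ g : G, (lam : G → ℂ) (g * g) = 1 →
      (Nat.card G : ℂ)⁻¹ * ∑ᶠ g : G, ((lam : G → ℂ) * Cfsg.indFun I (ψ : I → ℂ)) (g * g) = 1 := by
    intro lam hd hfs
    rw [finsum_eq_sum_of_fintype] at hfs ⊢
    obtain ⟨-, -, hnorm1, hone⟩ := hlin lam hd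
    have hlreal : ∀ g : G, conj ((lam : G → ℂ) g) = (lam : G → ℂ) g := by
      obtain ⟨z, hz, -, hzreal⟩ := fs_irr lam
      apply hzreal
      rw [hfs] at hz
      exact_mod_cast hz.symm
    rw [← hfs₀]
    congr 1
    apply Finset.sum_congr rfl
    intro g _
    rw [Pi.mul_apply, linear_char_mul lam.2 hone g g]
    have h1 := hnorm1 g
    rw [hlreal g] at h1
    rw [h1, one_mul]
  let F : {χ : Cfsg.IrrCharacter G // Cfsg.charDegree (χ : G → ℂ) = 1 ∧
        (Nat.card G : ℂ)⁻¹ * ∑ᶠ g : G, (χ : G → ℂ) (g * g) = 1} →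
      {χ : Cfsg.IrrCharacter G //
        Cfsg.charDegree (χ : G → ℂ) = Cfsg.charDegree (φ : N → ℂ) * I.index ∧
          (Nat.card G : ℂ)⁻¹ * ∑ᶠ g : G, (χ : G → ℂ) (g * g) = 1} :=
    fun lam => ⟨⟨(lam.1 : G → ℂ) * Cfsg.indFun I (ψ : I → ℂ), (hlin lam.1 lam.2.1).1⟩,
      (hlin lam.1 lam.2.1).2.1, hFfs lam.1 lam.2.1 lam.2.2⟩
  have : Fintype {χ : Cfsg.IrrCharacter G //
      Cfsg.charDegree (χ : G → ℂ) = Cfsg.charDegree (φ : N → ℂ) * I.index ∧
        (Nat.card G : ℂ)⁻¹ * ∑ᶠ g : G, (χ : G → ℂ) (g * g) = 1} := Fintype.ofFinite _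
  have hfib' : ∀ c, Nat.card {a // F a = c} ≤ I.index := by
    intro c
    refine le_trans ?_ (hfib c.1)
    apply Nat.card_le_card_of_injective
      (fun a : {a // F a = c} => (⟨a.1.1, a.1.2.1,
        congrArg (fun z : {χ : Cfsg.IrrCharacter G //
          Cfsg.charDegree (χ : G → ℂ) = Cfsg.charDegree (φ : N → ℂ) * I.index ∧
            (Nat.card G : ℂ)⁻¹ * ∑ᶠ g : G, (χ : G → ℂ) (g * g) = 1} =>
              ((z : Cfsg.IrrCharacter G) : G → ℂ)) a.2⟩ :
        {lam : Cfsg.IrrCharacter G // Cfsg.charDegree (lam : G → ℂ) = 1 ∧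
          (lam : G → ℂ) * Cfsg.indFun I (ψ : I → ℂ) = ((c : Cfsg.IrrCharacter G) : G → ℂ)}))
    intro x y hxy
    dsimp only at hxy
    have h1 : x.1.1 = y.1.1 := Subtype.mk.inj hxy
    exact Subtype.ext (Subtype.ext h1)
  rw [Nat.card_congr (Equiv.sigmaFiberEquiv F).symm, Nat.card_sigma]
  calc ∑ c, Nat.card {a // F a = c} ≤ ∑ _c : {χ : Cfsg.IrrCharacter G //
        Cfsg.charDegree (χ : G → ℂ) = Cfsg.charDegree (φ : N → ℂ) * I.index ∧
          (Nat.card G : ℂ)⁻¹ * ∑ᶠ g : G, (χ : G → ℂ) (g * g) = 1}, I.index :=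
        Finset.sum_le_sum (fun c _ => hfib' c)
    _ = I.index * Nat.card {χ : Cfsg.IrrCharacter G //
        Cfsg.charDegree (χ : G → ℂ) = Cfsg.charDegree (φ : N → ℂ) * I.index ∧
          (Nat.card G : ℂ)⁻¹ * ∑ᶠ g : G, (χ : G → ℂ) (g * g) = 1} := by
        rw [Finset.sum_const, Finset.card_univ, ← Nat.card_eq_fintype_card, smul_eq_mul,
          mul_comm]

end Cfsg.Agent.Lib.Helper8
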