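import Mathlib
import Cfsg.Prelude.Def_RootSubgroups
import Cfsg.Agent.Lib.Helper8.GroupFusion
import Cfsg.Agent.Lib.Helper8.GroupFusion2
import Cfsg.Agent.Lib.Helper8.Thompson

set_option autoImplicit false

namespace Cfsg.Agent.Lib.Helper8

open Cfsg

variable {G : Type*} [Group G]

theorem conjSub_eq_of_mem_normalizer {K : Subgroup G} {n : G}
    (h : n ∈ Subgroup.normalizer (K : Set G)) : conjSub n K = K := by
  ext y
  rw [mem_conjSub]
  have h1 := (Subgroup.mem_normalizer_iff.1 h) (n⁻¹ * y * n)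
  have e : n * (n⁻¹ * y * n) * n⁻¹ = y := by group
  rw [e] at h1
  exact h1

theorem conjSub_eq_of_mem {K : Subgroup G} {n : G} (h : n ∈ K) : conjSub n K = K :=
  conjSub_eq_of_mem_normalizer (Subgroup.le_normalizer h)

theorem conjSub_eq_iff_mem_normalizer {K : Subgroup G} {n : G} :
    conjSub n K = K ↔ n ∈ Subgroup.normalizer (K : Set G) :=
  ⟨mem_normalizer_of_conjSub_eq, conjSub_eq_of_mem_normalizer⟩

/-- `N_A(B) = 1` in a rank one pair -/
theorem rankOne_inf_normalizer {A B : Subgroup G} (h : IsRankOnePair A B) :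
    A ⊓ Subgroup.normalizer (B : Set G) = ⊥ := by
  rw [eq_bot_iff]
  intro a ha
  rw [Subgroup.mem_bot]
  by_contra ha1
  obtain ⟨haA, haN⟩ := Subgroup.mem_inf.1 ha
  obtain ⟨b, hb, -, hconj⟩ := h.cond_left a haA ha1
  have h1 : conjSub a⁻¹ B = B :=
    conjSub_eq_of_mem_normalizer (Subgroup.inv_mem _ haN)
  have h2 : conjSub b⁻¹ A = B := hconj.trans h1
  have h3 := congrArg (conjSub b) h2
  have e : conjSub b (conjSub b⁻¹ A) = A := by
    have := conjSub_inv_conjSub b⁻¹ A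
    rwa [inv_inv] at this
  rw [e, conjSub_eq_of_mem hb] at h3
  exact h.ne h3

theorem rankOne_unique_left {A B : Subgroup G} (h : IsRankOnePair A B) {a : G} {b b' : G}
    (hb : b ∈ B) (hb' : b' ∈ B) (h1 : conjBy A b⁻¹ = conjBy B a⁻¹)
    (h2 : conjBy A b'⁻¹ = conjBy B a⁻¹) : b' = b := by
  have h3 : conjSub b'⁻¹ A = conjSub b⁻¹ A := h2.trans h1.symm
  have h4 := congrArg (conjSub b) h3
  have e : conjSub b (conjSub b⁻¹ A) = A := by
    have := conjSub_inv_conjSub b⁻¹ A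
    rwa [inv_inv] at this
  rw [e, conjSub_mul] at h4
  have h5 : b * b'⁻¹ ∈ B ⊓ Subgroup.normalizer (A : Set G) :=
    Subgroup.mem_inf.2 ⟨Subgroup.mul_mem _ hb (Subgroup.inv_mem _ hb'),
      mem_normalizer_of_conjSub_eq h4⟩
  rw [rankOne_inf_normalizer (RankOnePair_symm h), Subgroup.mem_bot] at h5
  have : b = b' := by
    have h6 := mul_inv_eq_one.1 h5
    exact h6
  exact this.symm

theorem rankOne_unique_right {A B : Subgroup G} (h : IsRankOnePair A B) {b : G} {a a' : G}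
    (ha : a ∈ A) (ha' : a' ∈ A) (h1 : conjBy A b⁻¹ = conjBy B a⁻¹)
    (h2 : conjBy A b⁻¹ = conjBy B a'⁻¹) : a' = a :=
  rankOne_unique_left (RankOnePair_symm h) ha ha' h1.symm h2.symm

theorem rankOne_basic {A B : Subgroup G} (h : IsRankOnePair A B) :
    (∀ a ∈ A, a ≠ 1 → ∃! b : G, b ∈ B ∧ b ≠ 1 ∧ conjBy A b⁻¹ = conjBy B a⁻¹) ∧
    (∀ b ∈ B, b ≠ 1 → ∃! a : G, a ∈ A ∧ a ≠ 1 ∧ conjBy A b⁻¹ = conjBy B a⁻¹) ∧
    A ⊓ Subgroup.normalizer (B : Set G) = ⊥ ∧ B ⊓ Subgroup.normalizer (A : Set G) = ⊥ := by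
  refine ⟨?_, ?_, rankOne_inf_normalizer h, rankOne_inf_normalizer (RankOnePair_symm h)⟩
  · intro a ha ha1
    obtain ⟨b, hb, hb1, hconj⟩ := h.cond_left a ha ha1
    refine ⟨b, ⟨hb, hb1, hconj⟩, ?_⟩
    rintro b' ⟨hb', -, hconj'⟩
    exact rankOne_unique_left h hb hb' hconj hconj'
  · intro b hb hb1
    obtain ⟨a, ha, ha1, hconj⟩ := h.cond_right b hb hb1
    refine ⟨a, ⟨ha, ha1, hconj.symm⟩, ?_⟩
    rintro a' ⟨ha', -, hconj'⟩
    exact rankOne_unique_right h ha ha' hconj.symm hconj'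

end Cfsg.Agent.Lib.Helper8
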