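import Mathlib
import Cfsg.Prelude.Def_RootSubgroups
import Cfsg.Agent.Lib.Helper8.GroupFusion
import Cfsg.Agent.Lib.Helper8.GroupFusion2
import Cfsg.Agent.Lib.Helper8.Thompson
import Cfsg.Agent.Lib.Helper8.RankOne

set_option autoImplicit false

namespace Cfsg.Agent.Lib.Helper8

open Cfsg

variable {G : Type*} [Group G]

theorem conjSub_conjSub_inv' (g : G) (K : Subgroup G) : conjSub g (conjSub g⁻¹ K) = K :=
  conjSub_conjSub_inv g K

theorem conjSub_injective (g : G) {K L : Subgroup G} (h : conjSub g K = conjSub g L) : K = L := by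
  have h1 := congrArg (conjSub g⁻¹) h
  rwa [conjSub_inv_conjSub, conjSub_inv_conjSub] at h1

/-- induction on `A ⊔ B` for a multiplicative predicate -/
theorem sup_mul_induction {A B : Subgroup G} {p : G → Prop} (hA : ∀ a ∈ A, p a) (hB : ∀ b ∈ B, p b)
    (h1 : p 1) (hmul : ∀ x y, p x → p y → p (x * y)) : ∀ x ∈ A ⊔ B, p x := by
  intro x hx
  rw [Subgroup.sup_eq_closure] at hx
  have hx' : x ∈ (Subgroup.closure ((A : Set G) ∪ (B : Set G))).toSubmonoid := hx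
  rw [Subgroup.closure_toSubmonoid] at hx'
  clear hx
  induction hx' using Submonoid.closure_induction with
  | mem y hy =>
    rcases hy with (hy | hy) | hy
    · exact hA y hy
    · exact hB y hy
    · rcases hy with hy | hy
      · have : y = (y⁻¹)⁻¹ := (inv_inv y).symm
        rw [this]
        exact hA _ (Subgroup.inv_mem _ hy)
      · have : y = (y⁻¹)⁻¹ := (inv_inv y).symm
        rw [this]
        exact hB _ (Subgroup.inv_mem _ hy)
  | one => exact h1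
  | mul x y _ _ hx hy => exact hmul x y hx hy

theorem rankOne_exists_ne_one {A B : Subgroup G} (h : IsRankOnePair A B) : ∃ a ∈ A, a ≠ 1 := by
  by_contra hcon
  have hcon' : ∀ a ∈ A, a = 1 := by
    intro a ha
    by_contra ha1
    exact hcon ⟨a, ha, ha1⟩
  have hA : A = ⊥ := (Subgroup.eq_bot_iff_forall A).2 hcon'
  have hB : B ≠ ⊥ := fun hB => h.ne (hA.trans hB.symm)
  obtain ⟨b, hb1⟩ := (Subgroup.ne_bot_iff_exists_ne_one).1 hB
  have hb' : (b : G) ≠ 1 := fun hh => hb1 (Subtype.ext hh)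
  obtain ⟨a, ha, ha1, -⟩ := h.cond_right b.1 b.2 hb'
  exact ha1 (hcon' a ha)

theorem rankOne_conj_B_mem_orbit {A B : Subgroup G} (h : IsRankOnePair A B) :
    ∃ x ∈ A ⊔ B, B = conjSub x A := by
  obtain ⟨a₀, ha₀, ha₀1⟩ := rankOne_exists_ne_one h
  obtain ⟨b₀, hb₀, -, hconj⟩ := h.cond_left a₀ ha₀ ha₀1
  refine ⟨a₀ * b₀⁻¹, Subgroup.mul_mem _ (Subgroup.mem_sup_left ha₀)
    (Subgroup.inv_mem _ (Subgroup.mem_sup_right hb₀)), ?_⟩
  have h1 := congrArg (conjSub a₀) hconj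
  have e : conjSub a₀ (conjSub a₀⁻¹ B) = B := conjSub_conjSub_inv a₀ B
  rw [e, conjSub_mul] at h1
  exact h1.symm

/-- the orbit of `A` under `⟨A, B⟩` is `{A} ∪ B^A` -/
theorem rankOne_orbit {A B : Subgroup G} (h : IsRankOnePair A B) (C : Subgroup G) :
    C ∈ unipotentSubgroups A B ↔ (C = A ∨ ∃ a ∈ A, C = conjSub a B) := by
  constructor
  · rintro ⟨x, hx, rfl⟩
    have key : ∀ x ∈ A ⊔ B, ∀ C : Subgroup G, (C = A ∨ ∃ a ∈ A, C = conjSub a B) →
        (conjSub x C = A ∨ ∃ a ∈ A, conjSub x C = conjSub a B) := by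
      have hBA : ∀ b ∈ B, conjSub b A = A ∨ ∃ a ∈ A, conjSub b A = conjSub a B := by
        intro b hb
        by_cases hb1 : b = 1
        · left
          rw [hb1, conjSub_one]
        · right
          have hb1' : b⁻¹ ≠ 1 := fun hh => hb1 (inv_eq_one.1 hh)
          obtain ⟨a, ha, -, hconj⟩ := h.cond_right b⁻¹ (Subgroup.inv_mem _ hb) hb1'
          rw [inv_inv] at hconj
          exact ⟨a⁻¹, Subgroup.inv_mem _ ha, hconj.symm⟩
      apply sup_mul_induction (p := fun x => ∀ C : Subgroup G,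
        (C = A ∨ ∃ a ∈ A, C = conjSub a B) → (conjSub x C = A ∨ ∃ a ∈ A, conjSub x C = conjSub a B))
      · intro a' ha' C hC
        rcases hC with rfl | ⟨a, ha, rfl⟩
        · left
          exact conjSub_eq_of_mem ha'
        · right
          exact ⟨a' * a, Subgroup.mul_mem _ ha' ha, conjSub_mul a' a B⟩
      · intro b hb C hC
        rcases hC with rfl | ⟨a, ha, rfl⟩
        · exact hBA b hb
        · by_cases ha1 : a = 1
          · right
            refine ⟨1, Subgroup.one_mem _, ?_⟩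
            rw [ha1, conjSub_one]
            exact conjSub_eq_of_mem hb
          · have ha1' : a⁻¹ ≠ 1 := fun hh => ha1 (inv_eq_one.1 hh)
            obtain ⟨b₁, hb₁, -, hconj⟩ := h.cond_left a⁻¹ (Subgroup.inv_mem _ ha) ha1'
            rw [inv_inv] at hconj
            have hconj' : conjSub b₁⁻¹ A = conjSub a B := hconj
            rw [← hconj', conjSub_mul]
            exact hBA _ (Subgroup.mul_mem _ hb (Subgroup.inv_mem _ hb₁))
      · intro C hC
        rw [conjSub_one]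
        exact hC
      · intro x y hx hy C hC
        rw [← conjSub_mul]
        exact hx _ (hy C hC)
    exact key x hx A (Or.inl rfl)
  · rintro (rfl | ⟨a, ha, rfl⟩)
    · exact ⟨1, Subgroup.one_mem _, (conjSub_one _).symm⟩
    · obtain ⟨x, hx, hB⟩ := rankOne_conj_B_mem_orbit h
      refine ⟨a * x, Subgroup.mul_mem _ (Subgroup.mem_sup_left ha) hx, ?_⟩
      show conjSub a B = conjSub (a * x) A
      rw [hB, conjSub_mul]

theorem rankOne_conj_B_ne_A {A B : Subgroup G} (h : IsRankOnePair A B) {a : G} (ha : a ∈ A) :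
    conjSub a B ≠ A := by
  intro hh
  have h1 := congrArg (conjSub a⁻¹) hh
  rw [conjSub_inv_conjSub, conjSub_eq_of_mem (Subgroup.inv_mem _ ha)] at h1
  exact h.ne h1.symm

theorem rankOne_conj_B_inj {A B : Subgroup G} (h : IsRankOnePair A B) {a a' : G} (ha : a ∈ A)
    (ha' : a' ∈ A) (hh : conjSub a B = conjSub a' B) : a = a' := by
  have h1 := congrArg (conjSub a'⁻¹) hh
  rw [conjSub_inv_conjSub, conjSub_mul] at h1
  have h2 : a'⁻¹ * a ∈ A ⊓ Subgroup.normalizer (B : Set G) :=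
    Subgroup.mem_inf.2 ⟨Subgroup.mul_mem _ (Subgroup.inv_mem _ ha') ha,
      mem_normalizer_of_conjSub_eq h1⟩
  rw [rankOne_inf_normalizer h, Subgroup.mem_bot] at h2
  exact (inv_mul_eq_one.1 h2).symm

theorem rankOne_regular {A B : Subgroup G} (h : IsRankOnePair A B) :
    ∀ C ∈ unipotentSubgroups A B, ∀ D ∈ unipotentSubgroups A B, C ≠ A → D ≠ A →
      ∃! a : G, a ∈ A ∧ conjBy C a = D := by
  intro C hC D hD hCA hDA
  rcases (rankOne_orbit h C).1 hC with rfl | ⟨a₁, ha₁, rfl⟩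
  · exact absurd rfl hCA
  rcases (rankOne_orbit h D).1 hD with rfl | ⟨a₂, ha₂, rfl⟩
  · exact absurd rfl hDA
  refine ⟨a₂ * a₁⁻¹, ⟨Subgroup.mul_mem _ ha₂ (Subgroup.inv_mem _ ha₁), ?_⟩, ?_⟩
  · show conjSub (a₂ * a₁⁻¹) (conjSub a₁ B) = conjSub a₂ B
    rw [conjSub_mul]
    congr 1
    group
  · rintro a ⟨ha, hconj⟩
    have hconj' : conjSub a (conjSub a₁ B) = conjSub a₂ B := hconj
    rw [conjSub_mul] at hconj'
    have := rankOne_conj_B_inj h (Subgroup.mul_mem _ ha ha₁) ha₂ hconj'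
    rw [← this]
    group

theorem rankOne_orbit_conj {A B : Subgroup G} {C : Subgroup G} (hC : C ∈ unipotentSubgroups A B)
    {x : G} (hx : x ∈ A ⊔ B) : conjSub x C ∈ unipotentSubgroups A B := by
  obtain ⟨z, hz, rfl⟩ := hC
  exact ⟨x * z, Subgroup.mul_mem _ hx hz, conjSub_mul x z A⟩

theorem rankOne_two_transitive {A B : Subgroup G} (h : IsRankOnePair A B) :
    ∀ C₁ ∈ unipotentSubgroups A B, ∀ C₂ ∈ unipotentSubgroups A B, ∀ D₁ ∈ unipotentSubgroups A B,
      ∀ D₂ ∈ unipotentSubgroups A B, C₁ ≠ C₂ → D₁ ≠ D₂ →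
        ∃ x ∈ A ⊔ B, conjBy C₁ x = D₁ ∧ conjBy C₂ x = D₂ := by
  intro C₁ hC₁ C₂ hC₂ D₁ hD₁ D₂ hD₂ hC hD
  obtain ⟨x₁, hx₁, rfl⟩ := hC₁
  obtain ⟨y₁, hy₁, rfl⟩ := hD₁
  have hC₂' : conjSub x₁⁻¹ C₂ ≠ A := by
    intro hh
    have h1 := congrArg (conjSub x₁) hh
    rw [conjSub_conjSub_inv] at h1
    exact hC h1.symm
  have hD₂' : conjSub y₁⁻¹ D₂ ≠ A := by
    intro hh
    have h1 := congrArg (conjSub y₁) hh
    rw [conjSub_conjSub_inv] at h1
    exact hD h1.symm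
  obtain ⟨a, ⟨ha, hconj⟩, -⟩ := rankOne_regular h _
    (rankOne_orbit_conj hC₂ (Subgroup.inv_mem _ hx₁)) _
    (rankOne_orbit_conj hD₂ (Subgroup.inv_mem _ hy₁)) hC₂' hD₂'
  have hconj' : conjSub a (conjSub x₁⁻¹ C₂) = conjSub y₁⁻¹ D₂ := hconj
  refine ⟨y₁ * a * x₁⁻¹, Subgroup.mul_mem _ (Subgroup.mul_mem _ hy₁ (Subgroup.mem_sup_left ha))
    (Subgroup.inv_mem _ hx₁), ?_, ?_⟩
  · show conjSub (y₁ * a * x₁⁻¹) (conjSub x₁ A) = conjSub y₁ A
    rw [conjSub_mul]
    have e : y₁ * a * x₁⁻¹ * x₁ = y₁ * a := by group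
    rw [e, ← conjSub_mul, conjSub_eq_of_mem ha]
  · show conjSub (y₁ * a * x₁⁻¹) C₂ = D₂
    have e : y₁ * a * x₁⁻¹ = y₁ * (a * x₁⁻¹) := by group
    rw [e, ← conjSub_mul, ← conjSub_mul, hconj', conjSub_conjSub_inv]

theorem rankOne_three {A B : Subgroup G} (h : IsRankOnePair A B) :
    ∃ C₁ ∈ unipotentSubgroups A B, ∃ C₂ ∈ unipotentSubgroups A B, ∃ C₃ ∈ unipotentSubgroups A B,
      C₁ ≠ C₂ ∧ C₁ ≠ C₃ ∧ C₂ ≠ C₃ := by
  obtain ⟨a₀, ha₀, ha₀1⟩ := rankOne_exists_ne_one h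
  refine ⟨A, (rankOne_orbit h A).2 (Or.inl rfl), B,
    (rankOne_orbit h B).2 (Or.inr ⟨1, Subgroup.one_mem _, (conjSub_one B).symm⟩),
    conjSub a₀ B, (rankOne_orbit h _).2 (Or.inr ⟨a₀, ha₀, rfl⟩), h.ne, ?_, ?_⟩
  · exact fun hh => rankOne_conj_B_ne_A h ha₀ hh.symm
  · intro hh
    have h1 : conjSub 1 B = conjSub a₀ B := by rw [conjSub_one]; exact hh
    exact ha₀1 (rankOne_conj_B_inj h (Subgroup.one_mem _) ha₀ h1).symm

end Cfsg.Agent.Lib.Helper8
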