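import Mathlib
import Cfsg.Agent.Lib.Helper8.RankOne2

set_option autoImplicit false

namespace Cfsg.Agent.Lib.Helper8

open scoped commutatorElement

variable {P : Type*} [Group P]

/-- commutators of `E ⊔ P'` lie in `γ₃(P)` when `E` is abelian -/
theorem abelian_sup_commutator_comm {E : Subgroup P} (hE : IsMulCommutative ↥E) :
    ⁅E ⊔ commutator P, E ⊔ commutator P⁆ ≤ (⊤ : Subgroup P).lowerCentralSeries 2 := by
  set K := (⊤ : Subgroup P).lowerCentralSeries 2 with hK
  have hcomm : ∀ x y : P, ⁅x, y⁆ ∈ K ↔
      Commute (QuotientGroup.mk' K x) (QuotientGroup.mk' K y) := by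
    intro x y
    rw [← commutatorElement_eq_one_iff_commute, ← map_commutatorElement]
    exact (QuotientGroup.eq_one_iff _).symm
  have h1 : ∀ d ∈ commutator P, ∀ g : P,
      Commute (QuotientGroup.mk' K d) (QuotientGroup.mk' K g) := by
    intro d hd g
    rw [← hcomm]
    have h2 : ⁅d, g⁆ ∈ ⁅(⊤ : Subgroup P).lowerCentralSeries 1, (⊤ : Subgroup P)⁆ := by
      rw [Subgroup.top_lowerCentralSeries_one]
      exact Subgroup.commutator_mem_commutator hd (Subgroup.mem_top g)
    exact h2
  have h2 : ∀ e ∈ E, ∀ y ∈ E ⊔ commutator P,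
      Commute (QuotientGroup.mk' K e) (QuotientGroup.mk' K y) := by
    intro e he
    apply sup_mul_induction
    · intro e' he'
      have h3 := hE.is_comm.comm (⟨e, he⟩ : E) ⟨e', he'⟩
      have h4 : e * e' = e' * e := congrArg Subtype.val h3
      show QuotientGroup.mk' K e * QuotientGroup.mk' K e' = QuotientGroup.mk' K e' * QuotientGroup.mk' K e
      rw [← map_mul, ← map_mul, h4]
    · intro d hd
      exact (h1 d hd e).symm
    · rw [map_one]
      exact Commute.one_right _
    · intro x y hx hy
      rw [map_mul]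
      exact hx.mul_right hy
  have h3 : ∀ y ∈ E ⊔ commutator P, ∀ x ∈ E ⊔ commutator P,
      Commute (QuotientGroup.mk' K x) (QuotientGroup.mk' K y) := by
    intro y hy
    apply sup_mul_induction
    · intro e he
      exact h2 e he y hy
    · intro d hd
      exact h1 d hd y
    · rw [map_one]
      exact Commute.one_left _
    · intro x z hx hz
      rw [map_mul]
      exact hx.mul_left hz
  rw [Subgroup.commutator_le]
  intro x hx y hy
  rw [hcomm]
  exact h3 y hy x hx

theorem sup_commutator_normal (E : Subgroup P) : (E ⊔ commutator P).Normal := by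
  constructor
  intro m hm g
  have e : g * m * g⁻¹ = ⁅g, m⁆ * m := by
    rw [commutatorElement_def]; group
  rw [e]
  refine Subgroup.mul_mem _ (Subgroup.mem_sup_right ?_) hm
  rw [commutator_def]
  exact Subgroup.commutator_mem_commutator (Subgroup.mem_top g) (Subgroup.mem_top m)

theorem normalClosure_le_sup_commutator (E : Subgroup P) :
    Subgroup.normalClosure (E : Set P) ≤ E ⊔ commutator P := by
  have := sup_commutator_normal E
  apply Subgroup.normalClosure_le_normal
  intro x hx
  exact Subgroup.mem_sup_left hx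

theorem lcs_normalClosure_le {E : Subgroup P} (hE : IsMulCommutative ↥E) (n : ℕ) :
    (Subgroup.normalClosure (E : Set P)).lowerCentralSeries (n + 1) ≤
      (⊤ : Subgroup P).lowerCentralSeries (n + 2) := by
  induction n with
  | zero =>
    rw [Subgroup.lowerCentralSeries_succ, Subgroup.lowerCentralSeries_zero]
    exact (Subgroup.commutator_mono (normalClosure_le_sup_commutator E)
      (normalClosure_le_sup_commutator E)).trans (abelian_sup_commutator_comm hE)
  | succ n ih =>
    rw [Subgroup.lowerCentralSeries_succ, Subgroup.lowerCentralSeries_succ _ (n + 2)]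
    exact Subgroup.commutator_mono ih le_top

/-- S5067 (one side) -/
theorem nilpotencyClass_normalClosure_lt [Group.IsNilpotent P] (hna : ¬ IsMulCommutative P)
    {E : Subgroup P} (hE : IsMulCommutative ↥E) :
    Group.nilpotencyClass ↥(Subgroup.normalClosure (E : Set P)) < Group.nilpotencyClass P := by
  have hc : 2 ≤ Group.nilpotencyClass P := by
    by_contra hlt
    have hle : Group.nilpotencyClass P ≤ 1 := by omega
    have h1 : (⊤ : Subgroup P).lowerCentralSeries 1 = ⊥ :=
      Subgroup.lowerCentralSeries_eq_bot_iff_nilpotencyClass_le.2 hle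
    rw [Subgroup.top_lowerCentralSeries_one, commutator_def] at h1
    apply hna
    refine ⟨⟨fun a b => ?_⟩⟩
    have h2 : ⁅a, b⁆ ∈ ⁅(⊤ : Subgroup P), ⊤⁆ :=
      Subgroup.commutator_mem_commutator (Subgroup.mem_top a) (Subgroup.mem_top b)
    rw [h1, Subgroup.mem_bot] at h2
    exact commutatorElement_eq_one_iff_mul_comm.1 h2
  obtain ⟨c, hc'⟩ : ∃ c, Group.nilpotencyClass P = c + 2 := ⟨Group.nilpotencyClass P - 2, by omega⟩
  have h1 := lcs_normalClosure_le hE c
  rw [← hc', Subgroup.lowerCentralSeries_nilpotencyClass, le_bot_iff,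
    ← Subgroup.top_subtype_lowerCentralSeries,
    Subgroup.map_eq_bot_iff_of_injective _ (Subgroup.subtype_injective _)] at h1
  have h2 := Subgroup.lowerCentralSeries_eq_bot_iff_nilpotencyClass_le.1 h1
  omega

end Cfsg.Agent.Lib.Helper8
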