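import Mathlib
import Cfsg.Prelude.Def_OddOrderLocal

set_option autoImplicit false

namespace Cfsg.Agent.Lib.Helper8

open scoped Matrix

theorem comm_trans_aux8 {F : Type*} [Field F] (a b c d p₁ q₁ r₁ s₁ p₂ q₂ r₂ s₂ : F)
    (h11 : p₁ * a + q₁ * c = a * p₁ + b * r₁) (h12 : p₁ * b + q₁ * d = a * q₁ + b * s₁)
    (h21 : r₁ * a + s₁ * c = c * p₁ + d * r₁) (h22 : r₁ * b + s₁ * d = c * q₁ + d * s₁)
    (k11 : a * p₂ + b * r₂ = p₂ * a + q₂ * c) (k12 : a * q₂ + b * s₂ = p₂ * b + q₂ * d)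
    (k21 : c * p₂ + d * r₂ = r₂ * a + s₂ * c) (k22 : c * q₂ + d * s₂ = r₂ * b + s₂ * d)
    (hB : b ≠ 0 ∨ c ≠ 0 ∨ a ≠ d) :
    (p₁ * p₂ + q₁ * r₂ = p₂ * p₁ + q₂ * r₁) ∧ (p₁ * q₂ + q₁ * s₂ = p₂ * q₁ + q₂ * s₁) ∧
    (r₁ * p₂ + s₁ * r₂ = r₂ * p₁ + s₂ * r₁) ∧ (r₁ * q₂ + s₁ * s₂ = r₂ * q₁ + s₂ * s₁) := by
  have key : (p₁ * p₂ + q₁ * r₂ = p₂ * p₁ + q₂ * r₁) ∧
      (p₁ * q₂ + q₁ * s₂ = p₂ * q₁ + q₂ * s₁) ∧
      (r₁ * p₂ + s₁ * r₂ = r₂ * p₁ + s₂ * r₁) := by
    rcases hB with hb | hc | had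
    · refine ⟨mul_left_cancel₀ hb (by linear_combination q₁ * k11 + q₂ * h11),
        mul_left_cancel₀ hb (by linear_combination q₂ * h12 + q₁ * k12),
        mul_left_cancel₀ hb (mul_left_cancel₀ hb (by
          linear_combination (-c * q₂) * h12 + (-c * q₁) * k12 - b * (p₂ - s₂) * h11
            + b * (s₁ - p₁) * k11))⟩
    · refine ⟨mul_left_cancel₀ hc (by linear_combination (-r₂) * h22 - r₁ * k22),
        mul_left_cancel₀ hc (mul_left_cancel₀ hc (by
          linear_combination (-b * r₁) * k21 + (-b * r₂) * h21 + c * (p₁ - s₁) * k22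
            - c * (s₂ - p₂) * h22)),
        mul_left_cancel₀ hc (by linear_combination r₁ * k21 + r₂ * h21)⟩
    · have hda : d - a ≠ 0 := sub_ne_zero.mpr (Ne.symm had)
      have Q1 : q₁ * (d - a) = -b * (p₁ - s₁) := by linear_combination h12
      have Q2 : q₂ * (d - a) = b * (s₂ - p₂) := by linear_combination (-1 : F) * k12
      have R1 : r₁ * (d - a) = c * (s₁ - p₁) := by linear_combination (-1 : F) * h21
      have R2 : r₂ * (d - a) = -c * (p₂ - s₂) := by linear_combination k21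
      refine ⟨mul_left_cancel₀ hda (mul_left_cancel₀ hda (by
          linear_combination (r₂ * (d - a)) * Q1 + (-b * (p₁ - s₁)) * R2
            - (r₁ * (d - a)) * Q2 - (b * (s₂ - p₂)) * R1)),
        mul_left_cancel₀ hda (by linear_combination (p₁ - s₁) * Q2 + (s₂ - p₂) * Q1),
        mul_left_cancel₀ hda (by linear_combination (p₂ - s₂) * R1 + (s₁ - p₁) * R2)⟩
  exact ⟨key.1, key.2.1, key.2.2, by linear_combination (-1 : F) * key.1⟩

theorem mat2_comm_trans8 {F : Type*} [Field F] (A B C : Matrix (Fin 2) (Fin 2) F)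
    (hAB : A * B = B * A) (hBC : B * C = C * B)
    (hB : B 0 1 ≠ 0 ∨ B 1 0 ≠ 0 ∨ B 0 0 ≠ B 1 1) : A * C = C * A := by
  have ent : ∀ (X Y : Matrix (Fin 2) (Fin 2) F) (i j : Fin 2),
      (X * Y) i j = X i 0 * Y 0 j + X i 1 * Y 1 j := by
    intro X Y i j
    rw [Matrix.mul_apply, Fin.sum_univ_two]
  have e := fun i j => congrFun (congrFun hAB i) j
  have f := fun i j => congrFun (congrFun hBC i) j
  have h := comm_trans_aux8 (B 0 0) (B 0 1) (B 1 0) (B 1 1) (A 0 0) (A 0 1) (A 1 0) (A 1 1)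
    (C 0 0) (C 0 1) (C 1 0) (C 1 1)
    (by have := e 0 0; rw [ent, ent] at this; exact this)
    (by have := e 0 1; rw [ent, ent] at this; exact this)
    (by have := e 1 0; rw [ent, ent] at this; exact this)
    (by have := e 1 1; rw [ent, ent] at this; exact this)
    (by have := f 0 0; rw [ent, ent] at this; exact this)
    (by have := f 0 1; rw [ent, ent] at this; exact this)
    (by have := f 1 0; rw [ent, ent] at this; exact this)
    (by have := f 1 1; rw [ent, ent] at this; exact this)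
    hB
  ext i j
  rw [ent, ent]
  fin_cases i <;> fin_cases j
  · exact h.1
  · exact h.2.1
  · exact h.2.2.1
  · exact h.2.2.2

theorem sl2_center_char2_8 {F : Type*} [Field F] [CharP F 2]
    (z : Matrix.SpecialLinearGroup (Fin 2) F)
    (hz : z ∈ Subgroup.center (Matrix.SpecialLinearGroup (Fin 2) F)) : z = 1 := by
  obtain ⟨r, hr, hrz⟩ := Matrix.SpecialLinearGroup.mem_center_iff.mp hz
  have hr2 : r ^ 2 = 1 := by simpa using hr
  have h2 : (2 : F) = 0 := CharTwo.two_eq_zero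
  have h3 : (r - 1) ^ 2 = 0 := by linear_combination hr2 - r * h2 + h2
  have h4 : r = 1 := by
    have h5 := pow_eq_zero_iff (two_ne_zero) |>.mp h3
    exact sub_eq_zero.mp h5
  apply Subtype.ext
  rw [← hrz, h4]
  simp

theorem sl2_ne_one_nonscalar8 {F : Type*} [Field F] [CharP F 2]
    (B : Matrix.SpecialLinearGroup (Fin 2) F) (hB : B ≠ 1) :
    (B : Matrix (Fin 2) (Fin 2) F) 0 1 ≠ 0 ∨ (B : Matrix (Fin 2) (Fin 2) F) 1 0 ≠ 0 ∨
      (B : Matrix (Fin 2) (Fin 2) F) 0 0 ≠ (B : Matrix (Fin 2) (Fin 2) F) 1 1 := by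
  by_contra hcon
  push_neg at hcon
  obtain ⟨h01, h10, h00⟩ := hcon
  apply hB
  have hdet : (B : Matrix (Fin 2) (Fin 2) F) 0 0 * (B : Matrix (Fin 2) (Fin 2) F) 1 1 -
      (B : Matrix (Fin 2) (Fin 2) F) 0 1 * (B : Matrix (Fin 2) (Fin 2) F) 1 0 = 1 := by
    rw [← Matrix.det_fin_two]; exact B.2
  rw [h01, ← h00] at hdet
  have h2 : (2 : F) = 0 := CharTwo.two_eq_zero
  have h3 : ((B : Matrix (Fin 2) (Fin 2) F) 0 0 - 1) ^ 2 = 0 := by
    linear_combination hdet - (B : Matrix (Fin 2) (Fin 2) F) 0 0 * h2 + h2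
  have h4 : (B : Matrix (Fin 2) (Fin 2) F) 0 0 = 1 :=
    sub_eq_zero.mp ((pow_eq_zero_iff two_ne_zero).mp h3)
  have h11 : (B : Matrix (Fin 2) (Fin 2) F) 1 1 = 1 := by rw [← h00]; exact h4
  apply Subtype.ext
  rw [Matrix.SpecialLinearGroup.coe_one]
  ext i j
  fin_cases i <;> fin_cases j <;> simp [h4, h01, h10, h11]

theorem psl2_char2_comm_trans8 {F : Type*} [Field F] [CharP F 2]
    (a b c : Matrix.ProjectiveSpecialLinearGroup (Fin 2) F) (hb : b ≠ 1)
    (hab : a * b = b * a) (hbc : b * c = c * b) : a * c = c * a := by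
  obtain ⟨A, rfl⟩ := QuotientGroup.mk_surjective a
  obtain ⟨B, rfl⟩ := QuotientGroup.mk_surjective b
  obtain ⟨C, rfl⟩ := QuotientGroup.mk_surjective c
  have lift : ∀ X Y : Matrix.SpecialLinearGroup (Fin 2) F,
      (QuotientGroup.mk X : Matrix.ProjectiveSpecialLinearGroup (Fin 2) F) * QuotientGroup.mk Y =
        QuotientGroup.mk Y * QuotientGroup.mk X → X * Y = Y * X := by
    intro X Y h
    rw [← QuotientGroup.mk_mul, ← QuotientGroup.mk_mul, QuotientGroup.eq] at h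
    exact inv_mul_eq_one.mp (sl2_center_char2_8 _ h)
  have hAB := lift A B hab
  have hBC := lift B C hbc
  have hB1 : B ≠ 1 := by
    intro h
    apply hb
    rw [h]
    rfl
  have hAB' : (A : Matrix (Fin 2) (Fin 2) F) * (B : Matrix (Fin 2) (Fin 2) F) =
      (B : Matrix (Fin 2) (Fin 2) F) * (A : Matrix (Fin 2) (Fin 2) F) := by
    rw [← Matrix.SpecialLinearGroup.coe_mul, ← Matrix.SpecialLinearGroup.coe_mul, hAB]
  have hBC' : (B : Matrix (Fin 2) (Fin 2) F) * (C : Matrix (Fin 2) (Fin 2) F) =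
      (C : Matrix (Fin 2) (Fin 2) F) * (B : Matrix (Fin 2) (Fin 2) F) := by
    rw [← Matrix.SpecialLinearGroup.coe_mul, ← Matrix.SpecialLinearGroup.coe_mul, hBC]
  have hAC : A * C = C * A := by
    apply Subtype.ext
    rw [Matrix.SpecialLinearGroup.coe_mul, Matrix.SpecialLinearGroup.coe_mul]
    exact mat2_comm_trans8 _ _ _ hAB' hBC' (sl2_ne_one_nonscalar8 B hB1)
  rw [← QuotientGroup.mk_mul, ← QuotientGroup.mk_mul, hAC]

theorem psl2_char2_centralizer_TI8 {F : Type*} [Field F] [CharP F 2]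
    (x : Matrix.ProjectiveSpecialLinearGroup (Fin 2) F) :
    Cfsg.IsTISubset
      (Subgroup.centralizer ({x} : Set (Matrix.ProjectiveSpecialLinearGroup (Fin 2) F)) :
        Set (Matrix.ProjectiveSpecialLinearGroup (Fin 2) F)) := by
  intro g hg y hy hgy
  by_contra hy1
  apply hg
  rw [Subgroup.mem_set_normalizer_iff]
  have hy' : y * x = x * y := Subgroup.mem_centralizer_singleton_iff.mp (SetLike.mem_coe.mp hy)
  have hgy' : g * y * g⁻¹ * x = x * (g * y * g⁻¹) :=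
    Subgroup.mem_centralizer_singleton_iff.mp (SetLike.mem_coe.mp hgy)
  intro m
  rw [SetLike.mem_coe, SetLike.mem_coe, Subgroup.mem_centralizer_singleton_iff,
    Subgroup.mem_centralizer_singleton_iff]
  by_cases hx : x = 1
  · subst hx; simp
  · have hx' : g⁻¹ * x * g ≠ 1 := by
      intro h
      apply hx
      calc x = g * (g⁻¹ * x * g) * g⁻¹ := by group
        _ = 1 := by rw [h]; group
    have hyx' : y * (g⁻¹ * x * g) = (g⁻¹ * x * g) * y := by
      have e1 : y * (g⁻¹ * x * g) = g⁻¹ * (g * y * g⁻¹ * x) * g := by group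
      rw [e1, hgy']; group
    have hxx' : x * (g⁻¹ * x * g) = (g⁻¹ * x * g) * x :=
      psl2_char2_comm_trans8 x y (g⁻¹ * x * g) hy1 hy'.symm hyx'
    constructor
    · intro hm
      have h1 : m * (g⁻¹ * x * g) = (g⁻¹ * x * g) * m :=
        psl2_char2_comm_trans8 m x (g⁻¹ * x * g) hx hm hxx'
      have e1 : g * m * g⁻¹ * x = g * (m * (g⁻¹ * x * g)) * g⁻¹ := by group
      rw [e1, h1]; group
    · intro hm
      have h1 : m * (g⁻¹ * x * g) = (g⁻¹ * x * g) * m := by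
        have e1 : m * (g⁻¹ * x * g) = g⁻¹ * (g * m * g⁻¹ * x) * g := by group
        rw [e1, hm]; group
      exact psl2_char2_comm_trans8 m (g⁻¹ * x * g) x hx' h1 hxx'.symm

end Cfsg.Agent.Lib.Helper8
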