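import Mathlib
import Cfsg.Prelude.Def_Characters
import Cfsg.Agent.Lib.Helper8.PSing1
import Cfsg.Agent.Lib.Lead.CharMichler2
import Cfsg.Agent.Lib.Helper4.SL2Unip
import Cfsg.Agent.Lib.Helper7.Jordan
import Cfsg.Agent.Lib.Helper8.GroupFusion

/-! A non-nilpotent group with a normal `p`-complement and exactly one irreducible character of
degree divisible by `p` has exactly one conjugacy class of size divisible by `p`. -/

set_option autoImplicit false

namespace Cfsg.Agent.Lib.Helper8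

open scoped ComplexConjugate
open Cfsg.Agent.Lib.Lead

universe u

/-- if the order of a Sylow `p`-subgroup divides the order of every centralizer, the Sylow
`p`-subgroup is central -/
theorem sylow_central_of_centralizers8 {G : Type*} [Group G] [Finite G] (p : ℕ) [Fact p.Prime]
    (P : Sylow p G)
    (h : ∀ x : G, Nat.card (P : Subgroup G) ∣ Nat.card (Subgroup.centralizer ({x} : Set G))) :
    ∀ a ∈ (P : Subgroup G), ∀ g : G, a * g = g * a := by
  have htop : Subgroup.centralizer ((P : Subgroup G) : Set G) = ⊤ := by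
    by_contra hne
    obtain ⟨x, hx⟩ := Cfsg.Agent.Lib.Helper7.exists_not_mem_conj _ hne
    obtain ⟨n, hn⟩ := IsPGroup.iff_card.1 P.2
    have hdvd := h x
    rw [hn] at hdvd
    obtain ⟨K, hK⟩ := Sylow.exists_subgroup_card_pow_prime p hdvd
    have hK' : Nat.card (K.map (Subgroup.centralizer ({x} : Set G)).subtype) = p ^ n := by
      rw [Subgroup.card_map_of_injective (Subgroup.subtype_injective _)]
      exact hK
    have hpg : IsPGroup p (K.map (Subgroup.centralizer ({x} : Set G)).subtype) :=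
      IsPGroup.of_card hK'
    obtain ⟨g, hg⟩ := exists_conjSub_le_sylow P hpg
    have heq : conjSub g (K.map (Subgroup.centralizer ({x} : Set G)).subtype) = (P : Subgroup G) := by
      apply Subgroup.eq_of_le_of_card_ge hg
      rw [card_conjSub, hK', hn]
    apply hx g⁻¹
    rw [inv_inv, Subgroup.mem_centralizer_iff]
    intro a ha
    rw [SetLike.mem_coe, ← heq, mem_conjSub] at ha
    obtain ⟨u, hu, hua⟩ := ha
    have hcomm : (u : G) * x = x * u := by
      have h1 := u.2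
      rw [Subgroup.mem_centralizer_iff] at h1
      exact (h1 x (Set.mem_singleton x)).symm
    have hua' : (u : G) = g⁻¹ * a * g := hua
    have ha' : a = g * (u : G) * g⁻¹ := by
      rw [hua']; group
    rw [ha']
    calc g * (u : G) * g⁻¹ * (g * x * g⁻¹) = g * ((u : G) * x) * g⁻¹ := by group
      _ = g * (x * (u : G)) * g⁻¹ := by rw [hcomm]
      _ = g * x * g⁻¹ * (g * (u : G) * g⁻¹) := by group
  intro a ha g
  have hg : g ∈ Subgroup.centralizer ((P : Subgroup G) : Set G) := htop ▸ Subgroup.mem_top g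
  rw [Subgroup.mem_centralizer_iff] at hg
  exact hg a ha

theorem unique_psing_class8 {G : Type u} [Group G] [Finite G] (p : ℕ) [Fact p.Prime]
    (hnil : ¬ Group.IsNilpotent G) (N : Subgroup G) [hNn : N.Normal] (hN : (Nat.card N).Coprime p)
    (hidx : ∃ k : ℕ, N.index = p ^ k)
    (hone : Nat.card {χ : Cfsg.IrrCharacter G // p ∣ Cfsg.charDegree (χ : G → ℂ)} = 1) :
    Nat.card {C : ConjClasses G // p ∣ Nat.card C.carrier} = 1 := by
  classical
  have hpp : p.Prime := Fact.out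
  haveI := Fintype.ofFinite G
  haveI : Fintype N := Fintype.ofFinite N
  haveI : Fintype (Cfsg.IrrCharacter G) := Fintype.ofFinite _
  obtain ⟨k, hk⟩ := hidx
  obtain ⟨hsub, ⟨⟨χ₀, hχ₀⟩⟩⟩ := Nat.card_eq_one_iff_unique.1 hone
  have huniq : ∀ χ : Cfsg.IrrCharacter G, p ∣ Cfsg.charDegree (χ : G → ℂ) → χ = χ₀ := by
    intro χ hχ
    have h1 := hsub.elim ⟨χ, hχ⟩ ⟨χ₀, hχ₀⟩
    exact congrArg Subtype.val h1
  have hG0 : (Nat.card G : ℂ) ≠ 0 := by exact_mod_cast Nat.card_pos.ne'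
  have hN0 : (Nat.card N : ℂ) ≠ 0 := by exact_mod_cast Nat.card_pos.ne'
  have hpC : (p : ℂ) ≠ 0 := by exact_mod_cast hpp.ne_zero
  have hcardG : Nat.card G = Nat.card N * p ^ k := by
    rw [← hk]; exact (Subgroup.card_mul_index N).symm
  have hcardQ : Nat.card (G ⧸ N) = p ^ k := by rw [← Subgroup.index_eq_card, hk]
  have hpN : ¬ p ∣ Nat.card N := (Nat.Prime.coprime_iff_not_dvd hpp).1 hN.symm
  have hχ₀1 : (χ₀ : G → ℂ) 1 ≠ 0 := by
    rw [(irr_charDegree χ₀).1]; exact_mod_cast (irr_charDegree χ₀).2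
  -- `N` is not trivial
  have hNbot : N ≠ ⊥ := by
    intro hb
    apply hnil
    have h1 : Nat.card G = p ^ k := by rw [hcardG, hb, Subgroup.card_bot, one_mul]
    exact IsPGroup.isNilpotent (IsPGroup.of_card h1)
  -- the quotient is abelian
  have hab : ∀ a b : G ⧸ N, a * b = b * a := by
    apply abelian_of_pdeg_pgroup p (IsPGroup.of_card hcardQ)
    intro β hβ
    have hdeg : Cfsg.charDegree ((inflIrr (QuotientGroup.mk' N) (QuotientGroup.mk'_surjective N) β :
        Cfsg.IrrCharacter G) : G → ℂ) = Cfsg.charDegree (β : G ⧸ N → ℂ) := by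
      unfold Cfsg.charDegree
      show ⌊((β : G ⧸ N → ℂ) (QuotientGroup.mk' N 1)).re⌋₊ = _
      rw [map_one]
    have hχ₀eq := huniq _ (by rw [hdeg]; exact hβ)
    have hχ₀val : ∀ g : G, (χ₀ : G → ℂ) g = (β : G ⧸ N → ℂ) (QuotientGroup.mk' N g) := by
      intro g
      rw [← hχ₀eq]
      rfl
    have hχ₀N : ∀ n ∈ N, (χ₀ : G → ℂ) n = (χ₀ : G → ℂ) 1 := by
      intro n hn
      have h1 : QuotientGroup.mk' N n = 1 := (QuotientGroup.eq_one_iff n).2 hn
      rw [hχ₀val, hχ₀val, map_one, h1]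
    obtain ⟨⟨n₀, hn₀⟩, hne⟩ := Subgroup.ne_bot_iff_exists_ne_one.1 hNbot
    have hn₀1 : n₀ ≠ 1 := fun h => hne (Subtype.ext h)
    have hex : ∃ χ : Cfsg.IrrCharacter G, (χ : G → ℂ) n₀ ≠ (χ : G → ℂ) 1 := by
      by_contra hall
      push Not at hall
      have h1 := column_orthogonality_sum (G := G) n₀ 1
      have h2 := column_orthogonality_sum (G := G) 1 1
      rw [conjCount_apply_of_not_isConj (fun hc => hn₀1 (isConj_one_left.1 hc))] at h1
      rw [conjCount_apply_of_isConj (IsConj.refl 1), card_centralizer_one] at h2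
      rw [Finset.sum_congr rfl (fun χ _ => by rw [hall χ])] at h1
      rw [h1] at h2
      exact hG0 h2.symm
    obtain ⟨χ, hχne⟩ := hex
    have hχχ₀ : χ ≠ χ₀ := by
      intro h
      rw [h] at hχne
      exact hχne (hχ₀N n₀ hn₀)
    have hpχ : ¬ p ∣ Cfsg.charDegree (χ : G → ℂ) := fun h => hχχ₀ (huniq χ h)
    have hres : Cfsg.IsIrrCharacter N (fun n : N => (χ : G → ℂ) n) :=
      irr_restrict_pprime8 p N.index G N rfl ⟨k, hk⟩ (χ : G → ℂ) χ.2 hpχ
    have hprod : Cfsg.IsIrrCharacter N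
        ((fun _ : N => (1 : ℂ)) * fun n : N => (χ : G → ℂ) n) := by
      have e : ((fun _ : N => (1 : ℂ)) * fun n : N => (χ : G → ℂ) n) =
          fun n : N => (χ : G → ℂ) n := by
        funext n; simp
      rw [e]; exact hres
    obtain ⟨hg1, -, -⟩ := gallagher_core N (fun _ : N => (1 : ℂ)) (isIrrCharacter_one N)
      (fun _ _ => rfl) (χ : G → ℂ) (isCharacter_of_isIrrCharacter χ.2) hprod
    have hcon : Cfsg.classInner (Cfsg.indFun N (fun _ : N => (1 : ℂ))) (χ₀ : G → ℂ) ≠ 0 := by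
      rw [frobenius_reciprocity N _ _ (isClassFunction_of_irr χ₀.2)]
      have hsum : ∑ h : N, (1 : ℂ) * conj ((χ₀ : G → ℂ) h) =
          (Nat.card N : ℂ) * conj ((χ₀ : G → ℂ) 1) := by
        have h1 : ∀ h ∈ (Finset.univ : Finset N), (1 : ℂ) * conj ((χ₀ : G → ℂ) h) =
            conj ((χ₀ : G → ℂ) 1) := by
          intro h _
          rw [hχ₀N h h.2, one_mul]
        rw [Finset.sum_congr rfl h1, Finset.sum_const, Finset.card_univ,
          ← Nat.card_eq_fintype_card, nsmul_eq_mul]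
      show (Nat.card N : ℂ)⁻¹ * ∑ h : N, (1 : ℂ) * conj ((χ₀ : G → ℂ) h) ≠ 0
      rw [hsum, ← mul_assoc, inv_mul_cancel₀ hN0, one_mul]
      exact (map_ne_zero _).2 hχ₀1
    have h11 := hg1 (χ₀ : G → ℂ) (χ₀ : G → ℂ) χ₀.2 χ₀.2 hcon hcon
    rw [if_pos rfl] at h11
    have hirr : Cfsg.IsIrrCharacter G ((χ₀ : G → ℂ) * (χ : G → ℂ)) :=
      isIrrCharacter_of_norm_one (isCharacter_mul (isCharacter_of_isIrrCharacter χ₀.2)
        (isCharacter_of_isIrrCharacter χ.2)) h11
    have hdeg2 : Cfsg.charDegree ((χ₀ : G → ℂ) * (χ : G → ℂ)) =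
        Cfsg.charDegree (χ₀ : G → ℂ) * Cfsg.charDegree (χ : G → ℂ) := by
      apply charDegree_eq_of
      rw [Pi.mul_apply, (irr_charDegree χ₀).1, (irr_charDegree χ).1]
      push_cast; ring
    have heq := huniq ⟨_, hirr⟩ (by
      show p ∣ Cfsg.charDegree ((χ₀ : G → ℂ) * (χ : G → ℂ))
      rw [hdeg2]; exact Dvd.dvd.mul_right hχ₀ _)
    have hval : ∀ g : G, (χ₀ : G → ℂ) g * (χ : G → ℂ) g = (χ₀ : G → ℂ) g := fun g =>
      congrFun (congrArg Subtype.val heq) g
    have h1 : (χ : G → ℂ) 1 = 1 := by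
      have h := hval 1
      exact mul_left_cancel₀ hχ₀1 (by rw [h, mul_one])
    have h2 : (χ : G → ℂ) n₀ = 1 := by
      have h := hval n₀
      rw [hχ₀N n₀ hn₀] at h
      exact mul_left_cancel₀ hχ₀1 (by rw [h, mul_one])
    exact hχne (by rw [h1, h2])
  -- the dual group of the quotient
  letI : CommGroup (G ⧸ N) := { (inferInstance : Group (G ⧸ N)) with mul_comm := hab }
  haveI : NeZero (Monoid.exponent (G ⧸ N)) := ⟨Monoid.exponent_ne_zero_of_finite⟩
  have hcardΛ : Nat.card ((G ⧸ N) →* ℂˣ) = p ^ k := by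
    rw [CommGroup.card_monoidHom_of_hasEnoughRootsOfUnity (G ⧸ N) ℂ, hcardQ]
  haveI : Finite ((G ⧸ N) →* ℂˣ) :=
    Nat.finite_of_card_ne_zero (by rw [hcardΛ]; exact (pow_pos hpp.pos k).ne')
  haveI : Fintype ((G ⧸ N) →* ℂˣ) := Fintype.ofFinite _
  let tw : ((G ⧸ N) →* ℂˣ) → Cfsg.IrrCharacter G → Cfsg.IrrCharacter G := fun lam χ =>
    ⟨(fun g => (((lam.comp (QuotientGroup.mk' N)) g : ℂˣ) : ℂ)) * (χ : G → ℂ), twist_irr8 _ χ.2⟩
  have htw_apply : ∀ (lam : (G ⧸ N) →* ℂˣ) (χ : Cfsg.IrrCharacter G) (g : G),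
      ((tw lam χ : Cfsg.IrrCharacter G) : G → ℂ) g =
        ((lam (QuotientGroup.mk g) : ℂˣ) : ℂ) * (χ : G → ℂ) g := fun _ _ _ => rfl
  have htw_one : ∀ χ, tw 1 χ = χ := by
    intro χ
    apply Subtype.ext
    funext g
    rw [htw_apply]
    simp
  have htw_mul : ∀ a b χ, tw (a * b) χ = tw a (tw b χ) := by
    intro a b χ
    apply Subtype.ext
    funext g
    rw [htw_apply, htw_apply, htw_apply]
    simp [MonoidHom.mul_apply, mul_assoc]
  have htw_fix : ∀ lam, tw lam χ₀ = χ₀ := by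
    intro lam
    apply huniq
    have h1 : Cfsg.charDegree ((tw lam χ₀ : Cfsg.IrrCharacter G) : G → ℂ) =
        Cfsg.charDegree (χ₀ : G → ℂ) := by
      apply charDegree_eq_of
      rw [htw_apply, QuotientGroup.mk_one, map_one, Units.val_one, one_mul, (irr_charDegree χ₀).1]
    rw [h1]; exact hχ₀
  have htw_free : ∀ lam χ, χ ≠ χ₀ → tw lam χ = χ → lam = 1 := by
    intro lam χ hχ h
    apply twist_eq_self8 p N ⟨k, hk⟩ (χ : G → ℂ) (isCharacter_of_isIrrCharacter χ.2)
      (fun hd => hχ (huniq χ hd)) lam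
    intro g
    have h1 := congrFun (congrArg Subtype.val h) g
    rwa [htw_apply] at h1
  have hvan : ∀ x : G, x ∉ N → (χ₀ : G → ℂ) x = 0 := by
    intro x hx
    have hne : (QuotientGroup.mk x : G ⧸ N) ≠ 1 := fun h => hx ((QuotientGroup.eq_one_iff x).1 h)
    obtain ⟨lam, hlam⟩ := CommGroup.exists_apply_ne_one_of_hasEnoughRootsOfUnity (G ⧸ N) ℂ hne
    have h1 := congrFun (congrArg Subtype.val (htw_fix lam)) x
    rw [htw_apply] at h1
    have h2 : (((lam (QuotientGroup.mk x) : ℂˣ) : ℂ) - 1) * (χ₀ : G → ℂ) x = 0 := by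
      rw [sub_mul, one_mul, h1, sub_self]
    rcases mul_eq_zero.1 h2 with h3 | h3
    · exact absurd (Units.ext (by rw [Units.val_one]; exact sub_eq_zero.1 h3)) hlam
    · exact h3
  letI : MulAction ((G ⧸ N) →* ℂˣ) {χ : Cfsg.IrrCharacter G // χ ≠ χ₀} :=
    { smul := fun lam χ => ⟨tw lam χ.1, fun h => χ.2 (by
        have e1 : tw lam⁻¹ (tw lam χ.1) = χ.1 :=
          (htw_mul lam⁻¹ lam χ.1).symm.trans
            ((congrArg (fun l => tw l χ.1) (inv_mul_cancel lam)).trans (htw_one χ.1))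
        exact e1.symm.trans ((congrArg (tw lam⁻¹) h).trans (htw_fix lam⁻¹)))⟩
      one_smul := fun χ => Subtype.ext (htw_one χ.1)
      mul_smul := fun a b χ => Subtype.ext (htw_mul a b χ.1) }
  haveI : Fintype {χ : Cfsg.IrrCharacter G // χ ≠ χ₀} := Fintype.ofFinite _
  -- the orbit sums
  have hF3 : ∀ x y : G, (QuotientGroup.mk x : G ⧸ N) = QuotientGroup.mk y →
      ∃ A : ℂ, IsIntegral ℤ A ∧
        ∑ χ : Cfsg.IrrCharacter G, (χ : G → ℂ) x * conj ((χ : G → ℂ) y) =
          (p : ℂ) ^ k * A + (χ₀ : G → ℂ) x * conj ((χ₀ : G → ℂ) y) := by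
    intro x y hxy
    obtain ⟨A, hA, hsum⟩ := free_orbit_sum8 (X := {χ : Cfsg.IrrCharacter G // χ ≠ χ₀})
      (Λ := (G ⧸ N) →* ℂˣ)
      (fun a χ h => htw_free a χ.1 χ.2 (congrArg Subtype.val h))
      (fun χ => (χ.1 : G → ℂ) x * conj ((χ.1 : G → ℂ) y))
      (fun a χ => by
        show ((tw a χ.1 : Cfsg.IrrCharacter G) : G → ℂ) x *
          conj (((tw a χ.1 : Cfsg.IrrCharacter G) : G → ℂ) y) = _
        rw [htw_apply, htw_apply, ← hxy, map_mul]
        have hn : ((a (QuotientGroup.mk x) : ℂˣ) : ℂ) * conj ((a (QuotientGroup.mk x) : ℂˣ) : ℂ) = 1 :=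
          hom_norm8 (a.comp (QuotientGroup.mk' N)) x
        calc ((a (QuotientGroup.mk x) : ℂˣ) : ℂ) * (χ.1 : G → ℂ) x *
              (conj ((a (QuotientGroup.mk x) : ℂˣ) : ℂ) * conj ((χ.1 : G → ℂ) y))
            = (((a (QuotientGroup.mk x) : ℂˣ) : ℂ) * conj ((a (QuotientGroup.mk x) : ℂˣ) : ℂ)) *
                ((χ.1 : G → ℂ) x * conj ((χ.1 : G → ℂ) y)) := by ring
          _ = (χ.1 : G → ℂ) x * conj ((χ.1 : G → ℂ) y) := by rw [hn, one_mul])
      (fun χ => by
        apply IsIntegral.mul (isIntegral_isCharacter (isCharacter_of_isIrrCharacter χ.1.2) x)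
        rw [← irr_inv χ.1.2 y]
        exact isIntegral_isCharacter (isCharacter_of_isIrrCharacter χ.1.2) y⁻¹)
    refine ⟨A, hA, ?_⟩
    rw [← Finset.add_sum_erase Finset.univ _ (Finset.mem_univ χ₀)]
    have h1 : ∑ χ ∈ Finset.univ.erase χ₀, (χ : G → ℂ) x * conj ((χ : G → ℂ) y) =
        ∑ χ : {χ : Cfsg.IrrCharacter G // χ ≠ χ₀}, (χ.1 : G → ℂ) x * conj ((χ.1 : G → ℂ) y) :=
      Finset.sum_subtype (Finset.univ.erase χ₀) (by simp)
        (fun χ : Cfsg.IrrCharacter G => (χ : G → ℂ) x * conj ((χ : G → ℂ) y))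
    rw [h1, hsum, ← Nat.card_eq_fintype_card, hcardΛ]
    push_cast
    ring
  have hcent : ∀ x : G, ∑ χ : Cfsg.IrrCharacter G, (χ : G → ℂ) x * conj ((χ : G → ℂ) x) =
      (Nat.card (Subgroup.centralizer ({x} : Set G)) : ℂ) := by
    intro x
    rw [column_orthogonality_sum, conjCount_apply_of_isConj (IsConj.refl x)]
  have hq0 : p ^ k ≠ 0 := (pow_pos hpp.pos k).ne'
  -- elements outside `N`
  have hF4 : ∀ x : G, x ∉ N → p ^ k ∣ Nat.card (Subgroup.centralizer ({x} : Set G)) := by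
    intro x hx
    obtain ⟨A, hA, hsum⟩ := hF3 x x rfl
    rw [hcent, hvan x hx, zero_mul, add_zero] at hsum
    apply dvd_of_isIntegral_div _ _ hq0
    rw [hsum]
    push_cast
    rw [mul_div_cancel_left₀ _ (pow_ne_zero k hpC)]
    exact hA
  -- elements of `N`
  have hF5 : ∀ x y : G, x ∈ N → y ∈ N → ¬ IsConj x y →
      ¬ p ^ k ∣ Nat.card (Subgroup.centralizer ({x} : Set G)) →
      ¬ p ^ k ∣ Nat.card (Subgroup.centralizer ({y} : Set G)) → False := by
    intro x y hx hy hxy hcx hcy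
    have hmk : ∀ z ∈ N, (QuotientGroup.mk z : G ⧸ N) = 1 := fun z hz =>
      (QuotientGroup.eq_one_iff z).2 hz
    obtain ⟨Ax, hAx, hsx⟩ := hF3 x x rfl
    obtain ⟨Ay, hAy, hsy⟩ := hF3 y y rfl
    obtain ⟨Axy, hAxy, hsxy⟩ := hF3 x y (by rw [hmk x hx, hmk y hy])
    obtain ⟨Ayx, hAyx, hsyx⟩ := hF3 y x (by rw [hmk x hx, hmk y hy])
    rw [hcent] at hsx hsy
    rw [column_orthogonality_sum, conjCount_apply_of_not_isConj hxy] at hsxy
    rw [column_orthogonality_sum, conjCount_apply_of_not_isConj (fun h => hxy h.symm)] at hsyx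
    apply pval_contra8 p hpp k _ _ (Nat.card_pos.ne') (Nat.card_pos.ne') hcx hcy Ax Ay
      (Axy * Ayx - Ax * Ay) hAx hAy ((hAxy.mul hAyx).sub (hAx.mul hAy))
    linear_combination
      ((Nat.card (Subgroup.centralizer ({y} : Set G)) : ℂ) - (p : ℂ) ^ k * Ay) * hsx +
      ((χ₀ : G → ℂ) x * conj ((χ₀ : G → ℂ) x)) * hsy -
      ((χ₀ : G → ℂ) y * conj ((χ₀ : G → ℂ) x)) * hsxy +
      ((p : ℂ) ^ k * Axy) * hsyx
  -- some class has size divisible by `p`
  have hF6 : ∃ x : G, ¬ p ^ k ∣ Nat.card (Subgroup.centralizer ({x} : Set G)) := by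
    by_contra hall
    push Not at hall
    obtain ⟨P⟩ : Nonempty (Sylow p G) := inferInstance
    have hPcard : Nat.card (P : Subgroup G) = p ^ k := by
      rw [P.card_eq_multiplicity, hcardG]
      congr 1
      have h1 : (Nat.card N).factorization p = 0 := Nat.factorization_eq_zero_of_not_dvd hpN
      have h2 : (p ^ k).factorization p = k := by
        rw [Nat.Prime.factorization_pow hpp]; simp
      rw [Nat.factorization_mul Nat.card_pos.ne' hq0, Finsupp.add_apply, h1, h2, zero_add]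
    have hcen := sylow_central_of_centralizers8 p P (fun x => by rw [hPcard]; exact hall x)
    haveI hPn : (P : Subgroup G).Normal := ⟨fun a ha g => by
      have h1 := hcen a ha g
      rw [← h1, mul_inv_cancel_right]; exact ha⟩
    exact pdeg_of_normal_abelian p (P : Subgroup G) (fun a ha b _ => hcen a ha b)
      P.not_dvd_index χ₀ hχ₀
  -- class sizes and centralizers
  have hcls : ∀ x : G, p ∣ Nat.card (ConjClasses.mk x).carrier ↔
      ¬ p ^ k ∣ Nat.card (Subgroup.centralizer ({x} : Set G)) := by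
    intro x
    have h1 := Cfsg.Agent.Lib.Helper4.card_carrier_mul_card_centralizer x
    rw [hcardG] at h1
    constructor
    · intro hp hq
      obtain ⟨m, hm⟩ := hq
      rw [hm] at h1
      have h2 : Nat.card (ConjClasses.mk x).carrier * m = Nat.card N := by
        apply Nat.eq_of_mul_eq_mul_right (pow_pos hpp.pos k)
        rw [← h1]; ring
      exact hpN (h2 ▸ Dvd.dvd.mul_right hp m)
    · intro hq
      by_contra hp
      apply hq
      have hcop : Nat.Coprime (p ^ k) (Nat.card (ConjClasses.mk x).carrier) :=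
        ((Nat.Prime.coprime_iff_not_dvd hpp).2 hp).pow_left k
      exact hcop.dvd_of_dvd_mul_left (Dvd.intro_left _ h1.symm)
  rw [Nat.card_eq_one_iff_unique]
  constructor
  · constructor
    rintro ⟨C₁, h₁⟩ ⟨C₂, h₂⟩
    apply Subtype.ext
    show C₁ = C₂
    obtain ⟨x, rfl⟩ := ConjClasses.mk_surjective C₁
    obtain ⟨y, rfl⟩ := ConjClasses.mk_surjective C₂
    rw [hcls] at h₁ h₂
    have hx : x ∈ N := by
      by_contra h; exact h₁ (hF4 x h)
    have hy : y ∈ N := by
      by_contra h; exact h₂ (hF4 y h)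
    rw [ConjClasses.mk_eq_mk_iff_isConj]
    by_contra hxy
    exact hF5 x y hx hy hxy h₁ h₂
  · obtain ⟨x, hx⟩ := hF6
    exact ⟨⟨ConjClasses.mk x, (hcls x).2 hx⟩⟩

end Cfsg.Agent.Lib.Helper8
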