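import Mathlib
import Cfsg.Prelude
import Cfsg.Agent.Lib.Lead.CharMichler2
import Cfsg.Agent.Lib.Helper8.PSing1
import Cfsg.Agent.Lib.Helper8.CharPermFS
import Cfsg.Agent.Lib.Helper8.CharExtraspecial
import Cfsg.Agent.Lib.Helper8.PSolvDer1
import Cfsg.Agent.Lib.Helper2.PComp

/-! In a `p`-solvable group the derived length of a Sylow `p`-subgroup is bounded by the number
of irreducible characters of degree divisible by `p`. -/

set_option autoImplicit false

namespace Cfsg.Agent.Lib.Helper8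

open Cfsg.Agent.Lib.Lead
open scoped ComplexConjugate

universe u

theorem exists_irr_ne_one8 {G : Type u} [Group G] [Finite G] (a : G) (ha : a ≠ 1) :
    ∃ χ : Cfsg.IrrCharacter G, (χ : G → ℂ) a ≠ (χ : G → ℂ) 1 := by
  classical
  haveI := Fintype.ofFinite G
  haveI : Fintype (Cfsg.IrrCharacter G) := Fintype.ofFinite _
  have hG0 : (Nat.card G : ℂ) ≠ 0 := by exact_mod_cast Nat.card_pos.ne'
  by_contra hall
  push Not at hall
  have h1 := column_orthogonality_sum (G := G) a 1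
  have h2 := column_orthogonality_sum (G := G) 1 1
  rw [conjCount_apply_of_not_isConj (fun hc => ha (isConj_one_left.1 hc))] at h1
  rw [conjCount_apply_of_isConj (IsConj.refl 1), card_centralizer_one] at h2
  rw [Finset.sum_congr rfl (fun χ _ => by rw [hall χ])] at h1
  rw [h1] at h2
  exact hG0 h2.symm

/-- Clifford's theorem, evaluated pointwise -/
theorem clifford_eval8 {G : Type u} [Group G] [Fintype G] (R : Subgroup G) [hRn : R.Normal]
    [Fintype R] (χ : G → ℂ) (hχ : Cfsg.IsIrrCharacter G χ) (φ : R → ℂ) (hφ : Cfsg.IsIrrCharacter R φ)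
    (hcon : Cfsg.classInner (fun n : R => χ n) φ ≠ 0) :
    ∃ (S : Finset (R → ℂ)) (c : ℂ), c ≠ 0 ∧ φ ∈ S ∧ (∀ ψ ∈ S, ∃ g : G, ψ = φ ∘ Cfsg.Agent.Lib.Lead.conjHom R g) ∧
      ∀ x : R, χ x = c * ∑ ψ ∈ S, ψ x := by
  classical
  have h := clifford_char R hRn χ hχ φ hφ hcon
  have hS : {ψ : R → ℂ | ∃ g : G, ψ = fun n : R => φ ⟨g * n * g⁻¹, hRn.conj_mem n n.2 g⟩}.Finite := by
    have e : {ψ : R → ℂ | ∃ g : G, ψ = fun n : R => φ ⟨g * n * g⁻¹, hRn.conj_mem n n.2 g⟩} =
        Set.range (fun g : G => fun n : R => φ ⟨g * n * g⁻¹, hRn.conj_mem n n.2 g⟩) := by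
      ext ψ
      constructor
      · rintro ⟨g, rfl⟩; exact ⟨g, rfl⟩
      · rintro ⟨g, rfl⟩; exact ⟨g, rfl⟩
    rw [e]; exact Set.finite_range _
  rw [finsum_mem_eq_finite_toFinset_sum _ hS] at h
  refine ⟨hS.toFinset, _, hcon, ?_, ?_, ?_⟩
  · rw [Set.Finite.mem_toFinset]
    refine ⟨1, ?_⟩
    funext n
    congr 1
    apply Subtype.ext
    simp
  · intro ψ hψ
    rw [Set.Finite.mem_toFinset] at hψ
    obtain ⟨g, rfl⟩ := hψ
    exact ⟨g, rfl⟩
  · intro x
    have h1 := congrFun h x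
    rw [Pi.smul_apply, Finset.sum_apply, smul_eq_mul] at h1
    exact h1

/-- a constituent of the restriction of `χ` to a normal subgroup is trivial wherever `χ` is -/
theorem constituent_trivial_on8 {G : Type u} [Group G] [Fintype G] (R : Subgroup G)
    [hRn : R.Normal] [Fintype R] (χ : G → ℂ) (hχ : Cfsg.IsIrrCharacter G χ) (φ : R → ℂ)
    (hφ : Cfsg.IsIrrCharacter R φ) (hcon : Cfsg.classInner (fun n : R => χ n) φ ≠ 0) (k : R)
    (hk : χ (k : G) = χ 1) : φ k = φ 1 := by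
  obtain ⟨S, c, hc, hφS, hS, hval⟩ := clifford_eval8 R χ hχ φ hφ hcon
  have h1 := hval k
  have h2 := hval 1
  rw [hk] at h1
  rw [Subgroup.coe_one] at h2
  have h3 : ∑ ψ ∈ S, ψ k = ∑ ψ ∈ S, ψ 1 := mul_left_cancel₀ hc (by rw [← h1, ← h2])
  have hirr : ∀ ψ ∈ S, Cfsg.IsIrrCharacter R ψ := by
    intro ψ hψ
    obtain ⟨g, rfl⟩ := hS ψ hψ
    exact isIrrCharacter_conjHom R g hφ
  have h4 : ∑ ψ ∈ S, (ψ k).re = ∑ ψ ∈ S, (ψ 1).re := by
    have h5 := congrArg Complex.re h3
    rwa [Complex.re_sum, Complex.re_sum] at h5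
  have h5 := (Finset.sum_eq_sum_iff_of_le (fun ψ hψ => (irr_re_le ⟨ψ, hirr ψ hψ⟩ k).1)).1 h4
  exact (irr_re_le ⟨φ, hφ⟩ k).2 (h5 φ hφS)

/-- a nontrivial element of the derived subgroup of a normal `p`-subgroup is moved by some
`p`-singular irreducible character -/
theorem exists_psing_nontrivial_on8 {G : Type u} [Group G] [Finite G] (p : ℕ) [Fact p.Prime]
    (Q : Subgroup G) [hQn : Q.Normal] (hQ : IsPGroup p Q) (a : G) (ha : a ∈ ⁅Q, Q⁆)
    (ha1 : a ≠ 1) :
    ∃ χ : Cfsg.IrrCharacter G, p ∣ Cfsg.charDegree (χ : G → ℂ) ∧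
      (χ : G → ℂ) a ≠ (χ : G → ℂ) 1 := by
  classical
  have hpp : p.Prime := Fact.out
  haveI := Fintype.ofFinite G
  haveI : Fintype Q := Fintype.ofFinite Q
  obtain ⟨χ, hχne⟩ := exists_irr_ne_one8 a ha1
  refine ⟨χ, ?_, hχne⟩
  by_contra hpχ
  apply hχne
  obtain ⟨hd1, hd0⟩ := irr_charDegree χ
  have hres : Cfsg.IsCharacter Q (fun n : Q => (χ : G → ℂ) n) :=
    isCharacter_restrict Q (isCharacter_of_isIrrCharacter χ.2)
  have hres1 : (fun n : Q => (χ : G → ℂ) n) 1 ≠ 0 := by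
    show (χ : G → ℂ) ((1 : Q) : G) ≠ 0
    rw [Subgroup.coe_one, hd1]; exact_mod_cast hd0
  obtain ⟨θ, hθ, hcon⟩ := exists_constituent hres hres1
  obtain ⟨e, he⟩ := classInner_char_char_nat hres (isCharacter_of_isIrrCharacter hθ)
  obtain ⟨hθ1, hθ0⟩ := charDegree_irr hθ
  have hdeg := clifford_degree Q (stabChar Q θ) θ hθ (fun g => by
      rw [mem_stabChar]
      constructor
      · intro h n; exact congrFun h n
      · intro h; funext n; exact h n) (χ : G → ℂ) χ.2 hcon e (Cfsg.charDegree θ) he hθ1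
  rw [hd1] at hdeg
  have hdeg' : Cfsg.charDegree (χ : G → ℂ) = e * (stabChar Q θ).index * Cfsg.charDegree θ := by
    exact_mod_cast hdeg
  have hdvd : Cfsg.charDegree θ ∣ Nat.card Q := by
    obtain ⟨n, ρ, hρ, hρχ⟩ := hθ
    haveI := hρ
    have h1 := degree_dvd_card ρ
    rw [← hρχ, charDegree_eq_finrank ρ]; exact h1
  obtain ⟨k, hk⟩ := IsPGroup.exists_card_eq hQ
  rw [hk] at hdvd
  obtain ⟨j, -, hj⟩ := (Nat.dvd_prime_pow hpp).mp hdvd
  have hj0 : j = 0 := by
    by_contra h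
    exact hpχ (by rw [hdeg', hj]; exact Dvd.dvd.mul_left (dvd_pow_self p h) _)
  have hθone : θ 1 = 1 := by rw [hθ1, hj, hj0, pow_zero, Nat.cast_one]
  have haQ : a ∈ Q := (dser8_le Q 1) ha
  have hacomm : (⟨a, haQ⟩ : Q) ∈ commutator Q := by
    have h1 : a ∈ (derivedSeries ↥Q 1).map Q.subtype := by
      rw [dser8_map_subtype]; exact ha
    obtain ⟨x, hx, hxa⟩ := h1
    rw [derivedSeries_one] at hx
    have hx' : x = ⟨a, haQ⟩ := Subtype.ext hxa
    rwa [hx'] at hx
  obtain ⟨S, c, hc, hθS, hS, hval⟩ := clifford_eval8 Q (χ : G → ℂ) χ.2 θ hθ hcon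
  have h1 : (χ : G → ℂ) a = c * ∑ ψ ∈ S, ψ ⟨a, haQ⟩ := hval ⟨a, haQ⟩
  have h2 := hval 1
  rw [Subgroup.coe_one] at h2
  rw [h1, h2]
  congr 1
  apply Finset.sum_congr rfl
  intro ψ hψ
  obtain ⟨g, rfl⟩ := hS ψ hψ
  have hirr := isIrrCharacter_conjHom Q g hθ
  have hone : (θ ∘ Cfsg.Agent.Lib.Lead.conjHom Q g) 1 = 1 := by
    show θ (Cfsg.Agent.Lib.Lead.conjHom Q g 1) = 1
    rw [map_one, hθone]
  have h3 := linear_trivial_on_commutator ⟨_, hirr⟩ hone ⟨a, haQ⟩ hacomm
  exact h3.trans hone.symm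

/-- if a normal `p`-complement lies in the kernel of every `p`-singular irreducible character,
the Sylow `p`-subgroups are normal -/
theorem sylow_normal_of_psing_trivial8 {R : Type u} [Group R] [Finite R] (p : ℕ) [Fact p.Prime]
    (N : Subgroup R) [hNn : N.Normal] (hN : (Nat.card N).Coprime p)
    (hidx : ∃ k : ℕ, N.index = p ^ k) (hNbot : N ≠ ⊥)
    (htriv : ∀ φ : Cfsg.IrrCharacter R, p ∣ Cfsg.charDegree (φ : R → ℂ) →
      ∀ n ∈ N, (φ : R → ℂ) n = (φ : R → ℂ) 1)
    (Q : Sylow p R) : (Q : Subgroup R).Normal := by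
  classical
  haveI := Fintype.ofFinite R
  haveI : Fintype N := Fintype.ofFinite N
  have hN0 : (Nat.card N : ℂ) ≠ 0 := by exact_mod_cast Nat.card_pos.ne'
  apply sylow_normal_of_coprime_normal p N hN hidx
  intro φ hφ
  have hφN := htriv φ hφ
  have hφ1 : (φ : R → ℂ) 1 ≠ 0 := by
    rw [(irr_charDegree φ).1]; exact_mod_cast (irr_charDegree φ).2
  obtain ⟨⟨n₀, hn₀⟩, hne⟩ := Subgroup.ne_bot_iff_exists_ne_one.1 hNbot
  have hn₀1 : n₀ ≠ 1 := fun h => hne (Subtype.ext h)
  obtain ⟨χ, hχne⟩ := exists_irr_ne_one8 n₀ hn₀1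
  have hpχ : ¬ p ∣ Cfsg.charDegree (χ : R → ℂ) := fun h => hχne (htriv χ h n₀ hn₀)
  have hres : Cfsg.IsIrrCharacter N (fun n : N => (χ : R → ℂ) n) :=
    irr_restrict_pprime8 p N.index R N rfl hidx (χ : R → ℂ) χ.2 hpχ
  have hprod : Cfsg.IsIrrCharacter N
      ((fun _ : N => (1 : ℂ)) * fun n : N => (χ : R → ℂ) n) := by
    have e : ((fun _ : N => (1 : ℂ)) * fun n : N => (χ : R → ℂ) n) =
        fun n : N => (χ : R → ℂ) n := by
      funext n; simp
    rw [e]; exact hres
  obtain ⟨hg1, -, -⟩ := gallagher_core N (fun _ : N => (1 : ℂ)) (isIrrCharacter_one N)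
    (fun _ _ => rfl) (χ : R → ℂ) (isCharacter_of_isIrrCharacter χ.2) hprod
  have hcon : Cfsg.classInner (Cfsg.indFun N (fun _ : N => (1 : ℂ))) (φ : R → ℂ) ≠ 0 := by
    rw [frobenius_reciprocity N _ _ (isClassFunction_of_irr φ.2)]
    have hsum : ∑ h : N, (1 : ℂ) * conj ((φ : R → ℂ) h) =
        (Nat.card N : ℂ) * conj ((φ : R → ℂ) 1) := by
      have h1 : ∀ h ∈ (Finset.univ : Finset N), (1 : ℂ) * conj ((φ : R → ℂ) h) =
          conj ((φ : R → ℂ) 1) := by
        intro h _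
        rw [hφN h h.2, one_mul]
      rw [Finset.sum_congr rfl h1, Finset.sum_const, Finset.card_univ,
        ← Nat.card_eq_fintype_card, nsmul_eq_mul]
    show (Nat.card N : ℂ)⁻¹ * ∑ h : N, (1 : ℂ) * conj ((φ : R → ℂ) h) ≠ 0
    rw [hsum, ← mul_assoc, inv_mul_cancel₀ hN0, one_mul]
    exact (map_ne_zero _).2 hφ1
  have h11 := hg1 (φ : R → ℂ) (φ : R → ℂ) φ.2 φ.2 hcon hcon
  rw [if_pos rfl] at h11
  have hirr : Cfsg.IsIrrCharacter R ((φ : R → ℂ) * (χ : R → ℂ)) :=
    isIrrCharacter_of_norm_one (isCharacter_mul (isCharacter_of_isIrrCharacter φ.2)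
      (isCharacter_of_isIrrCharacter χ.2)) h11
  have hdeg2 : Cfsg.charDegree ((φ : R → ℂ) * (χ : R → ℂ)) =
      Cfsg.charDegree (φ : R → ℂ) * Cfsg.charDegree (χ : R → ℂ) := by
    apply charDegree_eq_of
    rw [Pi.mul_apply, (irr_charDegree φ).1, (irr_charDegree χ).1]
    push_cast; ring
  have htr := htriv ⟨_, hirr⟩ (by
    show p ∣ Cfsg.charDegree ((φ : R → ℂ) * (χ : R → ℂ))
    rw [hdeg2]; exact Dvd.dvd.mul_right hφ _) n₀ hn₀
  have htr' : (φ : R → ℂ) n₀ * (χ : R → ℂ) n₀ = (φ : R → ℂ) 1 * (χ : R → ℂ) 1 := htr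
  rw [hφN n₀ hn₀] at htr'
  exact hχne (mul_left_cancel₀ hφ1 htr')

theorem relIndex_comap_mk8 {G : Type*} [Group G] (K : Subgroup G) [K.Normal]
    (S : Subgroup (G ⧸ K)) :
    K.relIndex (S.comap (QuotientGroup.mk' K)) = Nat.card S := by
  have h1 : ((⊥ : Subgroup (G ⧸ K)).comap (QuotientGroup.mk' K)).relIndex
      (S.comap (QuotientGroup.mk' K)) = Nat.card S := by
    rw [Subgroup.relIndex_comap,
      Subgroup.map_comap_eq_self_of_surjective (QuotientGroup.mk'_surjective K),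
      Subgroup.relIndex_bot_left]
  rwa [MonoidHom.comap_bot, QuotientGroup.ker_mk'] at h1

/-- if `O_p(G) = 1` and a nontrivial normal `p'`-subgroup `K` lies in the kernel of every
`p`-singular irreducible character, then `O_p(G / K) = 1` -/
theorem pCore_quotient_of_psing_trivial8 {G : Type u} [Group G] [Finite G] (p : ℕ)
    [Fact p.Prime] (hcore : Cfsg.pCore p G = ⊥) (K : Subgroup G) [hKn : K.Normal]
    (hKc : (Nat.card K).Coprime p) (hKbot : K ≠ ⊥)
    (hall : ∀ χ : Cfsg.IrrCharacter G, p ∣ Cfsg.charDegree (χ : G → ℂ) →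
      ∀ a ∈ K, (χ : G → ℂ) a = (χ : G → ℂ) 1) :
    Cfsg.pCore p (G ⧸ K) = ⊥ := by
  classical
  have hpp : p.Prime := Fact.out
  haveI := Fintype.ofFinite G
  haveI hQbn : (Cfsg.pCore p (G ⧸ K)).Normal := pCore_normal8 p (G ⧸ K)
  haveI hRn : ((Cfsg.pCore p (G ⧸ K)).comap (QuotientGroup.mk' K)).Normal := hQbn.comap _
  have hKR : K ≤ (Cfsg.pCore p (G ⧸ K)).comap (QuotientGroup.mk' K) := by
    intro x hx
    show QuotientGroup.mk' K x ∈ Cfsg.pCore p (G ⧸ K)
    have h1 : QuotientGroup.mk' K x = 1 := (QuotientGroup.eq_one_iff x).2 hx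
    rw [h1]
    exact Subgroup.one_mem _
  obtain ⟨k, hk⟩ := IsPGroup.exists_card_eq (pCore_isPGroup8 p (G ⧸ K))
  have hmapR : ((Cfsg.pCore p (G ⧸ K)).comap (QuotientGroup.mk' K)).map (QuotientGroup.mk' K) =
      Cfsg.pCore p (G ⧸ K) :=
    Subgroup.map_comap_eq_self_of_surjective (QuotientGroup.mk'_surjective K) _
  generalize hRdef : (Cfsg.pCore p (G ⧸ K)).comap (QuotientGroup.mk' K) = R at hRn hKR hmapR
  haveI : Fintype R := Fintype.ofFinite R
  have hNc : (Nat.card (K.subgroupOf R)).Coprime p := by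
    rw [Nat.card_congr (Subgroup.subgroupOfEquivOfLe hKR).toEquiv]; exact hKc
  have hNidx : (K.subgroupOf R).index = p ^ k := by
    show K.relIndex R = p ^ k
    rw [← hRdef, relIndex_comap_mk8, hk]
  have hNbot : K.subgroupOf R ≠ ⊥ := by
    intro h
    apply hKbot
    rw [eq_bot_iff]
    intro x hx
    have h1 : (⟨x, hKR hx⟩ : R) ∈ K.subgroupOf R := Subgroup.mem_subgroupOf.2 hx
    rw [h, Subgroup.mem_bot] at h1
    rw [Subgroup.mem_bot]
    exact congrArg Subtype.val h1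
  have htriv : ∀ φ : Cfsg.IrrCharacter R, p ∣ Cfsg.charDegree (φ : R → ℂ) →
      ∀ n ∈ K.subgroupOf R, (φ : R → ℂ) n = (φ : R → ℂ) 1 := by
    intro φ hφ n hn
    obtain ⟨hd1, hd0⟩ := charDegree_irr φ.2
    have hInd : Cfsg.IsCharacter G (Cfsg.indFun R (φ : R → ℂ)) :=
      isCharacter_indFun R _ (isCharacter_of_isIrrCharacter φ.2)
    have hInd1 : Cfsg.indFun R (φ : R → ℂ) 1 ≠ 0 := by
      rw [indFun_one, hd1]
      have hi : R.index ≠ 0 := Subgroup.index_ne_zero_of_finite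
      exact mul_ne_zero (by exact_mod_cast hi) (by exact_mod_cast hd0)
    obtain ⟨χ, hχ, hne⟩ := exists_constituent hInd hInd1
    rw [frobenius_reciprocity R _ χ
      (isClassFunction_of_isCharacter (isCharacter_of_isIrrCharacter hχ))] at hne
    have hcon : Cfsg.classInner (fun n : R => χ n) (φ : R → ℂ) ≠ 0 := by
      rw [← classInner_conj_symm]
      exact (map_ne_zero _).mpr hne
    obtain ⟨e, he⟩ := classInner_char_char_nat
      (isCharacter_restrict R (isCharacter_of_isIrrCharacter hχ))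
      (isCharacter_of_isIrrCharacter φ.2)
    have hdeg := clifford_degree R (stabChar R (φ : R → ℂ)) (φ : R → ℂ) φ.2 (fun g => by
        rw [mem_stabChar]
        constructor
        · intro h n; exact congrFun h n
        · intro h; funext n; exact h n) χ hχ hcon e (Cfsg.charDegree (φ : R → ℂ)) he hd1
    obtain ⟨hχ1, -⟩ := charDegree_irr hχ
    rw [hχ1] at hdeg
    have hdeg' : Cfsg.charDegree χ =
        e * (stabChar R (φ : R → ℂ)).index * Cfsg.charDegree (φ : R → ℂ) := by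
      exact_mod_cast hdeg
    have hpχ : p ∣ Cfsg.charDegree χ := by rw [hdeg']; exact Dvd.dvd.mul_left hφ _
    have hχK := hall ⟨χ, hχ⟩ hpχ (n : G) (Subgroup.mem_subgroupOf.1 hn)
    exact constituent_trivial_on8 R χ hχ (φ : R → ℂ) φ.2 hcon n hχK
  obtain ⟨Q0⟩ : Nonempty (Sylow p R) := inferInstance
  have hQ0n : (Q0 : Subgroup R).Normal :=
    sylow_normal_of_psing_trivial8 p (K.subgroupOf R) hNc ⟨k, hNidx⟩ hNbot htriv Q0
  haveI hQ0c : (Q0 : Subgroup R).Characteristic := Sylow.characteristic_of_normal Q0 hQ0n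
  have hmapn : ((Q0 : Subgroup R).map R.subtype).Normal :=
    ConjAct.normal_of_characteristic_of_normal
  have hmapp : IsPGroup p ((Q0 : Subgroup R).map R.subtype) := Q0.2.map R.subtype
  have hle := le_pCore8 hmapn hmapp
  rw [hcore] at hle
  have hQ0bot : (Q0 : Subgroup R) = ⊥ := by
    rw [← Subgroup.map_eq_bot_iff_of_injective _ (Subgroup.subtype_injective R)]
    exact le_bot_iff.1 hle
  have hpR : ¬ p ∣ Nat.card R := fun h => Q0.ne_bot_of_dvd_card h hQ0bot
  have hk0 : k = 0 := by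
    by_contra h
    apply hpR
    have h1 : Nat.card (R.map (QuotientGroup.mk' K)) ∣ Nat.card R := Subgroup.card_map_dvd R _
    rw [hmapR, hk] at h1
    exact dvd_trans (dvd_pow_self p h) h1
  apply Subgroup.eq_bot_of_card_eq
  rw [hk, hk0, pow_zero]

/-- in a `p`-solvable group of order divisible by `p` with `O_p(G) = 1`, some `p`-singular
irreducible character does not contain `O_{p'}(G)` in its kernel -/
theorem exists_psing_nontrivial_core8 {G : Type u} [Group G] [Finite G] (p : ℕ) [Fact p.Prime]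
    (hG : Cfsg.IsPSolvable p G) (hcore : Cfsg.pCore p G = ⊥) (hdiv : p ∣ Nat.card G) :
    ∃ χ : Cfsg.IrrCharacter G, p ∣ Cfsg.charDegree (χ : G → ℂ) ∧
      ∃ a ∈ Cfsg.pPrimeCore p G, (χ : G → ℂ) a ≠ (χ : G → ℂ) 1 := by
  have hpp : p.Prime := Fact.out
  by_contra hall
  push Not at hall
  haveI hKn : (Cfsg.pPrimeCore p G).Normal := Cfsg.Agent.Lib.Helper3.pPrimeCore_normal p G
  have hKc := Cfsg.Agent.Lib.Helper3.pPrimeCore_coprime hpp G
  have hKbot : Cfsg.pPrimeCore p G ≠ ⊥ := by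
    intro hK
    haveI := psolv_cores8 p hG hcore hK
    have h1 : Nat.card G = 1 := Nat.card_of_subsingleton (1 : G)
    rw [h1] at hdiv
    exact hpp.one_lt.ne' (Nat.dvd_one.1 hdiv)
  have hQb := pCore_quotient_of_psing_trivial8 p hcore (Cfsg.pPrimeCore p G) hKc hKbot hall
  have hsub := psolv_cores8 p (psolv_quotient8 p hpp (Cfsg.pPrimeCore p G) hG) hQb
    (Cfsg.Agent.Lib.Helper2.pPrimeCore_quotient_eq_bot p G)
  have hcard : Nat.card G = Nat.card (Cfsg.pPrimeCore p G) := by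
    have h1 := Subgroup.card_mul_index (Cfsg.pPrimeCore p G)
    have h2 : (Cfsg.pPrimeCore p G).index = 1 := by
      rw [Subgroup.index_eq_card]
      exact Nat.card_of_subsingleton (1 : G ⧸ Cfsg.pPrimeCore p G)
    rw [h2, mul_one] at h1
    exact h1.symm
  rw [hcard] at hdiv
  exact (Nat.Prime.coprime_iff_not_dvd hpp).1 hKc.symm hdiv

/-- the number of `p`-singular irreducible characters -/
noncomputable def npsing8 (p : ℕ) (G : Type*) [Group G] : ℕ :=
  Nat.card {χ : Cfsg.IrrCharacter G // p ∣ Cfsg.charDegree (χ : G → ℂ)}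

theorem psolv_dser8 (p : ℕ) [Fact p.Prime] : ∀ (k : ℕ) (G : Type u) [Group G] [Finite G],
    Nat.card G = k → Cfsg.IsPSolvable p G → ∀ P : Sylow p G,
      dser8 (P : Subgroup G) (npsing8 p G + 1) = ⊥ ∧
      (Cfsg.pCore p G = ⊥ → dser8 (P : Subgroup G) (npsing8 p G) = ⊥) := by
  classical
  have hpp : p.Prime := Fact.out
  intro k
  induction k using Nat.strong_induction_on with
  | _ k ih =>
  intro G _ _ hk hG P
  have hquot : ∀ (N : Subgroup G) [N.Normal], N ≠ ⊥ →
      dser8 (P : Subgroup G) (npsing8 p (G ⧸ N) + 1) ≤ N ∧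
      (Cfsg.pCore p (G ⧸ N) = ⊥ → dser8 (P : Subgroup G) (npsing8 p (G ⧸ N)) ≤ N) := by
    intro N _ hN
    have hlt : Nat.card (G ⧸ N) < k := by
      rw [← hk, ← Subgroup.index_eq_card, ← Subgroup.card_mul_index N]
      have h1 : 1 < Nat.card N := (Subgroup.one_lt_card_iff_ne_bot N).2 hN
      have h2 : 0 < N.index := Nat.pos_of_ne_zero Subgroup.index_ne_zero_of_finite
      calc N.index = 1 * N.index := (one_mul _).symm
        _ < Nat.card N * N.index := Nat.mul_lt_mul_of_pos_right h1 h2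
    obtain ⟨h1, h2⟩ := ih _ hlt (G ⧸ N) rfl (psolv_quotient8 p hpp N hG)
      (P.mapSurjective (QuotientGroup.mk'_surjective N))
    rw [Sylow.coe_mapSurjective, dser8_map] at h1
    constructor
    · have h3 := (Subgroup.map_eq_bot_iff _).1 h1
      rwa [QuotientGroup.ker_mk'] at h3
    · intro hc
      have h2' := h2 hc
      rw [Sylow.coe_mapSurjective, dser8_map] at h2'
      have h3 := (Subgroup.map_eq_bot_iff _).1 h2'
      rwa [QuotientGroup.ker_mk'] at h3
  have hPK : ∀ K : Subgroup G, (Nat.card K).Coprime p → K ⊓ (P : Subgroup G) = ⊥ := by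
    intro K hK
    apply Subgroup.inf_eq_bot_of_coprime
    obtain ⟨j, hj⟩ := IsPGroup.iff_card.1 P.2
    rw [hj]
    exact Nat.Coprime.pow_right j hK
  have hA : dser8 (P : Subgroup G) (npsing8 p G + 1) = ⊥ := by
    by_cases hK : Cfsg.pPrimeCore p G = ⊥
    · by_cases hQ : Cfsg.pCore p G = ⊥
      · haveI := psolv_cores8 p hG hQ hK
        rw [eq_bot_iff]
        intro x _
        rw [Subgroup.mem_bot]
        exact Subsingleton.elim _ _
      · haveI hQn := pCore_normal8 p G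
        obtain ⟨hq1, hq2⟩ := hquot (Cfsg.pCore p G) hQ
        by_cases hab : ∀ a ∈ Cfsg.pCore p G, ∀ b ∈ Cfsg.pCore p G, a * b = b * a
        · have h3 := hq2 (pCore_quotient_eq_bot8 p (Cfsg.pCore p G) rfl)
          exact dser8_succ_eq_bot _ (Cfsg.pCore p G) (npsing8 p G)
            ((dser8_antitone _ (psing_count_le8 p (Cfsg.pCore p G))).trans h3) hab
        · -- the nonabelian case
          have hQp := pCore_isPGroup8 p G
          have hex : ∃ m : ℕ, dser8 (Cfsg.pCore p G) m = ⊥ := by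
            haveI : Group.IsNilpotent (Cfsg.pCore p G) := hQp.isNilpotent
            haveI : Group.IsSolvable (Cfsg.pCore p G) := inferInstance
            obtain ⟨m, hm⟩ := (Group.isSolvable_def (Cfsg.pCore p G)).1 inferInstance
            refine ⟨m, ?_⟩
            rw [← dser8_map_subtype, hm, Subgroup.map_bot]
          have hm0 : Nat.find hex ≠ 0 := by
            intro h0
            have h1 := Nat.find_spec hex
            rw [h0] at h1
            exact hQ h1
          obtain ⟨j, hj⟩ := Nat.exists_eq_succ_of_ne_zero hm0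
          have hj0 : j ≠ 0 := by
            intro h0
            have h1 := Nat.find_spec hex
            rw [hj, h0] at h1
            apply hab
            intro a ha b hb
            have h2 := (Subgroup.commutator_le (H₁ := Cfsg.pCore p G) (H₂ := Cfsg.pCore p G)
              (H₃ := ⊥)).1 (le_of_eq h1) a ha b hb
            rw [Subgroup.mem_bot] at h2
            exact commutatorElement_eq_one_iff_mul_comm.1 h2
          obtain ⟨i, hi⟩ := Nat.exists_eq_succ_of_ne_zero hj0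
          have hAne : dser8 (Cfsg.pCore p G) j ≠ ⊥ :=
            Nat.find_min hex (by rw [hj]; exact Nat.lt_succ_self j)
          have hAbot : dser8 (Cfsg.pCore p G) (j + 1) = ⊥ := by
            have h1 := Nat.find_spec hex
            rwa [hj] at h1
          haveI hAn : (dser8 (Cfsg.pCore p G) j).Normal := dser8_normal _ j
          have hAab : ∀ a ∈ dser8 (Cfsg.pCore p G) j, ∀ b ∈ dser8 (Cfsg.pCore p G) j,
              a * b = b * a := by
            intro a ha b hb
            have h2 := (Subgroup.commutator_le (H₁ := dser8 (Cfsg.pCore p G) j)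
              (H₂ := dser8 (Cfsg.pCore p G) j) (H₃ := ⊥)).1 (le_of_eq hAbot) a ha b hb
            rw [Subgroup.mem_bot] at h2
            exact commutatorElement_eq_one_iff_mul_comm.1 h2
          have hAle : dser8 (Cfsg.pCore p G) j ≤ ⁅Cfsg.pCore p G, Cfsg.pCore p G⁆ := by
            have h1 : (1 : ℕ) ≤ j := Nat.one_le_iff_ne_zero.2 hj0
            exact dser8_antitone (Cfsg.pCore p G) h1
          obtain ⟨⟨a, ha⟩, hne⟩ := Subgroup.ne_bot_iff_exists_ne_one.1 hAne
          have ha1 : a ≠ 1 := fun h => hne (Subtype.ext h)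
          obtain ⟨χ, hχ, hχne⟩ := exists_psing_nontrivial_on8 p (Cfsg.pCore p G) hQp a
            (hAle ha) ha1
          have hlt := psing_count_lt8 p (dser8 (Cfsg.pCore p G) j) χ hχ a ha hχne
          obtain ⟨hq1', -⟩ := hquot (dser8 (Cfsg.pCore p G) j) hAne
          exact dser8_succ_eq_bot _ (dser8 (Cfsg.pCore p G) j) (npsing8 p G)
            ((dser8_antitone _ hlt).trans hq1') hAab
    · haveI := Cfsg.Agent.Lib.Helper3.pPrimeCore_normal p G
      obtain ⟨hq1, -⟩ := hquot (Cfsg.pPrimeCore p G) hK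
      have h3 : dser8 (P : Subgroup G) (npsing8 p G + 1) ≤ Cfsg.pPrimeCore p G :=
        (dser8_antitone _ (Nat.succ_le_succ (psing_count_le8 p _))).trans hq1
      have h4 := dser8_le (P : Subgroup G) (npsing8 p G + 1)
      rw [eq_bot_iff, ← hPK _ (Cfsg.Agent.Lib.Helper3.pPrimeCore_coprime hpp G)]
      exact le_inf h3 h4
  refine ⟨hA, ?_⟩
  intro hQ
  by_cases hP : (P : Subgroup G) = ⊥
  · rw [eq_bot_iff]
    have h1 := dser8_le (P : Subgroup G) (npsing8 p G)
    exact h1.trans (le_of_eq hP)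
  · have hdiv : p ∣ Nat.card G := by
      obtain ⟨j, hj⟩ := IsPGroup.iff_card.1 P.2
      have hj0 : j ≠ 0 := by
        intro h0
        rw [h0, pow_zero] at hj
        exact hP (Subgroup.eq_bot_of_card_eq _ hj)
      have h1 : Nat.card (P : Subgroup G) ∣ Nat.card G := Subgroup.card_subgroup_dvd_card _
      rw [hj] at h1
      exact dvd_trans (dvd_pow_self p hj0) h1
    obtain ⟨χ, hχ, a, ha, hne⟩ := exists_psing_nontrivial_core8 p hG hQ hdiv
    have hK : Cfsg.pPrimeCore p G ≠ ⊥ := by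
      intro h
      rw [h, Subgroup.mem_bot] at ha
      rw [ha] at hne
      exact hne rfl
    haveI := Cfsg.Agent.Lib.Helper3.pPrimeCore_normal p G
    obtain ⟨hq1, -⟩ := hquot (Cfsg.pPrimeCore p G) hK
    have hlt := psing_count_lt8 p (Cfsg.pPrimeCore p G) χ hχ a ha hne
    have h3 : dser8 (P : Subgroup G) (npsing8 p G) ≤ Cfsg.pPrimeCore p G :=
      (dser8_antitone _ hlt).trans hq1
    rw [eq_bot_iff, ← hPK _ (Cfsg.Agent.Lib.Helper3.pPrimeCore_coprime hpp G)]
    exact le_inf h3 (dser8_le _ _)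

theorem psolv_sylow_derived8 {G : Type u} [Group G] [Finite G] (p : ℕ) [Fact p.Prime]
    (hG : Cfsg.IsPSolvable p G) (P : Sylow p G) :
    derivedSeries ↥(P : Subgroup G)
      (Nat.card {χ : Cfsg.IrrCharacter G // p ∣ Cfsg.charDegree (χ : G → ℂ)} + 1) = ⊥ := by
  have h := (psolv_dser8 p (Nat.card G) G rfl hG P).1
  rw [← dser8_map_subtype] at h
  exact (Subgroup.map_eq_bot_iff_of_injective _ (Subgroup.subtype_injective _)).1 h

end Cfsg.Agent.Lib.Helper8
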