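import Mathlib
import Cfsg.Prelude.Def_FusionSystem
import Cfsg.Agent.Lib.Helper8.Fusion
import Cfsg.Agent.Lib.Helper8.Fusion3
import Cfsg.Agent.Lib.Helper8.Fusion4
import Cfsg.Agent.Lib.Helper8.FusionAut
import Cfsg.Agent.Lib.Helper8.FusionMisc
import Cfsg.Agent.Lib.Helper8.FusionSat
import Cfsg.Agent.Lib.Helper8.FusionRS
import Cfsg.Agent.Lib.Helper8.FusionAlperin
import Cfsg.Agent.Lib.Helper8.FusionRealized
import Cfsg.Agent.Lib.Helper8.FusionHypAut
import Cfsg.Agent.Lib.Helper8.PIdx1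
import Cfsg.Agent.Lib.Helper8.PStab1
import Cfsg.Agent.Lib.Helper8.PStab2

set_option autoImplicit false

namespace Cfsg.Agent.Lib.Helper8

open Cfsg Cfsg.FusionSystem

variable {Ω : Type*} [Group Ω] {S : Subgroup Ω}

theorem autGroup_congr8 (F : FusionSystem S) {Q Q' : Subgroup Ω} (hQ : Q ≤ S) (hQ' : Q' ≤ S)
    (e : Q ≃* Q') (he : FsIso F e) (α : MulAut Q) :
    α ∈ F.autGroup Q ↔ (MulAut.congr e) α ∈ F.autGroup Q' := by
  have hes : FsIso F e.symm := fsIso_symm F he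
  have hcg : (MulAut.congr e) α = e.symm.trans (α.trans e) := rfl
  rw [mem_autGroup_iff F hQ, mem_autGroup_iff F hQ', hcg]
  constructor
  · intro h
    exact fsIso_trans F hes (fsIso_trans F h he)
  · intro h
    have h2 := fsIso_trans F he (fsIso_trans F h hes)
    have e2 : e.trans ((e.symm.trans (α.trans e)).trans e.symm) = α := by
      refine MulEquiv.ext (fun x => ?_)
      show e.symm (e (α (e.symm (e x)))) = α x
      rw [e.symm_apply_apply, e.symm_apply_apply]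
    rw [e2] at h2
    exact h2

theorem inn_le_pcoreMap8 (F : FusionSystem S) [Finite S] (p : ℕ) [Fact p.Prime]
    (hS : IsPGroup p S) {R : Subgroup Ω} (hRS : R ≤ S) :
    Inn R ≤ (pCore p (F.autGroup R)).map (F.autGroup R).subtype := by
  apply le_pcoreMap8
  · exact inn_le_autGroup F hRS
  · rintro a - _ ⟨r, rfl⟩
    refine ⟨a r, ?_⟩
    refine MulEquiv.ext (fun x => ?_)
    show a r * x * (a r)⁻¹ = a (r * a⁻¹ x * r⁻¹)
    rw [map_mul, map_mul, map_inv, MulAut.apply_inv_self]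
  · exact inn_isPGroup (hS.to_le hRS)

/-- a fully normalized subgroup that is not centric radical is properly contained in a subgroup
to which all its automorphisms extend -/
theorem radstep8 (F : FusionSystem S) [Finite S] (p : ℕ) [Fact p.Prime] (hS : IsPGroup p S)
    (hF : F.IsSaturated p) (R : Subgroup Ω) (hR : F.IsFullyNormalized R)
    (hncr : ¬ (F.IsCentric R ∧ F.IsRadical p R)) :
    ∃ R₁ : Subgroup Ω, ∃ hle : R ≤ R₁, R₁ ≤ S ∧ R ≠ R₁ ∧ ∀ α ∈ F.autGroup R,
      ∃ β ∈ F.autGroup R₁,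
        ∀ x : R, ((β (Subgroup.inclusion hle x) : R₁) : Ω) = ((α x : R) : Ω) := by
  have hRS : R ≤ S := hR.1
  obtain ⟨hn, hcr⟩ := (fs_saturated_iff F p hS).1 hF
  obtain ⟨hRc, hRa⟩ := hn R hR
  have hRr : F.IsReceptive R := hcr R hRc
  haveI : Finite R := finite_of_le_fs hRS
  haveI : Finite (F.autGroup R) := finite_autGroup F hRS
  obtain ⟨K, hK⟩ : ∃ K : Subgroup (MulAut R),
    K = (pCore p (F.autGroup R)).map (F.autGroup R).subtype := ⟨_, rfl⟩
  have hInnK : Inn R ≤ K := by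
    rw [hK]
    exact inn_le_pcoreMap8 F p hS hRS
  have hKS : K ≤ autInducedBy S R := by
    obtain ⟨-, T, hT⟩ := hRa
    rw [hK]
    rintro _ ⟨k, hk, rfl⟩
    have h1 : k ∈ (T : Subgroup (F.autGroup R)) := pCore_le_sylow8 p T hk
    rw [hT] at h1
    exact Subgroup.mem_subgroupOf.1 h1
  have hKconj : ∀ a ∈ F.autGroup R, ∀ k ∈ K, a * k * a⁻¹ ∈ K := by
    intro a ha k hk
    rw [hK] at hk ⊢
    exact pcoreMap_conj8 p (F.autGroup R) a ha k hk
  obtain ⟨R₁, hR₁⟩ : ∃ R₁ : Subgroup Ω, ∀ g : Ω, g ∈ R₁ ↔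
      (g ∈ S ∧ ∃ hg : g ∈ Subgroup.normalizer (R : Set Ω),
        R.normalizerMonoidHom ⟨g, hg⟩ ∈ K) := by
    refine ⟨((K.comap R.normalizerMonoidHom).map (Subgroup.normalizer (R : Set Ω)).subtype) ⊓ S,
      fun g => ?_⟩
    constructor
    · intro h
      obtain ⟨h1, hgS⟩ := Subgroup.mem_inf.1 h
      obtain ⟨n, hn, rfl⟩ := h1
      exact ⟨hgS, n.2, hn⟩
    · rintro ⟨hgS, hg, hk⟩
      exact Subgroup.mem_inf.2 ⟨⟨⟨g, hg⟩, hk, rfl⟩, hgS⟩
  have hRR₁ : R ≤ R₁ := by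
    intro r hr
    refine (hR₁ r).2 ⟨hRS hr, Subgroup.le_normalizer hr, hInnK ⟨⟨r, hr⟩, ?_⟩⟩
    refine MulEquiv.ext (fun x => Subtype.ext ?_)
    rfl
  have hR₁S : R₁ ≤ S := fun g hg => ((hR₁ g).1 hg).1
  have hext : ∀ α ∈ F.autGroup R, ∃ β ∈ F.autGroup R₁,
      ∀ x : R, ((β (Subgroup.inclusion hRR₁ x) : R₁) : Ω) = ((α x : R) : Ω) := by
    intro α hα
    have hα' : R.subtype.comp α.toMonoidHom ∈ F.Hom R := (mem_autGroup_iff F hRS α).1 hα
    have hT : R₁ ≤ extender S R (R.subtype.comp α.toMonoidHom) := by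
      intro g hg
      obtain ⟨hgS, hgN, hk⟩ := (hR₁ g).1 hg
      exact mem_extender_of_conj_mem α hgS hgN (hKS (hKconj α hα _ hk))
    obtain ⟨θ', hθ', hag⟩ := fs_receptive_extend F hRr hα' (fsIso_range α) hRR₁ hT
    have hag' : ∀ x : R, θ' (Subgroup.inclusion hRR₁ x) = ((α x : R) : Ω) := hag
    have hrange : θ'.range ≤ R₁ := by
      rintro _ ⟨g, rfl⟩
      obtain ⟨hgS, hgN, hk⟩ := (hR₁ (g : Ω)).1 g.2
      have hconj : ∀ y : R, θ' g * (y : Ω) * (θ' g)⁻¹ =
          ((α (R.normalizerMonoidHom ⟨g, hgN⟩ (α⁻¹ y)) : R) : Ω) := by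
        intro y
        have h1 := hag' (α⁻¹ y)
        rw [MulAut.apply_inv_self] at h1
        have h2 := hag' (R.normalizerMonoidHom ⟨g, hgN⟩ (α⁻¹ y))
        have e3 : Subgroup.inclusion hRR₁ (R.normalizerMonoidHom ⟨g, hgN⟩ (α⁻¹ y)) =
            g * Subgroup.inclusion hRR₁ (α⁻¹ y) * g⁻¹ := Subtype.ext rfl
        rw [e3, map_mul, map_mul, map_inv, h1] at h2
        exact h2
      have hθS : θ' g ∈ S := fs_map_mem F hθ' g
      have hθN : θ' g ∈ Subgroup.normalizer (R : Set Ω) := by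
        apply mem_normalizer_of_conj_mem_finite
        intro y hy
        have h := hconj ⟨y, hy⟩
        have h' : θ' g * y * (θ' g)⁻¹ =
            ((α (R.normalizerMonoidHom ⟨g, hgN⟩ (α⁻¹ ⟨y, hy⟩)) : R) : Ω) := h
        rw [h']
        exact (α _).2
      refine (hR₁ _).2 ⟨hθS, hθN, ?_⟩
      have e4 : R.normalizerMonoidHom ⟨θ' g, hθN⟩ =
          α * R.normalizerMonoidHom ⟨g, hgN⟩ * α⁻¹ := by
        refine MulEquiv.ext (fun y => Subtype.ext ?_)
        exact hconj y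
      rw [e4]
      exact hKconj α hα _ hk
    obtain ⟨β, hβ, hβv⟩ := fs_exists_aut_of_range_le F hθ' hrange
    exact ⟨β, hβ, fun x => (hβv _).trans (hag' x)⟩
  have hne : R ≠ R₁ := by
    intro heq
    apply hncr
    have hR₁R : R₁ ≤ R := by
      rw [← heq]
    constructor
    · apply fs_centric_of_fullyCentralized8 F hRc
      intro c hc
      obtain ⟨hcS, hcC⟩ := mem_centralizerIn.1 hc
      apply hR₁R
      have hcN : c ∈ Subgroup.normalizer (R : Set Ω) :=
        Subgroup.centralizer_le_normalizer _ hc.2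
      refine (hR₁ c).2 ⟨hcS, hcN, ?_⟩
      have e5 : R.normalizerMonoidHom ⟨c, hcN⟩ = 1 := by
        refine MulEquiv.ext (fun x => Subtype.ext ?_)
        show c * (x : Ω) * c⁻¹ = x
        have h := hcC x x.2
        rw [← h]
        group
      rw [e5]
      exact K.one_mem
    · refine ⟨hRS, ?_⟩
      rw [← hK]
      apply le_antisymm _ hInnK
      intro k hk
      obtain ⟨g, hgS, hg⟩ := (mem_autInducedBy_iff S R k).1 (hKS hk)
      have hgN : g ∈ Subgroup.normalizer (R : Set Ω) := by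
        apply mem_normalizer_of_conj_mem_finite
        intro y hy
        have h := hg ⟨y, hy⟩
        have h' : g * y * g⁻¹ = ((k ⟨y, hy⟩ : R) : Ω) := h.symm
        rw [h']
        exact (k _).2
      have e6 : R.normalizerMonoidHom ⟨g, hgN⟩ = k := by
        refine MulEquiv.ext (fun x => Subtype.ext ?_)
        exact (hg x).symm
      have hgR₁ : g ∈ R₁ := (hR₁ g).2 ⟨hgS, hgN, by rw [e6]; exact hk⟩
      have hgR : g ∈ R := hR₁R hgR₁
      refine ⟨⟨g, hgR⟩, ?_⟩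
      refine MulEquiv.ext (fun x => Subtype.ext ?_)
      exact (hg x).symm
  exact ⟨R₁, hRR₁, hR₁S, hne, hext⟩

theorem pstab_cr_aux8 (F : FusionSystem S) [Finite S] (p : ℕ) [Fact p.Prime] (hS : IsPGroup p S)
    (hF : F.IsSaturated p)
    (hyp : ∀ R : Subgroup Ω, F.IsFullyNormalized R → F.IsCentric R → F.IsRadical p R →
      ∀ N : FusionSystem (normalizerIn S R), F.IsNormalizerSystem R N →
      (∀ Q : Subgroup Ω, N.IsFullyNormalized Q → ∀ χ : MulAut ↥Q, χ ∈ N.autGroup Q →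
        (∀ a : ↥Q, (χ a⁻¹) * a * (χ a⁻¹) * (χ (χ a)) = 1) →
        χ ∈ ((pCore p ↥(N.autGroup Q)).map (N.autGroup Q).subtype : Subgroup (MulAut ↥Q)))) :
    ∀ n : ℕ, ∀ R : Subgroup Ω, R ≤ S → Nat.card S - Nat.card R = n →
      ∀ (Q : Subgroup Ω) (hQR : Q ≤ R),
      (∀ α ∈ F.autGroup Q, ∃ β ∈ F.autGroup R,
        ∀ x : Q, ((β (Subgroup.inclusion hQR x) : R) : Ω) = ((α x : Q) : Ω)) →
      ∀ χ : MulAut Q, χ ∈ F.autGroup Q → (∀ a : Q, (χ a⁻¹) * a * (χ a⁻¹) * (χ (χ a)) = 1) →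
      χ ∈ (pCore p (F.autGroup Q)).map (F.autGroup Q).subtype := by
  intro n
  induction n using Nat.strong_induction_on with
  | _ n ih =>
    intro R hRS hn Q hQR hext χ hχ hq
    have hQS : Q ≤ S := hQR.trans hRS
    obtain ⟨R', ⟨φ, hφ, hr⟩, hR'⟩ := exists_fullyNormalized_conj F hRS
    have hR'S : R' ≤ S := hR'.1
    obtain ⟨e, he, hev⟩ : ∃ e : R ≃* R', FsIso F e ∧ ∀ x : R, ((e x : R') : Ω) = φ x :=
      ⟨fsEquiv φ (F.injective_of_mem hφ) hr, fsIso_fsEquiv F hφ hr, fun x => rfl⟩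
    have hψ : φ.comp (Subgroup.inclusion hQR) ∈ F.Hom Q := fs_restrict_mem F hφ hQR
    obtain ⟨Q', hQ'⟩ : ∃ Q' : Subgroup Ω, (φ.comp (Subgroup.inclusion hQR)).range = Q' :=
      ⟨_, rfl⟩
    obtain ⟨eQ, heQ, heQv⟩ : ∃ eQ : Q ≃* Q', FsIso F eQ ∧
        ∀ x : Q, ((eQ x : Q') : Ω) = φ (Subgroup.inclusion hQR x) :=
      ⟨fsEquiv _ (F.injective_of_mem hψ) hQ', fsIso_fsEquiv F hψ hQ', fun x => rfl⟩
    have hQ'R' : Q' ≤ R' := by
      rw [← hQ', ← hr]
      rintro _ ⟨x, rfl⟩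
      exact ⟨Subgroup.inclusion hQR x, rfl⟩
    have hQ'S : Q' ≤ S := hQ'R'.trans hR'S
    have hcomp : ∀ x : Q, e (Subgroup.inclusion hQR x) = Subgroup.inclusion hQ'R' (eQ x) := by
      intro x
      apply Subtype.ext
      rw [hev]
      exact (heQv x).symm
    have hext' : ∀ α' ∈ F.autGroup Q', ∃ β' ∈ F.autGroup R',
        ∀ y : Q', ((β' (Subgroup.inclusion hQ'R' y) : R') : Ω) = ((α' y : Q') : Ω) := by
      intro α' hα'
      obtain ⟨α, hαe⟩ : ∃ α : MulAut Q, (MulAut.congr eQ) α = α' :=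
        ⟨(MulAut.congr eQ).symm α', (MulAut.congr eQ).apply_symm_apply α'⟩
      have hα : α ∈ F.autGroup Q := by
        rw [autGroup_congr8 F hQS hQ'S eQ heQ, hαe]
        exact hα'
      obtain ⟨β, hβ, hβv⟩ := hext α hα
      refine ⟨(MulAut.congr e) β, (autGroup_congr8 F hRS hR'S e he β).1 hβ, ?_⟩
      intro y
      obtain ⟨x, rfl⟩ := eQ.surjective y
      have h1 : e.symm (Subgroup.inclusion hQ'R' (eQ x)) = Subgroup.inclusion hQR x := by
        rw [← hcomp, e.symm_apply_apply]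
      have h2 : β (Subgroup.inclusion hQR x) = Subgroup.inclusion hQR (α x) :=
        Subtype.ext (hβv x)
      show ((e (β (e.symm (Subgroup.inclusion hQ'R' (eQ x)))) : R') : Ω) = _
      rw [h1, h2, hcomp, ← hαe]
      show ((eQ (α x) : Q') : Ω) = ((eQ (α (eQ.symm (eQ x))) : Q') : Ω)
      rw [eQ.symm_apply_apply]
    have hq' := quad_congr8 eQ χ hq
    have hχ' : (MulAut.congr eQ) χ ∈ F.autGroup Q' :=
      (autGroup_congr8 F hQS hQ'S eQ heQ χ).1 hχ
    suffices hmain : (MulAut.congr eQ) χ ∈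
        (pCore p (F.autGroup Q')).map (F.autGroup Q').subtype from
      pcoreMap_transport8 p (MulAut.congr eQ) (F.autGroup Q) (F.autGroup Q')
        (autGroup_congr8 F hQS hQ'S eQ heQ) χ hmain
    obtain ⟨χ', hχ'e⟩ : ∃ χ' : MulAut Q', χ' = (MulAut.congr eQ) χ := ⟨_, rfl⟩
    rw [← hχ'e] at hq' hχ' ⊢
    by_cases hcr : F.IsCentric R' ∧ F.IsRadical p R'
    · have hN := isNormalizerSystem_normalizerSystem F R' hR'S
      obtain ⟨N, hNe⟩ : ∃ N : FusionSystem (normalizerIn S R'),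
        N = normalizerSystem F R' hR'S := ⟨_, rfl⟩
      rw [← hNe] at hN
      haveI : Finite (normalizerIn S R') := finite_of_le_fs (normalizerIn_le S R')
      have hstab := hyp R' hR' hcr.1 hcr.2 N hN
      have hQ'N : Q' ≤ normalizerIn S R' := hQ'R'.trans (le_normalizerIn hR'S)
      have hmemN : ∀ α' ∈ F.autGroup Q', α' ∈ N.autGroup Q' := by
        intro α' hα'
        obtain ⟨β', hβ', hβ'v⟩ := hext' α' hα'
        rw [mem_autGroup_iff N hQ'N]
        show Q'.subtype.comp α'.toMonoidHom ∈ N.Hom Q'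
        rw [hN Q']
        have hβF : R'.subtype.comp β'.toMonoidHom ∈ F.Hom R' :=
          (mem_autGroup_iff F hR'S β').1 hβ'
        have hle : Q' ⊔ R' ≤ R' := sup_le hQ'R' le_rfl
        refine ⟨(mem_autGroup_iff F hQ'S α').1 hα', hQ'N, fun x => hQ'N (α' x).2,
          (R'.subtype.comp β'.toMonoidHom).comp (Subgroup.inclusion hle),
          fs_restrict_mem F hβF hle, ?_, ?_⟩
        · intro x
          have e1 : Subgroup.inclusion hle (Subgroup.inclusion le_sup_left x) =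
              Subgroup.inclusion hQ'R' x := Subtype.ext rfl
          show ((β' (Subgroup.inclusion hle (Subgroup.inclusion le_sup_left x)) : R') : Ω) = _
          rw [e1]
          exact hβ'v x
        · ext y
          constructor
          · rintro ⟨z, hz, rfl⟩
            exact (β' (Subgroup.inclusion hle z)).2
          · intro hy
            refine ⟨Subgroup.inclusion le_sup_right (β'.symm ⟨y, hy⟩),
              Subgroup.mem_subgroupOf.2 (β'.symm ⟨y, hy⟩).2, ?_⟩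
            have e2 : Subgroup.inclusion hle
                (Subgroup.inclusion le_sup_right (β'.symm ⟨y, hy⟩)) =
                β'.symm ⟨y, hy⟩ := Subtype.ext rfl
            show ((β' (Subgroup.inclusion hle
              (Subgroup.inclusion le_sup_right (β'.symm ⟨y, hy⟩))) : R') : Ω) = y
            rw [e2, MulEquiv.apply_symm_apply]
      have hau : N.autGroup Q' = F.autGroup Q' :=
        le_antisymm (nsys_autGroup_le8 F R' N hN Q' hQ'N) hmemN
      have h1 := pstab_conj8 N p hstab Q' hQ'N χ' (hmemN χ' hχ') hq'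
      have key : ∀ A B : Subgroup (MulAut Q'), A = B →
          χ' ∈ (pCore p A).map A.subtype → χ' ∈ (pCore p B).map B.subtype := by
        rintro A _ rfl h
        exact h
      exact key _ _ hau h1
    · obtain ⟨R₁, hle₁, hR₁S, hne, hext₁⟩ := radstep8 F p hS hF R' hR' hcr
      haveI : Finite R₁ := finite_of_le_fs hR₁S
      haveI : Finite R' := finite_of_le_fs hR'S
      have hcard1 : Nat.card R = Nat.card R' := Nat.card_congr e.toEquiv
      have hcard2 : Nat.card R' < Nat.card R₁ := by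
        by_contra hcon
        exact hne (Subgroup.eq_of_le_of_card_ge hle₁ (not_lt.1 hcon))
      have hcard3 : Nat.card R₁ ≤ Nat.card S := Subgroup.card_le_of_le hR₁S
      have hlt : Nat.card S - Nat.card R₁ < n := by omega
      have hQ'R₁ : Q' ≤ R₁ := hQ'R'.trans hle₁
      refine ih _ hlt R₁ hR₁S rfl Q' hQ'R₁ ?_ χ' hχ' hq'
      intro α' hα'
      obtain ⟨β', hβ', hβ'v⟩ := hext' α' hα'
      obtain ⟨β₁, hβ₁, hβ₁v⟩ := hext₁ β' hβ'
      refine ⟨β₁, hβ₁, fun y => ?_⟩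
      have e1 : Subgroup.inclusion hQ'R₁ y =
          Subgroup.inclusion hle₁ (Subgroup.inclusion hQ'R' y) := Subtype.ext rfl
      rw [e1, hβ₁v]
      exact hβ'v y

theorem pstab_cr_main8 (F : FusionSystem S) [Finite S] (p : ℕ) [Fact p.Prime]
    (hS : IsPGroup p S) (hF : F.IsSaturated p) :
    (∀ Q : Subgroup Ω, F.IsFullyNormalized Q → ∀ χ : MulAut ↥Q, χ ∈ F.autGroup Q →
      (∀ a : ↥Q, (χ a⁻¹) * a * (χ a⁻¹) * (χ (χ a)) = 1) →
      χ ∈ ((Cfsg.pCore p ↥(F.autGroup Q)).map (F.autGroup Q).subtype : Subgroup (MulAut ↥Q))) ↔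
    ∀ R : Subgroup Ω, F.IsFullyNormalized R → F.IsCentric R → F.IsRadical p R →
      ∀ N : Cfsg.FusionSystem (Cfsg.FusionSystem.normalizerIn S R), F.IsNormalizerSystem R N →
      (∀ Q : Subgroup Ω, N.IsFullyNormalized Q → ∀ χ : MulAut ↥Q, χ ∈ N.autGroup Q →
        (∀ a : ↥Q, (χ a⁻¹) * a * (χ a⁻¹) * (χ (χ a)) = 1) →
        χ ∈ ((Cfsg.pCore p ↥(N.autGroup Q)).map (N.autGroup Q).subtype :
          Subgroup (MulAut ↥Q))) := by
  constructor
  · intro hL R _ _ _ N hN Q hQ χ hχ hq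
    have hQN : Q ≤ normalizerIn S R := hQ.1
    have hQS : Q ≤ S := hQN.trans (normalizerIn_le S R)
    have hle := nsys_autGroup_le8 F R N hN Q hQN
    have h1 := pstab_conj8 F p hL Q hQS χ (hle hχ) hq
    exact pcoreMap_inf8 p (N.autGroup Q) (F.autGroup Q) hle (Subgroup.mem_inf.2 ⟨h1, hχ⟩)
  · intro hyp Q hQ χ hχ hq
    exact pstab_cr_aux8 F p hS hF hyp _ Q hQ.1 rfl Q le_rfl
      (fun α hα => ⟨α, hα, fun x => rfl⟩) χ hχ hq

end Cfsg.Agent.Lib.Helper8
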