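import Mathlib

set_option autoImplicit false

namespace Cfsg.Agent.Lib.Helper8

section ParkA

variable {Γ : Type*} [Group Γ] {X : Type*} {Y : Type*}

/-- stabilizer of a point under a permutation representation -/
def stabP8 (a : Γ →* Equiv.Perm X) (x : X) : Subgroup Γ :=
  (MulAction.stabilizer (Equiv.Perm X) x).comap a

theorem mem_stabP8 (a : Γ →* Equiv.Perm X) (x : X) (γ : Γ) : γ ∈ stabP8 a x ↔ a γ x = x := by
  unfold stabP8
  rw [Subgroup.mem_comap, MulAction.mem_stabilizer_iff]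
  rfl

/-- fixed points of a subgroup inside a set -/
def fixP8 (a : Γ →* Equiv.Perm X) (A : Set X) (D : Subgroup Γ) : Set X :=
  {x | x ∈ A ∧ ∀ γ ∈ D, a γ x = x}

theorem perm_inv_apply8 (a : Γ →* Equiv.Perm X) (γ : Γ) (x : X) : a γ⁻¹ (a γ x) = x := by
  rw [← Equiv.Perm.mul_apply, ← map_mul, inv_mul_cancel, map_one]
  rfl

theorem perm_apply_inv8 (a : Γ →* Equiv.Perm X) (γ : Γ) (x : X) : a γ (a γ⁻¹ x) = x := by
  rw [← Equiv.Perm.mul_apply, ← map_mul, mul_inv_cancel, map_one]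
  rfl

theorem perm_mul_apply8 (a : Γ →* Equiv.Perm X) (γ δ : Γ) (x : X) : a (γ * δ) x = a γ (a δ x) := by
  rw [map_mul, Equiv.Perm.mul_apply]

theorem perm_one_apply8 (a : Γ →* Equiv.Perm X) (x : X) : a 1 x = x := by
  rw [map_one]
  rfl

theorem stab_eq_iff8 (a : Γ →* Equiv.Perm X) (γ γ' : Γ) (x : X) :
    a γ x = a γ' x ↔ γ'⁻¹ * γ ∈ stabP8 a x := by
  rw [mem_stabP8, perm_mul_apply8]
  constructor
  · intro h
    rw [h, perm_inv_apply8]
  · intro h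
    have h2 := congrArg (a γ') h
    rwa [perm_apply_inv8] at h2

theorem fixP_bot8 (a : Γ →* Equiv.Perm X) (A : Set X) : fixP8 a A ⊥ = A := by
  ext x
  constructor
  · intro h
    exact h.1
  · intro h
    refine ⟨h, fun γ hγ => ?_⟩
    rw [Subgroup.mem_bot] at hγ
    rw [hγ, perm_one_apply8]

theorem fixP_split8 [Finite X] (a : Γ →* Equiv.Perm X) (A O : Set X) (hOA : O ⊆ A)
    (D : Subgroup Γ) :
    (fixP8 a A D).ncard = (fixP8 a (A \ O) D).ncard + (fixP8 a O D).ncard := by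
  have h := Set.ncard_union_eq (s := fixP8 a (A \ O) D) (t := fixP8 a O D)
    (Set.disjoint_left.mpr (fun x h1 h2 => h1.1.2 h2.1))
  rw [← h]
  congr 1
  ext x
  constructor
  · rintro ⟨hx, hf⟩
    by_cases hxO : x ∈ O
    · exact Or.inr ⟨hxO, hf⟩
    · exact Or.inl ⟨⟨hx, hxO⟩, hf⟩
  · rintro (⟨⟨hx, _⟩, hf⟩ | ⟨hx, hf⟩)
    · exact ⟨hx, hf⟩
    · exact ⟨hOA hx, hf⟩

theorem parkA_pt8 [Finite Γ] [Finite X] [Finite Y] (a : Γ →* Equiv.Perm X)
    (b : Γ →* Equiv.Perm Y) (A : Set X) (B : Set Y)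
    (hm : ∀ D : Subgroup Γ, (fixP8 a A D).ncard = (fixP8 b B D).ncard)
    (x₁ : X) (hx₁ : x₁ ∈ A)
    (hmax : ∀ y ∈ B, Nat.card (stabP8 b y) ≤ Nat.card (stabP8 a x₁)) :
    ∃ y ∈ B, stabP8 b y = stabP8 a x₁ := by
  have h1 : x₁ ∈ fixP8 a A (stabP8 a x₁) := ⟨hx₁, fun γ hγ => (mem_stabP8 a x₁ γ).mp hγ⟩
  have h2 : (fixP8 a A (stabP8 a x₁)).ncard ≠ 0 := by
    intro h0
    have h3 := (Set.ncard_eq_zero (Set.toFinite _)).mp h0
    rw [h3] at h1
    exact h1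
  rw [hm] at h2
  obtain ⟨y, hy⟩ := Set.nonempty_of_ncard_ne_zero h2
  refine ⟨y, hy.1, ?_⟩
  have hle : stabP8 a x₁ ≤ stabP8 b y := fun γ hγ => (mem_stabP8 b y γ).mpr (hy.2 γ hγ)
  exact (Subgroup.eq_of_le_of_card_ge hle (hmax y hy.1)).symm

theorem parkA_orbit8 (a : Γ →* Equiv.Perm X) (b : Γ →* Equiv.Perm Y) (x₁ : X) (y₁ : Y)
    (hst : stabP8 a x₁ = stabP8 b y₁) (f₀ : X → Y) :
    ∃ g₀ : X → Y, ∀ γ, g₀ (a γ x₁) = b γ y₁ := by
  classical
  refine ⟨fun x => if h : ∃ γ, a γ x₁ = x then b h.choose y₁ else f₀ x, fun γ => ?_⟩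
  have hex : ∃ γ', a γ' x₁ = a γ x₁ := ⟨γ, rfl⟩
  show (if h : ∃ γ', a γ' x₁ = a γ x₁ then b h.choose y₁ else f₀ (a γ x₁)) = b γ y₁
  rw [dif_pos hex]
  have hc := hex.choose_spec
  have h1 := (stab_eq_iff8 a _ _ x₁).mp hc
  rw [hst] at h1
  exact (stab_eq_iff8 b _ _ y₁).mpr h1

theorem parkA_empty8 [Finite Γ] [Finite X] [Finite Y] (a : Γ →* Equiv.Perm X)
    (b : Γ →* Equiv.Perm Y) (f₀ : X → Y) (A : Set X) (B : Set Y) (hA0 : A = ∅)
    (hm : ∀ D : Subgroup Γ, (fixP8 a A D).ncard = (fixP8 b B D).ncard) :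
    ∃ f : X → Y, Set.MapsTo f A B ∧ Set.InjOn f A ∧ Set.SurjOn f A B ∧
      ∀ γ, ∀ x ∈ A, f (a γ x) = b γ (f x) := by
  have hB0 : B = ∅ := by
    have h1 := hm ⊥
    rw [fixP_bot8, fixP_bot8, hA0, Set.ncard_empty] at h1
    exact (Set.ncard_eq_zero (Set.toFinite _)).mp h1.symm
  subst hA0
  subst hB0
  exact ⟨f₀, fun x hx => hx.elim, fun x hx => hx.elim, fun y hy => hy.elim,
    fun γ x hx => hx.elim⟩

theorem parkA_ind8 [Finite Γ] [Finite X] [Finite Y] (a : Γ →* Equiv.Perm X)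
    (b : Γ →* Equiv.Perm Y) (f₀ : X → Y) :
    ∀ (n : ℕ) (A : Set X) (B : Set Y), A.ncard ≤ n →
      (∀ γ, ∀ x ∈ A, a γ x ∈ A) → (∀ γ, ∀ y ∈ B, b γ y ∈ B) →
      (∀ D : Subgroup Γ, (fixP8 a A D).ncard = (fixP8 b B D).ncard) →
      ∃ f : X → Y, Set.MapsTo f A B ∧ Set.InjOn f A ∧ Set.SurjOn f A B ∧
        ∀ γ, ∀ x ∈ A, f (a γ x) = b γ (f x) := by
  classical
  intro n
  induction n with
  | zero =>
    intro A B hn hA hB hm
    have hA0 : A = ∅ := (Set.ncard_eq_zero (Set.toFinite _)).mp (Nat.le_zero.mp hn)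
    exact parkA_empty8 a b f₀ A B hA0 hm
  | succ n ih =>
    intro A B hn hA hB hm
    by_cases hAe : A = ∅
    · exact parkA_empty8 a b f₀ A B hAe hm
    · obtain ⟨x₀, hx₀⟩ := Set.nonempty_iff_ne_empty.mpr hAe
      obtain ⟨D, hD, hDmax⟩ := Set.exists_max_image ((stabP8 a '' A) ∪ (stabP8 b '' B))
        (fun D => Nat.card D) (Set.toFinite _) ⟨_, Or.inl ⟨x₀, hx₀, rfl⟩⟩
      have hmaxA : ∀ x ∈ A, Nat.card (stabP8 a x) ≤ Nat.card D :=
        fun x hx => hDmax _ (Or.inl ⟨x, hx, rfl⟩)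
      have hmaxB : ∀ y ∈ B, Nat.card (stabP8 b y) ≤ Nat.card D :=
        fun y hy => hDmax _ (Or.inr ⟨y, hy, rfl⟩)
      have hxy : ∃ x₁ ∈ A, ∃ y₁ ∈ B, stabP8 a x₁ = stabP8 b y₁ := by
        rcases hD with ⟨x₁, hx₁, rfl⟩ | ⟨y₁, hy₁, rfl⟩
        · obtain ⟨y₁, hy₁, he⟩ := parkA_pt8 a b A B hm x₁ hx₁ hmaxB
          exact ⟨x₁, hx₁, y₁, hy₁, he.symm⟩
        · obtain ⟨x₁, hx₁, he⟩ := parkA_pt8 b a B A (fun D => (hm D).symm) y₁ hy₁ hmaxA
          exact ⟨x₁, hx₁, y₁, hy₁, he⟩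
      obtain ⟨x₁, hx₁, y₁, hy₁, hst⟩ := hxy
      obtain ⟨g₀, hg₀⟩ := parkA_orbit8 a b x₁ y₁ hst f₀
      obtain ⟨O, hO⟩ : ∃ O : Set X, ∀ x, x ∈ O ↔ ∃ γ, a γ x₁ = x :=
        ⟨Set.range (fun γ => a γ x₁), fun x => Iff.rfl⟩
      obtain ⟨O', hO'⟩ : ∃ O' : Set Y, ∀ y, y ∈ O' ↔ ∃ γ, b γ y₁ = y :=
        ⟨Set.range (fun γ => b γ y₁), fun y => Iff.rfl⟩
      have hx₁O : x₁ ∈ O := (hO x₁).mpr ⟨1, perm_one_apply8 a x₁⟩
      have hOA : O ⊆ A := by
        intro x hx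
        obtain ⟨γ, rfl⟩ := (hO x).mp hx
        exact hA γ x₁ hx₁
      have hO'B : O' ⊆ B := by
        intro y hy
        obtain ⟨γ, rfl⟩ := (hO' y).mp hy
        exact hB γ y₁ hy₁
      have hOinv : ∀ γ, ∀ x ∈ O, a γ x ∈ O := by
        intro γ x hx
        obtain ⟨δ, rfl⟩ := (hO x).mp hx
        exact (hO _).mpr ⟨γ * δ, perm_mul_apply8 a γ δ x₁⟩
      have hOinv' : ∀ γ x, a γ x ∈ O → x ∈ O := by
        intro γ x hx
        obtain ⟨δ, hδ⟩ := (hO _).mp hx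
        refine (hO x).mpr ⟨γ⁻¹ * δ, ?_⟩
        rw [perm_mul_apply8, hδ, perm_inv_apply8]
      have hO'inv' : ∀ γ y, b γ y ∈ O' → y ∈ O' := by
        intro γ y hy
        obtain ⟨δ, hδ⟩ := (hO' _).mp hy
        refine (hO' y).mpr ⟨γ⁻¹ * δ, ?_⟩
        rw [perm_mul_apply8, hδ, perm_inv_apply8]
      have hgmap : ∀ x ∈ O, g₀ x ∈ O' := by
        intro x hx
        obtain ⟨γ, rfl⟩ := (hO x).mp hx
        exact (hO' _).mpr ⟨γ, (hg₀ γ).symm⟩
      have hgeq : ∀ γ, ∀ x ∈ O, g₀ (a γ x) = b γ (g₀ x) := by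
        intro γ x hx
        obtain ⟨δ, rfl⟩ := (hO x).mp hx
        rw [← perm_mul_apply8, hg₀, hg₀, perm_mul_apply8]
      have hginj : ∀ x ∈ O, ∀ x' ∈ O, g₀ x = g₀ x' → x = x' := by
        intro x hx x' hx' he
        obtain ⟨γ, rfl⟩ := (hO x).mp hx
        obtain ⟨γ', rfl⟩ := (hO x').mp hx'
        rw [hg₀, hg₀] at he
        have h1 := (stab_eq_iff8 b _ _ y₁).mp he
        rw [← hst] at h1
        exact (stab_eq_iff8 a _ _ x₁).mpr h1
      have hgsurj : ∀ y ∈ O', ∃ x ∈ O, g₀ x = y := by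
        intro y hy
        obtain ⟨γ, rfl⟩ := (hO' y).mp hy
        exact ⟨a γ x₁, (hO _).mpr ⟨γ, rfl⟩, hg₀ γ⟩
      have hA' : ∀ γ, ∀ x ∈ A \ O, a γ x ∈ A \ O :=
        fun γ x hx => ⟨hA γ x hx.1, fun hc => hx.2 (hOinv' γ x hc)⟩
      have hB' : ∀ γ, ∀ y ∈ B \ O', b γ y ∈ B \ O' :=
        fun γ y hy => ⟨hB γ y hy.1, fun hc => hy.2 (hO'inv' γ y hc)⟩
      have hm' : ∀ D' : Subgroup Γ,
          (fixP8 a (A \ O) D').ncard = (fixP8 b (B \ O') D').ncard := by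
        intro D'
        have e1 := fixP_split8 a A O hOA D'
        have e2 := fixP_split8 b B O' hO'B D'
        have e3 : g₀ '' (fixP8 a O D') = fixP8 b O' D' := by
          ext y
          constructor
          · rintro ⟨x, ⟨hx, hf⟩, rfl⟩
            refine ⟨hgmap x hx, fun γ hγ => ?_⟩
            rw [← hgeq γ x hx, hf γ hγ]
          · rintro ⟨hy, hf⟩
            obtain ⟨x, hx, rfl⟩ := hgsurj y hy
            refine ⟨x, ⟨hx, fun γ hγ => ?_⟩, rfl⟩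
            apply hginj _ (hOinv γ x hx) _ hx
            rw [hgeq γ x hx, hf γ hγ]
        have e4 : (g₀ '' (fixP8 a O D')).ncard = (fixP8 a O D').ncard :=
          Set.InjOn.ncard_image (fun x hx x' hx' he => hginj x hx.1 x' hx'.1 he)
        rw [e3] at e4
        have e5 := hm D'
        omega
      have hlt : (A \ O).ncard < A.ncard :=
        Set.ncard_lt_ncard ((Set.ssubset_iff_of_subset Set.sdiff_subset).mpr
          ⟨x₁, hx₁, fun h => h.2 hx₁O⟩)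
      obtain ⟨f', hf'map, hf'inj, hf'surj, hf'eq⟩ :=
        ih (A \ O) (B \ O') (by omega) hA' hB' hm'
      obtain ⟨f, hfO, hfN⟩ : ∃ f : X → Y, (∀ x ∈ O, f x = g₀ x) ∧ (∀ x, x ∉ O → f x = f' x) :=
        ⟨fun x => if x ∈ O then g₀ x else f' x, fun x hx => if_pos hx, fun x hx => if_neg hx⟩
      refine ⟨f, ?_, ?_, ?_, ?_⟩
      · intro x hx
        by_cases hxO : x ∈ O
        · rw [hfO x hxO]
          exact hO'B (hgmap x hxO)
        · rw [hfN x hxO]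
          exact (hf'map ⟨hx, hxO⟩).1
      · intro x hx x' hx' he
        by_cases hxO : x ∈ O <;> by_cases hx'O : x' ∈ O
        · rw [hfO x hxO, hfO x' hx'O] at he
          exact hginj x hxO x' hx'O he
        · rw [hfO x hxO, hfN x' hx'O] at he
          exfalso
          exact (hf'map ⟨hx', hx'O⟩).2 (by rw [← he]; exact hgmap x hxO)
        · rw [hfN x hxO, hfO x' hx'O] at he
          exfalso
          exact (hf'map ⟨hx, hxO⟩).2 (by rw [he]; exact hgmap x' hx'O)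
        · rw [hfN x hxO, hfN x' hx'O] at he
          exact hf'inj ⟨hx, hxO⟩ ⟨hx', hx'O⟩ he
      · intro y hy
        by_cases hyO : y ∈ O'
        · obtain ⟨x, hx, rfl⟩ := hgsurj y hyO
          exact ⟨x, hOA hx, hfO x hx⟩
        · obtain ⟨x, hx, rfl⟩ := hf'surj ⟨hy, hyO⟩
          exact ⟨x, hx.1, hfN x hx.2⟩
      · intro γ x hx
        by_cases hxO : x ∈ O
        · rw [hfO _ (hOinv γ x hxO), hfO x hxO]
          exact hgeq γ x hxO
        · have h1 := hA' γ x ⟨hx, hxO⟩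
          rw [hfN _ h1.2, hfN x hxO]
          exact hf'eq γ x ⟨hx, hxO⟩

/-- two finite permutation representations with equal marks are isomorphic -/
theorem parkA8 [Finite Γ] [Finite X] [Finite Y] (a : Γ →* Equiv.Perm X) (b : Γ →* Equiv.Perm Y)
    (hm : ∀ D : Subgroup Γ,
      Set.ncard {x | ∀ γ ∈ D, a γ x = x} = Set.ncard {y | ∀ γ ∈ D, b γ y = y}) :
    ∃ f : X ≃ Y, ∀ γ x, f (a γ x) = b γ (f x) := by
  have hm' : ∀ D : Subgroup Γ, (fixP8 a Set.univ D).ncard = (fixP8 b Set.univ D).ncard := by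
    intro D
    have h1 : fixP8 a Set.univ D = {x | ∀ γ ∈ D, a γ x = x} := by
      ext x
      exact ⟨fun h => h.2, fun h => ⟨Set.mem_univ _, h⟩⟩
    have h2 : fixP8 b Set.univ D = {y | ∀ γ ∈ D, b γ y = y} := by
      ext y
      exact ⟨fun h => h.2, fun h => ⟨Set.mem_univ _, h⟩⟩
    rw [h1, h2]
    exact hm D
  have hcard : Nat.card X = Nat.card Y := by
    have h := hm' ⊥
    rw [fixP_bot8, fixP_bot8, Set.ncard_univ, Set.ncard_univ] at h
    exact h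
  obtain ⟨e₀⟩ := Finite.card_eq.mp hcard
  obtain ⟨f, -, hinj, hsurj, heq⟩ := parkA_ind8 a b e₀ (Set.univ : Set X).ncard Set.univ Set.univ
    le_rfl (fun _ _ _ => Set.mem_univ _) (fun _ _ _ => Set.mem_univ _) hm'
  have hbij : Function.Bijective f := by
    constructor
    · intro x x' h
      exact hinj (Set.mem_univ _) (Set.mem_univ _) h
    · intro y
      obtain ⟨x, -, hx⟩ := hsurj (Set.mem_univ y)
      exact ⟨x, hx⟩
  exact ⟨Equiv.ofBijective f hbij, fun γ x => heq γ x (Set.mem_univ _)⟩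

end ParkA

end Cfsg.Agent.Lib.Helper8
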