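import Mathlib

set_option autoImplicit false
universe u

namespace Cfsg.Agent.Lib.Helper8

open Classical in
/-- multiplicities on a finite ranked poset making the up-sums depend on the rank only -/
theorem parkB8 {ι : Type*} [Fintype ι] [PartialOrder ι] (r : ι → ℕ)
    (hr : ∀ a b : ι, a < b → r a < r b) :
    ∃ (ν : ι → ℕ) (M : ℕ → ℕ), (∀ a, 1 ≤ ν a) ∧
      ∀ a, ∑ b, (if a ≤ b then ν b else 0) = M (r a) := by
  have hmono : ∀ a b : ι, a ≤ b → r a ≤ r b := by
    intro a b hab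
    rcases hab.lt_or_eq with h | h
    · exact (hr a b h).le
    · rw [h]
  obtain ⟨R, hR⟩ : ∃ R : ℕ, ∀ a, r a < R :=
    ⟨(∑ a, r a) + 1, fun a => Nat.lt_succ_of_le
      (Finset.single_le_sum (f := r) (fun _ _ => Nat.zero_le _) (Finset.mem_univ a))⟩
  have key : ∀ k : ℕ, ∃ (ν : ι → ℕ) (M : ℕ → ℕ), (∀ a, 1 ≤ ν a) ∧
      ∀ a, R ≤ r a + k → ∑ b, (if a ≤ b then ν b else 0) = M (r a) := by
    intro k
    induction k with
    | zero =>
      refine ⟨fun _ => 1, fun _ => 0, fun _ => le_rfl, fun a ha => ?_⟩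
      have := hR a
      omega
    | succ k ih =>
      obtain ⟨ν, M, hν, hM⟩ := ih
      obtain ⟨σ, hσ⟩ : ∃ σ : ι → ℕ, ∀ a, σ a = ∑ b, (if a < b then ν b else 0) :=
        ⟨_, fun _ => rfl⟩
      obtain ⟨m, hm⟩ : ∃ m : ℕ, ∀ a, σ a < m :=
        ⟨(∑ a, σ a) + 1, fun a => Nat.lt_succ_of_le
          (Finset.single_le_sum (f := σ) (fun _ _ => Nat.zero_le _) (Finset.mem_univ a))⟩
      refine ⟨fun a => if r a + k + 1 = R then m - σ a else ν a,
        fun n => if n + k + 1 = R then m else M n, ?_, ?_⟩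
      · intro a
        show 1 ≤ (if r a + k + 1 = R then m - σ a else ν a)
        split_ifs
        · have := hm a
          omega
        · exact hν a
      · intro a ha
        show ∑ b, (if a ≤ b then (if r b + k + 1 = R then m - σ b else ν b) else 0) =
          (if r a + k + 1 = R then m else M (r a))
        by_cases hc : r a + k + 1 = R
        · rw [if_pos hc]
          have hsplit : ∀ b, (if a ≤ b then (if r b + k + 1 = R then m - σ b else ν b) else 0) =
              (if a = b then m - σ b else 0) + (if a < b then ν b else 0) := by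
            intro b
            by_cases hab : a = b
            · subst hab
              simp [hc]
            · by_cases hlt : a < b
              · have : r a < r b := hr a b hlt
                rw [if_pos hlt.le, if_neg (by omega), if_neg hab, if_pos hlt, zero_add]
              · have : ¬ a ≤ b := fun h => hlt (lt_of_le_of_ne h hab)
                rw [if_neg this, if_neg hab, if_neg hlt]
          rw [Finset.sum_congr rfl (fun b _ => hsplit b), Finset.sum_add_distrib,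
            Finset.sum_ite_eq, if_pos (Finset.mem_univ a), ← hσ a]
          have := hm a
          omega
        · rw [if_neg hc]
          have ha' : R ≤ r a + k := by omega
          rw [← hM a ha']
          refine Finset.sum_congr rfl (fun b _ => ?_)
          by_cases hab : a ≤ b
          · have : r a ≤ r b := hmono a b hab
            rw [if_pos hab, if_pos hab, if_neg (by omega)]
          · rw [if_neg hab, if_neg hab]
  obtain ⟨ν, M, hν, hM⟩ := key R
  exact ⟨ν, M, hν, fun a => hM a (by omega)⟩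

theorem card_sigma_subtype8 {I : Type*} {C : I → Type*} [Fintype I] [∀ p, Finite (C p)]
    (P : ∀ p, C p → Prop) :
    Nat.card {x : Σ p, C p // P x.1 x.2} = ∑ p, Nat.card {c : C p // P p c} := by
  rw [← Nat.card_sigma]
  exact Nat.card_congr
    { toFun := fun x => ⟨x.1.1, ⟨x.1.2, x.2⟩⟩
      invFun := fun y => ⟨⟨y.1, y.2.1⟩, y.2.2⟩
      left_inv := fun ⟨⟨_, _⟩, _⟩ => rfl
      right_inv := fun ⟨_, ⟨_, _⟩⟩ => rfl }

theorem card_fix_quot8 {Γ : Type*} [Group Γ] (H E : Subgroup Γ) :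
    Nat.card H * Nat.card {c : Γ ⧸ H // ∀ e ∈ E, e • c = c} =
      Nat.card {γ : Γ // ∀ e ∈ E, γ⁻¹ * (e * γ) ∈ H} := by
  have h1 := QuotientGroup.card_preimage_mk H {c : Γ ⧸ H | ∀ e ∈ E, e • c = c}
  have h2 : Nat.card ↥{c : Γ ⧸ H | ∀ e ∈ E, e • c = c} =
      Nat.card {c : Γ ⧸ H // ∀ e ∈ E, e • c = c} := rfl
  rw [← h2, ← h1]
  refine Nat.card_congr (Equiv.subtypeEquivRight (fun γ => ?_))
  show (∀ e ∈ E, e • (QuotientGroup.mk γ : Γ ⧸ H) = QuotientGroup.mk γ) ↔ _
  refine forall₂_congr (fun e _ => ?_)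
  rw [MulAction.Quotient.smul_mk, eq_comm, QuotientGroup.eq, smul_eq_mul]

open Classical in
/-- the biset: a finite permutation representation whose marks are supported on `𝒟` and depend
only on the order of the subgroup there -/
theorem park_biset8 {Γ : Type u} [Group Γ] [Finite Γ] (𝒟 : Set (Subgroup Γ))
    (h : ∀ D ∈ 𝒟, ∀ (γ : Γ) (E : Subgroup Γ), (∀ e ∈ E, γ⁻¹ * (e * γ) ∈ D) → E ∈ 𝒟) :
    ∃ (X : Type u) (_ : Finite X) (act : Γ →* Equiv.Perm X) (M : ℕ → ℕ),
      ∀ E : Subgroup Γ, (E ∈ 𝒟 → 1 ≤ M (Nat.card E)) ∧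
        Set.ncard {x | ∀ e ∈ E, act e x = x} = if E ∈ 𝒟 then M (Nat.card E) else 0 := by
  haveI : Fintype Γ := Fintype.ofFinite Γ
  haveI : Fintype {D : Subgroup Γ // D ∈ 𝒟} := Fintype.ofFinite _
  have hr : ∀ a b : {D : Subgroup Γ // D ∈ 𝒟}, a < b → Nat.card a.1 < Nat.card b.1 := by
    intro a b hab
    have h1 : a.1 < b.1 := hab
    by_contra hc
    exact h1.ne (Subgroup.eq_of_le_of_card_ge h1.le (not_lt.mp hc))
  obtain ⟨ν, M₀, hν, hM₀⟩ := parkB8 (ι := {D : Subgroup Γ // D ∈ 𝒟}) (fun a => Nat.card a.1) hr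
  refine ⟨Σ p : (Σ a : {D : Subgroup Γ // D ∈ 𝒟}, Fin (Nat.card a.1 * ν a)), Γ ⧸ p.1.1,
    inferInstance, MulAction.toPermHom Γ _, fun n => Nat.card Γ * M₀ n, ?_⟩
  intro E
  refine ⟨fun hE => ?_, ?_⟩
  · have h1 : 1 ≤ M₀ (Nat.card E) := by
      have h2 := hM₀ ⟨E, hE⟩
      have h3 : ν ⟨E, hE⟩ ≤ ∑ b, (if (⟨E, hE⟩ : {D : Subgroup Γ // D ∈ 𝒟}) ≤ b then ν b else 0) := by
        have h4 := Finset.single_le_sum
          (f := fun b => if (⟨E, hE⟩ : {D : Subgroup Γ // D ∈ 𝒟}) ≤ b then ν b else 0)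
          (fun _ _ => Nat.zero_le _) (Finset.mem_univ (⟨E, hE⟩ : {D : Subgroup Γ // D ∈ 𝒟}))
        rw [if_pos le_rfl] at h4
        exact h4
      have h5 := hν ⟨E, hE⟩
      have h6 : M₀ (Nat.card E) = ∑ b, (if (⟨E, hE⟩ : {D : Subgroup Γ // D ∈ 𝒟}) ≤ b then ν b else 0) :=
        h2.symm
      omega
    have h7 : 0 < Nat.card Γ := Nat.card_pos
    show 1 ≤ Nat.card Γ * M₀ (Nat.card E)
    exact Nat.one_le_iff_ne_zero.mpr (Nat.mul_ne_zero h7.ne' (by omega))
  · show Set.ncard {x : Σ p : (Σ a : {D : Subgroup Γ // D ∈ 𝒟}, Fin (Nat.card a.1 * ν a)),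
        Γ ⧸ p.1.1 | ∀ e ∈ E, e • x = x} = if E ∈ 𝒟 then Nat.card Γ * M₀ (Nat.card E) else 0
    have hfix : ∀ (x : Σ p : (Σ a : {D : Subgroup Γ // D ∈ 𝒟}, Fin (Nat.card a.1 * ν a)),
        Γ ⧸ p.1.1) (e : Γ), e • x = x ↔ e • x.2 = x.2 := by
      rintro ⟨p, c⟩ e
      constructor
      · intro h1
        rw [Sigma.smul_mk] at h1
        show e • c = c
        exact eq_of_heq (Sigma.mk.inj h1).2
      · intro h1
        show (⟨p, e • c⟩ : Σ p : (Σ a : {D : Subgroup Γ // D ∈ 𝒟},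
          Fin (Nat.card a.1 * ν a)), Γ ⧸ p.1.1) = ⟨p, c⟩
        rw [show e • c = c from h1]
    have s1 : Set.ncard {x : Σ p : (Σ a : {D : Subgroup Γ // D ∈ 𝒟}, Fin (Nat.card a.1 * ν a)),
        Γ ⧸ p.1.1 | ∀ e ∈ E, e • x = x} =
        Nat.card {x : Σ p : (Σ a : {D : Subgroup Γ // D ∈ 𝒟}, Fin (Nat.card a.1 * ν a)),
        Γ ⧸ p.1.1 // ∀ e ∈ E, e • x.2 = x.2} := by
      rw [← Nat.card_coe_set_eq]
      exact Nat.card_congr (Equiv.subtypeEquivRight
        (fun x => forall₂_congr (fun e _ => hfix x e)))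
    have s2 := card_sigma_subtype8
      (I := Σ a : {D : Subgroup Γ // D ∈ 𝒟}, Fin (Nat.card a.1 * ν a))
      (C := fun p => Γ ⧸ p.1.1) (fun p c => ∀ e ∈ E, e • c = c)
    have s3 : (∑ p : (Σ a : {D : Subgroup Γ // D ∈ 𝒟}, Fin (Nat.card a.1 * ν a)),
        Nat.card {c : Γ ⧸ p.1.1 // ∀ e ∈ E, e • c = c}) =
        ∑ a : {D : Subgroup Γ // D ∈ 𝒟},
          ν a * Nat.card {γ : Γ // ∀ e ∈ E, γ⁻¹ * (e * γ) ∈ a.1} := by
      rw [Fintype.sum_sigma]
      refine Finset.sum_congr rfl (fun a _ => ?_)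
      show (∑ _y : Fin (Nat.card a.1 * ν a), Nat.card {c : Γ ⧸ a.1 // ∀ e ∈ E, e • c = c}) = _
      rw [Finset.sum_const, Finset.card_univ, Fintype.card_fin, smul_eq_mul,
        ← card_fix_quot8 a.1 E]
      ring
    have hL : ∀ (H : Subgroup Γ), Nat.card {γ : Γ // ∀ e ∈ E, γ⁻¹ * (e * γ) ∈ H} =
        ∑ γ : Γ, if (∀ e ∈ E, γ⁻¹ * (e * γ) ∈ H) then 1 else 0 := by
      intro H
      rw [Nat.card_eq_fintype_card, Fintype.card_subtype, Finset.card_filter]
    have s5 : ∀ γ : Γ, (∑ a : {D : Subgroup Γ // D ∈ 𝒟},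
        (if (∀ e ∈ E, γ⁻¹ * (e * γ) ∈ a.1) then ν a else 0)) =
        if E ∈ 𝒟 then M₀ (Nat.card E) else 0 := by
      intro γ
      by_cases hE : E ∈ 𝒟
      · rw [if_pos hE]
        have hEγ : E.map (MulAut.conj γ⁻¹).toMonoidHom ∈ 𝒟 := by
          refine h E hE γ⁻¹ _ ?_
          rintro _ ⟨e, he, rfl⟩
          have h1 : γ⁻¹⁻¹ * ((MulAut.conj γ⁻¹).toMonoidHom e * γ⁻¹) = e := by
            simp [mul_assoc]
          rw [h1]
          exact he
        have hcard : Nat.card (E.map (MulAut.conj γ⁻¹).toMonoidHom) = Nat.card E :=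
          Subgroup.card_map_of_injective (MulAut.conj γ⁻¹).injective
        have h2 := hM₀ ⟨_, hEγ⟩
        rw [hcard] at h2
        rw [← h2]
        refine Finset.sum_congr rfl (fun b _ => if_congr ?_ rfl rfl)
        constructor
        · rintro hall _ ⟨e, he, rfl⟩
          have h3 := hall e he
          have h4 : (MulAut.conj γ⁻¹).toMonoidHom e = γ⁻¹ * (e * γ) := by
            simp [mul_assoc]
          rw [h4]
          exact h3
        · intro hle e he
          have hle' : E.map (MulAut.conj γ⁻¹).toMonoidHom ≤ b.1 := hle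
          have h3 := hle' (Subgroup.mem_map_of_mem _ he)
          have h4 : (MulAut.conj γ⁻¹).toMonoidHom e = γ⁻¹ * (e * γ) := by
            simp [mul_assoc]
          rw [h4] at h3
          exact h3
      · rw [if_neg hE]
        exact Finset.sum_eq_zero (fun a _ => if_neg (fun hc => hE (h a.1 a.2 γ E hc)))
    rw [s1, s2, s3]
    calc (∑ a : {D : Subgroup Γ // D ∈ 𝒟},
          ν a * Nat.card {γ : Γ // ∀ e ∈ E, γ⁻¹ * (e * γ) ∈ a.1})
        = ∑ a : {D : Subgroup Γ // D ∈ 𝒟}, ∑ γ : Γ,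
            (if (∀ e ∈ E, γ⁻¹ * (e * γ) ∈ a.1) then ν a else 0) := by
          refine Finset.sum_congr rfl (fun a _ => ?_)
          rw [hL, Finset.mul_sum]
          refine Finset.sum_congr rfl (fun γ _ => ?_)
          split_ifs <;> simp
      _ = ∑ γ : Γ, ∑ a : {D : Subgroup Γ // D ∈ 𝒟},
            (if (∀ e ∈ E, γ⁻¹ * (e * γ) ∈ a.1) then ν a else 0) := Finset.sum_comm
      _ = ∑ _γ : Γ, (if E ∈ 𝒟 then M₀ (Nat.card E) else 0) :=
          Finset.sum_congr rfl (fun γ _ => s5 γ)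
      _ = if E ∈ 𝒟 then Nat.card Γ * M₀ (Nat.card E) else 0 := by
          rw [Finset.sum_const, Finset.card_univ, smul_eq_mul, Nat.card_eq_fintype_card]
          split_ifs <;> simp

end Cfsg.Agent.Lib.Helper8
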