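import Mathlib
import Cfsg.Prelude.Def_FusionSystem
import Cfsg.Agent.Lib.Helper8.Fusion
import Cfsg.Agent.Lib.Helper8.Park1
import Cfsg.Agent.Lib.Helper8.Park2

set_option autoImplicit false
universe u

namespace Cfsg.Agent.Lib.Helper8

open Cfsg Cfsg.FusionSystem

variable {Ω : Type u} [Group Ω] {S : Subgroup Ω}

/-- `D` is the graph `{(ψ v, v)}` of a map of the system -/
def IsGraph8 (F : FusionSystem S) (D : Subgroup (↥S × ↥S)) : Prop :=
  ∃ (Q : Subgroup Ω) (ψ : Q →* Ω), ψ ∈ F.Hom Q ∧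
    ∀ γ : ↥S × ↥S, γ ∈ D ↔ ∃ v : Q, ψ v = (γ.1 : Ω) ∧ (v : Ω) = (γ.2 : Ω)

theorem graph_closed8 (F : FusionSystem S) (D : Subgroup (↥S × ↥S)) (hD : IsGraph8 F D)
    (γ : ↥S × ↥S) (E : Subgroup (↥S × ↥S)) (hE : ∀ e ∈ E, γ⁻¹ * (e * γ) ∈ D) :
    IsGraph8 F E := by
  obtain ⟨Q, ψ, hψ, hDQ⟩ := hD
  obtain ⟨a, b⟩ := γ
  obtain ⟨R, hR⟩ : ∃ R : Subgroup Ω, ∀ w : Ω, w ∈ R ↔ ∃ e ∈ E, ((e.2 : ↥S) : Ω) = w :=
    ⟨E.map (S.subtype.comp (MonoidHom.snd ↥S ↥S)), fun w => by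
      rw [Subgroup.mem_map]
      rfl⟩
  have hRS : R ≤ S := by
    intro w hw
    obtain ⟨e, -, rfl⟩ := (hR w).mp hw
    exact e.2.2
  have hdat : ∀ e ∈ E, ∃ v : Q, ψ v = (a : Ω)⁻¹ * ((e.1 : Ω) * a) ∧
      (v : Ω) = (b : Ω)⁻¹ * ((e.2 : Ω) * b) := by
    intro e he
    obtain ⟨v, hv1, hv2⟩ := (hDQ _).mp (hE e he)
    exact ⟨v, hv1, hv2⟩
  have hcQ : ∀ w : R, conjHom R ((b : Ω)⁻¹) w ∈ Q := by
    rintro ⟨w, hw⟩
    obtain ⟨e, he, rfl⟩ := (hR w).mp hw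
    obtain ⟨v, -, hv2⟩ := hdat e he
    rw [conjHom_apply]
    have h1 : (b : Ω)⁻¹ * ((e.2 : ↥S) : Ω) * ((b : Ω)⁻¹)⁻¹ = (v : Ω) := by
      rw [hv2, inv_inv, mul_assoc]
    show (b : Ω)⁻¹ * ((e.2 : ↥S) : Ω) * ((b : Ω)⁻¹)⁻¹ ∈ Q
    rw [h1]
    exact v.2
  have hc : conjHom R ((b : Ω)⁻¹) ∈ F.Hom R := F.conj_mem hRS (S.inv_mem b.2)
  have hχ₁ : ψ.comp ((conjHom R ((b : Ω)⁻¹)).codRestrict Q hcQ) ∈ F.Hom R :=
    F.comp_mem hc hψ hcQ
  have hχ₁S : ∀ w : R, (ψ.comp ((conjHom R ((b : Ω)⁻¹)).codRestrict Q hcQ)) w ∈ S :=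
    fun w => (F.le_of_mem hχ₁).2 w
  have hca : conjHom S (a : Ω) ∈ F.Hom S := F.conj_mem le_rfl a.2
  have hχ := F.comp_mem hχ₁ hca hχ₁S
  refine ⟨R, _, hχ, ?_⟩
  have key : ∀ e ∈ E, ∀ hw : ((e.2 : ↥S) : Ω) ∈ R,
      ((conjHom S (a : Ω)).comp ((ψ.comp ((conjHom R ((b : Ω)⁻¹)).codRestrict Q hcQ)).codRestrict
        S hχ₁S)) ⟨(e.2 : Ω), hw⟩ = (e.1 : Ω) := by
    intro e he hw
    obtain ⟨v, hv1, hv2⟩ := hdat e he
    have hv : (conjHom R ((b : Ω)⁻¹)).codRestrict Q hcQ ⟨(e.2 : Ω), hw⟩ = v := by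
      apply Subtype.ext
      show (b : Ω)⁻¹ * ((e.2 : ↥S) : Ω) * ((b : Ω)⁻¹)⁻¹ = (v : Ω)
      rw [hv2, inv_inv, mul_assoc]
    show (a : Ω) * ψ ((conjHom R ((b : Ω)⁻¹)).codRestrict Q hcQ ⟨(e.2 : Ω), hw⟩) * (a : Ω)⁻¹
      = (e.1 : Ω)
    rw [hv, hv1]
    group
  intro δ
  constructor
  · intro hδ
    have hw : ((δ.2 : ↥S) : Ω) ∈ R := (hR _).mpr ⟨δ, hδ, rfl⟩
    exact ⟨⟨_, hw⟩, key δ hδ hw, rfl⟩
  · rintro ⟨⟨w, hw⟩, h1, h2⟩
    obtain ⟨e, he, rfl⟩ := (hR w).mp hw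
    have h3 := key e he hw
    have h4 : δ = e := by
      apply Prod.ext
      · apply Subtype.ext
        rw [← h1, h3]
      · apply Subtype.ext
        exact h2.symm
    rw [h4]
    exact he

/-- the diagonal subgroup -/
def diag8 (T : Type*) [Group T] : Subgroup (T × T) :=
  (MonoidHom.prod (MonoidHom.id T) (MonoidHom.id T)).range

theorem diag_graph8 (F : FusionSystem S) : IsGraph8 F (diag8 ↥S) := by
  refine ⟨S, S.subtype, fs_subtype_mem F le_rfl, fun γ => ?_⟩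
  constructor
  · rintro ⟨t, rfl⟩
    exact ⟨t, rfl, rfl⟩
  · rintro ⟨v, h1, h2⟩
    refine ⟨v, ?_⟩
    apply Prod.ext
    · exact Subtype.ext h1
    · exact Subtype.ext h2

theorem graph_transport8 (F : FusionSystem S) {P : Subgroup Ω} (hP : P ≤ S) (φ : P →* Ω)
    (hφ : ∀ x : P, φ x ∈ S) (hφF : φ ∈ F.Hom P) (D' : Subgroup (↥P × ↥S)) :
    IsGraph8 F (D'.map ((Subgroup.inclusion hP).prodMap (MonoidHom.id ↥S))) ↔
      IsGraph8 F (D'.map ((φ.codRestrict S hφ).prodMap (MonoidHom.id ↥S))) := by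
  have m1 : ∀ γ : ↥S × ↥S, γ ∈ D'.map ((Subgroup.inclusion hP).prodMap (MonoidHom.id ↥S)) ↔
      ∃ d ∈ D', (((d.1 : ↥P) : Ω) = (γ.1 : Ω) ∧ ((d.2 : ↥S) : Ω) = (γ.2 : Ω)) := by
    intro γ
    rw [Subgroup.mem_map]
    constructor
    · rintro ⟨d, hd, rfl⟩
      exact ⟨d, hd, rfl, rfl⟩
    · rintro ⟨d, hd, h1, h2⟩
      exact ⟨d, hd, Prod.ext (Subtype.ext h1) (Subtype.ext h2)⟩
  have m2 : ∀ γ : ↥S × ↥S, γ ∈ D'.map ((φ.codRestrict S hφ).prodMap (MonoidHom.id ↥S)) ↔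
      ∃ d ∈ D', (φ d.1 = (γ.1 : Ω) ∧ ((d.2 : ↥S) : Ω) = (γ.2 : Ω)) := by
    intro γ
    rw [Subgroup.mem_map]
    constructor
    · rintro ⟨d, hd, rfl⟩
      exact ⟨d, hd, rfl, rfl⟩
    · rintro ⟨d, hd, h1, h2⟩
      exact ⟨d, hd, Prod.ext (Subtype.ext h1) (Subtype.ext h2)⟩
  constructor
  · rintro ⟨Q, ψ, hψ, hQ⟩
    have hQS : ∀ v : Q, (v : Ω) ∈ S := fun v => (F.le_of_mem hψ).1 v.2
    have hψS : ∀ v : Q, ψ v ∈ S := fun v => (F.le_of_mem hψ).2 v
    have hpt : ∀ v : Q, ∃ d ∈ D', ((d.1 : ↥P) : Ω) = ψ v ∧ ((d.2 : ↥S) : Ω) = (v : Ω) := by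
      intro v
      exact (m1 (⟨ψ v, hψS v⟩, ⟨v, hQS v⟩)).mp ((hQ (⟨ψ v, hψS v⟩, ⟨v, hQS v⟩)).mpr ⟨v, rfl, rfl⟩)
    have hψP : ∀ v : Q, ψ v ∈ P := by
      intro v
      obtain ⟨d, -, h1, -⟩ := hpt v
      rw [← h1]
      exact d.1.2
    refine ⟨Q, φ.comp (ψ.codRestrict P hψP), F.comp_mem hψ hφF hψP, fun γ => ?_⟩
    rw [m2]
    constructor
    · rintro ⟨d, hd, h1, h2⟩
      obtain ⟨v, hv1, hv2⟩ := (hQ (⟨d.1, hP d.1.2⟩, d.2)).mp ((m1 _).mpr ⟨d, hd, rfl, rfl⟩)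
      refine ⟨v, ?_, ?_⟩
      · have h3 : ψ.codRestrict P hψP v = d.1 := Subtype.ext hv1
        show φ (ψ.codRestrict P hψP v) = _
        rw [h3]
        exact h1
      · exact hv2.trans h2
    · rintro ⟨v, hv1, hv2⟩
      obtain ⟨d, hd, h1, h2⟩ := hpt v
      refine ⟨d, hd, ?_, h2.trans hv2⟩
      have h3 : ψ.codRestrict P hψP v = d.1 := Subtype.ext h1.symm
      rw [← hv1]
      show φ d.1 = φ (ψ.codRestrict P hψP v)
      rw [h3]
  · rintro ⟨Q, χ, hχ, hQ⟩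
    obtain ⟨φ', hφ', hinv⟩ := F.inv_mem hφF
    have hQS : ∀ v : Q, (v : Ω) ∈ S := fun v => (F.le_of_mem hχ).1 v.2
    have hχS : ∀ v : Q, χ v ∈ S := fun v => (F.le_of_mem hχ).2 v
    have hpt : ∀ v : Q, ∃ d ∈ D', φ d.1 = χ v ∧ ((d.2 : ↥S) : Ω) = (v : Ω) := by
      intro v
      exact (m2 (⟨χ v, hχS v⟩, ⟨v, hQS v⟩)).mp ((hQ (⟨χ v, hχS v⟩, ⟨v, hQS v⟩)).mpr ⟨v, rfl, rfl⟩)
    have hχr : ∀ v : Q, χ v ∈ φ.range := by
      intro v
      obtain ⟨d, -, h1, -⟩ := hpt v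
      exact ⟨d.1, h1⟩
    refine ⟨Q, φ'.comp (χ.codRestrict φ.range hχr), F.comp_mem hχ hφ' hχr, fun γ => ?_⟩
    rw [m1]
    constructor
    · rintro ⟨d, hd, h1, h2⟩
      obtain ⟨v, hv1, hv2⟩ := (hQ (⟨φ d.1, hφ d.1⟩, d.2)).mp ((m2 _).mpr ⟨d, hd, rfl, rfl⟩)
      refine ⟨v, ?_, hv2.trans h2⟩
      have h3 : χ.codRestrict φ.range hχr v = ⟨φ d.1, ⟨d.1, rfl⟩⟩ := Subtype.ext hv1
      show φ' (χ.codRestrict φ.range hχr v) = _
      rw [h3, hinv]
      exact h1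
    · rintro ⟨v, hv1, hv2⟩
      obtain ⟨d, hd, h1, h2⟩ := hpt v
      refine ⟨d, hd, ?_, h2.trans hv2⟩
      have h3 : χ.codRestrict φ.range hχr v = ⟨φ d.1, ⟨d.1, rfl⟩⟩ := Subtype.ext h1.symm
      rw [← hv1]
      show ((d.1 : ↥P) : Ω) = φ' (χ.codRestrict φ.range hχr v)
      rw [h3, hinv]

/-- Park: every fusion system over a finite group is realized inside a finite group -/
theorem park_realize8 [Finite S] (F : FusionSystem S) :
    ∃ (G : Type u) (_ : Group G) (_ : Finite G) (ι : ↥S →* G), F.IsRealizedBy ι := by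
  obtain ⟨X, hXfin, act, M, hM⟩ := park_biset8 (Γ := ↥S × ↥S) {D | IsGraph8 F D}
    (fun D hD γ E hE => graph_closed8 F D hD γ E hE)
  haveI := hXfin
  have hfix : ∀ (E : Subgroup (↥S × ↥S)) (x : X), (∀ e ∈ E, act e x = x) → IsGraph8 F E := by
    intro E x hx
    by_contra hE
    have h := (hM E).2.trans (if_neg hE)
    have h2 := (Set.ncard_eq_zero (Set.toFinite _)).mp h
    have h3 : x ∈ ({x | ∀ e ∈ E, act e x = x} : Set X) := hx
    rw [h2] at h3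
    exact h3
  obtain ⟨x₀, hx₀⟩ : ∃ x₀ : X, ∀ e ∈ diag8 ↥S, act e x₀ = x₀ := by
    have h := (hM (diag8 ↥S)).2.trans (if_pos (diag_graph8 F))
    have h1 := (hM (diag8 ↥S)).1 (diag_graph8 F)
    have h2 : Set.ncard {x | ∀ e ∈ diag8 ↥S, act e x = x} ≠ 0 := by omega
    exact Set.nonempty_of_ncard_ne_zero h2
  obtain ⟨G, hG⟩ : ∃ G : Subgroup (Equiv.Perm X),
      G = Subgroup.centralizer (Set.range fun s : ↥S => act ((1 : ↥S), s)) := ⟨_, rfl⟩
  have hGmem : ∀ q : Equiv.Perm X, q ∈ G ↔ ∀ s : ↥S, act ((1 : ↥S), s) * q = q * act ((1 : ↥S), s) := by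
    intro q
    rw [hG, Subgroup.mem_centralizer_iff]
    constructor
    · intro h s
      exact h _ ⟨s, rfl⟩
    · rintro h _ ⟨s, rfl⟩
      exact h s
  have hι : ∀ t : ↥S, (act.comp (MonoidHom.inl ↥S ↥S)) t ∈ G := by
    intro t
    rw [hGmem]
    intro s
    show act ((1 : ↥S), s) * act (t, (1 : ↥S)) = act (t, (1 : ↥S)) * act ((1 : ↥S), s)
    rw [← map_mul, ← map_mul]
    congr 1
    simp
  refine ⟨↥G, inferInstance, inferInstance,
    (act.comp (MonoidHom.inl ↥S ↥S)).codRestrict G hι, ?_, ?_⟩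
  · rw [injective_iff_map_eq_one]
    intro t ht
    have h1 : act (t, (1 : ↥S)) = 1 := congrArg Subtype.val ht
    have h2 : ∀ e ∈ Subgroup.zpowers ((t, 1) : ↥S × ↥S), act e x₀ = x₀ := by
      rintro _ ⟨k, rfl⟩
      show act (((t, 1) : ↥S × ↥S) ^ k) x₀ = x₀
      rw [map_zpow, h1, one_zpow]
      rfl
    obtain ⟨Q, ψ, hψ, hQ⟩ := hfix _ x₀ h2
    obtain ⟨v, hv1, hv2⟩ := (hQ (t, 1)).mp (Subgroup.mem_zpowers _)
    have hv : v = 1 := Subtype.ext hv2
    rw [hv, map_one] at hv1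
    exact Subtype.ext hv1.symm
  · intro P hP φ hφ
    constructor
    · intro hφF
      haveI : Finite ↥P := finite_of_le_fs hP
      have inj1 : Function.Injective ((Subgroup.inclusion hP).prodMap (MonoidHom.id ↥S)) := by
        rintro ⟨x, s⟩ ⟨x', s'⟩ h
        have h1 : Subgroup.inclusion hP x = Subgroup.inclusion hP x' := congrArg Prod.fst h
        have h2 : s = s' := congrArg Prod.snd h
        rw [Subgroup.inclusion_injective hP h1, h2]
      have inj2 : Function.Injective ((φ.codRestrict S hφ).prodMap (MonoidHom.id ↥S)) := by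
        rintro ⟨x, s⟩ ⟨x', s'⟩ h
        have h1 : φ.codRestrict S hφ x = φ.codRestrict S hφ x' := congrArg Prod.fst h
        have h2 : s = s' := congrArg Prod.snd h
        have h3 : φ x = φ x' := congrArg Subtype.val h1
        rw [F.injective_of_mem hφF h3, h2]
      obtain ⟨f, hf⟩ := parkA8 (Γ := ↥P × ↥S)
        (act.comp ((Subgroup.inclusion hP).prodMap (MonoidHom.id ↥S)))
        (act.comp ((φ.codRestrict S hφ).prodMap (MonoidHom.id ↥S))) (by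
          classical
          intro D'
          have e1 : {x : X | ∀ γ ∈ D',
              (act.comp ((Subgroup.inclusion hP).prodMap (MonoidHom.id ↥S))) γ x = x} =
              {x | ∀ e ∈ D'.map ((Subgroup.inclusion hP).prodMap (MonoidHom.id ↥S)),
                act e x = x} := by
            ext x
            constructor
            · rintro h _ ⟨d, hd, rfl⟩
              exact h d hd
            · intro h d hd
              exact h _ (Subgroup.mem_map_of_mem _ hd)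
          have e2 : {x : X | ∀ γ ∈ D',
              (act.comp ((φ.codRestrict S hφ).prodMap (MonoidHom.id ↥S))) γ x = x} =
              {x | ∀ e ∈ D'.map ((φ.codRestrict S hφ).prodMap (MonoidHom.id ↥S)),
                act e x = x} := by
            ext x
            constructor
            · rintro h _ ⟨d, hd, rfl⟩
              exact h d hd
            · intro h d hd
              exact h _ (Subgroup.mem_map_of_mem _ hd)
          rw [e1, e2, (hM _).2, (hM _).2, Subgroup.card_map_of_injective inj1,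
            Subgroup.card_map_of_injective inj2]
          exact if_congr (graph_transport8 F hP φ hφ hφF D') rfl rfl)
      have hf1 : ∀ (s : ↥S) (x : X), f (act ((1 : ↥S), s) x) = act ((1 : ↥S), s) (f x) := by
        intro s x
        have h1 := hf ((1 : ↥P), s) x
        have h2 : ((Subgroup.inclusion hP).prodMap (MonoidHom.id ↥S)) ((1 : ↥P), s) =
            ((1 : ↥S), s) := rfl
        have h3 : ((φ.codRestrict S hφ).prodMap (MonoidHom.id ↥S)) ((1 : ↥P), s) =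
            ((1 : ↥S), s) := by
          apply Prod.ext
          · apply Subtype.ext
            show φ 1 = ((1 : ↥S) : Ω)
            rw [map_one]
            rfl
          · rfl
        rw [MonoidHom.comp_apply, MonoidHom.comp_apply, h2, h3] at h1
        exact h1
      have hf2 : ∀ (u : ↥P) (x : X), f (act (⟨u, hP u.2⟩, (1 : ↥S)) x) =
          act (⟨φ u, hφ u⟩, (1 : ↥S)) (f x) := fun u x => hf (u, 1) x
      have hfG : f ∈ G := by
        rw [hGmem]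
        intro s
        ext x
        show act ((1 : ↥S), s) (f x) = f (act ((1 : ↥S), s) x)
        exact (hf1 s x).symm
      refine ⟨⟨f, hfG⟩, fun u => ?_⟩
      apply Subtype.ext
      ext x
      show act (⟨φ u, hφ u⟩, (1 : ↥S)) x = f (act (⟨u, hP u.2⟩, (1 : ↥S)) (f.symm x))
      rw [hf2, Equiv.apply_symm_apply]
    · rintro ⟨g, hg⟩
      have hgc : ∀ (s : ↥S) (x : X), act ((1 : ↥S), s) ((g : Equiv.Perm X) x) =
          (g : Equiv.Perm X) (act ((1 : ↥S), s) x) := by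
        intro s x
        have h1 := (hGmem (g : Equiv.Perm X)).mp g.2 s
        exact DFunLike.congr_fun h1 x
      have hgι : ∀ (u : ↥P) (x : X), act (⟨φ u, hφ u⟩, (1 : ↥S)) ((g : Equiv.Perm X) x) =
          (g : Equiv.Perm X) (act (⟨u, hP u.2⟩, (1 : ↥S)) x) := by
        intro u x
        have h1 : act (⟨φ u, hφ u⟩, (1 : ↥S)) =
            (g : Equiv.Perm X) * act (⟨u, hP u.2⟩, (1 : ↥S)) * (g : Equiv.Perm X)⁻¹ :=
          congrArg Subtype.val (hg u)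
        rw [h1]
        simp
      have hy : ∀ e ∈ (MonoidHom.prod (φ.codRestrict S hφ) (Subgroup.inclusion hP)).range,
          act e ((g : Equiv.Perm X) x₀) = (g : Equiv.Perm X) x₀ := by
        rintro _ ⟨u, rfl⟩
        have hsplit : ((φ.codRestrict S hφ).prod (Subgroup.inclusion hP)) u =
            ((⟨φ u, hφ u⟩, (1 : ↥S)) : ↥S × ↥S) * (((1 : ↥S), ⟨u, hP u.2⟩) : ↥S × ↥S) := by
          apply Prod.ext
          · show φ.codRestrict S hφ u = ⟨φ u, hφ u⟩ * 1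
            rw [mul_one]
            rfl
          · show Subgroup.inclusion hP u = 1 * ⟨u, hP u.2⟩
            rw [one_mul]
            rfl
        rw [hsplit, map_mul, Equiv.Perm.mul_apply, hgc, hgι]
        congr 1
        rw [← Equiv.Perm.mul_apply, ← map_mul]
        apply hx₀
        refine ⟨⟨u, hP u.2⟩, ?_⟩
        apply Prod.ext
        · show (⟨u, hP u.2⟩ : ↥S) = ⟨u, hP u.2⟩ * 1
          rw [mul_one]
        · show (⟨u, hP u.2⟩ : ↥S) = 1 * ⟨u, hP u.2⟩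
          rw [one_mul]
      obtain ⟨Q, ψ, hψ, hQ⟩ := hfix _ _ hy
      have hQP : Q = P := by
        ext v
        constructor
        · intro hv
          have hvS : v ∈ S := (F.le_of_mem hψ).1 hv
          have hψS : ψ ⟨v, hv⟩ ∈ S := (F.le_of_mem hψ).2 _
          obtain ⟨u, hu⟩ := (hQ (⟨ψ ⟨v, hv⟩, hψS⟩, ⟨v, hvS⟩)).mpr ⟨⟨v, hv⟩, rfl, rfl⟩
          have h1 : (u : Ω) = v := congrArg (fun q : ↥S × ↥S => (q.2 : Ω)) hu
          rw [← h1]
          exact u.2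
        · intro hv
          obtain ⟨w, -, hw2⟩ := (hQ _).mp
            (⟨⟨v, hv⟩, rfl⟩ : ((φ.codRestrict S hφ).prod (Subgroup.inclusion hP)) ⟨v, hv⟩ ∈
              (MonoidHom.prod (φ.codRestrict S hφ) (Subgroup.inclusion hP)).range)
          have h1 : (w : Ω) = v := hw2
          rw [← h1]
          exact w.2
      subst hQP
      have hψφ : ψ = φ := by
        ext u
        obtain ⟨w, hw1, hw2⟩ := (hQ _).mp
          (⟨u, rfl⟩ : ((φ.codRestrict S hφ).prod (Subgroup.inclusion hP)) u ∈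
            (MonoidHom.prod (φ.codRestrict S hφ) (Subgroup.inclusion hP)).range)
        have hwu : w = u := Subtype.ext hw2
        rw [hwu] at hw1
        exact hw1
      rw [← hψφ]
      exact hψ

end Cfsg.Agent.Lib.Helper8
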