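import Mathlib
import Cfsg.Prelude.Def_Blocks
import Cfsg.Agent.Lib.Lead.BlockOsima2
import Cfsg.Agent.Lib.Lead.CharBurnside
import Cfsg.Agent.Lib.Lead.BrauerR2
import Cfsg.Agent.Lib.Lead.CharOrtho
import Cfsg.Agent.Lib.Lead.CharCount
import Cfsg.Agent.Lib.Lead.CharBasic

set_option autoImplicit false

namespace Cfsg.Agent.Lib.Helper8

open Cfsg Cfsg.Agent.Lib.Lead
open scoped ComplexConjugate

universe u

theorem natCast_not_mem8 {p : ℕ} (hp : p.Prime) {M : Ideal Cfsg.AlgInt} (hMtop : M ≠ ⊤)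
    (hpM : (p : Cfsg.AlgInt) ∈ M) {n : ℕ} (hn : ¬ p ∣ n) : (n : Cfsg.AlgInt) ∉ M := by
  intro hnM
  have hcop : IsCoprime (p : ℤ) (n : ℤ) :=
    Nat.isCoprime_iff_coprime.mpr ((Nat.Prime.coprime_iff_not_dvd hp).mpr hn)
  obtain ⟨u, v, huv⟩ := hcop
  have h1 : (u : Cfsg.AlgInt) * (p : Cfsg.AlgInt) + (v : Cfsg.AlgInt) * (n : Cfsg.AlgInt) = 1 := by
    have h := congrArg (Int.cast : ℤ → Cfsg.AlgInt) huv
    push_cast at h
    exact h
  apply hMtop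
  rw [Ideal.eq_top_iff_one, ← h1]
  exact M.add_mem (M.mul_mem_left _ hpM) (M.mul_mem_left _ hnM)

theorem not_memLocalIdeal_neg_one8 {M : Ideal Cfsg.AlgInt} :
    ¬ Cfsg.MemLocalIdeal M (-1 : ℂ) := by
  rintro ⟨a, b, ha, hb, hab⟩
  have hb0 : (b : ℂ) ≠ 0 := coe_ne_zero_of_not_mem_lead hb
  rw [div_eq_iff hb0] at hab
  have h1 : (b : ℂ) = -(a : ℂ) := by rw [hab]; ring
  have h2 : b = -a := Subtype.ext (by rw [h1]; simp)
  apply hb
  rw [h2]; exact M.neg_mem ha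

theorem natCast_inv_memLocalRing8 {p : ℕ} (hp : p.Prime) {M : Ideal Cfsg.AlgInt} (hMtop : M ≠ ⊤)
    (hpM : (p : Cfsg.AlgInt) ∈ M) {n : ℕ} (hn : ¬ p ∣ n) : Cfsg.MemLocalRing M ((n : ℂ)⁻¹) := by
  have h := memLocalRing_inv_lead (natCast_not_mem8 hp hMtop hpM hn)
  have e : ((n : Cfsg.AlgInt) : ℂ) = (n : ℂ) := by simp
  rw [e] at h
  exact h

theorem princ_dir1_8 {G : Type u} [Group G] [Finite G] (p : ℕ) (hp : p.Prime)
    (M : Ideal Cfsg.AlgInt) (hMprime : M.IsPrime) (hpM : (p : Cfsg.AlgInt) ∈ M)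
    (H : ∀ χ : Cfsg.IrrCharacter G, χ ∈ Cfsg.principalBlock M G →
      ¬ p ∣ Cfsg.charDegree (χ : G → ℂ) → (χ : G → ℂ) = fun _ => (1 : ℂ)) :
    ¬ p ∣ Nat.card G := by
  classical
  haveI : Fintype G := Fintype.ofFinite G
  haveI : Fintype (Cfsg.IrrCharacter G) := Fintype.ofFinite _
  have hMtop : M ≠ ⊤ := hMprime.ne_top
  intro hpG
  obtain ⟨χ₁, hχ₁⟩ : ∃ χ₁ : Cfsg.IrrCharacter G, (χ₁ : G → ℂ) = fun _ => (1 : ℂ) :=
    ⟨⟨fun _ => 1, isIrrCharacter_one G⟩, rfl⟩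
  have hB : Cfsg.principalBlock M G = Cfsg.blockOf M (χ₁ : G → ℂ) := by
    unfold Cfsg.principalBlock; rw [hχ₁]
  have hχ₁B : χ₁ ∈ Cfsg.principalBlock M G := by
    rw [hB]; exact sameBlock_refl_lead hMtop (χ₁ : G → ℂ)
  have hos := osima_lead p hp M hMprime hpM χ₁ (1 : G)
  rw [← hB, blockCoeff_eq_sum_lead] at hos
  have hdeg : ∀ φ : Cfsg.IrrCharacter G,
      (φ : G → ℂ) 1 = (Cfsg.charDegree (φ : G → ℂ) : ℂ) := by
    intro φ
    obtain ⟨n, hn0, hn⟩ := irr_one φ.2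
    unfold Cfsg.charDegree
    rw [hn]
    simp
  obtain ⟨N, hN⟩ : ∃ N : ℕ, N = ∑ φ : Cfsg.IrrCharacter G,
      if φ ∈ Cfsg.principalBlock M G then (Cfsg.charDegree (φ : G → ℂ)) ^ 2 else 0 := ⟨_, rfl⟩
  have hsum : (∑ φ : Cfsg.IrrCharacter G, if φ ∈ Cfsg.principalBlock M G then
      (φ : G → ℂ) 1 * conj ((φ : G → ℂ) 1) else 0) = (N : ℂ) := by
    rw [hN, Nat.cast_sum]
    refine Finset.sum_congr rfl (fun φ _ => ?_)
    by_cases hφ : φ ∈ Cfsg.principalBlock M G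
    · rw [if_pos hφ, if_pos hφ, hdeg φ, Complex.conj_natCast]
      push_cast
      ring
    · rw [if_neg hφ, if_neg hφ]
      simp
  rw [hsum] at hos
  have hsplit : N = (if χ₁ ∈ Cfsg.principalBlock M G then
        (Cfsg.charDegree (χ₁ : G → ℂ)) ^ 2 else 0) +
      ∑ φ ∈ Finset.univ.erase χ₁, (if φ ∈ Cfsg.principalBlock M G then
        (Cfsg.charDegree (φ : G → ℂ)) ^ 2 else 0) := by
    rw [hN]
    exact (Finset.add_sum_erase Finset.univ (fun φ : Cfsg.IrrCharacter G =>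
      if φ ∈ Cfsg.principalBlock M G then (Cfsg.charDegree (φ : G → ℂ)) ^ 2 else 0)
      (Finset.mem_univ χ₁)).symm
  have h1 : (if χ₁ ∈ Cfsg.principalBlock M G then
      (Cfsg.charDegree (χ₁ : G → ℂ)) ^ 2 else 0) = 1 := by
    rw [if_pos hχ₁B]
    have hd1 : Cfsg.charDegree (χ₁ : G → ℂ) = 1 := by
      unfold Cfsg.charDegree
      rw [hχ₁]
      simp
    rw [hd1]
    norm_num
  have h2 : p ∣ ∑ φ ∈ Finset.univ.erase χ₁, (if φ ∈ Cfsg.principalBlock M G then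
      (Cfsg.charDegree (φ : G → ℂ)) ^ 2 else 0) := by
    apply Finset.dvd_sum
    intro φ hφ
    by_cases hφB : φ ∈ Cfsg.principalBlock M G
    · rw [if_pos hφB]
      have hne : φ ≠ χ₁ := (Finset.mem_erase.mp hφ).1
      have hpd : p ∣ Cfsg.charDegree (φ : G → ℂ) := by
        by_contra hnd
        apply hne
        apply Subtype.ext
        rw [hχ₁]
        exact H φ hφB hnd
      exact dvd_pow hpd (by norm_num)
    · rw [if_neg hφB]
      exact dvd_zero p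
  obtain ⟨m, hm⟩ := h2
  rw [h1, hm] at hsplit
  obtain ⟨a, b, hb, hab⟩ := hos
  have hb0 : (b : ℂ) ≠ 0 := coe_ne_zero_of_not_mem_lead hb
  have hG0 : (Nat.card G : ℂ) ≠ 0 := Nat.cast_ne_zero.mpr Nat.card_pos.ne'
  rw [div_eq_iff hb0] at hab
  have h3 : (a : ℂ) * (Nat.card G : ℂ) = (b : ℂ) * (N : ℂ) := by
    calc (a : ℂ) * (Nat.card G : ℂ) = ((Nat.card G : ℂ)⁻¹ * (N : ℂ) * (b : ℂ)) * (Nat.card G : ℂ) := by
          rw [hab]
      _ = (b : ℂ) * (N : ℂ) * ((Nat.card G : ℂ)⁻¹ * (Nat.card G : ℂ)) := by ring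
      _ = (b : ℂ) * (N : ℂ) := by rw [inv_mul_cancel₀ hG0, mul_one]
  have h4 : a * (Nat.card G : Cfsg.AlgInt) = b * (N : Cfsg.AlgInt) :=
    Subtype.ext (by push_cast; exact h3)
  have hGM : (Nat.card G : Cfsg.AlgInt) ∈ M := by
    obtain ⟨k, hk⟩ := hpG
    rw [hk]
    push_cast
    exact M.mul_mem_right _ hpM
  have h5 : b * (N : Cfsg.AlgInt) ∈ M := by
    rw [← h4]; exact M.mul_mem_left _ hGM
  have h6 : (N : Cfsg.AlgInt) ∈ M := (hMprime.mem_or_mem h5).resolve_left hb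
  apply hMtop
  rw [Ideal.eq_top_iff_one]
  have h7 : (1 : Cfsg.AlgInt) = (N : Cfsg.AlgInt) - (p : Cfsg.AlgInt) * (m : Cfsg.AlgInt) := by
    rw [hsplit]; push_cast; ring
  rw [h7]
  exact M.sub_mem h6 (M.mul_mem_right _ hpM)

theorem princ_dir2_8 {G : Type u} [Group G] [Finite G] (p : ℕ) (hp : p.Prime)
    (M : Ideal Cfsg.AlgInt) (hMprime : M.IsPrime) (hpM : (p : Cfsg.AlgInt) ∈ M)
    (hpG : ¬ p ∣ Nat.card G)
    (χ : Cfsg.IrrCharacter G) (hχ : χ ∈ Cfsg.principalBlock M G) :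
    (χ : G → ℂ) = fun _ => (1 : ℂ) := by
  classical
  haveI : Fintype G := Fintype.ofFinite G
  have hMtop : M ≠ ⊤ := hMprime.ne_top
  by_contra hne
  have hSB : ∀ g : G, Cfsg.MemLocalIdeal M
      (Cfsg.centralChar (fun _ : G => (1 : ℂ)) g - Cfsg.centralChar (χ : G → ℂ) g) := hχ
  obtain ⟨d, hd0, hd⟩ := irr_one χ.2
  have hχ1 : (χ : G → ℂ) 1 ≠ 0 := by
    rw [hd]; exact_mod_cast hd0
  have hG0 : (Nat.card G : ℂ) ≠ 0 := Nat.cast_ne_zero.mpr Nat.card_pos.ne'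
  have h0 : (Nat.card G : ℂ)⁻¹ * ∑ g : G, (1 : ℂ) * conj ((χ : G → ℂ) g) = 0 := by
    have h := classInner_irr (isIrrCharacter_one G) χ.2
    rw [if_neg (fun e => hne e.symm)] at h
    exact h
  have h1 : (Nat.card G : ℂ)⁻¹ * ∑ g : G, (χ : G → ℂ) g * conj ((χ : G → ℂ) g) = 1 := by
    have h := classInner_irr χ.2 χ.2
    rw [if_pos rfl] at h
    exact h
  have hidx : ∀ g : G, ((Subgroup.centralizer ({g} : Set G)).index : ℂ) ≠ 0 := by
    intro g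
    exact Nat.cast_ne_zero.mpr Subgroup.index_ne_zero_of_finite
  have hterm : ∀ g : G, ((Nat.card G : ℂ)⁻¹ * conj ((χ : G → ℂ) g) * (χ : G → ℂ) 1 *
        ((Subgroup.centralizer ({g} : Set G)).index : ℂ)⁻¹) *
      (Cfsg.centralChar (fun _ : G => (1 : ℂ)) g - Cfsg.centralChar (χ : G → ℂ) g) =
      (χ : G → ℂ) 1 * ((Nat.card G : ℂ)⁻¹ * ((1 : ℂ) * conj ((χ : G → ℂ) g))) -
        (Nat.card G : ℂ)⁻¹ * ((χ : G → ℂ) g * conj ((χ : G → ℂ) g)) := by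
    intro g
    have e : Cfsg.centralChar (fun _ : G => (1 : ℂ)) g - Cfsg.centralChar (χ : G → ℂ) g
        = ((Subgroup.centralizer ({g} : Set G)).index : ℂ) *
          (1 - (χ : G → ℂ) g / (χ : G → ℂ) 1) := by
      unfold Cfsg.centralChar
      beta_reduce
      ring
    rw [e]
    have hi := hidx g
    field_simp <;> ring
  have e1 : ∑ g : G, (χ : G → ℂ) 1 * ((Nat.card G : ℂ)⁻¹ * ((1 : ℂ) * conj ((χ : G → ℂ) g))) =
      (χ : G → ℂ) 1 * ((Nat.card G : ℂ)⁻¹ * ∑ g : G, (1 : ℂ) * conj ((χ : G → ℂ) g)) := by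
    rw [← Finset.mul_sum, ← Finset.mul_sum]
  have e2 : ∑ g : G, (Nat.card G : ℂ)⁻¹ * ((χ : G → ℂ) g * conj ((χ : G → ℂ) g)) =
      (Nat.card G : ℂ)⁻¹ * ∑ g : G, (χ : G → ℂ) g * conj ((χ : G → ℂ) g) := by
    rw [← Finset.mul_sum]
  have hsumterm : ∑ g : G, ((Nat.card G : ℂ)⁻¹ * conj ((χ : G → ℂ) g) * (χ : G → ℂ) 1 *
        ((Subgroup.centralizer ({g} : Set G)).index : ℂ)⁻¹) *
      (Cfsg.centralChar (fun _ : G => (1 : ℂ)) g - Cfsg.centralChar (χ : G → ℂ) g) = -1 := by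
    rw [Finset.sum_congr rfl (fun g _ => hterm g), Finset.sum_sub_distrib, e1, e2, h0, h1]
    ring
  have hmem : Cfsg.MemLocalIdeal M (-1 : ℂ) := by
    rw [← hsumterm]
    apply memLocalIdeal_sum_lead hMprime
    intro g _
    refine memLocalIdeal_mul_ring_lead hMprime ?_ (hSB g)
    obtain ⟨n, ρ, hρ, hρχ⟩ := χ.2
    have r1 : Cfsg.MemLocalRing M ((Nat.card G : ℂ)⁻¹) :=
      natCast_inv_memLocalRing8 hp hMtop hpM hpG
    have r2 : Cfsg.MemLocalRing M (conj ((χ : G → ℂ) g)) := by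
      apply memLocalRing_isIntegral_lead hMtop
      apply map_isIntegral_int
      rw [← hρχ]
      exact isIntegral_char ρ g
    have r3 : Cfsg.MemLocalRing M ((χ : G → ℂ) 1) := by
      apply memLocalRing_isIntegral_lead hMtop
      rw [← hρχ]
      exact isIntegral_char ρ 1
    have r4 : Cfsg.MemLocalRing M (((Subgroup.centralizer ({g} : Set G)).index : ℂ)⁻¹) :=
      natCast_inv_memLocalRing8 hp hMtop hpM
        (fun h => hpG (h.trans (Subgroup.index_dvd_card _)))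
    exact memLocalRing_mul_lead hMprime
      (memLocalRing_mul_lead hMprime (memLocalRing_mul_lead hMprime r1 r2) r3) r4
  exact not_memLocalIdeal_neg_one8 hmem

theorem princ_block_iff8 {G : Type u} [Group G] [Finite G] (p : ℕ)
    (M : Ideal Cfsg.AlgInt) (hM : Cfsg.IsPModular p M) :
    (∀ χ : Cfsg.IrrCharacter G, χ ∈ Cfsg.principalBlock M G →
      ¬ p ∣ Cfsg.charDegree (χ : G → ℂ) → (χ : G → ℂ) = fun _ => (1 : ℂ)) ↔
    ¬ p ∣ Nat.card G := by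
  have hp := hM.1
  have hMprime : M.IsPrime := hM.2.1.isPrime
  have hpM := hM.2.2
  constructor
  · intro H
    exact princ_dir1_8 p hp M hMprime hpM H
  · intro hpG χ hχ _
    exact princ_dir2_8 p hp M hMprime hpM hpG χ hχ

end Cfsg.Agent.Lib.Helper8
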