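import Mathlib
import Cfsg.Prelude.Def_FusionSystem
import Cfsg.Agent.Lib.Helper8.Prod1

set_option autoImplicit false

namespace Cfsg.Agent.Lib.Helper8

open Cfsg Cfsg.FusionSystem

variable {Ω : Type*} [Group Ω] {S : Subgroup Ω}

/-- a normal Sylow subgroup contains every element of `p`-power order -/
theorem mem_sylow_of_pow8 {B : Type*} [Group B] [Finite B] (p : ℕ) [Fact p.Prime] (R : Sylow p B)
    (hR : (R : Subgroup B).Normal) (β : B) (k : ℕ) (h : β ^ (p ^ k) = 1) :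
    β ∈ (R : Subgroup B) := by
  have hp : IsPGroup p (Subgroup.zpowers β) := by
    rintro ⟨_, m, rfl⟩
    refine ⟨k, ?_⟩
    apply Subtype.ext
    have e : (β ^ m) ^ (p ^ k) = 1 := by
      rw [← zpow_natCast, ← zpow_mul, mul_comm, zpow_mul, zpow_natCast, h, one_zpow]
    exact e
  obtain ⟨R', hR'⟩ := hp.exists_le_sylow
  haveI := Sylow.unique_of_normal R hR
  have e1 : R' = R := Subsingleton.elim R' R
  rw [← e1]
  exact hR' (Subgroup.mem_zpowers β)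

/-- `Aut_S(S)` is normal in `Aut_F(S)` -/
theorem autS_normal8 (F : FusionSystem S) :
    ((autInducedBy S S).subgroupOf (F.autGroup S)).Normal := by
  constructor
  intro α hα β
  rw [Subgroup.mem_subgroupOf] at hα ⊢
  obtain ⟨g, hg, h⟩ := (mem_autInducedBy_iff S S _).1 hα
  apply (mem_autInducedBy_iff S S _).2
  refine ⟨((β : MulAut S) ⟨g, hg⟩ : S), ((β : MulAut S) ⟨g, hg⟩).2, fun x => ?_⟩
  have e1 : (α : MulAut S) ((β : MulAut S)⁻¹ x) =
      ⟨g, hg⟩ * ((β : MulAut S)⁻¹ x) * ⟨g, hg⟩⁻¹ := Subtype.ext (h _)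
  have e2 : (β : MulAut S) ((α : MulAut S) ((β : MulAut S)⁻¹ x)) =
      (β : MulAut S) ⟨g, hg⟩ * x * ((β : MulAut S) ⟨g, hg⟩)⁻¹ := by
    rw [e1, map_mul, map_mul, map_inv, MulAut.apply_inv_self]
  exact congrArg (fun z : S => (z : Ω)) e2

/-- automorphisms of `p`-power order of `S` in a saturated system are inner -/
theorem aut_ppow_inner8 (F : FusionSystem S) [Finite S] (p : ℕ) [Fact p.Prime] (hS : IsPGroup p S)
    (hF : F.IsSaturated p) (β : MulAut S) (hβ : β ∈ F.autGroup S) (k : ℕ)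
    (hk : β ^ (p ^ k) = 1) : ∃ g ∈ S, ∀ x : S, ((β x : S) : Ω) = g * x * g⁻¹ := by
  obtain ⟨-, R, hR⟩ := ((fs_saturated_iff_rs F p hS).1 hF).1
  haveI : Finite (F.autGroup S) := finite_autGroup F le_rfl
  have hRn : (R : Subgroup (F.autGroup S)).Normal := by
    rw [hR]
    exact autS_normal8 F
  have hmem : (⟨β, hβ⟩ : F.autGroup S) ∈ (R : Subgroup (F.autGroup S)) := by
    apply mem_sylow_of_pow8 p R hRn _ k
    apply Subtype.ext
    exact hk
  rw [hR, Subgroup.mem_subgroupOf] at hmem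
  exact (mem_autInducedBy_iff S S β).1 hmem

/-- a fully normalized subgroup mapped by a normalizer map onto a receptive subgroup is receptive -/
theorem rec_of_normalizer_map8 (F : FusionSystem S) [Finite S] {P : Subgroup Ω}
    (hPn : F.IsFullyNormalized P) (ψ : ↥(normalizerIn S P) →* Ω)
    (hψ : ψ ∈ F.Hom (normalizerIn S P)) (Q : Subgroup Ω)
    (hQ : (P.subgroupOf (normalizerIn S P)).map ψ = Q) (hQr : F.IsReceptive Q) :
    F.IsReceptive P := by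
  have hPS := hPn.1
  have hPN : P ≤ normalizerIn S P := le_normalizerIn hPS
  have hQS : Q ≤ S := hQr.1
  haveI hfinQ : Finite Q := finite_of_le_fs hQS
  haveI hfinP : Finite P := finite_of_le_fs hPS
  have hψQ : ∀ x : P, ψ (Subgroup.inclusion hPN x) ∈ Q := by
    intro x
    rw [← hQ]
    exact ⟨_, Subgroup.mem_subgroupOf.2 x.2, rfl⟩
  have hQmem : ∀ q ∈ Q, ∃ x : P, ψ (Subgroup.inclusion hPN x) = q := by
    intro q hq
    rw [← hQ] at hq
    obtain ⟨z, hz, rfl⟩ := hq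
    exact ⟨⟨(z : Ω), Subgroup.mem_subgroupOf.1 hz⟩, rfl⟩
  have hψN : ∀ n : ↥(normalizerIn S P), ψ n ∈ normalizerIn S Q := by
    intro n
    refine Subgroup.mem_inf.2 ⟨fs_map_mem F hψ n, ?_⟩
    apply mem_normalizer_of_conj_mem_finite
    intro q hq
    obtain ⟨x, rfl⟩ := hQmem q hq
    have hnx : (n : Ω) * (x : Ω) * (n : Ω)⁻¹ ∈ P := ((mem_normalizerIn.1 n.2).2 x).1 x.2
    have e0 : n * Subgroup.inclusion hPN x * n⁻¹ =
        Subgroup.inclusion hPN ⟨(n : Ω) * (x : Ω) * (n : Ω)⁻¹, hnx⟩ := Subtype.ext rfl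
    have e : ψ n * ψ (Subgroup.inclusion hPN x) * (ψ n)⁻¹ =
        ψ (Subgroup.inclusion hPN ⟨(n : Ω) * (x : Ω) * (n : Ω)⁻¹, hnx⟩) := by
      rw [← e0, map_mul, map_mul, map_inv]
    rw [e]
    exact hψQ _
  have hconj : F.IsConj P Q := by
    refine ⟨ψ.comp (Subgroup.inclusion hPN), fs_restrict_mem F hψ hPN, ?_⟩
    ext q
    constructor
    · rintro ⟨x, rfl⟩
      exact hψQ x
    · intro hq
      obtain ⟨x, hx⟩ := hQmem q hq
      exact ⟨x, hx⟩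
  have hcard := hPn.2 Q hconj
  have hrange : ψ.range = normalizerIn S Q := by
    haveI : Finite ↥(normalizerIn S Q) := finite_of_le_fs (normalizerIn_le S Q)
    apply Subgroup.eq_of_le_of_card_ge
    · rintro _ ⟨n, rfl⟩
      exact hψN n
    · exact hcard.trans (Nat.card_congr (MonoidHom.ofInjective (F.injective_of_mem hψ)).toEquiv).le
  refine ⟨hPS, ?_⟩
  intro R θ hθ hθr
  have hRS : R ≤ S := fs_le F hθ
  have hθP : ∀ x : R, θ x ∈ P := by
    intro x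
    rw [← hθr]
    exact ⟨x, rfl⟩
  have hθN : ∀ x : R, θ x ∈ normalizerIn S P := fun x => hPN (hθP x)
  have hcomp : ψ.comp (θ.codRestrict (normalizerIn S P) hθN) ∈ F.Hom R := F.comp_mem hθ hψ hθN
  obtain ⟨κ, hκ, hκapp⟩ : ∃ κ ∈ F.Hom R, ∀ x : R, κ x = ψ ⟨θ x, hθN x⟩ :=
    ⟨_, hcomp, fun x => rfl⟩
  have hκr : κ.range = Q := by
    ext q
    constructor
    · rintro ⟨x, rfl⟩
      rw [hκapp]
      exact hψQ ⟨θ x, hθP x⟩
    · intro hq
      obtain ⟨y, rfl⟩ := hQmem q hq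
      have hy : (y : Ω) ∈ θ.range := by
        rw [hθr]
        exact y.2
      obtain ⟨x, hx⟩ := hy
      refine ⟨x, ?_⟩
      rw [hκapp]
      exact congrArg ψ (Subtype.ext hx)
  obtain ⟨η, hη, hηag⟩ := hQr.2 R κ hκ hκr
  have hle : extender S R θ ≤ extender S R κ := by
    unfold extender
    apply Subgroup.closure_mono
    rintro g ⟨hgS, hgN, h, hhS, hh⟩
    have hhN : h ∈ normalizerIn S P := by
      refine Subgroup.mem_inf.2 ⟨hhS, ?_⟩
      apply mem_normalizer_of_conj_mem_finite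
      intro y hy
      have hy' : y ∈ θ.range := by
        rw [hθr]
        exact hy
      obtain ⟨x, rfl⟩ := hy'
      have hgx : g * (x : Ω) * g⁻¹ ∈ R := ((Subgroup.mem_normalizer_iff.1 hgN) x).1 x.2
      rw [← hh x hgx]
      exact hθP _
    refine ⟨hgS, hgN, ψ ⟨h, hhN⟩, fs_map_mem F hψ _, ?_⟩
    intro x hx
    rw [hκapp, hκapp]
    have e0 : (⟨θ ⟨g * (x : Ω) * g⁻¹, hx⟩, hθN _⟩ : ↥(normalizerIn S P)) =
        ⟨h, hhN⟩ * ⟨θ x, hθN x⟩ * ⟨h, hhN⟩⁻¹ := Subtype.ext (hh x hx)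
    have e1 : ψ (⟨h, hhN⟩ * ⟨θ x, hθN x⟩ * ⟨h, hhN⟩⁻¹) =
        ψ ⟨h, hhN⟩ * ψ ⟨θ x, hθN x⟩ * (ψ ⟨h, hhN⟩)⁻¹ := by
      rw [map_mul, map_mul, map_inv]
    exact (congrArg ψ e0).trans e1
  have hη' : η.comp (Subgroup.inclusion hle) ∈ F.Hom (extender S R θ) :=
    fs_restrict_mem F hη hle
  have hNR : extender S R θ ≤ normalizerIn S R := extender_le S R θ
  have hRN : R ≤ extender S R θ := le_extender F hθ
  have hη'R : ∀ (x : Ω) (hx : x ∈ R), η ⟨x, hle (hRN hx)⟩ = κ ⟨x, hx⟩ :=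
    fun x hx => hηag x hx _
  haveI hfinR : Finite R := finite_of_le_fs hRS
  have hη'v : ∀ g : ↥(extender S R θ), (η.comp (Subgroup.inclusion hle)) g ∈ ψ.range := by
    intro g
    rw [hrange]
    refine Subgroup.mem_inf.2 ⟨fs_map_mem F hη' g, ?_⟩
    apply mem_normalizer_of_conj_mem_finite
    intro q hq
    have hq' : q ∈ κ.range := by
      rw [hκr]
      exact hq
    obtain ⟨x, rfl⟩ := hq'
    have hgN := (mem_normalizerIn.1 (hNR g.2)).2
    have hgx : (g : Ω) * (x : Ω) * (g : Ω)⁻¹ ∈ R := (hgN x).1 x.2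
    have e1 : κ x = η ⟨(x : Ω), hle (hRN x.2)⟩ := (hη'R x x.2).symm
    have e2 : η ⟨(g : Ω) * (x : Ω) * (g : Ω)⁻¹, hle (hRN hgx)⟩ =
        κ ⟨(g : Ω) * (x : Ω) * (g : Ω)⁻¹, hgx⟩ := hη'R _ hgx
    have e3 : (⟨(g : Ω) * (x : Ω) * (g : Ω)⁻¹, hle (hRN hgx)⟩ : ↥(extender S R κ)) =
        (Subgroup.inclusion hle g) * ⟨(x : Ω), hle (hRN x.2)⟩ * (Subgroup.inclusion hle g)⁻¹ :=
      Subtype.ext rfl
    have e4 : η (Subgroup.inclusion hle g) * κ x * (η (Subgroup.inclusion hle g))⁻¹ =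
        κ ⟨(g : Ω) * (x : Ω) * (g : Ω)⁻¹, hgx⟩ := by
      rw [← e2, e3, map_mul, map_mul, map_inv, e1]
    have h5 : η (Subgroup.inclusion hle g) * κ x * (η (Subgroup.inclusion hle g))⁻¹ ∈ Q := by
      rw [e4, ← hκr]
      exact ⟨_, rfl⟩
    exact h5
  obtain ⟨ι, hι, hιinv⟩ := F.inv_mem hψ
  have hι' : ∀ (y : Ω) (hy : y ∈ ψ.range) (n : ↥(normalizerIn S P)), ψ n = y →
      ι ⟨y, hy⟩ = (n : Ω) := by
    intro y hy n hn
    subst hn
    exact hιinv n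
  refine ⟨ι.comp ((η.comp (Subgroup.inclusion hle)).codRestrict ψ.range hη'v),
    F.comp_mem hη' hι hη'v, ?_⟩
  intro x hxR hxN
  have e5 : ψ ⟨θ ⟨x, hxR⟩, hθN _⟩ = η ⟨x, hle hxN⟩ :=
    (hκapp ⟨x, hxR⟩).symm.trans (hηag x hxR (hle hxN)).symm
  exact hι' _ (hη'v ⟨x, hxN⟩) ⟨θ ⟨x, hxR⟩, hθN _⟩ e5

end Cfsg.Agent.Lib.Helper8
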