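import Mathlib
import Cfsg.Prelude.Def_FusionSystem
import Cfsg.Prelude.Def_FusionComponents
import Cfsg.Agent.Lib.Helper8.ProdSys1

set_option autoImplicit false

namespace Cfsg.Agent.Lib.Helper8

open Cfsg Cfsg.FusionSystem

variable {Ω₁ Ω₂ : Type*} [Group Ω₁] [Group Ω₂] {S₁ : Subgroup Ω₁} {S₂ : Subgroup Ω₂}

/-- restriction of a product map -/
def prodRestr8 {A₁ : Subgroup Ω₁} {A₂ : Subgroup Ω₂} (φ₁ : A₁ →* Ω₁) (φ₂ : A₂ →* Ω₂)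
    (P : Subgroup (Ω₁ × Ω₂)) (hP : P ≤ A₁.prod A₂) : P →* Ω₁ × Ω₂ :=
  MonoidHom.mk' (fun x => (φ₁ ⟨(x : Ω₁ × Ω₂).1, (Subgroup.mem_prod.1 (hP x.2)).1⟩,
      φ₂ ⟨(x : Ω₁ × Ω₂).2, (Subgroup.mem_prod.1 (hP x.2)).2⟩))
    (fun x y => Prod.ext
      (map_mul φ₁ ⟨(x : Ω₁ × Ω₂).1, (Subgroup.mem_prod.1 (hP x.2)).1⟩
        ⟨(y : Ω₁ × Ω₂).1, (Subgroup.mem_prod.1 (hP y.2)).1⟩)
      (map_mul φ₂ ⟨(x : Ω₁ × Ω₂).2, (Subgroup.mem_prod.1 (hP x.2)).2⟩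
        ⟨(y : Ω₁ × Ω₂).2, (Subgroup.mem_prod.1 (hP y.2)).2⟩))

theorem prodRestr_mem8 (F₁ : FusionSystem S₁) (F₂ : FusionSystem S₂)
    (E : FusionSystem (S₁.prod S₂)) (hE : FusionSystem.IsProductSystem F₁ F₂ E)
    {A₁ : Subgroup Ω₁} {A₂ : Subgroup Ω₂} {φ₁ : A₁ →* Ω₁} {φ₂ : A₂ →* Ω₂}
    (hφ₁ : φ₁ ∈ F₁.Hom A₁) (hφ₂ : φ₂ ∈ F₂.Hom A₂) (P : Subgroup (Ω₁ × Ω₂))
    (hP : P ≤ A₁.prod A₂) : prodRestr8 φ₁ φ₂ P hP ∈ E.Hom P := by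
  rw [hE]
  have h1 : P.map (MonoidHom.fst Ω₁ Ω₂) ≤ A₁ := by
    rintro _ ⟨x, hx, rfl⟩
    exact (Subgroup.mem_prod.1 (hP hx)).1
  have h2 : P.map (MonoidHom.snd Ω₁ Ω₂) ≤ A₂ := by
    rintro _ ⟨x, hx, rfl⟩
    exact (Subgroup.mem_prod.1 (hP hx)).2
  have hPS : P ≤ S₁.prod S₂ := by
    intro x hx
    exact Subgroup.mem_prod.2 ⟨fs_le F₁ hφ₁ (Subgroup.mem_prod.1 (hP hx)).1,
      fs_le F₂ hφ₂ (Subgroup.mem_prod.1 (hP hx)).2⟩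
  exact ⟨hPS, φ₁.comp (Subgroup.inclusion h1), fs_restrict_mem F₁ hφ₁ h1,
    φ₂.comp (Subgroup.inclusion h2), fs_restrict_mem F₂ hφ₂ h2, fun x _ _ => rfl⟩

theorem prod_components8 {F₁ : FusionSystem S₁} {F₂ : FusionSystem S₂}
    {E : FusionSystem (S₁.prod S₂)} (hE : FusionSystem.IsProductSystem F₁ F₂ E)
    {P : Subgroup (Ω₁ × Ω₂)} {φ : P →* Ω₁ × Ω₂} (hφ : φ ∈ E.Hom P) :
    P ≤ S₁.prod S₂ ∧ ∃ φ₁ ∈ F₁.Hom (P.map (MonoidHom.fst Ω₁ Ω₂)),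
      ∃ φ₂ ∈ F₂.Hom (P.map (MonoidHom.snd Ω₁ Ω₂)),
      ∀ (x : Ω₁ × Ω₂) (hx : x ∈ P) (h₁ : x.1 ∈ P.map (MonoidHom.fst Ω₁ Ω₂))
        (h₂ : x.2 ∈ P.map (MonoidHom.snd Ω₁ Ω₂)),
        φ ⟨x, hx⟩ = (φ₁ ⟨x.1, h₁⟩, φ₂ ⟨x.2, h₂⟩) := by
  obtain ⟨hP, φ₁, hφ₁, φ₂, hφ₂, h⟩ := (hE P φ).1 hφ
  exact ⟨hP, φ₁, hφ₁, φ₂, hφ₂, fun x hx h₁ h₂ => h ⟨x, hx⟩ h₁ h₂⟩

theorem prod_finite8 [Finite S₁] [Finite S₂] : Finite ↥(S₁.prod S₂) :=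
  Finite.of_equiv _ (Subgroup.prodEquiv S₁ S₂).symm.toEquiv

theorem prod_isPGroup8 [Finite S₁] [Finite S₂] (p : ℕ) [Fact p.Prime] (h₁ : IsPGroup p S₁)
    (h₂ : IsPGroup p S₂) : IsPGroup p ↥(S₁.prod S₂) := by
  obtain ⟨a, ha⟩ := h₁.exists_card_eq
  obtain ⟨b, hb⟩ := h₂.exists_card_eq
  have h : IsPGroup p (S₁ × S₂) :=
    IsPGroup.of_card (n := a + b) (by rw [Nat.card_prod, ha, hb, pow_add])
  exact h.of_equiv (Subgroup.prodEquiv S₁ S₂).symm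

/-- the whole group is fully automized in the product system -/
theorem prod_top_automized8 [Finite S₁] [Finite S₂] (p : ℕ) [Fact p.Prime] (h₁ : IsPGroup p S₁)
    (h₂ : IsPGroup p S₂) (F₁ : FusionSystem S₁) (F₂ : FusionSystem S₂) (hF₁ : F₁.IsSaturated p)
    (hF₂ : F₂.IsSaturated p) (E : FusionSystem (S₁.prod S₂))
    (hE : FusionSystem.IsProductSystem F₁ F₂ E) : E.IsFullyAutomized p (S₁.prod S₂) := by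
  haveI := prod_finite8 (S₁ := S₁) (S₂ := S₂)
  have hS := prod_isPGroup8 p h₁ h₂
  refine ⟨le_rfl, ?_⟩
  have hp : IsPGroup p ↥((autInducedBy (S₁.prod S₂) (S₁.prod S₂)).subgroupOf
      (E.autGroup (S₁.prod S₂))) := (autInducedBy_isPGroup hS _).comap_subtype
  refine ⟨⟨_, hp, ?_⟩, rfl⟩
  intro Q hQ hle
  apply le_antisymm _ hle
  intro α hα
  rw [Subgroup.mem_subgroupOf]
  obtain ⟨k, hk⟩ := hQ ⟨α, hα⟩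
  have hk' : (α : MulAut ↥(S₁.prod S₂)) ^ (p ^ k) = 1 :=
    congrArg (fun z : Q => ((z : E.autGroup (S₁.prod S₂)) : MulAut ↥(S₁.prod S₂))) hk
  have hαE : (S₁.prod S₂).subtype.comp (α : MulAut ↥(S₁.prod S₂)).toMonoidHom ∈
      E.Hom (S₁.prod S₂) := (mem_autGroup_iff E le_rfl _).1 α.2
  obtain ⟨-, φ₁, hφ₁, φ₂, hφ₂, hφ⟩ := prod_components8 hE hαE
  have hS₁ : S₁ ≤ (S₁.prod S₂).map (MonoidHom.fst Ω₁ Ω₂) := by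
    intro a ha
    exact ⟨(a, 1), Subgroup.mem_prod.2 ⟨ha, S₂.one_mem⟩, rfl⟩
  have hS₂ : S₂ ≤ (S₁.prod S₂).map (MonoidHom.snd Ω₁ Ω₂) := by
    intro b hb
    exact ⟨(1, b), Subgroup.mem_prod.2 ⟨S₁.one_mem, hb⟩, rfl⟩
  have hφ₁' : φ₁.comp (Subgroup.inclusion hS₁) ∈ F₁.Hom S₁ := fs_restrict_mem F₁ hφ₁ hS₁
  have hφ₂' : φ₂.comp (Subgroup.inclusion hS₂) ∈ F₂.Hom S₂ := fs_restrict_mem F₂ hφ₂ hS₂
  obtain ⟨β₁, hβ₁, hβ₁app⟩ := fs_exists_aut_of_range_le F₁ hφ₁' (fs_range_le F₁ hφ₁')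
  obtain ⟨β₂, hβ₂, hβ₂app⟩ := fs_exists_aut_of_range_le F₂ hφ₂' (fs_range_le F₂ hφ₂')
  have hrel : ∀ x : ↥(S₁.prod S₂),
      (((α : MulAut ↥(S₁.prod S₂)) x : ↥(S₁.prod S₂)) : Ω₁ × Ω₂) =
      (((β₁ ⟨(x : Ω₁ × Ω₂).1, (Subgroup.mem_prod.1 x.2).1⟩ : S₁) : Ω₁),
        ((β₂ ⟨(x : Ω₁ × Ω₂).2, (Subgroup.mem_prod.1 x.2).2⟩ : S₂) : Ω₂)) := by
    intro x
    have h := hφ (x : Ω₁ × Ω₂) x.2 (hS₁ (Subgroup.mem_prod.1 x.2).1)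
      (hS₂ (Subgroup.mem_prod.1 x.2).2)
    rw [hβ₁app, hβ₂app]
    exact h
  have hpow : ∀ (n : ℕ) (x : ↥(S₁.prod S₂)),
      ((((α : MulAut ↥(S₁.prod S₂)) ^ n) x : ↥(S₁.prod S₂)) : Ω₁ × Ω₂) =
      ((((β₁ ^ n) ⟨(x : Ω₁ × Ω₂).1, (Subgroup.mem_prod.1 x.2).1⟩ : S₁) : Ω₁),
        (((β₂ ^ n) ⟨(x : Ω₁ × Ω₂).2, (Subgroup.mem_prod.1 x.2).2⟩ : S₂) : Ω₂)) := by
    intro n
    induction n with
    | zero =>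
      intro x
      first | rfl | simp
    | succ n ih =>
      intro x
      have e : (((α : MulAut ↥(S₁.prod S₂)) ^ (n + 1)) x) =
          ((α : MulAut ↥(S₁.prod S₂)) ^ n) ((α : MulAut ↥(S₁.prod S₂)) x) := by
        rw [pow_succ, MulAut.mul_apply]
      have e1 : ((β₁ ^ (n + 1)) ⟨(x : Ω₁ × Ω₂).1, (Subgroup.mem_prod.1 x.2).1⟩) =
          (β₁ ^ n) (β₁ ⟨(x : Ω₁ × Ω₂).1, (Subgroup.mem_prod.1 x.2).1⟩) := by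
        rw [pow_succ, MulAut.mul_apply]
      have e2 : ((β₂ ^ (n + 1)) ⟨(x : Ω₁ × Ω₂).2, (Subgroup.mem_prod.1 x.2).2⟩) =
          (β₂ ^ n) (β₂ ⟨(x : Ω₁ × Ω₂).2, (Subgroup.mem_prod.1 x.2).2⟩) := by
        rw [pow_succ, MulAut.mul_apply]
      have e3 : (⟨(((α : MulAut ↥(S₁.prod S₂)) x : ↥(S₁.prod S₂)) : Ω₁ × Ω₂).1,
          (Subgroup.mem_prod.1 ((α : MulAut ↥(S₁.prod S₂)) x).2).1⟩ : S₁) =
          β₁ ⟨(x : Ω₁ × Ω₂).1, (Subgroup.mem_prod.1 x.2).1⟩ :=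
        Subtype.ext (congrArg Prod.fst (hrel x))
      have e4 : (⟨(((α : MulAut ↥(S₁.prod S₂)) x : ↥(S₁.prod S₂)) : Ω₁ × Ω₂).2,
          (Subgroup.mem_prod.1 ((α : MulAut ↥(S₁.prod S₂)) x).2).2⟩ : S₂) =
          β₂ ⟨(x : Ω₁ × Ω₂).2, (Subgroup.mem_prod.1 x.2).2⟩ :=
        Subtype.ext (congrArg Prod.snd (hrel x))
      rw [e, ih, e1, e2, e3, e4]
  have hβ₁k : β₁ ^ (p ^ k) = 1 := by
    apply MulEquiv.ext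
    intro a
    apply Subtype.ext
    have h := hpow (p ^ k) ⟨((a : Ω₁), 1), Subgroup.mem_prod.2 ⟨a.2, S₂.one_mem⟩⟩
    rw [hk'] at h
    exact (congrArg Prod.fst h).symm
  have hβ₂k : β₂ ^ (p ^ k) = 1 := by
    apply MulEquiv.ext
    intro b
    apply Subtype.ext
    have h := hpow (p ^ k) ⟨(1, (b : Ω₂)), Subgroup.mem_prod.2 ⟨S₁.one_mem, b.2⟩⟩
    rw [hk'] at h
    exact (congrArg Prod.snd h).symm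
  obtain ⟨g₁, hg₁, hg₁app⟩ := aut_ppow_inner8 F₁ p h₁ hF₁ β₁ hβ₁ k hβ₁k
  obtain ⟨g₂, hg₂, hg₂app⟩ := aut_ppow_inner8 F₂ p h₂ hF₂ β₂ hβ₂ k hβ₂k
  refine (mem_autInducedBy_iff _ _ _).2 ⟨(g₁, g₂), Subgroup.mem_prod.2 ⟨hg₁, hg₂⟩, fun x => ?_⟩
  rw [hrel x]
  exact Prod.ext (hg₁app _) (hg₂app _)

/-- a subgroup with receptive projections is receptive in the product system -/
theorem prod_receptive8 (F₁ : FusionSystem S₁) (F₂ : FusionSystem S₂)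
    (E : FusionSystem (S₁.prod S₂)) (hE : FusionSystem.IsProductSystem F₁ F₂ E)
    (Q : Subgroup (Ω₁ × Ω₂)) (hQ : Q ≤ S₁.prod S₂)
    (hQ₁ : F₁.IsReceptive (Q.map (MonoidHom.fst Ω₁ Ω₂)))
    (hQ₂ : F₂.IsReceptive (Q.map (MonoidHom.snd Ω₁ Ω₂))) [Finite S₁] [Finite S₂] :
    E.IsReceptive Q := by
  refine ⟨hQ, ?_⟩
  intro R θ hθ hθr
  obtain ⟨hRS, θ₁, hθ₁, θ₂, hθ₂, hθapp⟩ := prod_components8 hE hθ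
  have hθ₁r : θ₁.range = Q.map (MonoidHom.fst Ω₁ Ω₂) := by
    ext a
    constructor
    · rintro ⟨⟨_, x, hx, rfl⟩, rfl⟩
      refine ⟨θ ⟨x, hx⟩, ?_, ?_⟩
      · rw [← hθr]
        exact ⟨_, rfl⟩
      · exact congrArg Prod.fst (hθapp x hx ⟨x, hx, rfl⟩ ⟨x, hx, rfl⟩)
    · rintro ⟨q, hq, rfl⟩
      rw [← hθr] at hq
      obtain ⟨x, rfl⟩ := hq
      refine ⟨⟨(x : Ω₁ × Ω₂).1, ⟨x, x.2, rfl⟩⟩, ?_⟩
      exact (congrArg Prod.fst (hθapp x x.2 ⟨x, x.2, rfl⟩ ⟨x, x.2, rfl⟩)).symm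
  have hθ₂r : θ₂.range = Q.map (MonoidHom.snd Ω₁ Ω₂) := by
    ext a
    constructor
    · rintro ⟨⟨_, x, hx, rfl⟩, rfl⟩
      refine ⟨θ ⟨x, hx⟩, ?_, ?_⟩
      · rw [← hθr]
        exact ⟨_, rfl⟩
      · exact congrArg Prod.snd (hθapp x hx ⟨x, hx, rfl⟩ ⟨x, hx, rfl⟩)
    · rintro ⟨q, hq, rfl⟩
      rw [← hθr] at hq
      obtain ⟨x, rfl⟩ := hq
      refine ⟨⟨(x : Ω₁ × Ω₂).2, ⟨x, x.2, rfl⟩⟩, ?_⟩
      exact (congrArg Prod.snd (hθapp x x.2 ⟨x, x.2, rfl⟩ ⟨x, x.2, rfl⟩)).symm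
  obtain ⟨η₁, hη₁, hη₁ag⟩ := hQ₁.2 _ θ₁ hθ₁ hθ₁r
  obtain ⟨η₂, hη₂, hη₂ag⟩ := hQ₂.2 _ θ₂ hθ₂ hθ₂r
  haveI : Finite ↥(R.map (MonoidHom.fst Ω₁ Ω₂)) := finite_of_le_fs (fs_le F₁ hθ₁)
  haveI : Finite ↥(R.map (MonoidHom.snd Ω₁ Ω₂)) := finite_of_le_fs (fs_le F₂ hθ₂)
  have hgen : ∀ g : Ω₁ × Ω₂, g ∈ S₁.prod S₂ → g ∈ Subgroup.normalizer (R : Set (Ω₁ × Ω₂)) →
      (∃ h ∈ S₁.prod S₂, ∀ (x : R) (hx : g * (x : Ω₁ × Ω₂) * g⁻¹ ∈ R),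
        θ ⟨g * x * g⁻¹, hx⟩ = h * θ x * h⁻¹) →
      g.1 ∈ extender S₁ (R.map (MonoidHom.fst Ω₁ Ω₂)) θ₁ ∧
        g.2 ∈ extender S₂ (R.map (MonoidHom.snd Ω₁ Ω₂)) θ₂ := by
    rintro g hgS hgN ⟨h, hhS, hh⟩
    have hconj : ∀ x ∈ R, g * x * g⁻¹ ∈ R := fun x hx =>
      ((Subgroup.mem_normalizer_iff.1 hgN) x).1 hx
    constructor
    · apply Subgroup.subset_closure
      refine ⟨(Subgroup.mem_prod.1 hgS).1, ?_, h.1, (Subgroup.mem_prod.1 hhS).1, ?_⟩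
      · apply mem_normalizer_of_conj_mem_finite
        rintro _ ⟨x, hx, rfl⟩
        exact ⟨g * x * g⁻¹, hconj x hx, rfl⟩
      · rintro ⟨_, x, hx, rfl⟩ ha
        have key := hh ⟨x, hx⟩ (hconj x hx)
        have k1 := hθapp (g * x * g⁻¹) (hconj x hx) ⟨_, hconj x hx, rfl⟩ ⟨_, hconj x hx, rfl⟩
        have k2 := hθapp x hx ⟨x, hx, rfl⟩ ⟨x, hx, rfl⟩
        have k3 : (θ ⟨g * x * g⁻¹, hconj x hx⟩).1 = (h * θ ⟨x, hx⟩ * h⁻¹).1 :=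
          congrArg Prod.fst key
        rw [k1, k2] at k3
        exact k3
    · apply Subgroup.subset_closure
      refine ⟨(Subgroup.mem_prod.1 hgS).2, ?_, h.2, (Subgroup.mem_prod.1 hhS).2, ?_⟩
      · apply mem_normalizer_of_conj_mem_finite
        rintro _ ⟨x, hx, rfl⟩
        exact ⟨g * x * g⁻¹, hconj x hx, rfl⟩
      · rintro ⟨_, x, hx, rfl⟩ ha
        have key := hh ⟨x, hx⟩ (hconj x hx)
        have k1 := hθapp (g * x * g⁻¹) (hconj x hx) ⟨_, hconj x hx, rfl⟩ ⟨_, hconj x hx, rfl⟩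
        have k2 := hθapp x hx ⟨x, hx, rfl⟩ ⟨x, hx, rfl⟩
        have k3 : (θ ⟨g * x * g⁻¹, hconj x hx⟩).2 = (h * θ ⟨x, hx⟩ * h⁻¹).2 :=
          congrArg Prod.snd key
        rw [k1, k2] at k3
        exact k3
  have hN : extender (S₁.prod S₂) R θ ≤
      (extender S₁ (R.map (MonoidHom.fst Ω₁ Ω₂)) θ₁).prod
        (extender S₂ (R.map (MonoidHom.snd Ω₁ Ω₂)) θ₂) := by
    apply (Subgroup.closure_le _).2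
    rintro g ⟨h1, h2, h3⟩
    exact Subgroup.mem_prod.2 (hgen g h1 h2 h3)
  refine ⟨prodRestr8 η₁ η₂ _ hN, prodRestr_mem8 F₁ F₂ E hE hη₁ hη₂ _ hN, ?_⟩
  intro x hxR hxN
  rw [hθapp x hxR ⟨x, hxR, rfl⟩ ⟨x, hxR, rfl⟩]
  exact Prod.ext (hη₁ag x.1 ⟨x, hxR, rfl⟩ _) (hη₂ag x.2 ⟨x, hxR, rfl⟩ _)

/-- a normalizer map onto a receptive subgroup -/
theorem prod_good_map8 [Finite S₁] [Finite S₂] (p : ℕ) [Fact p.Prime] (h₁ : IsPGroup p S₁)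
    (h₂ : IsPGroup p S₂) (F₁ : FusionSystem S₁) (F₂ : FusionSystem S₂) (hF₁ : F₁.IsSaturated p)
    (hF₂ : F₂.IsSaturated p) (E : FusionSystem (S₁.prod S₂))
    (hE : FusionSystem.IsProductSystem F₁ F₂ E) (P : Subgroup (Ω₁ × Ω₂))
    (hP : P ≤ S₁.prod S₂) :
    ∃ ψ ∈ E.Hom (normalizerIn (S₁.prod S₂) P),
      E.IsReceptive ((P.subgroupOf (normalizerIn (S₁.prod S₂) P)).map ψ) := by
  obtain ⟨hn₁, hc₁⟩ := (fs_saturated_iff F₁ p h₁).1 hF₁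
  obtain ⟨hn₂, hc₂⟩ := (fs_saturated_iff F₂ p h₂).1 hF₂
  have hP₁ : P.map (MonoidHom.fst Ω₁ Ω₂) ≤ S₁ := by
    rintro _ ⟨x, hx, rfl⟩
    exact (Subgroup.mem_prod.1 (hP hx)).1
  have hP₂ : P.map (MonoidHom.snd Ω₁ Ω₂) ≤ S₂ := by
    rintro _ ⟨x, hx, rfl⟩
    exact (Subgroup.mem_prod.1 (hP hx)).2
  obtain ⟨Q₁, hconj₁, hQ₁n⟩ := exists_fullyNormalized_conj F₁ hP₁
  obtain ⟨Q₂, hconj₂, hQ₂n⟩ := exists_fullyNormalized_conj F₂ hP₂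
  obtain ⟨hQ₁c, hQ₁a⟩ := hn₁ Q₁ hQ₁n
  obtain ⟨hQ₂c, hQ₂a⟩ := hn₂ Q₂ hQ₂n
  have hQ₁r := hc₁ Q₁ hQ₁c
  have hQ₂r := hc₂ Q₂ hQ₂c
  obtain ⟨ψ₁, hψ₁, -, hψ₁Q⟩ := fs_exists_normalizer_map F₁ p h₁ Q₁ _ hQ₁a hQ₁r hconj₁
  obtain ⟨ψ₂, hψ₂, -, hψ₂Q⟩ := fs_exists_normalizer_map F₂ p h₂ Q₂ _ hQ₂a hQ₂r hconj₂
  haveI : Finite ↥(P.map (MonoidHom.fst Ω₁ Ω₂)) := finite_of_le_fs hP₁
  haveI : Finite ↥(P.map (MonoidHom.snd Ω₁ Ω₂)) := finite_of_le_fs hP₂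
  have hle : normalizerIn (S₁.prod S₂) P ≤
      (normalizerIn S₁ (P.map (MonoidHom.fst Ω₁ Ω₂))).prod
        (normalizerIn S₂ (P.map (MonoidHom.snd Ω₁ Ω₂))) := by
    intro g hg
    have hgS := (Subgroup.mem_inf.1 hg).1
    have hgN := (Subgroup.mem_inf.1 hg).2
    refine Subgroup.mem_prod.2 ⟨Subgroup.mem_inf.2 ⟨(Subgroup.mem_prod.1 hgS).1, ?_⟩,
      Subgroup.mem_inf.2 ⟨(Subgroup.mem_prod.1 hgS).2, ?_⟩⟩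
    · apply mem_normalizer_of_conj_mem_finite
      rintro _ ⟨x, hx, rfl⟩
      exact ⟨g * x * g⁻¹, ((Subgroup.mem_normalizer_iff.1 hgN) x).1 hx, rfl⟩
    · apply mem_normalizer_of_conj_mem_finite
      rintro _ ⟨x, hx, rfl⟩
      exact ⟨g * x * g⁻¹, ((Subgroup.mem_normalizer_iff.1 hgN) x).1 hx, rfl⟩
  have hψE := prodRestr_mem8 F₁ F₂ E hE hψ₁ hψ₂ _ hle
  refine ⟨prodRestr8 ψ₁ ψ₂ _ hle, hψE, ?_⟩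
  apply prod_receptive8 F₁ F₂ E hE
  · rintro _ ⟨z, -, rfl⟩
    exact fs_map_mem E hψE z
  · have e : ((P.subgroupOf (normalizerIn (S₁.prod S₂) P)).map
        (prodRestr8 ψ₁ ψ₂ _ hle)).map (MonoidHom.fst Ω₁ Ω₂) = Q₁ := by
      rw [← hψ₁Q]
      ext a
      constructor
      · rintro ⟨_, ⟨z, hz, rfl⟩, rfl⟩
        have hzP : (z : Ω₁ × Ω₂) ∈ P := Subgroup.mem_subgroupOf.1 hz
        exact ⟨⟨(z : Ω₁ × Ω₂).1, (Subgroup.mem_prod.1 (hle z.2)).1⟩,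
          Subgroup.mem_subgroupOf.2 ⟨(z : Ω₁ × Ω₂), hzP, rfl⟩, rfl⟩
      · rintro ⟨n, hn, rfl⟩
        obtain ⟨x, hx, hxn⟩ := Subgroup.mem_subgroupOf.1 hn
        have hxN : x ∈ normalizerIn (S₁.prod S₂) P := le_normalizerIn hP hx
        refine ⟨prodRestr8 ψ₁ ψ₂ _ hle ⟨x, hxN⟩,
          ⟨⟨x, hxN⟩, Subgroup.mem_subgroupOf.2 hx, rfl⟩, ?_⟩
        exact congrArg ψ₁ (Subtype.ext hxn : (⟨x.1, (Subgroup.mem_prod.1 (hle hxN)).1⟩ :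
          ↥(normalizerIn S₁ (P.map (MonoidHom.fst Ω₁ Ω₂)))) = n)
    rw [e]
    exact hQ₁r
  · have e : ((P.subgroupOf (normalizerIn (S₁.prod S₂) P)).map
        (prodRestr8 ψ₁ ψ₂ _ hle)).map (MonoidHom.snd Ω₁ Ω₂) = Q₂ := by
      rw [← hψ₂Q]
      ext a
      constructor
      · rintro ⟨_, ⟨z, hz, rfl⟩, rfl⟩
        have hzP : (z : Ω₁ × Ω₂) ∈ P := Subgroup.mem_subgroupOf.1 hz
        exact ⟨⟨(z : Ω₁ × Ω₂).2, (Subgroup.mem_prod.1 (hle z.2)).2⟩,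
          Subgroup.mem_subgroupOf.2 ⟨(z : Ω₁ × Ω₂), hzP, rfl⟩, rfl⟩
      · rintro ⟨n, hn, rfl⟩
        obtain ⟨x, hx, hxn⟩ := Subgroup.mem_subgroupOf.1 hn
        have hxN : x ∈ normalizerIn (S₁.prod S₂) P := le_normalizerIn hP hx
        refine ⟨prodRestr8 ψ₁ ψ₂ _ hle ⟨x, hxN⟩,
          ⟨⟨x, hxN⟩, Subgroup.mem_subgroupOf.2 hx, rfl⟩, ?_⟩
        exact congrArg ψ₂ (Subtype.ext hxn : (⟨x.2, (Subgroup.mem_prod.1 (hle hxN)).2⟩ :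
          ↥(normalizerIn S₂ (P.map (MonoidHom.snd Ω₁ Ω₂)))) = n)
    rw [e]
    exact hQ₂r

/-- the product of two saturated fusion systems is saturated -/
theorem prod_saturated8 [Finite S₁] [Finite S₂] (p : ℕ) [Fact p.Prime] (h₁ : IsPGroup p S₁)
    (h₂ : IsPGroup p S₂) (F₁ : FusionSystem S₁) (F₂ : FusionSystem S₂) (hF₁ : F₁.IsSaturated p)
    (hF₂ : F₂.IsSaturated p) (E : FusionSystem (S₁.prod S₂))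
    (hE : FusionSystem.IsProductSystem F₁ F₂ E) : E.IsSaturated p := by
  haveI := prod_finite8 (S₁ := S₁) (S₂ := S₂)
  have hS := prod_isPGroup8 p h₁ h₂
  rw [fs_saturated_iff_rs E p hS]
  refine ⟨prod_top_automized8 p h₁ h₂ F₁ F₂ hF₁ hF₂ E hE, ?_⟩
  intro P hPn
  obtain ⟨ψ, hψ, hQr⟩ := prod_good_map8 p h₁ h₂ F₁ F₂ hF₁ hF₂ E hE P hPn.1
  exact rec_of_normalizer_map8 E hPn ψ hψ _ rfl hQr

end Cfsg.Agent.Lib.Helper8
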