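import Mathlib
import Cfsg.Prelude.Def_Characters
import Cfsg.Agent.Lib.Helper7.GlaubSolv
import Cfsg.Agent.Lib.Lead.CharPerm
import Cfsg.Agent.Lib.Lead.CharRing

set_option autoImplicit false

universe u

namespace Cfsg.Agent.Lib.Helper8

open Cfsg.Agent.Lib.Lead Cfsg.Agent.Lib.Helper7
open scoped ComplexConjugate

theorem card_eq_of_rel8 {X Y : Type*} (R : X → Y → Prop)
    (h1 : ∀ x, ∃ y, R x y) (h2 : ∀ x y y', R x y → R x y' → y = y')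
    (h3 : ∀ x x' y, R x y → R x' y → x = x') (h4 : ∀ y, ∃ x, R x y) :
    Nat.card X = Nat.card Y := by
  classical
  choose f hf using h1
  apply Nat.card_congr
  refine Equiv.ofBijective f ⟨?_, ?_⟩
  · intro x x' e
    have h := hf x'
    rw [← e] at h
    exact h3 x x' (f x) (hf x) h
  · intro y
    obtain ⟨x, hx⟩ := h4 y
    exact ⟨x, h2 x (f x) y (hf x) hx⟩

theorem real_iff8 {A : Type*} (f : A → ℂ) :
    (∀ a, (f a).im = 0) ↔ (fun a => conj (f a)) = f := by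
  constructor
  · intro h; funext a; exact Complex.conj_eq_iff_im.mpr (h a)
  · intro h a; exact Complex.conj_eq_iff_im.mp (congrFun h a)

theorem real_class8 {A : Type*} [Group A] {x : A} (hx : IsConj x x⁻¹) (g : A)
    (hg : ConjClasses.mk g = ConjClasses.mk x) : IsConj g g⁻¹ := by
  have hgx : IsConj g x := ConjClasses.mk_eq_mk_iff_isConj.mp hg
  obtain ⟨c, hc⟩ := isConj_iff.mp hgx
  obtain ⟨d, hd⟩ := isConj_iff.mp hx
  subst hc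
  refine isConj_iff.mpr ⟨c⁻¹ * d * c, ?_⟩
  calc (c⁻¹ * d * c) * g * (c⁻¹ * d * c)⁻¹ = c⁻¹ * (d * (c * g * c⁻¹) * d⁻¹) * c := by group
    _ = c⁻¹ * (c * g * c⁻¹)⁻¹ * c := by rw [hd]
    _ = g⁻¹ := by group

theorem real_glaub8 {G : Type u} [Group G] [Finite G] (p : ℕ) [Fact p.Prime] (P K : Subgroup G)
    (hP : IsPGroup p ↥P) (hK : ¬ p ∣ Nat.card ↥K)
    (hPK : P ≤ Subgroup.normalizer (K : Set G)) :
    Nat.card {θ : Cfsg.IrrCharacter ↥K // (∀ k : ↥K, ((θ : ↥K → ℂ) k).im = 0) ∧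
        (∀ x ∈ P, ∀ k k' : ↥K, (k' : G) = x * (k : G) * x⁻¹ →
          (θ : ↥K → ℂ) k' = (θ : ↥K → ℂ) k)} =
      Nat.card {c : ConjClasses ↥K // (∀ k : ↥K, ConjClasses.mk k = c → IsConj k k⁻¹) ∧
        ∀ k : ↥K, ConjClasses.mk k = c → ∀ x ∈ P, ∀ k' : ↥K, (k' : G) = x * (k : G) * x⁻¹ →
          ConjClasses.mk k' = c} ∧
    ((∀ θ : Cfsg.IrrCharacter ↥K, (∀ k : ↥K, ((θ : ↥K → ℂ) k).im = 0) →
        (∀ x ∈ P, ∀ k k' : ↥K, (k' : G) = x * (k : G) * x⁻¹ →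
          (θ : ↥K → ℂ) k' = (θ : ↥K → ℂ) k)) →
      ∀ k : ↥K, IsConj k k⁻¹ → ∃ k' : ↥K, IsConj k k' ∧
        ∀ x ∈ P, x * (k' : G) * x⁻¹ = (k' : G)) := by
  classical
  have hp : p.Prime := Fact.out
  have hnorm : ∀ s ∈ P, ∀ g ∈ K, s * g * s⁻¹ ∈ K := by
    intro s hs g hg
    exact (Subgroup.mem_normalizer_iff.mp (hPK hs) g).mp hg
  have hSp : ∀ s ∈ P, ∃ k : ℕ, ∀ g ∈ K, s ^ (p ^ k) * g = g * s ^ (p ^ k) := by
    intro s hs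
    obtain ⟨k, hk⟩ := hP ⟨s, hs⟩
    have hk' : s ^ (p ^ k) = 1 := by
      have h := congrArg Subtype.val hk
      simpa using h
    exact ⟨k, fun g _ => by rw [hk', one_mul, mul_one]⟩
  have hcop : (Nat.card K).Coprime (Nat.card P) := by
    obtain ⟨n, hn⟩ := IsPGroup.iff_card.mp hP
    rw [hn]
    exact Nat.Coprime.pow_right n ((Nat.Prime.coprime_iff_not_dvd hp).mpr hK).symm
  obtain ⟨C, hC⟩ : ∃ C : Subgroup G, C = K ⊓ Subgroup.centralizer (P : Set G) := ⟨_, rfl⟩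
  haveI : Fintype C := Fintype.ofFinite C
  have hCG : C ≤ K := by rw [hC]; exact inf_le_left
  have hCmem : ∀ x : G, x ∈ C ↔ x ∈ K ∧ ∀ t ∈ P, t * x = x * t := by
    intro x
    rw [hC, Subgroup.mem_inf]
    constructor
    · rintro ⟨hxK, hxc⟩
      exact ⟨hxK, fun t ht => (Subgroup.mem_centralizer_iff.mp hxc) t ht⟩
    · rintro ⟨hxK, hxc⟩
      exact ⟨hxK, Subgroup.mem_centralizer_iff.mpr (fun t ht => hxc t ht)⟩
  have hcorr := gp_induct2 hp (Nat.card P) K P rfl hnorm hcop hSp C hC hCG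
  obtain ⟨g1, -, g3, g4⟩ := hcorr
  -- the relation
  obtain ⟨Rel, hRel⟩ : ∃ Rel : (K → ℂ) → (C → ℂ) → Prop, ∀ χ β, Rel χ β ↔
      ∃ m : ℕ, Cfsg.classInner (fun c : C => χ ⟨c, hCG c.2⟩) β = m ∧ ¬ p ∣ m :=
    ⟨_, fun _ _ => Iff.rfl⟩
  have hconj : ∀ (χ : K → ℂ) (β : C → ℂ), Rel χ β →
      Rel (fun k => conj (χ k)) (fun c => conj (β c)) := by
    intro χ β h
    obtain ⟨m, hm, hpm⟩ := (hRel χ β).mp h
    refine (hRel _ _).mpr ⟨m, ?_, hpm⟩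
    have h1 := classInner_conj_conj (fun c : C => χ ⟨c, hCG c.2⟩) β
    rw [hm, Complex.conj_natCast] at h1
    exact h1
  have hIconj : ∀ χ : K → ℂ,
      (∀ s ∈ P, ∀ g g' : K, (g' : G) = s * g * s⁻¹ → χ g' = χ g) →
      (∀ s ∈ P, ∀ g g' : K, (g' : G) = s * g * s⁻¹ → conj (χ g') = conj (χ g)) := by
    intro χ h s hs g g' e
    rw [h s hs g g' e]
  -- first bijection
  have hXY : Nat.card {θ : Cfsg.IrrCharacter ↥K // (∀ k : ↥K, ((θ : ↥K → ℂ) k).im = 0) ∧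
        (∀ x ∈ P, ∀ k k' : ↥K, (k' : G) = x * (k : G) * x⁻¹ →
          (θ : ↥K → ℂ) k' = (θ : ↥K → ℂ) k)} =
      Nat.card {β : Cfsg.IrrCharacter ↥C // ∀ c : ↥C, ((β : ↥C → ℂ) c).im = 0} := by
    apply card_eq_of_rel8 (fun θ β => Rel (θ.1 : K → ℂ) (β.1 : C → ℂ))
    · rintro ⟨θ, hθr, hθI⟩
      obtain ⟨β, hβ, hrel, huniq⟩ := g1 θ.1 θ.2 hθI
      have hrel' : Rel θ.1 β := (hRel _ _).mpr hrel
      have hβr : ∀ c, (β c).im = 0 := by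
        have hc := hconj _ _ hrel'
        have hθc : (fun k => conj ((θ : K → ℂ) k)) = (θ : K → ℂ) := (real_iff8 _).mp hθr
        rw [hθc] at hc
        have h5 := huniq _ (isIrrCharacter_conj hβ) ((hRel _ _).mp hc)
        exact (real_iff8 _).mpr h5
      exact ⟨⟨⟨β, hβ⟩, hβr⟩, hrel'⟩
    · rintro ⟨θ, hθr, hθI⟩ ⟨β, hβr⟩ ⟨β', hβ'r⟩ hr hr'
      obtain ⟨β₀, hβ₀, hrel₀, huniq⟩ := g1 θ.1 θ.2 hθI
      have e1 := huniq β.1 β.2 ((hRel _ _).mp hr)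
      have e2 := huniq β'.1 β'.2 ((hRel _ _).mp hr')
      apply Subtype.ext
      apply Subtype.ext
      exact e1.trans e2.symm
    · rintro ⟨θ, hθr, hθI⟩ ⟨θ', hθ'r, hθ'I⟩ ⟨β, hβr⟩ hr hr'
      obtain ⟨m, hm, hpm⟩ := (hRel _ _).mp hr
      obtain ⟨m', hm', hpm'⟩ := (hRel _ _).mp hr'
      apply Subtype.ext
      apply Subtype.ext
      exact g3 θ.1 θ'.1 θ.2 θ'.2 hθI hθ'I β.1 β.2 m m' hm hpm hm' hpm'
    · rintro ⟨β, hβr⟩
      obtain ⟨χ, hχ, hχI, hrel⟩ := g4 β.1 β.2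
      have hrel' : Rel χ β.1 := (hRel _ _).mpr hrel
      have hχr : ∀ k, (χ k).im = 0 := by
        have hc := hconj _ _ hrel'
        have hβc : (fun c => conj ((β : C → ℂ) c)) = (β : C → ℂ) := (real_iff8 _).mp hβr
        rw [hβc] at hc
        obtain ⟨m, hm, hpm⟩ := hrel
        obtain ⟨m', hm', hpm'⟩ := (hRel _ _).mp hc
        have h5 := g3 χ (fun k => conj (χ k)) hχ (isIrrCharacter_conj hχ) hχI (hIconj χ hχI)
          β.1 β.2 m m' hm hpm hm' hpm'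
        exact (real_iff8 _).mpr h5.symm
      exact ⟨⟨⟨χ, hχ⟩, hχr, hχI⟩, hrel'⟩
  have hYZ : Nat.card {β : Cfsg.IrrCharacter ↥C // ∀ c : ↥C, ((β : ↥C → ℂ) c).im = 0} =
      Nat.card {c : ConjClasses ↥C // ∀ g : ↥C, ConjClasses.mk g = c → IsConj g g⁻¹} :=
    card_real_irr
  -- class correspondence
  have hZW : Nat.card {c : ConjClasses ↥C // ∀ g : ↥C, ConjClasses.mk g = c → IsConj g g⁻¹} =
      Nat.card {c : ConjClasses ↥K // (∀ k : ↥K, ConjClasses.mk k = c → IsConj k k⁻¹) ∧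
        ∀ k : ↥K, ConjClasses.mk k = c → ∀ x ∈ P, ∀ k' : ↥K, (k' : G) = x * (k : G) * x⁻¹ →
          ConjClasses.mk k' = c} := by
    apply card_eq_of_rel8 (fun c d => ∃ x : C, ConjClasses.mk x = c.1 ∧
      ConjClasses.mk (⟨x, hCG x.2⟩ : K) = d.1)
    · rintro ⟨c, hcr⟩
      obtain ⟨x, rfl⟩ := ConjClasses.exists_rep c
      have hxr : IsConj x x⁻¹ := hcr x rfl
      obtain ⟨n, hn⟩ := isConj_iff.mp hxr
      have hn' : (n : G) * (x : G) * (n : G)⁻¹ = (x : G)⁻¹ := congrArg Subtype.val hn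
      have hxKr : IsConj (⟨x, hCG x.2⟩ : K) (⟨x, hCG x.2⟩ : K)⁻¹ :=
        isConj_iff.mpr ⟨⟨n, hCG n.2⟩, Subtype.ext hn'⟩
      refine ⟨⟨ConjClasses.mk (⟨x, hCG x.2⟩ : K), fun k hk => real_class8 hxKr k hk, ?_⟩,
        x, rfl, rfl⟩
      intro k hk s hs k' hk'
      obtain ⟨h, hh, e⟩ := (mk_eq_iff K k ⟨x, hCG x.2⟩).mp hk
      have hxs : s * (x : G) = (x : G) * s := ((hCmem x).mp x.2).2 s hs
      refine (mk_eq_iff K k' ⟨x, hCG x.2⟩).mpr ⟨s * h * s⁻¹, hnorm s hs h hh, ?_⟩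
      rw [hk']
      calc (s * h * s⁻¹) * (s * (k : G) * s⁻¹) * (s * h * s⁻¹)⁻¹
          = s * (h * (k : G) * h⁻¹) * s⁻¹ := by group
        _ = s * (x : G) * s⁻¹ := by rw [e]
        _ = (x : G) := by rw [hxs]; group
    · rintro ⟨c, hcr⟩ ⟨d, hd⟩ ⟨d', hd'⟩ ⟨x, hxc, hxd⟩ ⟨x', hx'c, hx'd'⟩
      have h5 : ConjClasses.mk x = ConjClasses.mk x' := hxc.trans hx'c.symm
      obtain ⟨h, hh, e⟩ := (mk_eq_iff C x x').mp h5
      apply Subtype.ext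
      exact (hxd.symm.trans ((mk_eq_iff K ⟨x, hCG x.2⟩ ⟨x', hCG x'.2⟩).mpr
        ⟨h, hCG hh, e⟩)).trans hx'd'
    · rintro ⟨c, hcr⟩ ⟨c', hc'r⟩ ⟨d, hd⟩ ⟨x, hxc, hxd⟩ ⟨x', hx'c', hx'd⟩
      have h5 : ConjClasses.mk (⟨x, hCG x.2⟩ : K) = ConjClasses.mk (⟨x', hCG x'.2⟩ : K) :=
        hxd.trans hx'd.symm
      obtain ⟨g, hg, e⟩ := (mk_eq_iff K _ _).mp h5
      obtain ⟨n, hn, hnT, e'⟩ := cl_fusion hp K P hnorm hSp hK (x : G) (x' : G)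
        (fun t ht => ((hCmem x).mp x.2).2 t ht) (fun t ht => ((hCmem x').mp x'.2).2 t ht)
        g hg e
      have hnC : n ∈ C := (hCmem n).mpr ⟨hn, hnT⟩
      apply Subtype.ext
      exact (hxc.symm.trans ((mk_eq_iff C x x').mpr ⟨n, hnC, e'⟩)).trans hx'c'
    · rintro ⟨d, hdr, hdI⟩
      obtain ⟨x₀, rfl⟩ := ConjClasses.exists_rep d
      have hinv : ∀ t ∈ P, ∃ h ∈ K, h * (t * (x₀ : G) * t⁻¹) * h⁻¹ = (x₀ : G) := by
        intro t ht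
        have h1 := hdI x₀ rfl t ht ⟨t * x₀ * t⁻¹, hnorm t ht x₀ x₀.2⟩ rfl
        exact (mk_eq_iff K _ _).mp h1
      obtain ⟨y, hyK, hyT, h, hh, e⟩ := cl_exists hp K P hnorm hSp hK (x₀ : G) x₀.2 hinv
      have hyC : y ∈ C := (hCmem y).mpr ⟨hyK, hyT⟩
      have hmk : ConjClasses.mk (⟨y, hyK⟩ : K) = ConjClasses.mk x₀ :=
        ((mk_eq_iff K x₀ ⟨y, hyK⟩).mpr ⟨h, hh, e⟩).symm
      have hyr : IsConj (⟨y, hyC⟩ : C) (⟨y, hyC⟩ : C)⁻¹ := by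
        have h2 : IsConj (⟨y, hyK⟩ : K) (⟨y, hyK⟩ : K)⁻¹ := hdr ⟨y, hyK⟩ hmk
        obtain ⟨g, hg⟩ := isConj_iff.mp h2
        have hg' : (g : G) * y * (g : G)⁻¹ = y⁻¹ := congrArg Subtype.val hg
        have hyinvT : ∀ t ∈ P, t * y⁻¹ = y⁻¹ * t := by
          intro t ht
          have h3 := hyT t ht
          calc t * y⁻¹ = y⁻¹ * (y * t) * y⁻¹ := by group
            _ = y⁻¹ * (t * y) * y⁻¹ := by rw [h3]
            _ = y⁻¹ * t := by group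
        obtain ⟨n, hn, hnT, e'⟩ := cl_fusion hp K P hnorm hSp hK y y⁻¹ hyT hyinvT (g : G) g.2 hg'
        exact isConj_iff.mpr ⟨⟨n, (hCmem n).mpr ⟨hn, hnT⟩⟩, Subtype.ext e'⟩
      exact ⟨⟨ConjClasses.mk (⟨y, hyC⟩ : C), fun g hg => real_class8 hyr g hg⟩,
        ⟨y, hyC⟩, rfl, hmk⟩
  have hmain := hXY.trans (hYZ.trans hZW)
  refine ⟨hmain, ?_⟩
  intro hall k hk
  have hA : Nat.card {θ : Cfsg.IrrCharacter ↥K // ∀ k : ↥K, ((θ : ↥K → ℂ) k).im = 0} =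
      Nat.card {θ : Cfsg.IrrCharacter ↥K // (∀ k : ↥K, ((θ : ↥K → ℂ) k).im = 0) ∧
        (∀ x ∈ P, ∀ k k' : ↥K, (k' : G) = x * (k : G) * x⁻¹ →
          (θ : ↥K → ℂ) k' = (θ : ↥K → ℂ) k)} :=
    Nat.card_congr (Equiv.subtypeEquivRight (fun θ => ⟨fun h => ⟨h, hall θ h⟩, fun h => h.1⟩))
  have hB : Nat.card {θ : Cfsg.IrrCharacter ↥K // ∀ k : ↥K, ((θ : ↥K → ℂ) k).im = 0} =
      Nat.card {c : ConjClasses ↥K // ∀ g : ↥K, ConjClasses.mk g = c → IsConj g g⁻¹} :=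
    card_real_irr
  obtain ⟨A, hAdef⟩ : ∃ A : Set (ConjClasses ↥K), A = {c |
      (∀ k : ↥K, ConjClasses.mk k = c → IsConj k k⁻¹) ∧
        ∀ k : ↥K, ConjClasses.mk k = c → ∀ x ∈ P, ∀ k' : ↥K, (k' : G) = x * (k : G) * x⁻¹ →
          ConjClasses.mk k' = c} := ⟨_, rfl⟩
  obtain ⟨B, hBdef⟩ : ∃ B : Set (ConjClasses ↥K), B = {c |
      ∀ g : ↥K, ConjClasses.mk g = c → IsConj g g⁻¹} := ⟨_, rfl⟩
  have hcard : Nat.card ↥B = Nat.card ↥A := by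
    rw [hAdef, hBdef]
    exact hB.symm.trans (hA.trans hmain)
  have hAB : A ⊆ B := by
    intro c hc
    rw [hAdef] at hc
    rw [hBdef]
    exact hc.1
  have hEq : A = B := by
    apply Set.eq_of_subset_of_ncard_le hAB _ (Set.toFinite B)
    rw [← Nat.card_coe_set_eq, ← Nat.card_coe_set_eq, hcard]
  have hkB : ConjClasses.mk k ∈ B := by
    rw [hBdef]
    exact fun g hg => real_class8 hk g hg
  rw [← hEq, hAdef] at hkB
  have hdI := hkB.2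
  have hinv : ∀ t ∈ P, ∃ h ∈ K, h * (t * (k : G) * t⁻¹) * h⁻¹ = (k : G) := by
    intro t ht
    have h1 := hdI k rfl t ht ⟨t * k * t⁻¹, hnorm t ht k k.2⟩ rfl
    exact (mk_eq_iff K _ _).mp h1
  obtain ⟨y, hyK, hyT, h, hh, e⟩ := cl_exists hp K P hnorm hSp hK (k : G) k.2 hinv
  refine ⟨⟨y, hyK⟩, isConj_iff.mpr ⟨⟨h, hh⟩, Subtype.ext e⟩, ?_⟩
  intro x hx
  show x * y * x⁻¹ = y
  rw [hyT x hx]
  exact mul_inv_cancel_right y x

end Cfsg.Agent.Lib.Helper8
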