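import Mathlib
import Cfsg.Prelude.Def_Characters
import Cfsg.Prelude.Def_Blocks
import Cfsg.Prelude.Def_DegreeGraph
import Cfsg.Agent.S2300
import Cfsg.Agent.Lib.Helper8.CharQuotient
import Cfsg.Agent.Lib.Lead.CharRing

set_option autoImplicit false

namespace Cfsg.Agent.Lib.Helper8

open Cfsg.Agent.Lib.Lead
open scoped ComplexConjugate Matrix

/-- character degrees are invariant under isomorphism (any universes) -/
theorem charDegrees_congr8 {A : Type*} {B : Type*} [Group A] [Group B] (e : A ≃* B) :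
    Cfsg.charDegrees A = Cfsg.charDegrees B := by
  ext d
  constructor
  · rintro ⟨χ, hχ⟩
    refine ⟨⟨(χ : A → ℂ) ∘ e.symm,
      isIrrCharacter_comp_surj e.symm.toMonoidHom e.symm.surjective χ.2⟩, ?_⟩
    rw [← hχ]
    unfold Cfsg.charDegree
    show ⌊((χ : A → ℂ) (e.symm 1)).re⌋₊ = _
    rw [map_one]
  · rintro ⟨χ, hχ⟩
    refine ⟨⟨(χ : B → ℂ) ∘ e,
      isIrrCharacter_comp_surj e.toMonoidHom e.surjective χ.2⟩, ?_⟩
    rw [← hχ]
    unfold Cfsg.charDegree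
    show ⌊((χ : B → ℂ) (e 1)).re⌋₊ = _
    rw [map_one]

/-- character degrees of a quotient by a subgroup in the kernel of everything -/
theorem charDegrees_quot8 {G : Type*} [Group G] [Finite G] (N : Subgroup G) [N.Normal]
    (hN : ∀ χ : G → ℂ, Cfsg.IsIrrCharacter G χ → ∀ x ∈ N, χ x = χ 1) :
    Cfsg.charDegrees (G ⧸ N) = Cfsg.charDegrees G := by
  ext d
  constructor
  · rintro ⟨χ, hχ⟩
    refine ⟨⟨(χ : G ⧸ N → ℂ) ∘ QuotientGroup.mk' N,
      isIrrCharacter_comp_surj (QuotientGroup.mk' N) (QuotientGroup.mk'_surjective N) χ.2⟩, ?_⟩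
    rw [← hχ]
    unfold Cfsg.charDegree
    show ⌊((χ : G ⧸ N → ℂ) (QuotientGroup.mk' N 1)).re⌋₊ = _
    rw [map_one]
  · rintro ⟨χ, hχ⟩
    obtain ⟨φ, hφ, hχφ⟩ := irr_deflate N χ.2 (hN χ.1 χ.2)
    refine ⟨⟨φ, hφ⟩, ?_⟩
    rw [← hχ]
    unfold Cfsg.charDegree
    show ⌊(φ 1).re⌋₊ = ⌊((χ : G → ℂ) 1).re⌋₊
    rw [hχφ]
    show ⌊(φ 1).re⌋₊ = ⌊(φ (QuotientGroup.mk' N 1)).re⌋₊
    rw [map_one]

theorem sl2_center_even8 {F : Type*} [Field F] [Fintype F] [CharP F 2]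
    (z : Matrix.SpecialLinearGroup (Fin 2) F)
    (hz : z ∈ Subgroup.center (Matrix.SpecialLinearGroup (Fin 2) F)) : z = 1 := by
  obtain ⟨r, hr, hrz⟩ := Matrix.SpecialLinearGroup.mem_center_iff.mp hz
  have hr2 : r ^ 2 = 1 := by simpa using hr
  have h2 : (2 : F) = 0 := CharTwo.two_eq_zero
  have h3 : (r - 1) ^ 2 = 0 := by linear_combination hr2 - r * h2 + h2
  have h4 : r = 1 := by
    have h5 := pow_eq_zero_iff (two_ne_zero) |>.mp h3
    exact sub_eq_zero.mp h5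
  apply Subtype.ext
  rw [← hrz, h4]
  simp

theorem sl2_cd_even8 (F : Type*) [Field F] [Fintype F] [CharP F 2] (q : ℕ)
    (hq : Fintype.card F = q) (h4 : 4 ≤ q) :
    Cfsg.charDegrees (Matrix.SpecialLinearGroup (Fin 2) F) = {1, q - 1, q, q + 1} := by
  have h := Cfsg.Agent.S2300.result (F := F)
  rw [hq] at h
  obtain ⟨hlist, hcount⟩ := h
  obtain ⟨c1, cq, cq1, cqm⟩ := hcount h4
  have hsubcast : ((q - 1 : ℕ) : ℂ) = (q : ℂ) - 1 := by
    rw [Nat.cast_sub (by omega)]; simp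
  ext d
  simp only [Set.mem_insert_iff, Set.mem_singleton_iff]
  constructor
  · rintro ⟨χ, hχ⟩
    rw [← hχ]
    rcases hlist χ.1 χ.2 with h1 | h1 | h1 | h1
    · left
      exact charDegree_eq_of (by rw [h1]; simp)
    · right; left
      exact charDegree_eq_of (by rw [h1, hsubcast])
    · right; right; left
      exact charDegree_eq_of h1
    · right; right; right
      exact charDegree_eq_of (by rw [h1]; push_cast; ring)
  · intro hd
    have hex : ∀ (v : ℂ) (m : ℕ), v = (m : ℂ) →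
        0 < Nat.card {χ : Cfsg.IrrCharacter (Matrix.SpecialLinearGroup (Fin 2) F) //
          (χ : Matrix.SpecialLinearGroup (Fin 2) F → ℂ) 1 = v} →
        m ∈ Cfsg.charDegrees (Matrix.SpecialLinearGroup (Fin 2) F) := by
      intro v m hv hpos
      obtain ⟨⟨χ, hχ⟩⟩ := (Nat.card_pos_iff.mp hpos).1
      exact ⟨χ, charDegree_eq_of (hχ.trans hv)⟩
    rcases hd with h | h | h | h
    · rw [h]; exact hex 1 1 (by simp) (by rw [c1]; omega)
    · rw [h]; exact hex ((q : ℂ) - 1) (q - 1) hsubcast.symm (by rw [cqm]; omega)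
    · rw [h]; exact hex (q : ℂ) q rfl (by rw [cq]; omega)
    · rw [h]; exact hex ((q : ℂ) + 1) (q + 1) (by push_cast; ring) (by rw [cq1]; omega)

theorem degGraph_of_cd8 {S : Type*} [Group S] (q : ℕ) (h4 : 4 ≤ q) (n : ℕ) (hqn : q = 2 ^ n)
    (hcd : Cfsg.charDegrees S = {1, q - 1, q, q + 1}) :
    Cfsg.degreePrimes S = {r : ℕ | r.Prime ∧ r ∣ q * (q ^ 2 - 1)} ∧
    ∀ r s : ℕ, (Cfsg.degreeGraph S).Adj r s ↔ (r ≠ s ∧ r.Prime ∧ s.Prime ∧
      ((r ∣ q + 1 ∧ s ∣ q + 1) ∨ (r ∣ q - 1 ∧ s ∣ q - 1))) := by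
  have e : q ^ 2 - 1 = (q - 1) * (q + 1) := by
    obtain ⟨k, hk⟩ : ∃ k, q = k + 1 := ⟨q - 1, by omega⟩
    rw [hk]
    apply Nat.sub_eq_of_eq_add
    rw [Nat.add_sub_cancel]
    ring
  constructor
  · ext r
    unfold Cfsg.degreePrimes
    rw [hcd]
    simp only [Set.mem_setOf_eq, Set.mem_insert_iff, Set.mem_singleton_iff]
    constructor
    · rintro ⟨hr, d, hd, hrd⟩
      refine ⟨hr, ?_⟩
      rw [e]
      rcases hd with rfl | rfl | rfl | rfl
      · exact absurd (Nat.dvd_one.mp hrd) hr.one_lt.ne'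
      · exact Dvd.dvd.mul_left (Dvd.dvd.mul_right hrd _) _
      · exact Dvd.dvd.mul_right hrd _
      · exact Dvd.dvd.mul_left (Dvd.dvd.mul_left hrd _) _
    · rintro ⟨hr, hrd⟩
      refine ⟨hr, ?_⟩
      rw [e] at hrd
      rcases (Nat.Prime.dvd_mul hr).mp hrd with h | h
      · exact ⟨q, Or.inr (Or.inr (Or.inl rfl)), h⟩
      · rcases (Nat.Prime.dvd_mul hr).mp h with h' | h'
        · exact ⟨q - 1, Or.inr (Or.inl rfl), h'⟩
        · exact ⟨q + 1, Or.inr (Or.inr (Or.inr rfl)), h'⟩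
  · intro r s
    have hadj : (Cfsg.degreeGraph S).Adj r s ↔ (r ≠ s ∧ r.Prime ∧ s.Prime ∧
        ∃ d ∈ Cfsg.charDegrees S, r * s ∣ d) := Iff.rfl
    rw [hadj, hcd]
    simp only [Set.mem_insert_iff, Set.mem_singleton_iff]
    constructor
    · rintro ⟨hne, hr, hs, d, hd, hrs⟩
      refine ⟨hne, hr, hs, ?_⟩
      rcases hd with rfl | rfl | rfl | rfl
      · exfalso
        have h1 : r ∣ 1 := dvd_of_mul_right_dvd hrs
        exact hr.one_lt.ne' (Nat.dvd_one.mp h1)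
      · exact Or.inr ⟨dvd_of_mul_right_dvd hrs, dvd_of_mul_left_dvd hrs⟩
      · exfalso
        rw [hqn] at hrs
        have h1 : r ∣ 2 ^ n := dvd_of_mul_right_dvd hrs
        have h2 : s ∣ 2 ^ n := dvd_of_mul_left_dvd hrs
        have h3 : r = 2 := (Nat.prime_dvd_prime_iff_eq hr Nat.prime_two).mp (hr.dvd_of_dvd_pow h1)
        have h4' : s = 2 := (Nat.prime_dvd_prime_iff_eq hs Nat.prime_two).mp (hs.dvd_of_dvd_pow h2)
        exact hne (h3.trans h4'.symm)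
      · exact Or.inl ⟨dvd_of_mul_right_dvd hrs, dvd_of_mul_left_dvd hrs⟩
    · rintro ⟨hne, hr, hs, h⟩
      have hcop : Nat.Coprime r s := (Nat.coprime_primes hr hs).mpr hne
      refine ⟨hne, hr, hs, ?_⟩
      rcases h with ⟨h1, h2⟩ | ⟨h1, h2⟩
      · exact ⟨q + 1, Or.inr (Or.inr (Or.inr rfl)), Nat.Coprime.mul_dvd_of_dvd_of_dvd hcop h1 h2⟩
      · exact ⟨q - 1, Or.inr (Or.inl rfl), Nat.Coprime.mul_dvd_of_dvd_of_dvd hcop h1 h2⟩

theorem sl2_degGraph_even8 (F : Type*) [Field F] [Fintype F] [CharP F 2] (q : ℕ)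
    (hq : Fintype.card F = q) (h4 : 4 ≤ q) {S : Type*} [Group S] [Finite S]
    (hS : Nonempty (S ≃* Matrix.ProjectiveSpecialLinearGroup (Fin 2) F) ∨
      Nonempty (S ≃* Matrix.SpecialLinearGroup (Fin 2) F)) :
    Cfsg.degreePrimes S = {r : ℕ | r.Prime ∧ r ∣ q * (q ^ 2 - 1)} ∧
    ∀ r s : ℕ, (Cfsg.degreeGraph S).Adj r s ↔ (r ≠ s ∧ r.Prime ∧ s.Prime ∧
      ((r ∣ q + 1 ∧ s ∣ q + 1) ∨ (r ∣ q - 1 ∧ s ∣ q - 1))) := by
  classical
  haveI : Finite (Matrix.SpecialLinearGroup (Fin 2) F) :=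
    Finite.of_injective (fun g => (g : Matrix (Fin 2) (Fin 2) F)) Subtype.val_injective
  obtain ⟨n, -, hn⟩ := FiniteField.card F 2
  have hqn : q = 2 ^ (n : ℕ) := by rw [← hq]; exact hn
  have hcdSL := sl2_cd_even8 F q hq h4
  have hcdPSL : Cfsg.charDegrees (Matrix.ProjectiveSpecialLinearGroup (Fin 2) F) =
      {1, q - 1, q, q + 1} := by
    rw [← hcdSL]
    apply charDegrees_quot8
    intro χ _ x hx
    rw [sl2_center_even8 x hx]
  apply degGraph_of_cd8 q h4 n hqn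
  rcases hS with ⟨⟨e⟩⟩ | ⟨⟨e⟩⟩
  · rw [charDegrees_congr8 e]; exact hcdPSL
  · rw [charDegrees_congr8 e]; exact hcdSL

end Cfsg.Agent.Lib.Helper8
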