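import Mathlib
import Cfsg.Prelude.Def_Characters
import Cfsg.Prelude.Def_Blocks
import Cfsg.Prelude.Def_DegreeGraph
import Cfsg.Agent.S2299
import Cfsg.Agent.Lib.Helper8.CharQuotient
import Cfsg.Agent.Lib.Helper8.PSL2PChar
import Cfsg.Agent.Lib.Helper8.SL2DegGraphEven
import Cfsg.Agent.Lib.Lead.CharRing
import Cfsg.Agent.Lib.Lead.CharQuot
import Cfsg.Agent.Lib.Lead.CharOrtho
import Cfsg.Agent.Lib.Lead.CharBurnside
import Cfsg.Agent.Lib.Helper4.SLCard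

set_option autoImplicit false

namespace Cfsg.Agent.Lib.Helper8

open Cfsg.Agent.Lib.Lead
open scoped ComplexConjugate Matrix

theorem psl_count_arith8 (m a b c d : ℕ) (hm : 3 ≤ m) (hc : c ≤ 2) (hd : d ≤ 2)
    (h : 1 + (2 * m + 1) ^ 2 + a * (2 * m + 2) ^ 2 + b * (2 * m) ^ 2 + c * (m + 1) ^ 2 + d * m ^ 2
      = 2 * m * (m + 1) * (2 * m + 1)) :
    1 ≤ a ∧ 1 ≤ b := by
  have hZ : (1 + (2 * (m : ℤ) + 1) ^ 2 + (a : ℤ) * (2 * (m : ℤ) + 2) ^ 2 +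
      (b : ℤ) * (2 * (m : ℤ)) ^ 2 + (c : ℤ) * ((m : ℤ) + 1) ^ 2 + (d : ℤ) * (m : ℤ) ^ 2) =
      2 * (m : ℤ) * ((m : ℤ) + 1) * (2 * (m : ℤ) + 1) := by
    exact_mod_cast h
  constructor
  · by_contra ha
    have ha0 : a = 0 := by omega
    have haZ : (a : ℤ) = 0 := by exact_mod_cast ha0
    have hdvd : (m : ℤ) ∣ 2 + (c : ℤ) :=
      Dvd.intro (2 * ((m : ℤ) + 1) * (2 * (m : ℤ) + 1) - 4 * (b : ℤ) * (m : ℤ) - 4 * (m : ℤ) - 4
        - (c : ℤ) * ((m : ℤ) + 2) - (d : ℤ) * (m : ℤ)) (by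
        linear_combination (-1 : ℤ) * hZ + (2 * (m : ℤ) + 2) ^ 2 * haZ)
    have hle : (m : ℤ) ≤ 2 + (c : ℤ) := Int.le_of_dvd (by positivity) hdvd
    have hm4 : m = 3 ∨ m = 4 := by omega
    rcases hm4 with rfl | rfl
    · norm_num at h
      omega
    · norm_num at h
      omega
  · by_contra hb
    have hb0 : b = 0 := by omega
    have hbZ : (b : ℤ) = 0 := by exact_mod_cast hb0
    have hdvd : ((m : ℤ) + 1) ∣ 2 + (d : ℤ) :=
      Dvd.intro (2 * (m : ℤ) * (2 * (m : ℤ) + 1) - 4 * (a : ℤ) * ((m : ℤ) + 1)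
        - (c : ℤ) * ((m : ℤ) + 1) - 4 * (m : ℤ) - (d : ℤ) * ((m : ℤ) - 1)) (by
        linear_combination (-1 : ℤ) * hZ + (2 * (m : ℤ)) ^ 2 * hbZ)
    have hle : (m : ℤ) + 1 ≤ 2 + (d : ℤ) := Int.le_of_dvd (by positivity) hdvd
    have hm4 : m = 3 := by omega
    subst hm4
    norm_num at h
    omega

theorem six_count8 {ι : Type*} [Fintype ι] (deg : ι → ℕ) (m : ℕ) (hm : 3 ≤ m)
    (hdeg : ∀ x, deg x = 1 ∨ deg x = 2 * m + 1 ∨ deg x = 2 * m + 2 ∨ deg x = 2 * m ∨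
      deg x = m + 1 ∨ deg x = m)
    (h1 : (Finset.univ.filter (fun x => deg x = 1)).card = 1)
    (hq : (Finset.univ.filter (fun x => deg x = 2 * m + 1)).card = 1)
    (hc : (Finset.univ.filter (fun x => deg x = m + 1)).card ≤ 2)
    (hd : (Finset.univ.filter (fun x => deg x = m)).card ≤ 2)
    (hsum : ∑ x, deg x ^ 2 = 2 * m * (m + 1) * (2 * m + 1)) :
    (∃ x, deg x = 2 * m + 2) ∧ (∃ x, deg x = 2 * m) := by
  have hmaps : ∀ x ∈ (Finset.univ : Finset ι),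
      deg x ∈ ({1, 2 * m + 1, 2 * m + 2, 2 * m, m + 1, m} : Finset ℕ) := by
    intro x _
    simp only [Finset.mem_insert, Finset.mem_singleton]
    exact hdeg x
  have hfib : ∀ y : ℕ, ∑ x ∈ Finset.univ.filter (fun x => deg x = y), deg x ^ 2 =
      (Finset.univ.filter (fun x => deg x = y)).card * y ^ 2 := by
    intro y
    rw [Finset.sum_congr rfl (fun x hx => by rw [(Finset.mem_filter.mp hx).2] :
      ∀ x ∈ Finset.univ.filter (fun x => deg x = y), deg x ^ 2 = y ^ 2),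
      Finset.sum_const, smul_eq_mul]
  have h0 := Finset.sum_fiberwise_of_maps_to hmaps (fun x => deg x ^ 2)
  rw [Finset.sum_insert (by simp only [Finset.mem_insert, Finset.mem_singleton]; omega),
    Finset.sum_insert (by simp only [Finset.mem_insert, Finset.mem_singleton]; omega),
    Finset.sum_insert (by simp only [Finset.mem_insert, Finset.mem_singleton]; omega),
    Finset.sum_insert (by simp only [Finset.mem_insert, Finset.mem_singleton]; omega),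
    Finset.sum_insert (by simp only [Finset.mem_singleton]; omega),
    Finset.sum_singleton] at h0
  simp only [hfib] at h0
  rw [hsum, h1, hq] at h0
  have key := psl_count_arith8 m (Finset.univ.filter (fun x => deg x = 2 * m + 2)).card
    (Finset.univ.filter (fun x => deg x = 2 * m)).card _ _ hm hc hd (by rw [← h0]; ring)
  constructor
  · obtain ⟨x, hx⟩ := Finset.card_pos.mp key.1
    exact ⟨x, (Finset.mem_filter.mp hx).2⟩
  · obtain ⟨x, hx⟩ := Finset.card_pos.mp key.2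
    exact ⟨x, (Finset.mem_filter.mp hx).2⟩

theorem sl2_odd_facts8 (F : Type*) [Field F] [Fintype F] (m : ℕ)
    (hm : Fintype.card F = 2 * m + 1) (hm3 : 3 ≤ m) :
    (∀ χ : Matrix.SpecialLinearGroup (Fin 2) F → ℂ,
      Cfsg.IsIrrCharacter (Matrix.SpecialLinearGroup (Fin 2) F) χ →
      χ 1 = ((1 : ℕ) : ℂ) ∨ χ 1 = ((2 * m + 1 : ℕ) : ℂ) ∨ χ 1 = ((2 * m + 2 : ℕ) : ℂ) ∨
      χ 1 = ((2 * m : ℕ) : ℂ) ∨ χ 1 = ((m + 1 : ℕ) : ℂ) ∨ χ 1 = ((m : ℕ) : ℂ)) ∧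
    Nat.card {χ : Cfsg.IrrCharacter (Matrix.SpecialLinearGroup (Fin 2) F) //
      (χ : Matrix.SpecialLinearGroup (Fin 2) F → ℂ) 1 = ((1 : ℕ) : ℂ)} = 1 ∧
    Nat.card {χ : Cfsg.IrrCharacter (Matrix.SpecialLinearGroup (Fin 2) F) //
      (χ : Matrix.SpecialLinearGroup (Fin 2) F → ℂ) 1 = ((2 * m + 1 : ℕ) : ℂ)} = 1 ∧
    0 < Nat.card {χ : Cfsg.IrrCharacter (Matrix.SpecialLinearGroup (Fin 2) F) //
      (χ : Matrix.SpecialLinearGroup (Fin 2) F → ℂ) 1 = ((2 * m + 2 : ℕ) : ℂ)} ∧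
    0 < Nat.card {χ : Cfsg.IrrCharacter (Matrix.SpecialLinearGroup (Fin 2) F) //
      (χ : Matrix.SpecialLinearGroup (Fin 2) F → ℂ) 1 = ((2 * m : ℕ) : ℂ)} ∧
    Nat.card {χ : Cfsg.IrrCharacter (Matrix.SpecialLinearGroup (Fin 2) F) //
      (χ : Matrix.SpecialLinearGroup (Fin 2) F → ℂ) 1 = ((m + 1 : ℕ) : ℂ)} = 2 ∧
    Nat.card {χ : Cfsg.IrrCharacter (Matrix.SpecialLinearGroup (Fin 2) F) //
      (χ : Matrix.SpecialLinearGroup (Fin 2) F → ℂ) 1 = ((m : ℕ) : ℂ)} = 2 := by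
  have hodd : Odd (Fintype.card F) := ⟨m, hm⟩
  obtain ⟨hdegs, hcounts⟩ := Cfsg.Agent.S2299.result (F := F) hodd
  have hc := hcounts (by omega)
  have a1 : ((2 * m + 1 : ℕ) : ℂ) + 1 = ((2 * m + 2 : ℕ) : ℂ) := by push_cast; ring
  have a2 : ((2 * m + 1 : ℕ) : ℂ) - 1 = ((2 * m : ℕ) : ℂ) := by push_cast; ring
  have a3 : (2 * m + 1 + 1) / 2 = m + 1 := by omega
  have a4 : (2 * m + 1 - 1) / 2 = m := by omega
  rw [hm, a1, a2, a3, a4, ← Nat.cast_one (R := ℂ)] at hdegs hc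
  obtain ⟨c1, cq, cq1, cqm, ch1, chm⟩ := hc
  exact ⟨hdegs, c1, cq, by rw [cq1]; omega, by rw [cqm]; omega, ch1, chm⟩

theorem sl2_odd_cd8 (F : Type*) [Field F] [Fintype F] (m : ℕ)
    (hm : Fintype.card F = 2 * m + 1) (hm3 : 3 ≤ m) :
    (∀ d ∈ Cfsg.charDegrees (Matrix.SpecialLinearGroup (Fin 2) F), d = 1 ∨ d = 2 * m + 1 ∨ d = 2 * m + 2 ∨ d = 2 * m ∨
      d = m + 1 ∨ d = m) ∧
    (2 * m + 1) ∈ Cfsg.charDegrees (Matrix.SpecialLinearGroup (Fin 2) F) ∧ (2 * m + 2) ∈ Cfsg.charDegrees (Matrix.SpecialLinearGroup (Fin 2) F) ∧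
    (2 * m) ∈ Cfsg.charDegrees (Matrix.SpecialLinearGroup (Fin 2) F) := by
  obtain ⟨hdegs, c1, cq, cq1, cqm, ch1, chm⟩ := sl2_odd_facts8 F m hm hm3
  have hex : ∀ (y : ℕ), 0 < Nat.card {χ : Cfsg.IrrCharacter (Matrix.SpecialLinearGroup (Fin 2) F) //
      (χ : Matrix.SpecialLinearGroup (Fin 2) F → ℂ) 1 = ((y : ℕ) : ℂ)} → y ∈ Cfsg.charDegrees (Matrix.SpecialLinearGroup (Fin 2) F) := by
    intro y hpos
    obtain ⟨⟨χ, hχ⟩⟩ := (Nat.card_pos_iff.mp hpos).1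
    exact ⟨χ, charDegree_eq_of hχ⟩
  refine ⟨?_, hex _ (by rw [cq]; norm_num), hex _ cq1, hex _ cqm⟩
  rintro d ⟨χ, hχ⟩
  rw [← hχ]
  rcases hdegs χ.1 χ.2 with h | h | h | h | h | h
  · exact Or.inl (charDegree_eq_of h)
  · exact Or.inr (Or.inl (charDegree_eq_of h))
  · exact Or.inr (Or.inr (Or.inl (charDegree_eq_of h)))
  · exact Or.inr (Or.inr (Or.inr (Or.inl (charDegree_eq_of h))))
  · exact Or.inr (Or.inr (Or.inr (Or.inr (Or.inl (charDegree_eq_of h)))))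
  · exact Or.inr (Or.inr (Or.inr (Or.inr (Or.inr (charDegree_eq_of h)))))

theorem psl2_odd_facts8 (F : Type*) [Field F] [Fintype F] (m : ℕ)
    (hm : Fintype.card F = 2 * m + 1) (hm3 : 3 ≤ m) :
    (∀ ψ : Cfsg.IrrCharacter (Matrix.ProjectiveSpecialLinearGroup (Fin 2) F),
      Cfsg.charDegree (ψ : Matrix.ProjectiveSpecialLinearGroup (Fin 2) F → ℂ) = 1 ∨ Cfsg.charDegree (ψ : Matrix.ProjectiveSpecialLinearGroup (Fin 2) F → ℂ) = 2 * m + 1 ∨
      Cfsg.charDegree (ψ : Matrix.ProjectiveSpecialLinearGroup (Fin 2) F → ℂ) = 2 * m + 2 ∨ Cfsg.charDegree (ψ : Matrix.ProjectiveSpecialLinearGroup (Fin 2) F → ℂ) = 2 * m ∨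
      Cfsg.charDegree (ψ : Matrix.ProjectiveSpecialLinearGroup (Fin 2) F → ℂ) = m + 1 ∨ Cfsg.charDegree (ψ : Matrix.ProjectiveSpecialLinearGroup (Fin 2) F → ℂ) = m) ∧
    (2 * m + 1) ∈ Cfsg.charDegrees (Matrix.ProjectiveSpecialLinearGroup (Fin 2) F) ∧ (2 * m + 2) ∈ Cfsg.charDegrees (Matrix.ProjectiveSpecialLinearGroup (Fin 2) F) ∧
    (2 * m) ∈ Cfsg.charDegrees (Matrix.ProjectiveSpecialLinearGroup (Fin 2) F) := by
  classical
  haveI : Finite (Matrix.SpecialLinearGroup (Fin 2) F) :=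
    Finite.of_injective (fun g => (g : Matrix (Fin 2) (Fin 2) F)) Subtype.val_injective
  haveI : Finite (Matrix.ProjectiveSpecialLinearGroup (Fin 2) F) :=
    Finite.of_surjective _ (QuotientGroup.mk'_surjective (Subgroup.center (Matrix.SpecialLinearGroup (Fin 2) F)))
  haveI : Fintype (Matrix.ProjectiveSpecialLinearGroup (Fin 2) F) := Fintype.ofFinite _
  haveI : Fintype (Cfsg.IrrCharacter (Matrix.ProjectiveSpecialLinearGroup (Fin 2) F)) := Fintype.ofFinite _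
  obtain ⟨hdegs, c1, cq, -, -, ch1, chm⟩ := sl2_odd_facts8 F m hm hm3
  obtain ⟨f, hfdef⟩ : ∃ f : Matrix.SpecialLinearGroup (Fin 2) F →* Matrix.ProjectiveSpecialLinearGroup (Fin 2) F,
      f = QuotientGroup.mk' (Subgroup.center (Matrix.SpecialLinearGroup (Fin 2) F)) := ⟨_, rfl⟩
  have hf : Function.Surjective f := by rw [hfdef]; exact QuotientGroup.mk'_surjective _
  have hone : ∀ ψ : Cfsg.IrrCharacter (Matrix.ProjectiveSpecialLinearGroup (Fin 2) F),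
      ((ψ : Matrix.ProjectiveSpecialLinearGroup (Fin 2) F → ℂ) ∘ f) 1 = (ψ : Matrix.ProjectiveSpecialLinearGroup (Fin 2) F → ℂ) 1 := fun ψ => by
    rw [Function.comp_apply, map_one]
  have hdegP : ∀ ψ : Cfsg.IrrCharacter (Matrix.ProjectiveSpecialLinearGroup (Fin 2) F),
      Cfsg.charDegree (ψ : Matrix.ProjectiveSpecialLinearGroup (Fin 2) F → ℂ) = 1 ∨ Cfsg.charDegree (ψ : Matrix.ProjectiveSpecialLinearGroup (Fin 2) F → ℂ) = 2 * m + 1 ∨
      Cfsg.charDegree (ψ : Matrix.ProjectiveSpecialLinearGroup (Fin 2) F → ℂ) = 2 * m + 2 ∨ Cfsg.charDegree (ψ : Matrix.ProjectiveSpecialLinearGroup (Fin 2) F → ℂ) = 2 * m ∨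
      Cfsg.charDegree (ψ : Matrix.ProjectiveSpecialLinearGroup (Fin 2) F → ℂ) = m + 1 ∨ Cfsg.charDegree (ψ : Matrix.ProjectiveSpecialLinearGroup (Fin 2) F → ℂ) = m := by
    intro ψ
    have h := hdegs _ (isIrrCharacter_comp_surj f hf ψ.2)
    rw [hone ψ] at h
    rcases h with h | h | h | h | h | h
    · exact Or.inl (charDegree_eq_of h)
    · exact Or.inr (Or.inl (charDegree_eq_of h))
    · exact Or.inr (Or.inr (Or.inl (charDegree_eq_of h)))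
    · exact Or.inr (Or.inr (Or.inr (Or.inl (charDegree_eq_of h))))
    · exact Or.inr (Or.inr (Or.inr (Or.inr (Or.inl (charDegree_eq_of h)))))
    · exact Or.inr (Or.inr (Or.inr (Or.inr (Or.inr (charDegree_eq_of h)))))
  have hub : ∀ y : ℕ, (Finset.univ.filter (fun ψ : Cfsg.IrrCharacter (Matrix.ProjectiveSpecialLinearGroup (Fin 2) F) =>
      Cfsg.charDegree (ψ : Matrix.ProjectiveSpecialLinearGroup (Fin 2) F → ℂ) = y)).card ≤
      Nat.card {χ : Cfsg.IrrCharacter (Matrix.SpecialLinearGroup (Fin 2) F) // (χ : Matrix.SpecialLinearGroup (Fin 2) F → ℂ) 1 = ((y : ℕ) : ℂ)} := by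
    intro y
    have e1 : (Finset.univ.filter (fun ψ : Cfsg.IrrCharacter (Matrix.ProjectiveSpecialLinearGroup (Fin 2) F) =>
        Cfsg.charDegree (ψ : Matrix.ProjectiveSpecialLinearGroup (Fin 2) F → ℂ) = y)).card =
        Nat.card {ψ : Cfsg.IrrCharacter (Matrix.ProjectiveSpecialLinearGroup (Fin 2) F) // Cfsg.charDegree (ψ : Matrix.ProjectiveSpecialLinearGroup (Fin 2) F → ℂ) = y} := by
      rw [Nat.card_eq_fintype_card, Fintype.card_subtype]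
    rw [e1]
    exact Nat.card_le_card_of_injective
      (fun ψ => ⟨inflIrr f hf ψ.1, by
        show ((ψ.1 : Matrix.ProjectiveSpecialLinearGroup (Fin 2) F → ℂ) ∘ f) 1 = _
        rw [hone ψ.1, (irr_charDegree ψ.1).1, ψ.2]⟩)
      (fun a b hab => Subtype.ext (inflIrr_injective f hf (congrArg Subtype.val hab)))
  have hl1 : 0 < (Finset.univ.filter (fun ψ : Cfsg.IrrCharacter (Matrix.ProjectiveSpecialLinearGroup (Fin 2) F) =>
      Cfsg.charDegree (ψ : Matrix.ProjectiveSpecialLinearGroup (Fin 2) F → ℂ) = 1)).card := by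
    apply Finset.card_pos.mpr
    exact ⟨⟨fun _ => 1, isIrrCharacter_one _⟩,
      Finset.mem_filter.mpr ⟨Finset.mem_univ _, charDegree_eq_of (by simp)⟩⟩
  have hlq : 0 < (Finset.univ.filter (fun ψ : Cfsg.IrrCharacter (Matrix.ProjectiveSpecialLinearGroup (Fin 2) F) =>
      Cfsg.charDegree (ψ : Matrix.ProjectiveSpecialLinearGroup (Fin 2) F → ℂ) = 2 * m + 1)).card := by
    have hpos : 0 < Nat.card {χ : Cfsg.IrrCharacter (Matrix.SpecialLinearGroup (Fin 2) F) //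
        (χ : Matrix.SpecialLinearGroup (Fin 2) F → ℂ) 1 = ((2 * m + 1 : ℕ) : ℂ)} := by rw [cq]; norm_num
    obtain ⟨⟨⟨χ, hχ⟩, hχ1⟩⟩ := (Nat.card_pos_iff.mp hpos).1
    have hχ1' : χ 1 = (Fintype.card F : ℂ) := by rw [hm]; exact hχ1
    have hN : ∀ x ∈ Subgroup.center (Matrix.SpecialLinearGroup (Fin 2) F), χ x = χ 1 :=
      fun x hx => sl2_st_center8 (by omega) χ hχ hχ1' x hx
    obtain ⟨φ, hφ, hχφ⟩ := irr_deflate (Subgroup.center (Matrix.SpecialLinearGroup (Fin 2) F)) hχ hN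
    have hφ1 : φ 1 = ((2 * m + 1 : ℕ) : ℂ) := by
      have h := congrFun hχφ 1
      rw [Function.comp_apply, map_one] at h
      rw [← h]; exact hχ1
    apply Finset.card_pos.mpr
    exact ⟨⟨φ, hφ⟩, Finset.mem_filter.mpr ⟨Finset.mem_univ _, charDegree_eq_of hφ1⟩⟩
  have hsum : ∑ ψ : Cfsg.IrrCharacter (Matrix.ProjectiveSpecialLinearGroup (Fin 2) F), Cfsg.charDegree (ψ : Matrix.ProjectiveSpecialLinearGroup (Fin 2) F → ℂ) ^ 2 =
      2 * m * (m + 1) * (2 * m + 1) := by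
    refine (sum_sq_degrees_nat (fun ψ : Cfsg.IrrCharacter (Matrix.ProjectiveSpecialLinearGroup (Fin 2) F) =>
      Cfsg.charDegree (ψ : Matrix.ProjectiveSpecialLinearGroup (Fin 2) F → ℂ)) (fun ψ => (irr_charDegree ψ).1)).trans ?_
    have h1 := Cfsg.Agent.Lib.Helper4.card_psl_mul (F := F) 2 (by norm_num)
    have h2 := Cfsg.Agent.Lib.Helper4.card_sl_mul (F := F) 2 (by norm_num)
    rw [Matrix.card_GL_field, Fin.prod_univ_two] at h2
    simp only [Fin.val_zero, Fin.val_one, pow_zero, pow_one] at h2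
    rw [hm] at h1 h2
    have s1 : (2 * m + 1) ^ 2 - 1 = 4 * m ^ 2 + 4 * m := by
      apply Nat.sub_eq_of_eq_add; ring
    have s2 : (2 * m + 1) ^ 2 - (2 * m + 1) = 4 * m ^ 2 + 2 * m := by
      apply Nat.sub_eq_of_eq_add; ring
    have s3 : 2 * m + 1 - 1 = 2 * m := by omega
    have s4 : Nat.gcd 2 (2 * m) = 2 := Nat.gcd_eq_left (dvd_mul_right 2 m)
    rw [s1, s2, s3] at h2
    rw [s3, s4] at h1
    have h3 : Nat.card (Matrix.ProjectiveSpecialLinearGroup (Fin 2) F) * (4 * m) = (2 * m * (m + 1) * (2 * m + 1)) * (4 * m) := by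
      calc Nat.card (Matrix.ProjectiveSpecialLinearGroup (Fin 2) F) * (4 * m) = (Nat.card (Matrix.ProjectiveSpecialLinearGroup (Fin 2) F) * 2) * (2 * m) := by ring
        _ = (4 * m ^ 2 + 4 * m) * (4 * m ^ 2 + 2 * m) := by rw [h1, h2]
        _ = _ := by ring
    exact Nat.eq_of_mul_eq_mul_right (by omega) h3
  have h1eq : (Finset.univ.filter (fun ψ : Cfsg.IrrCharacter (Matrix.ProjectiveSpecialLinearGroup (Fin 2) F) =>
      Cfsg.charDegree (ψ : Matrix.ProjectiveSpecialLinearGroup (Fin 2) F → ℂ) = 1)).card = 1 := by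
    have h := hub 1
    rw [c1] at h
    omega
  have hqeq : (Finset.univ.filter (fun ψ : Cfsg.IrrCharacter (Matrix.ProjectiveSpecialLinearGroup (Fin 2) F) =>
      Cfsg.charDegree (ψ : Matrix.ProjectiveSpecialLinearGroup (Fin 2) F → ℂ) = 2 * m + 1)).card = 1 := by
    have h := hub (2 * m + 1)
    rw [cq] at h
    omega
  have hcle : (Finset.univ.filter (fun ψ : Cfsg.IrrCharacter (Matrix.ProjectiveSpecialLinearGroup (Fin 2) F) =>
      Cfsg.charDegree (ψ : Matrix.ProjectiveSpecialLinearGroup (Fin 2) F → ℂ) = m + 1)).card ≤ 2 := by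
    have h := hub (m + 1)
    rw [ch1] at h
    exact h
  have hdle : (Finset.univ.filter (fun ψ : Cfsg.IrrCharacter (Matrix.ProjectiveSpecialLinearGroup (Fin 2) F) =>
      Cfsg.charDegree (ψ : Matrix.ProjectiveSpecialLinearGroup (Fin 2) F → ℂ) = m)).card ≤ 2 := by
    have h := hub m
    rw [chm] at h
    exact h
  obtain ⟨⟨ψ1, hψ1⟩, ⟨ψ2, hψ2⟩⟩ := six_count8 (fun ψ : Cfsg.IrrCharacter (Matrix.ProjectiveSpecialLinearGroup (Fin 2) F) =>
    Cfsg.charDegree (ψ : Matrix.ProjectiveSpecialLinearGroup (Fin 2) F → ℂ)) m hm3 hdegP h1eq hqeq hcle hdle hsum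
  refine ⟨hdegP, ?_, ⟨ψ1, hψ1⟩, ⟨ψ2, hψ2⟩⟩
  obtain ⟨ψ, hψ⟩ := Finset.card_pos.mp hlq
  exact ⟨ψ, (Finset.mem_filter.mp hψ).2⟩

theorem degGraph_of_cd_odd8 {S : Type*} [Group S] (q t n m : ℕ) (ht : t.Prime)
    (hqn : q = t ^ n) (hm : q = 2 * m + 1) (hm3 : 3 ≤ m)
    (hsub : Cfsg.charDegrees S ⊆ {1, q, q + 1, q - 1, (q + 1) / 2, (q - 1) / 2})
    (hq : q ∈ Cfsg.charDegrees S) (hq1 : q + 1 ∈ Cfsg.charDegrees S)
    (hqm : q - 1 ∈ Cfsg.charDegrees S) :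
    Cfsg.degreePrimes S = {r : ℕ | r.Prime ∧ r ∣ q * (q ^ 2 - 1)} ∧
    ∀ r s : ℕ, (Cfsg.degreeGraph S).Adj r s ↔ (r ≠ s ∧ r.Prime ∧ s.Prime ∧ r ∣ q ^ 2 - 1 ∧
      s ∣ q ^ 2 - 1 ∧ (r = 2 ∨ s = 2 ∨ (r ∣ q + 1 ∧ s ∣ q + 1) ∨ (r ∣ q - 1 ∧ s ∣ q - 1))) := by
  have e : q ^ 2 - 1 = (q - 1) * (q + 1) := by
    obtain ⟨k, hk⟩ : ∃ k, q = k + 1 := ⟨q - 1, by omega⟩
    rw [hk]
    apply Nat.sub_eq_of_eq_add
    rw [Nat.add_sub_cancel]
    ring
  have hh1 : (q + 1) / 2 ∣ q + 1 := Dvd.intro 2 (by omega)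
  have hhm : (q - 1) / 2 ∣ q - 1 := Dvd.intro 2 (by omega)
  have h2p : 2 ∣ q + 1 := Dvd.intro (m + 1) (by omega)
  have h2m : 2 ∣ q - 1 := Dvd.intro m (by omega)
  have hd1 : ∀ r : ℕ, r ∣ q + 1 → r ∣ q ^ 2 - 1 := fun r h => by
    rw [e]; exact Dvd.dvd.mul_left h _
  have hdm : ∀ r : ℕ, r ∣ q - 1 → r ∣ q ^ 2 - 1 := fun r h => by
    rw [e]; exact Dvd.dvd.mul_right h _
  have hcases : ∀ d ∈ Cfsg.charDegrees S, d = 1 ∨ d = q ∨ d ∣ q + 1 ∨ d ∣ q - 1 := by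
    intro d hd
    have h := hsub hd
    simp only [Set.mem_insert_iff, Set.mem_singleton_iff] at h
    rcases h with h | h | h | h | h | h
    · exact Or.inl h
    · exact Or.inr (Or.inl h)
    · exact Or.inr (Or.inr (Or.inl (dvd_of_eq h)))
    · exact Or.inr (Or.inr (Or.inr (dvd_of_eq h)))
    · exact Or.inr (Or.inr (Or.inl ((dvd_of_eq h).trans hh1)))
    · exact Or.inr (Or.inr (Or.inr ((dvd_of_eq h).trans hhm)))
  constructor
  · ext r
    unfold Cfsg.degreePrimes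
    simp only [Set.mem_setOf_eq]
    constructor
    · rintro ⟨hr, d, hd, hrd⟩
      refine ⟨hr, ?_⟩
      rcases hcases d hd with h | h | h | h
      · rw [h] at hrd; exact absurd (Nat.dvd_one.mp hrd) hr.one_lt.ne'
      · rw [h] at hrd; exact Dvd.dvd.mul_right hrd _
      · exact Dvd.dvd.mul_left (hd1 r (hrd.trans h)) _
      · exact Dvd.dvd.mul_left (hdm r (hrd.trans h)) _
    · rintro ⟨hr, hrd⟩
      refine ⟨hr, ?_⟩
      rcases (Nat.Prime.dvd_mul hr).mp hrd with h | h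
      · exact ⟨q, hq, h⟩
      · rw [e] at h
        rcases (Nat.Prime.dvd_mul hr).mp h with h' | h'
        · exact ⟨q - 1, hqm, h'⟩
        · exact ⟨q + 1, hq1, h'⟩
  · intro r s
    have hadj : (Cfsg.degreeGraph S).Adj r s ↔ (r ≠ s ∧ r.Prime ∧ s.Prime ∧
        ∃ d ∈ Cfsg.charDegrees S, r * s ∣ d) := Iff.rfl
    rw [hadj]
    constructor
    · rintro ⟨hne, hr, hs, d, hd, hrs⟩
      have hrd : r ∣ d := dvd_of_mul_right_dvd hrs
      have hsd : s ∣ d := dvd_of_mul_left_dvd hrs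
      refine ⟨hne, hr, hs, ?_⟩
      rcases hcases d hd with h | h | h | h
      · exfalso; rw [h] at hrd; exact hr.one_lt.ne' (Nat.dvd_one.mp hrd)
      · exfalso
        rw [h, hqn] at hrd hsd
        have h3 : r = t := (Nat.prime_dvd_prime_iff_eq hr ht).mp (hr.dvd_of_dvd_pow hrd)
        have h4 : s = t := (Nat.prime_dvd_prime_iff_eq hs ht).mp (hs.dvd_of_dvd_pow hsd)
        exact hne (h3.trans h4.symm)
      · exact ⟨hd1 r (hrd.trans h), hd1 s (hsd.trans h),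
          Or.inr (Or.inr (Or.inl ⟨hrd.trans h, hsd.trans h⟩))⟩
      · exact ⟨hdm r (hrd.trans h), hdm s (hsd.trans h),
          Or.inr (Or.inr (Or.inr ⟨hrd.trans h, hsd.trans h⟩))⟩
    · rintro ⟨hne, hr, hs, hr2, hs2, h⟩
      have hcop : Nat.Coprime r s := (Nat.coprime_primes hr hs).mpr hne
      refine ⟨hne, hr, hs, ?_⟩
      have key : (r ∣ q + 1 ∧ s ∣ q + 1) ∨ (r ∣ q - 1 ∧ s ∣ q - 1) := by
        rw [e] at hr2 hs2
        rcases h with h | h | h | h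
        · rcases (Nat.Prime.dvd_mul hs).mp hs2 with h' | h'
          · exact Or.inr ⟨by rw [h]; exact h2m, h'⟩
          · exact Or.inl ⟨by rw [h]; exact h2p, h'⟩
        · rcases (Nat.Prime.dvd_mul hr).mp hr2 with h' | h'
          · exact Or.inr ⟨h', by rw [h]; exact h2m⟩
          · exact Or.inl ⟨h', by rw [h]; exact h2p⟩
        · exact Or.inl h
        · exact Or.inr h
      rcases key with ⟨h1, h2⟩ | ⟨h1, h2⟩
      · exact ⟨q + 1, hq1, Nat.Coprime.mul_dvd_of_dvd_of_dvd hcop h1 h2⟩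
      · exact ⟨q - 1, hqm, Nat.Coprime.mul_dvd_of_dvd_of_dvd hcop h1 h2⟩

theorem sl2_degGraph_odd8 (F : Type*) [Field F] [Fintype F] (t : ℕ) [Fact t.Prime] [CharP F t]
    (ht : t ≠ 2) (q : ℕ) (hq : Fintype.card F = q) (h5 : 5 < q) {S : Type*} [Group S] [Finite S]
    (hS : Nonempty (S ≃* Matrix.ProjectiveSpecialLinearGroup (Fin 2) F) ∨ Nonempty (S ≃* Matrix.SpecialLinearGroup (Fin 2) F)) :
    Cfsg.degreePrimes S = {r : ℕ | r.Prime ∧ r ∣ q * (q ^ 2 - 1)} ∧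
    ∀ r s : ℕ, (Cfsg.degreeGraph S).Adj r s ↔ (r ≠ s ∧ r.Prime ∧ s.Prime ∧ r ∣ q ^ 2 - 1 ∧
      s ∣ q ^ 2 - 1 ∧ (r = 2 ∨ s = 2 ∨ (r ∣ q + 1 ∧ s ∣ q + 1) ∨ (r ∣ q - 1 ∧ s ∣ q - 1))) := by
  have htp : t.Prime := Fact.out
  obtain ⟨n, -, hn⟩ := FiniteField.card F t
  have hqn : q = t ^ (n : ℕ) := by rw [← hq]; exact hn
  have hodd : Odd q := by rw [hqn]; exact Odd.pow (htp.odd_of_ne_two ht)
  obtain ⟨m, hm⟩ := hodd
  have hm3 : 3 ≤ m := by omega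
  have hmF : Fintype.card F = 2 * m + 1 := hq.trans hm
  have hall : (∀ d ∈ Cfsg.charDegrees S, d = 1 ∨ d = 2 * m + 1 ∨ d = 2 * m + 2 ∨ d = 2 * m ∨
      d = m + 1 ∨ d = m) ∧
      (2 * m + 1) ∈ Cfsg.charDegrees S ∧ (2 * m + 2) ∈ Cfsg.charDegrees S ∧
      (2 * m) ∈ Cfsg.charDegrees S := by
    rcases hS with ⟨⟨e⟩⟩ | ⟨⟨e⟩⟩
    · rw [charDegrees_congr8 e]
      obtain ⟨h1, h2, h3, h4⟩ := psl2_odd_facts8 F m hmF hm3
      exact ⟨fun d hd => by obtain ⟨ψ, hψ⟩ := hd; rw [← hψ]; exact h1 ψ, h2, h3, h4⟩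
    · rw [charDegrees_congr8 e]
      exact sl2_odd_cd8 F m hmF hm3
  obtain ⟨hsub, hcq, hcq1, hcqm⟩ := hall
  apply degGraph_of_cd_odd8 q t (n : ℕ) m htp hqn hm hm3
  · intro d hd
    simp only [Set.mem_insert_iff, Set.mem_singleton_iff]
    rcases hsub d hd with h | h | h | h | h | h <;> omega
  · rw [hm]; exact hcq
  · have e1 : q + 1 = 2 * m + 2 := by omega
    rw [e1]; exact hcq1
  · have e1 : q - 1 = 2 * m := by omega
    rw [e1]; exact hcqm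

end Cfsg.Agent.Lib.Helper8
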