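import Mathlib
import Cfsg.Prelude
import Cfsg.Agent.Lib.Helper3.PSolvAct
import Cfsg.Agent.Lib.Lead.Glauberman2
import Cfsg.Agent.Lib.Helper8.PSolvDer1

/-! Coprime action of a `p`-group `P` on a `p'`-subgroup `T` in which all nontrivial elements of
`P` have the same fixed points: the structure of a minimal non-centralized `T`. -/

set_option autoImplicit false

namespace Cfsg.Agent.Lib.Helper8

universe u

variable {G : Type u} [Group G]

/-- `P` normalizes `T` -/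
def tiInv8 (P T : Subgroup G) : Prop := ∀ x ∈ P, ∀ t ∈ T, x * t * x⁻¹ ∈ T

/-- `P` centralizes `T` -/
def tiCent8 (P T : Subgroup G) : Prop := ∀ x ∈ P, ∀ t ∈ T, x * t = t * x

/-- an element of `T` fixed by a nontrivial element of `P` is fixed by `P` -/
def tiFree8 (P T : Subgroup G) : Prop :=
  ∀ x ∈ P, x ≠ 1 → ∀ t ∈ T, x * t = t * x → ∀ y ∈ P, y * t = t * y

/-- every proper `P`-invariant subgroup of `T` is centralized by `P` -/
def tiMin8 (P T : Subgroup G) : Prop :=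
  ∀ T1 : Subgroup G, T1 ≤ T → T1 ≠ T → tiInv8 P T1 → tiCent8 P T1

theorem tiInv8_inv {P T : Subgroup G} (h : tiInv8 P T) {x t : G} (hx : x ∈ P) (ht : t ∈ T) :
    x⁻¹ * t * x ∈ T := by
  have h1 := h x⁻¹ (P.inv_mem hx) t ht
  rwa [inv_inv] at h1

theorem pow_card_sub8 [Finite G] (H : Subgroup G) {x : G} (hx : x ∈ H) : x ^ Nat.card H = 1 := by
  have h1 : (⟨x, hx⟩ : H) ^ Nat.card H = 1 := pow_card_eq_one'
  have h2 : ((⟨x, hx⟩ : H) : G) ^ Nat.card H = ((1 : H) : G) := by rw [← Subgroup.coe_pow, h1]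
  exact h2

theorem eq_one_of_coprime_pow8 [Finite G] {p : ℕ} [Fact p.Prime] {P T : Subgroup G} (hP : IsPGroup p P)
    (hT : (Nat.card T).Coprime p) {z : G} (hz : z ∈ T) (h : z ^ Nat.card P = 1) : z = 1 := by
  obtain ⟨k, hk⟩ := IsPGroup.iff_card.1 hP
  have hcop : (Nat.card P).Coprime (Nat.card T) := by
    rw [hk]; exact Nat.Coprime.pow_left k hT.symm
  have h1 : z ^ (Nat.card P).gcd (Nat.card T) = 1 := pow_gcd_eq_one.2 ⟨h, pow_card_sub8 T hz⟩
  rw [hcop, pow_one] at h1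
  exact h1

/-- coprimality kills the commutator -/
theorem ti_coprime_key8 [Finite G] {p : ℕ} [Fact p.Prime] {P T : Subgroup G} (hP : IsPGroup p P)
    (hT : (Nat.card T).Coprime p) {x t z : G} (hx : x ∈ P) (hz : z ∈ T)
    (hconj : x * t * x⁻¹ = z * t) (hcomm : x * z = z * x) : z = 1 := by
  obtain ⟨k, hk⟩ := IsPGroup.iff_card.1 hP
  have hcop : (Nat.card P).Coprime (Nat.card T) := by
    rw [hk]; exact Nat.Coprime.pow_left k hT.symm
  exact Cfsg.Agent.Lib.Helper3.eq_one_of_conj_eq_mul_of_coprime x t z hconj hcomm (Nat.card P)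
    (Nat.card T) (pow_card_sub8 P hx) (pow_card_sub8 T hz) hcop

theorem ti_min_lemma8 [Finite G] {p : ℕ} [Fact p.Prime] {P T : Subgroup G} (hP : IsPGroup p P)
    (hT : (Nat.card T).Coprime p) (hmin : tiMin8 P T) (hnc : ¬ tiCent8 P T) (C : Subgroup G)
    (hCT : C ≤ T) (hCinv : tiInv8 P C) (hC : ∀ x ∈ P, ∀ t ∈ T, x * t * x⁻¹ * t⁻¹ ∈ C) :
    C = T := by
  by_contra hne
  have hcent := hmin C hCT hne hCinv
  apply hnc
  intro x hx t ht
  have hz := hC x hx t ht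
  have h1 : x * t * x⁻¹ * t⁻¹ = 1 :=
    ti_coprime_key8 hP hT hx (hCT hz)
      (show x * t * x⁻¹ = (x * t * x⁻¹ * t⁻¹) * t by group) (hcent x hx _ hz)
  have h2 : x * t = (x * t * x⁻¹ * t⁻¹) * (t * x) := by group
  rw [h2, h1, one_mul]

/-- in a minimal configuration, proper invariant normal subgroups are central -/
theorem ti_central8 [Finite G] {p : ℕ} [Fact p.Prime] {P T : Subgroup G} (hP : IsPGroup p P)
    (hT : (Nat.card T).Coprime p) (hinv : tiInv8 P T) (hmin : tiMin8 P T) (hnc : ¬ tiCent8 P T)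
    (M : Subgroup G) (hMT : M ≤ T) (hMne : M ≠ T) (hMinv : tiInv8 P M)
    (hMn : ∀ t ∈ T, ∀ m ∈ M, t * m * t⁻¹ ∈ M) : ∀ m ∈ M, ∀ t ∈ T, m * t = t * m := by
  have hMc := hmin M hMT hMne hMinv
  have key := ti_min_lemma8 hP hT hmin hnc (T ⊓ Subgroup.centralizer (M : Set G)) inf_le_left ?_ ?_
  · intro m hm t ht
    have h1 : t ∈ T ⊓ Subgroup.centralizer (M : Set G) := by rw [key]; exact ht
    exact Subgroup.mem_centralizer_iff.1 h1.2 m hm
  · intro x hx c hc
    refine Subgroup.mem_inf.2 ⟨hinv x hx c hc.1, ?_⟩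
    rw [Subgroup.mem_centralizer_iff]
    intro m hm
    have h1 := hMc x hx m hm
    have h2 := Subgroup.mem_centralizer_iff.1 hc.2 m hm
    have h3 : x * m * x⁻¹ = m := by rw [h1]; group
    calc m * (x * c * x⁻¹) = (x * m * x⁻¹) * (x * c * x⁻¹) := by rw [h3]
      _ = x * (m * c) * x⁻¹ := by group
      _ = x * (c * m) * x⁻¹ := by rw [h2]
      _ = (x * c * x⁻¹) * (x * m * x⁻¹) := by group
      _ = (x * c * x⁻¹) * m := by rw [h3]
  · intro x hx t ht
    refine Subgroup.mem_inf.2 ⟨T.mul_mem (hinv x hx t ht) (T.inv_mem ht), ?_⟩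
    rw [Subgroup.mem_centralizer_iff]
    intro m hm
    have hm1 : t⁻¹ * m * t ∈ M := by
      have h0 := hMn t⁻¹ (T.inv_mem ht) m hm
      rwa [inv_inv] at h0
    have ha := hMc x hx m hm
    have hb : Commute x (t⁻¹ * m * t) := hMc x hx _ hm1
    have hb' : x⁻¹ * (t⁻¹ * m * t) = (t⁻¹ * m * t) * x⁻¹ := hb.inv_left.eq
    calc m * (x * t * x⁻¹ * t⁻¹) = (m * x) * t * x⁻¹ * t⁻¹ := by group
      _ = (x * m) * t * x⁻¹ * t⁻¹ := by rw [ha]
      _ = x * t * ((t⁻¹ * m * t) * x⁻¹) * t⁻¹ := by group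
      _ = x * t * (x⁻¹ * (t⁻¹ * m * t)) * t⁻¹ := by rw [hb']
      _ = x * t * x⁻¹ * t⁻¹ * m := by group

/-- a minimal configuration lives in a `q`-group -/
theorem ti_min_isPGroup8 [Finite G] {p : ℕ} [Fact p.Prime] {P T : Subgroup G} (hP : IsPGroup p P)
    (hT : (Nat.card T).Coprime p) (hinv : tiInv8 P T) (hmin : tiMin8 P T) (hnc : ¬ tiCent8 P T) :
    ∃ q : ℕ, q.Prime ∧ IsPGroup q T := by
  by_contra hno
  apply hnc
  have hPN : P ≤ Subgroup.normalizer (T : Set G) := by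
    intro x hx
    rw [Subgroup.mem_normalizer_iff]
    intro t
    constructor
    · exact hinv x hx t
    · intro h
      have h1 := tiInv8_inv hinv hx h
      have e : x⁻¹ * (x * t * x⁻¹) * x = t := by group
      rwa [e] at h1
  have hcop : (Nat.card P).Coprime (Nat.card T) := by
    obtain ⟨k, hk⟩ := IsPGroup.iff_card.1 hP
    rw [hk]; exact Nat.Coprime.pow_left k hT.symm
  have hsolvP : Group.IsSolvable P := by
    haveI : Group.IsNilpotent P := hP.isNilpotent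
    infer_instance
  have hT0 : Nat.card T ≠ 0 := Nat.card_pos.ne'
  have hC0 : Nat.card (T ⊓ Subgroup.centralizer (P : Set G) : Subgroup G) ≠ 0 :=
    Nat.card_pos.ne'
  have hdvd : Nat.card T ∣ Nat.card (T ⊓ Subgroup.centralizer (P : Set G) : Subgroup G) := by
    rw [← Nat.factorization_le_iff_dvd hT0 hC0]
    intro q
    by_cases hq : q.Prime
    · haveI : Fact q.Prime := ⟨hq⟩
      obtain ⟨S, hS⟩ := Cfsg.Agent.Lib.Lead.coprime_exists_invariant_sylow P T hPN hcop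
        (Or.inl hsolvP) q
      have hSinv : tiInv8 P ((S : Subgroup T).map T.subtype) := by
        intro x hx s hs
        exact (Subgroup.mem_normalizer_iff.1 (hS hx) s).1 hs
      have hSne : (S : Subgroup T).map T.subtype ≠ T := by
        intro h
        apply hno
        refine ⟨q, hq, ?_⟩
        have htop : (S : Subgroup T) = ⊤ := by
          apply Subgroup.map_injective T.subtype_injective
          rw [h, ← MonoidHom.range_eq_map, Subgroup.range_subtype]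
        have h1 := S.isPGroup'
        rw [htop] at h1
        exact IsPGroup.of_equiv h1 Subgroup.topEquiv
      have hScent := hmin _ (Subgroup.map_subtype_le _) hSne hSinv
      have hSle : (S : Subgroup T).map T.subtype ≤ T ⊓ Subgroup.centralizer (P : Set G) := by
        intro s hs
        refine Subgroup.mem_inf.2 ⟨Subgroup.map_subtype_le _ hs, ?_⟩
        rw [Subgroup.mem_centralizer_iff]
        intro x hx
        exact hScent x hx s hs
      have hcard : Nat.card ((S : Subgroup T).map T.subtype) =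
          q ^ (Nat.card T).factorization q := by
        rw [Subgroup.card_map_of_injective T.subtype_injective]
        exact S.card_eq_multiplicity
      have h1 : q ^ (Nat.card T).factorization q ∣
          Nat.card (T ⊓ Subgroup.centralizer (P : Set G) : Subgroup G) := by
        rw [← hcard]; exact Subgroup.card_dvd_of_le hSle
      exact (hq.pow_dvd_iff_le_factorization hC0).1 h1
    · rw [Nat.factorization_eq_zero_of_not_prime _ hq]; exact Nat.zero_le _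
  have heq : T ⊓ Subgroup.centralizer (P : Set G) = T :=
    Subgroup.eq_of_le_of_card_ge inf_le_left (Nat.le_of_dvd Nat.card_pos hdvd)
  intro x hx t ht
  have h1 : t ∈ T ⊓ Subgroup.centralizer (P : Set G) := by rw [heq]; exact ht
  exact Subgroup.mem_centralizer_iff.1 h1.2 x hx

/-- the nonabelian minimal case: class two, `P` centralizes the center, and `P` embeds in the
nontrivial cosets of the center -/
theorem ti_caseB_group8 [Finite G] {p : ℕ} [Fact p.Prime] {P T : Subgroup G} (hP : IsPGroup p P)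
    (hT : (Nat.card T).Coprime p) (hinv : tiInv8 P T) (hfree : tiFree8 P T) (hmin : tiMin8 P T)
    (hnc : ¬ tiCent8 P T) (hnab : ∃ a ∈ T, ∃ b ∈ T, a * b ≠ b * a) :
    (∀ a ∈ T, ∀ b ∈ T, ∀ t ∈ T, (a * b * a⁻¹ * b⁻¹) * t = t * (a * b * a⁻¹ * b⁻¹)) ∧
    (∀ z ∈ T, (∀ t ∈ T, z * t = t * z) → ∀ x ∈ P, x * z = z * x) ∧
    Nat.card P + 1 ≤ (Subgroup.center T).index := by
  obtain ⟨a0, ha0, b0, hb0, hab0⟩ := hnab
  -- the center
  have hZinv : tiInv8 P (T ⊓ Subgroup.centralizer (T : Set G)) := by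
    intro x hx z hz
    refine Subgroup.mem_inf.2 ⟨hinv x hx z hz.1, ?_⟩
    rw [Subgroup.mem_centralizer_iff]
    intro t ht
    have hz' := Subgroup.mem_centralizer_iff.1 hz.2 _ (tiInv8_inv hinv hx ht)
    calc t * (x * z * x⁻¹) = x * ((x⁻¹ * t * x) * z) * x⁻¹ := by group
      _ = x * (z * (x⁻¹ * t * x)) * x⁻¹ := by rw [hz']
      _ = (x * z * x⁻¹) * t := by group
  have hZne : T ⊓ Subgroup.centralizer (T : Set G) ≠ T := by
    intro h
    have h1 : a0 ∈ T ⊓ Subgroup.centralizer (T : Set G) := by rw [h]; exact ha0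
    exact hab0 (Subgroup.mem_centralizer_iff.1 h1.2 b0 hb0).symm
  have hZcent := hmin _ inf_le_left hZne hZinv
  have hZP : ∀ z ∈ T, (∀ t ∈ T, z * t = t * z) → ∀ x ∈ P, x * z = z * x := by
    intro z hz hzc x hx
    apply hZcent x hx z
    refine Subgroup.mem_inf.2 ⟨hz, ?_⟩
    rw [Subgroup.mem_centralizer_iff]
    intro t ht
    exact (hzc t ht).symm
  -- the commutator subgroup
  obtain ⟨q, hq, hTq⟩ := ti_min_isPGroup8 hP hT hinv hmin hnc
  haveI : Fact q.Prime := ⟨hq⟩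
  have hDT : ⁅T, T⁆ ≤ T := dser8_le T 1
  have hDne : ⁅T, T⁆ ≠ T := by
    intro h
    haveI : Group.IsNilpotent T := hTq.isNilpotent
    haveI : Group.IsSolvable T := inferInstance
    haveI : Nontrivial T := ⟨⟨⟨a0 * b0, T.mul_mem ha0 hb0⟩, ⟨b0 * a0, T.mul_mem hb0 ha0⟩,
      fun h => hab0 (congrArg Subtype.val h)⟩⟩
    have h1 := IsSolvable.commutator_lt_top_of_nontrivial T
    have h2 : (derivedSeries ↥T 1).map T.subtype = ⁅T, T⁆ := dser8_map_subtype T 1
    rw [derivedSeries_one, h] at h2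
    have h3 : commutator T = ⊤ := by
      apply Subgroup.map_injective T.subtype_injective
      rw [h2, ← MonoidHom.range_eq_map, Subgroup.range_subtype]
    exact h1.ne h3
  have hconjD : ∀ g : G, (∀ t ∈ T, g * t * g⁻¹ ∈ T) → ∀ d ∈ ⁅T, T⁆, g * d * g⁻¹ ∈ ⁅T, T⁆ := by
    intro g hg d hd
    have h1 : (MulAut.conj g).toMonoidHom d ∈ (⁅T, T⁆).map (MulAut.conj g).toMonoidHom :=
      Subgroup.mem_map_of_mem _ hd
    rw [Subgroup.map_commutator] at h1
    have h2 : T.map (MulAut.conj g).toMonoidHom ≤ T := by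
      rintro _ ⟨t, ht, rfl⟩
      exact hg t ht
    exact Subgroup.commutator_mono h2 h2 h1
  have hDinv : tiInv8 P ⁅T, T⁆ := fun x hx d hd => hconjD x (hinv x hx) d hd
  have hDn : ∀ t ∈ T, ∀ d ∈ ⁅T, T⁆, t * d * t⁻¹ ∈ ⁅T, T⁆ := fun t ht d hd =>
    hconjD t (fun s hs => T.mul_mem (T.mul_mem ht hs) (T.inv_mem ht)) d hd
  have hDc := ti_central8 hP hT hinv hmin hnc ⁅T, T⁆ hDT hDne hDinv hDn
  have hcl2 : ∀ a ∈ T, ∀ b ∈ T, ∀ t ∈ T, (a * b * a⁻¹ * b⁻¹) * t = t * (a * b * a⁻¹ * b⁻¹) := by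
    intro a ha b hb t ht
    have h1 := (Subgroup.commutator_le (H₁ := T) (H₂ := T) (H₃ := ⁅T, T⁆)).1 le_rfl a ha b hb
    rw [commutatorElement_def] at h1
    exact hDc _ h1 t ht
  -- fixed points of `P`
  have hCinv : tiInv8 P (T ⊓ Subgroup.centralizer (P : Set G)) := by
    intro x hx c hc
    have h1 := Subgroup.mem_centralizer_iff.1 hc.2 x hx
    have h2 : x * c * x⁻¹ = c := by rw [h1]; group
    rw [h2]; exact hc
  have hCne : T ⊓ Subgroup.centralizer (P : Set G) ≠ T := by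
    intro h
    apply hnc
    intro x hx t ht
    have h1 : t ∈ T ⊓ Subgroup.centralizer (P : Set G) := by rw [h]; exact ht
    exact Subgroup.mem_centralizer_iff.1 h1.2 x hx
  have hCn : ∀ t ∈ T, ∀ c ∈ T ⊓ Subgroup.centralizer (P : Set G),
      t * c * t⁻¹ ∈ T ⊓ Subgroup.centralizer (P : Set G) := by
    intro t ht c hc
    refine Subgroup.mem_inf.2 ⟨T.mul_mem (T.mul_mem ht hc.1) (T.inv_mem ht), ?_⟩
    rw [Subgroup.mem_centralizer_iff]
    intro x hx
    have h1 := Subgroup.mem_centralizer_iff.1 hc.2 x hx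
    have h2 : x * (t * c * t⁻¹ * c⁻¹) = (t * c * t⁻¹ * c⁻¹) * x :=
      hZP _ (T.mul_mem (T.mul_mem (T.mul_mem ht hc.1) (T.inv_mem ht)) (T.inv_mem hc.1))
        (fun s hs => hcl2 t ht c hc.1 s hs) x hx
    calc x * (t * c * t⁻¹) = (x * (t * c * t⁻¹ * c⁻¹)) * c := by group
      _ = ((t * c * t⁻¹ * c⁻¹) * x) * c := by rw [h2]
      _ = (t * c * t⁻¹ * c⁻¹) * (x * c) := by group
      _ = (t * c * t⁻¹ * c⁻¹) * (c * x) := by rw [h1]
      _ = t * c * t⁻¹ * x := by group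
  have hCc := ti_central8 hP hT hinv hmin hnc _ inf_le_left hCne hCinv hCn
  refine ⟨hcl2, hZP, ?_⟩
  -- the count
  have ha0Z : ¬ ∀ t ∈ T, a0 * t = t * a0 := fun h => hab0 (h b0 hb0)
  rw [Subgroup.index_eq_card, ← Finite.card_option]
  apply Nat.card_le_card_of_injective
    (fun o : Option ↥P => (match o with
      | none => (1 : ↥T ⧸ Subgroup.center ↥T)
      | some x => QuotientGroup.mk (⟨(x : G) * a0 * (x : G)⁻¹, hinv x x.2 a0 ha0⟩ : ↥T)))
  have hnone : ∀ x : ↥P, (QuotientGroup.mk (⟨(x : G) * a0 * (x : G)⁻¹, hinv x x.2 a0 ha0⟩ : ↥T) :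
      ↥T ⧸ Subgroup.center ↥T) ≠ 1 := by
    intro x h
    rw [QuotientGroup.eq_one_iff, Subgroup.mem_center_iff] at h
    apply ha0Z
    intro t ht
    have h1 := congrArg Subtype.val (h ⟨(x : G) * t * (x : G)⁻¹, hinv x x.2 t ht⟩)
    have h2 : (x : G) * t * (x : G)⁻¹ * ((x : G) * a0 * (x : G)⁻¹) =
        (x : G) * a0 * (x : G)⁻¹ * ((x : G) * t * (x : G)⁻¹) := h1
    have h3 : (x : G)⁻¹ * ((x : G) * t * (x : G)⁻¹ * ((x : G) * a0 * (x : G)⁻¹)) * (x : G) =
        (x : G)⁻¹ * ((x : G) * a0 * (x : G)⁻¹ * ((x : G) * t * (x : G)⁻¹)) * (x : G) := by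
      rw [h2]
    have e1 : (x : G)⁻¹ * ((x : G) * t * (x : G)⁻¹ * ((x : G) * a0 * (x : G)⁻¹)) * (x : G) =
        t * a0 := by group
    have e2 : (x : G)⁻¹ * ((x : G) * a0 * (x : G)⁻¹ * ((x : G) * t * (x : G)⁻¹)) * (x : G) =
        a0 * t := by group
    rw [e1, e2] at h3
    exact h3.symm
  intro o₁ o₂ h
  rcases o₁ with _ | x <;> rcases o₂ with _ | y
  · rfl
  · exact absurd h.symm (hnone y)
  · exact absurd h (hnone x)
  · congr 1
    have h1 : (QuotientGroup.mk (⟨(x : G) * a0 * (x : G)⁻¹, hinv x x.2 a0 ha0⟩ : ↥T) :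
        ↥T ⧸ Subgroup.center ↥T) =
        QuotientGroup.mk (⟨(y : G) * a0 * (y : G)⁻¹, hinv y y.2 a0 ha0⟩ : ↥T) := h
    rw [QuotientGroup.eq, Subgroup.mem_center_iff] at h1
    -- the element `z0 = (x a0 x⁻¹)⁻¹ (y a0 y⁻¹)` is central in `T`
    have hz0T : ((x : G) * a0 * (x : G)⁻¹)⁻¹ * ((y : G) * a0 * (y : G)⁻¹) ∈ T :=
      T.mul_mem (T.inv_mem (hinv x x.2 a0 ha0)) (hinv y y.2 a0 ha0)
    have hz0c : ∀ t ∈ T, ((x : G) * a0 * (x : G)⁻¹)⁻¹ * ((y : G) * a0 * (y : G)⁻¹) * t =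
        t * (((x : G) * a0 * (x : G)⁻¹)⁻¹ * ((y : G) * a0 * (y : G)⁻¹)) := by
      intro t ht
      exact (congrArg Subtype.val (h1 ⟨t, ht⟩)).symm
    have hz0Z : ((x : G) * a0 * (x : G)⁻¹)⁻¹ * ((y : G) * a0 * (y : G)⁻¹) ∈
        T ⊓ Subgroup.centralizer (T : Set G) := by
      refine Subgroup.mem_inf.2 ⟨hz0T, ?_⟩
      rw [Subgroup.mem_centralizer_iff]
      intro t ht
      exact (hz0c t ht).symm
    have hz1Z := tiInv8_inv hZinv x.2 hz0Z
    have hw : (x : G)⁻¹ * (y : G) ∈ P := P.mul_mem (P.inv_mem x.2) y.2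
    have e1 : (x : G)⁻¹ * (((x : G) * a0 * (x : G)⁻¹)⁻¹ * ((y : G) * a0 * (y : G)⁻¹)) * (x : G) =
        a0⁻¹ * (((x : G)⁻¹ * (y : G)) * a0 * ((x : G)⁻¹ * (y : G))⁻¹) := by group
    rw [e1] at hz1Z
    -- `w a0 w⁻¹ = z1 a0`
    have hz1c := Subgroup.mem_centralizer_iff.1 hz1Z.2 a0 ha0
    have hconj : ((x : G)⁻¹ * (y : G)) * a0 * ((x : G)⁻¹ * (y : G))⁻¹ =
        (a0⁻¹ * (((x : G)⁻¹ * (y : G)) * a0 * ((x : G)⁻¹ * (y : G))⁻¹)) * a0 := by
      rw [← hz1c]; group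
    have hz1 := ti_coprime_key8 hP hT hw hz1Z.1 hconj (hZcent _ hw _ hz1Z)
    have hwa : ((x : G)⁻¹ * (y : G)) * a0 = a0 * ((x : G)⁻¹ * (y : G)) := by
      have h2 : ((x : G)⁻¹ * (y : G)) * a0 * ((x : G)⁻¹ * (y : G))⁻¹ = a0 := by
        have h3 : ((x : G)⁻¹ * (y : G)) * a0 * ((x : G)⁻¹ * (y : G))⁻¹ =
            a0 * (a0⁻¹ * (((x : G)⁻¹ * (y : G)) * a0 * ((x : G)⁻¹ * (y : G))⁻¹)) := by group
        rw [h3, hz1, mul_one]
      calc ((x : G)⁻¹ * (y : G)) * a0 =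
          (((x : G)⁻¹ * (y : G)) * a0 * ((x : G)⁻¹ * (y : G))⁻¹) * ((x : G)⁻¹ * (y : G)) := by
            group
        _ = a0 * ((x : G)⁻¹ * (y : G)) := by rw [h2]
    by_contra hxy
    have hw1 : (x : G)⁻¹ * (y : G) ≠ 1 := by
      intro h2
      apply hxy
      apply Subtype.ext
      exact inv_mul_eq_one.1 h2
    have h4 := hfree _ hw hw1 a0 ha0 hwa
    apply ha0Z
    apply hCc a0
    refine Subgroup.mem_inf.2 ⟨ha0, ?_⟩
    rw [Subgroup.mem_centralizer_iff]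
    exact h4

end Cfsg.Agent.Lib.Helper8
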