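import Mathlib
import Cfsg.Prelude
import Cfsg.Agent.Lib.Lead.CharMichler2
import Cfsg.Agent.Lib.Lead.CharCentral
import Cfsg.Agent.Lib.Lead.CharCenter
import Cfsg.Agent.Lib.Helper8.CharQuotient
import Cfsg.Agent.Lib.Helper8.TIp1

/-! The character degree bound for a coprime action with common fixed points. -/

set_option autoImplicit false

namespace Cfsg.Agent.Lib.Helper8

open Cfsg.Agent.Lib.Lead
open scoped ComplexConjugate

universe u

section conjsec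

variable {G : Type u} [Group G]

/-- conjugation by an element of `P` as an endomorphism of `T` -/
def tiConj8 {P T : Subgroup G} (hinv : tiInv8 P T) (x : ↥P) : ↥T →* ↥T where
  toFun t := ⟨(x : G) * t * (x : G)⁻¹, hinv x x.2 t t.2⟩
  map_one' := by apply Subtype.ext; simp
  map_mul' a b := by apply Subtype.ext; simp [mul_assoc]

theorem tiConj8_mul {P T : Subgroup G} (hinv : tiInv8 P T) (x y : ↥P) (t : ↥T) :
    tiConj8 hinv x (tiConj8 hinv y t) = tiConj8 hinv (x * y) t := by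
  apply Subtype.ext
  show (x : G) * ((y : G) * t * (y : G)⁻¹) * (x : G)⁻¹ =
    ((x * y : ↥P) : G) * t * ((x * y : ↥P) : G)⁻¹
  rw [Subgroup.coe_mul]; group

theorem tiConj8_one {P T : Subgroup G} (hinv : tiInv8 P T) (t : ↥T) :
    tiConj8 hinv 1 t = t := by
  apply Subtype.ext
  show ((1 : ↥P) : G) * t * ((1 : ↥P) : G)⁻¹ = t
  simp

theorem tiConj8_surj {P T : Subgroup G} (hinv : tiInv8 P T) (x : ↥P) :
    Function.Surjective (tiConj8 hinv x) := by
  intro t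
  refine ⟨tiConj8 hinv x⁻¹ t, ?_⟩
  rw [tiConj8_mul, mul_inv_cancel, tiConj8_one]

/-- the abelian minimal case: nontrivial elements of `P` act fixed point freely -/
theorem ti_caseA_group8 [Finite G] {p : ℕ} [Fact p.Prime] {P T : Subgroup G} (hP : IsPGroup p P)
    (hT : (Nat.card T).Coprime p) (hinv : tiInv8 P T) (hfree : tiFree8 P T) (hmin : tiMin8 P T)
    (hnc : ¬ tiCent8 P T) (hab : ∀ a ∈ T, ∀ b ∈ T, a * b = b * a) :
    ∀ x ∈ P, x ≠ 1 → ∀ t ∈ T, x * t = t * x → t = 1 := by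
  classical
  haveI : Fintype ↥P := Fintype.ofFinite _
  letI : CommGroup ↥T :=
    { (inferInstance : Group ↥T) with mul_comm := fun a b => Subtype.ext (hab a a.2 b b.2) }
  let N : ↥T →* ↥T := ∏ x : ↥P, tiConj8 hinv x
  have hNapp : ∀ t : ↥T, N t = ∏ x : ↥P, tiConj8 hinv x t :=
    fun t => MonoidHom.finsetProd_apply _ _ t
  have hNconj : ∀ (y : ↥P) (t : ↥T), N (tiConj8 hinv y t) = N t := by
    intro y t
    rw [hNapp, hNapp]
    rw [← Equiv.prod_comp (Equiv.mulRight y) (fun x => tiConj8 hinv x t)]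
    apply Finset.prod_congr rfl
    intro x _
    rw [tiConj8_mul]; rfl
  have hker : (N.ker).map T.subtype = T := by
    apply ti_min_lemma8 hP hT hmin hnc _ (Subgroup.map_subtype_le _)
    · intro x hx c hc
      obtain ⟨c', hc', rfl⟩ := hc
      refine ⟨tiConj8 hinv ⟨x, hx⟩ c', ?_, rfl⟩
      have h1 : N c' = 1 := MonoidHom.mem_ker.1 hc'
      exact MonoidHom.mem_ker.2 (by rw [hNconj, h1])
    · intro x hx t ht
      refine ⟨tiConj8 hinv ⟨x, hx⟩ ⟨t, ht⟩ * (⟨t, ht⟩ : ↥T)⁻¹, ?_, rfl⟩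
      exact MonoidHom.mem_ker.2 (by rw [map_mul, map_inv, hNconj, mul_inv_cancel])
  have hN1 : ∀ t : ↥T, N t = 1 := by
    intro t
    have h1 : (t : G) ∈ (N.ker).map T.subtype := by rw [hker]; exact t.2
    obtain ⟨t', ht', h2⟩ := h1
    have h3 : t' = t := Subtype.ext h2
    rw [← h3]; exact MonoidHom.mem_ker.1 ht'
  intro x hx hx1 t ht hxt
  have hfixed := hfree x hx hx1 t ht hxt
  have h1 : N ⟨t, ht⟩ = (⟨t, ht⟩ : ↥T) ^ Nat.card P := by
    rw [hNapp]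
    have h2 : ∀ y ∈ (Finset.univ : Finset ↥P), tiConj8 hinv y ⟨t, ht⟩ = ⟨t, ht⟩ := by
      intro y _
      apply Subtype.ext
      show (y : G) * t * (y : G)⁻¹ = t
      rw [hfixed y y.2]; group
    rw [Finset.prod_congr rfl h2, Finset.prod_const, Finset.card_univ, Nat.card_eq_fintype_card]
  rw [hN1] at h1
  have h3 : t ^ Nat.card P = 1 := by
    have h4 : (((⟨t, ht⟩ : ↥T) ^ Nat.card P : ↥T) : G) = ((1 : ↥T) : G) := by rw [← h1]
    rw [Subgroup.coe_pow] at h4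
    exact h4
  exact eq_one_of_coprime_pow8 hP hT ht h3

end conjsec

/-- an irreducible character vanishing off the center where the commutator form is nondegenerate
is fully ramified -/
theorem fully_ramified8 {H : Type u} [Group H] [Finite H] (σ : Cfsg.IrrCharacter H)
    (hram : ∀ t : H, t ∉ Subgroup.center H → ∃ b : H, b * t * b⁻¹ * t⁻¹ ∈ Subgroup.center H ∧
      (σ : H → ℂ) (b * t * b⁻¹ * t⁻¹) ≠ (σ : H → ℂ) 1) :
    Cfsg.charDegree (σ : H → ℂ) ^ 2 * Nat.card (Subgroup.center H) = Nat.card H := by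
  classical
  haveI := Fintype.ofFinite H
  obtain ⟨n, ρ, hρ, hρσ⟩ := σ.2
  haveI := hρ
  obtain ⟨hd1, hd0⟩ := irr_charDegree σ
  have hfin : (Module.finrank ℂ (Fin n → ℂ) : ℂ) = (Cfsg.charDegree (σ : H → ℂ) : ℂ) := by
    rw [← hd1, ← hρσ, Representation.char_one]
  have hdC : (Cfsg.charDegree (σ : H → ℂ) : ℂ) ≠ 0 := by exact_mod_cast hd0
  have hvan : ∀ t : H, t ∉ Subgroup.center H → (σ : H → ℂ) t = 0 := by
    intro t ht
    obtain ⟨b, hc, hne⟩ := hram t ht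
    have h1 : (σ : H → ℂ) (b * t * b⁻¹) = (σ : H → ℂ) t := isClassFunction_of_irr σ.2 t b
    have h2 : b * t * b⁻¹ = t * (b * t * b⁻¹ * t⁻¹) := by
      have hcz := Subgroup.mem_center_iff.1 hc t
      rw [hcz]; group
    rw [h2] at h1
    have h3 := char_mul_central ρ t _ hc
    rw [hρσ, hfin] at h3
    rw [h3] at h1
    have h4 : ((σ : H → ℂ) (b * t * b⁻¹ * t⁻¹) / (Cfsg.charDegree (σ : H → ℂ) : ℂ) - 1) *
        (σ : H → ℂ) t = 0 := by
      rw [sub_mul, one_mul, h1, sub_self]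
    rcases mul_eq_zero.1 h4 with h5 | h5
    · exfalso
      apply hne
      rw [hd1]
      exact (div_eq_one_iff_eq hdC).1 (sub_eq_zero.1 h5)
    · exact h5
  have hnorm : ∀ z : H, z ∈ Subgroup.center H →
      (σ : H → ℂ) z * conj ((σ : H → ℂ) z) = (Cfsg.charDegree (σ : H → ℂ) : ℂ) ^ 2 := by
    intro z hz
    have h1 := rho_central ρ z hz
    have h2 : ‖ρ.character z‖ = (Module.finrank ℂ (Fin n → ℂ) : ℝ) :=
      (norm_char_eq_iff ρ z).2 ⟨_, h1⟩
    have h2' : ‖(σ : H → ℂ) z‖ = (Module.finrank ℂ (Fin n → ℂ) : ℝ) := by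
      rw [← hρσ]; exact h2
    rw [Complex.mul_conj', h2', ← hfin]
    norm_cast
  have hH0 : (Nat.card H : ℂ) ≠ 0 := by exact_mod_cast Nat.card_pos.ne'
  have hsum : (Nat.card H : ℂ) = ∑ g : H, (σ : H → ℂ) g * conj ((σ : H → ℂ) g) := by
    have h := classInner_irr_self σ.2
    unfold Cfsg.classInner at h
    exact (inv_mul_eq_one₀ hH0).1 h
  have hsum2 : ∑ g : H, (σ : H → ℂ) g * conj ((σ : H → ℂ) g) =
      ∑ g : H, (Cfsg.charDegree (σ : H → ℂ) : ℂ) ^ 2 *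
        (if g ∈ Subgroup.center H then (1 : ℂ) else 0) := by
    apply Finset.sum_congr rfl
    intro g _
    by_cases hg : g ∈ Subgroup.center H
    · rw [if_pos hg, mul_one, hnorm g hg]
    · rw [if_neg hg, mul_zero, hvan g hg, zero_mul]
  have hcard : (Finset.univ.filter (fun g : H => g ∈ Subgroup.center H)).card =
      Nat.card (Subgroup.center H) := by
    rw [Nat.card_eq_fintype_card]
    exact (Fintype.card_subtype _).symm
  rw [hsum2, ← Finset.mul_sum, Finset.sum_boole, hcard] at hsum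
  exact_mod_cast hsum.symm

theorem exists_constituent_ne8 {H : Type u} [Group H] [Fintype H] {ψ : H → ℂ}
    (hψ : Cfsg.IsCharacter H ψ) (c : H) (hc : ψ c ≠ ψ 1) :
    ∃ σ : Cfsg.IrrCharacter H, Cfsg.classInner ψ (σ : H → ℂ) ≠ 0 ∧
      (σ : H → ℂ) c ≠ (σ : H → ℂ) 1 := by
  classical
  haveI : Fintype (Cfsg.IrrCharacter H) := Fintype.ofFinite _
  obtain ⟨n, hn, hn'⟩ := isCharacter_expansion hψ
  by_contra hall
  push Not at hall
  apply hc
  have e : ∀ x : H, ψ x = ∑ σ : Cfsg.IrrCharacter H, (n σ : ℂ) * (σ : H → ℂ) x := by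
    intro x
    have h := congrFun hn x
    rw [Finset.sum_apply] at h
    simpa only [Pi.smul_apply, smul_eq_mul] using h
  rw [e c, e 1]
  apply Finset.sum_congr rfl
  intro σ _
  by_cases h0 : n σ = 0
  · rw [h0]; simp
  · rw [hall σ (by rw [hn' σ]; exact_mod_cast h0)]

section chars

variable {G : Type u} [Group G] [Finite G]

theorem ti_caseB_char8 {p : ℕ} [Fact p.Prime] {P T : Subgroup G} (hP : IsPGroup p P)
    (hT : (Nat.card T).Coprime p) (hinv : tiInv8 P T) (hfree : tiFree8 P T) (hmin : tiMin8 P T)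
    (hnc : ¬ tiCent8 P T) (hnab : ∃ a ∈ T, ∃ b ∈ T, a * b ≠ b * a)
    (χ : G → ℂ) (hχ : Cfsg.IsCharacter G χ) (hfaith : ∀ g : G, χ g = χ 1 → g = 1) :
    Nat.card P < Cfsg.charDegree χ ^ 2 := by
  classical
  haveI : Fintype ↥T := Fintype.ofFinite _
  obtain ⟨hcl2, hZP, hcount⟩ := ti_caseB_group8 hP hT hinv hfree hmin hnc hnab
  obtain ⟨a, ha, b, hb, hab⟩ := hnab
  have hψ : Cfsg.IsCharacter ↥T (fun t : ↥T => χ t) := isCharacter_restrict T hχ
  have hc0 : (fun t : ↥T => χ t) ((⟨a, ha⟩ : ↥T) * ⟨b, hb⟩ * (⟨a, ha⟩ : ↥T)⁻¹ *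
      (⟨b, hb⟩ : ↥T)⁻¹) ≠ (fun t : ↥T => χ t) 1 := by
    intro h
    have h1 : a * b * a⁻¹ * b⁻¹ = 1 := hfaith _ h
    apply hab
    have h2 : a * b = (a * b * a⁻¹ * b⁻¹) * (b * a) := by group
    rw [h2, h1, one_mul]
  obtain ⟨σ, hσne, hσc⟩ := exists_constituent_ne8 hψ _ hc0
  obtain ⟨N, hNn, hNmem, -, -⟩ := irr_ker_data σ
  haveI := hNn
  have hR'mem : ∀ u : ↥T, u ∈ (Subgroup.center (↥T ⧸ N)).comap (QuotientGroup.mk' N) ↔
      ∀ v : ↥T, u * v * u⁻¹ * v⁻¹ ∈ N := by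
    intro u
    rw [Subgroup.mem_comap, Subgroup.mem_center_iff]
    constructor
    · intro h v
      have h1 := h (QuotientGroup.mk' N v)
      have h2 : QuotientGroup.mk' N (u * v * u⁻¹ * v⁻¹) = 1 := by
        rw [map_mul, map_mul, map_mul, map_inv, map_inv, ← h1]; group
      exact (QuotientGroup.eq_one_iff _).1 h2
    · intro h q
      obtain ⟨v, rfl⟩ := QuotientGroup.mk'_surjective N q
      have h1 : QuotientGroup.mk' N (u * v * u⁻¹ * v⁻¹) = 1 :=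
        (QuotientGroup.eq_one_iff _).2 (h v)
      rw [map_mul, map_mul, map_mul, map_inv, map_inv] at h1
      have h2 : QuotientGroup.mk' N u * QuotientGroup.mk' N v =
          (QuotientGroup.mk' N u * QuotientGroup.mk' N v * (QuotientGroup.mk' N u)⁻¹ *
            (QuotientGroup.mk' N v)⁻¹) * (QuotientGroup.mk' N v * QuotientGroup.mk' N u) := by
        group
      rw [h1, one_mul] at h2
      exact h2.symm
  have hR'n : ((Subgroup.center (↥T ⧸ N)).comap (QuotientGroup.mk' N)).Normal := inferInstance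
  generalize (Subgroup.center (↥T ⧸ N)).comap (QuotientGroup.mk' N) = R' at hR'mem hR'n
  have hMne : R'.map T.subtype ≠ T := by
    intro h
    have h1 : a ∈ R'.map T.subtype := by rw [h]; exact ha
    obtain ⟨a', ha', ha'e⟩ := h1
    have h2 : a' = ⟨a, ha⟩ := Subtype.ext ha'e
    rw [h2] at ha'
    exact hσc ((hNmem _).1 ((hR'mem ⟨a, ha⟩).1 ha' ⟨b, hb⟩))
  have hMinv : tiInv8 P (R'.map T.subtype) := by
    intro x hx m hm
    obtain ⟨m', hm', rfl⟩ := hm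
    refine ⟨⟨x * m' * x⁻¹, hinv x hx m' m'.2⟩, (hR'mem _).2 ?_, rfl⟩
    intro v
    have hv' : x⁻¹ * v * x ∈ T := tiInv8_inv hinv hx v.2
    have h1 := (hR'mem m').1 hm' ⟨x⁻¹ * v * x, hv'⟩
    have e : (⟨x * m' * x⁻¹, hinv x hx m' m'.2⟩ : ↥T) * v *
        (⟨x * m' * x⁻¹, hinv x hx m' m'.2⟩ : ↥T)⁻¹ * v⁻¹ =
        m' * ⟨x⁻¹ * v * x, hv'⟩ * m'⁻¹ * (⟨x⁻¹ * v * x, hv'⟩ : ↥T)⁻¹ := by
      apply Subtype.ext
      show (x * m' * x⁻¹) * v * (x * m' * x⁻¹)⁻¹ * (v : G)⁻¹ =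
        (m' : G) * (x⁻¹ * v * x) * (m' : G)⁻¹ * (x⁻¹ * v * x)⁻¹
      have hcT : (m' : G) * (x⁻¹ * v * x) * (m' : G)⁻¹ * (x⁻¹ * v * x)⁻¹ ∈ T :=
        T.mul_mem (T.mul_mem (T.mul_mem m'.2 hv') (T.inv_mem m'.2)) (T.inv_mem hv')
      have hc := hZP _ hcT (fun s hs => hcl2 m' m'.2 _ hv' s hs) x hx
      have e1 : (x * m' * x⁻¹) * v * (x * m' * x⁻¹)⁻¹ * (v : G)⁻¹ =
          x * ((m' : G) * (x⁻¹ * v * x) * (m' : G)⁻¹ * (x⁻¹ * v * x)⁻¹) * x⁻¹ := by group
      rw [e1, hc]; group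
    rw [e]; exact h1
  have hMn : ∀ t ∈ T, ∀ m ∈ R'.map T.subtype, t * m * t⁻¹ ∈ R'.map T.subtype := by
    intro t ht m hm
    obtain ⟨m', hm', rfl⟩ := hm
    exact ⟨⟨t, ht⟩ * m' * (⟨t, ht⟩ : ↥T)⁻¹, hR'n.conj_mem m' hm' ⟨t, ht⟩, rfl⟩
  have hMc := ti_central8 hP hT hinv hmin hnc (R'.map T.subtype) (Subgroup.map_subtype_le _)
    hMne hMinv hMn
  have hram : ∀ t : ↥T, t ∉ Subgroup.center ↥T → ∃ v : ↥T,
      v * t * v⁻¹ * t⁻¹ ∈ Subgroup.center ↥T ∧
      (σ : ↥T → ℂ) (v * t * v⁻¹ * t⁻¹) ≠ (σ : ↥T → ℂ) 1 := by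
    intro t ht
    have htR : t ∉ R' := by
      intro h
      apply ht
      rw [Subgroup.mem_center_iff]
      intro s
      have h1 := hMc (t : G) ⟨t, h, rfl⟩ s s.2
      exact Subtype.ext h1.symm
    rw [hR'mem] at htR
    push Not at htR
    obtain ⟨v, hv⟩ := htR
    refine ⟨v, ?_, ?_⟩
    · rw [Subgroup.mem_center_iff]
      intro s
      apply Subtype.ext
      exact (hcl2 v v.2 t t.2 s s.2).symm
    · intro h
      apply hv
      have h1 : v * t * v⁻¹ * t⁻¹ ∈ N := (hNmem _).2 h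
      have h2 : t * v * t⁻¹ * v⁻¹ = (v * t * v⁻¹ * t⁻¹)⁻¹ := by group
      rw [h2]; exact N.inv_mem h1
  have hFR := fully_ramified8 σ hram
  obtain ⟨m, hm⟩ := char_one_natCast hχ
  have hdχ : Cfsg.charDegree χ = m := charDegree_eq_of hm
  have hle : Cfsg.charDegree (σ : ↥T → ℂ) ≤ m :=
    degree_le_of_constituent hψ σ.2 hσne _ _ (irr_charDegree σ).1 hm
  have hidx : Cfsg.charDegree (σ : ↥T → ℂ) ^ 2 = (Subgroup.center ↥T).index := by
    have h1 := Subgroup.index_mul_card (Subgroup.center ↥T)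
    rw [← hFR] at h1
    exact (Nat.eq_of_mul_eq_mul_right Nat.card_pos h1).symm
  calc Nat.card P < Nat.card P + 1 := Nat.lt_succ_self _
    _ ≤ (Subgroup.center ↥T).index := hcount
    _ = Cfsg.charDegree (σ : ↥T → ℂ) ^ 2 := hidx.symm
    _ ≤ m ^ 2 := Nat.pow_le_pow_left hle 2
    _ = Cfsg.charDegree χ ^ 2 := by rw [hdχ]

theorem ti_caseA_char8 {p : ℕ} [Fact p.Prime] {P T : Subgroup G} (hP : IsPGroup p P)
    (hT : (Nat.card T).Coprime p) (hinv : tiInv8 P T) (hfree : tiFree8 P T) (hmin : tiMin8 P T)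
    (hnc : ¬ tiCent8 P T) (hab : ∀ a ∈ T, ∀ b ∈ T, a * b = b * a)
    (χ : G → ℂ) (hχ : Cfsg.IsCharacter G χ) (hfaith : ∀ g : G, χ g = χ 1 → g = 1) :
    Nat.card P < Cfsg.charDegree χ ^ 2 := by
  classical
  haveI : Fintype ↥T := Fintype.ofFinite _
  haveI : Fintype ↥P := Fintype.ofFinite _
  haveI : Fintype (Cfsg.IrrCharacter ↥T) := Fintype.ofFinite _
  have hfix := ti_caseA_group8 hP hT hinv hfree hmin hnc hab
  have hex : ∃ x ∈ P, ∃ t ∈ T, x * t ≠ t * x := by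
    by_contra h
    push Not at h
    exact hnc h
  obtain ⟨x0, hx0, t0, ht0, hxt0⟩ := hex
  have ht01 : t0 ≠ 1 := by
    rintro rfl
    exact hxt0 (by rw [mul_one, one_mul])
  have hx01 : x0 ≠ 1 := by
    rintro rfl
    exact hxt0 (by rw [mul_one, one_mul])
  have hP2 : 1 < Nat.card P := by
    rw [Subgroup.one_lt_card_iff_ne_bot]
    intro h
    rw [h, Subgroup.mem_bot] at hx0
    exact hx01 hx0
  have hψ : Cfsg.IsCharacter ↥T (fun t : ↥T => χ t) := isCharacter_restrict T hχ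
  have hc0 : (fun t : ↥T => χ t) (⟨t0, ht0⟩ : ↥T) ≠ (fun t : ↥T => χ t) 1 :=
    fun h => ht01 (hfaith _ h)
  obtain ⟨σ, hσne, hσc⟩ := exists_constituent_ne8 hψ _ hc0
  have hcommT : ∀ a b : ↥T, a * b = b * a := fun a b => Subtype.ext (hab a a.2 b b.2)
  have hlin : ∀ τ : Cfsg.IrrCharacter ↥T, (τ : ↥T → ℂ) 1 = 1 :=
    commutative_iff_degrees.mp hcommT
  have hσmul := linear_char_mul σ.2 (hlin σ)
  let g : ↥P → Cfsg.IrrCharacter ↥T := fun x =>
    ⟨(σ : ↥T → ℂ) ∘ tiConj8 hinv x,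
      isIrrCharacter_comp_surj (tiConj8 hinv x) (tiConj8_surj hinv x) σ.2⟩
  have hg_inj : Function.Injective g := by
    intro x y hxy
    have h : ∀ t : ↥T, (σ : ↥T → ℂ) (tiConj8 hinv x t) = (σ : ↥T → ℂ) (tiConj8 hinv y t) :=
      fun t => congrFun (congrArg Subtype.val hxy) t
    by_contra hne
    have hw1 : y * x⁻¹ ≠ 1 := by
      intro h1
      apply hne
      exact (mul_inv_eq_one.1 h1).symm
    have hw1' : ((y * x⁻¹ : ↥P) : G) ≠ 1 := fun h1 => hw1 (Subtype.ext h1)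
    have hσw : ∀ t : ↥T, (σ : ↥T → ℂ) (tiConj8 hinv (y * x⁻¹) t * t⁻¹) = 1 := by
      intro t
      have h1 := h (tiConj8 hinv x⁻¹ t)
      rw [tiConj8_mul, tiConj8_mul, mul_inv_cancel, tiConj8_one] at h1
      rw [hσmul, ← h1, ← hσmul, mul_inv_cancel, hlin σ]
    have hφinj : Function.Injective (fun t : ↥T => tiConj8 hinv (y * x⁻¹) t * t⁻¹) := by
      intro s t hst
      have h0 : ((y * x⁻¹ : ↥P) : G) * s * ((y * x⁻¹ : ↥P) : G)⁻¹ * (s : G)⁻¹ =
          ((y * x⁻¹ : ↥P) : G) * t * ((y * x⁻¹ : ↥P) : G)⁻¹ * (t : G)⁻¹ :=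
        congrArg Subtype.val hst
      have hcomm : ((y * x⁻¹ : ↥P) : G) * ((t : G)⁻¹ * s) =
          ((t : G)⁻¹ * s) * ((y * x⁻¹ : ↥P) : G) := by
        have h1 : ((y * x⁻¹ : ↥P) : G) * ((t : G)⁻¹ * s) * ((y * x⁻¹ : ↥P) : G)⁻¹ =
            (t : G)⁻¹ * (((y * x⁻¹ : ↥P) : G) * t * ((y * x⁻¹ : ↥P) : G)⁻¹ * (t : G)⁻¹)⁻¹ *
              (((y * x⁻¹ : ↥P) : G) * s * ((y * x⁻¹ : ↥P) : G)⁻¹ * (s : G)⁻¹) * s := by group
        rw [h0] at h1
        have h2 : (t : G)⁻¹ * (((y * x⁻¹ : ↥P) : G) * t * ((y * x⁻¹ : ↥P) : G)⁻¹ * (t : G)⁻¹)⁻¹ *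
            (((y * x⁻¹ : ↥P) : G) * t * ((y * x⁻¹ : ↥P) : G)⁻¹ * (t : G)⁻¹) * s =
            (t : G)⁻¹ * s := by group
        rw [h2] at h1
        calc ((y * x⁻¹ : ↥P) : G) * ((t : G)⁻¹ * s) =
            (((y * x⁻¹ : ↥P) : G) * ((t : G)⁻¹ * s) * ((y * x⁻¹ : ↥P) : G)⁻¹) *
              ((y * x⁻¹ : ↥P) : G) := by group
          _ = ((t : G)⁻¹ * s) * ((y * x⁻¹ : ↥P) : G) := by rw [h1]
      have h3 := hfix _ (y * x⁻¹ : ↥P).2 hw1' _ (T.mul_mem (T.inv_mem t.2) s.2) hcomm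
      apply Subtype.ext
      exact (inv_mul_eq_one.1 h3).symm
    have hφsurj := Finite.injective_iff_surjective.1 hφinj
    obtain ⟨t, ht⟩ := hφsurj ⟨t0, ht0⟩
    have ht' : tiConj8 hinv (y * x⁻¹) t * t⁻¹ = ⟨t0, ht0⟩ := ht
    apply hσc
    have h5 := hσw t
    rw [ht'] at h5
    rw [h5, hlin σ]
  obtain ⟨n, hn, hn'⟩ := isCharacter_expansion hψ
  have hnσ : n σ ≠ 0 := by
    intro h0
    apply hσne
    rw [hn' σ, h0, Nat.cast_zero]
  have hmult : ∀ x : ↥P, n (g x) = n σ := by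
    intro x
    have h1 : Cfsg.classInner (fun t : ↥T => χ t) ((g x : Cfsg.IrrCharacter ↥T) : ↥T → ℂ) =
        Cfsg.classInner (fun t : ↥T => χ t) (σ : ↥T → ℂ) := by
      unfold Cfsg.classInner
      congr 1
      have hbij : Function.Bijective (tiConj8 hinv x) :=
        ⟨Finite.injective_iff_surjective.2 (tiConj8_surj hinv x), tiConj8_surj hinv x⟩
      rw [← Equiv.sum_comp (Equiv.ofBijective _ hbij)
        (fun t : ↥T => χ t * conj ((σ : ↥T → ℂ) t))]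
      apply Finset.sum_congr rfl
      intro t _
      show χ t * conj ((σ : ↥T → ℂ) (tiConj8 hinv x t)) =
        χ ((x : G) * t * (x : G)⁻¹) * conj ((σ : ↥T → ℂ) (tiConj8 hinv x t))
      rw [isClassFunction_of_isCharacter hχ (t : G) (x : G)]
    rw [hn', hn'] at h1
    exact_mod_cast h1
  obtain ⟨m, hm⟩ := char_one_natCast hχ
  have hdχ : Cfsg.charDegree χ = m := charDegree_eq_of hm
  have hsum : m = ∑ τ : Cfsg.IrrCharacter ↥T, n τ := by
    have h1 := congrFun hn 1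
    rw [Finset.sum_apply] at h1
    simp only [Pi.smul_apply, smul_eq_mul, hlin, mul_one] at h1
    have h2 : (m : ℂ) = ((∑ τ : Cfsg.IrrCharacter ↥T, n τ : ℕ) : ℂ) := by
      rw [← hm, Nat.cast_sum]
      exact h1
    exact_mod_cast h2
  have hge : Nat.card P ≤ m := by
    rw [hsum]
    calc Nat.card P = ∑ _x : ↥P, 1 := by simp [Nat.card_eq_fintype_card]
      _ ≤ ∑ x : ↥P, n (g x) := by
          apply Finset.sum_le_sum
          intro x _
          rw [hmult]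
          exact Nat.one_le_iff_ne_zero.2 hnσ
      _ = ∑ τ ∈ Finset.image g Finset.univ, n τ :=
          (Finset.sum_image (fun a _ b _ h => hg_inj h)).symm
      _ ≤ ∑ τ : Cfsg.IrrCharacter ↥T, n τ :=
          Finset.sum_le_sum_of_subset (Finset.subset_univ _)
  calc Nat.card P < Nat.card P ^ 2 := by nlinarith
    _ ≤ m ^ 2 := Nat.pow_le_pow_left hge 2
    _ = Cfsg.charDegree χ ^ 2 := by rw [hdχ]

/-- a `p`-group acting with common fixed points, nontrivially, on a `p'`-subgroup forces every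
faithful character to have large degree -/
theorem ti_main8 {p : ℕ} [Fact p.Prime] {P : Subgroup G} (hP : IsPGroup p P)
    (χ : G → ℂ) (hχ : Cfsg.IsCharacter G χ) (hfaith : ∀ g : G, χ g = χ 1 → g = 1) :
    ∀ (n : ℕ) (T : Subgroup G), Nat.card T = n → tiInv8 P T → (Nat.card T).Coprime p →
      tiFree8 P T → ¬ tiCent8 P T → Nat.card P < Cfsg.charDegree χ ^ 2 := by
  intro n
  induction n using Nat.strong_induction_on with
  | _ n ih =>
  intro T hn hinv hT hfree hnc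
  by_cases hmin : tiMin8 P T
  · by_cases hab : ∀ a ∈ T, ∀ b ∈ T, a * b = b * a
    · exact ti_caseA_char8 hP hT hinv hfree hmin hnc hab χ hχ hfaith
    · push Not at hab
      exact ti_caseB_char8 hP hT hinv hfree hmin hnc hab χ hχ hfaith
  · unfold tiMin8 at hmin
    push Not at hmin
    obtain ⟨T1, hT1, hne, hinv1, hnc1⟩ := hmin
    have hlt : Nat.card T1 < n := by
      rw [← hn]
      by_contra hge
      exact hne (Subgroup.eq_of_le_of_card_ge hT1 (not_lt.1 hge))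
    exact ih _ hlt T1 rfl hinv1
      (Nat.Coprime.coprime_dvd_left (Subgroup.card_dvd_of_le hT1) hT)
      (fun x hx hx1 t ht => hfree x hx hx1 t (hT1 ht)) hnc1

end chars

end Cfsg.Agent.Lib.Helper8
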