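import Mathlib
import Cfsg.Prelude
import Cfsg.Agent.Lib.Lead.SylowAux
import Cfsg.Agent.Lib.Helper2.PComp
import Cfsg.Agent.Lib.Helper3.PPrimeCore
import Cfsg.Agent.Lib.Helper8.CharTwoClass3
import Cfsg.Agent.Lib.Helper8.FusionMisc
import Cfsg.Agent.Lib.Helper8.PSolvDer1
import Cfsg.Agent.Lib.Helper8.TIp2

/-! A `p`-solvable group with a trivial intersection Sylow `p`-subgroup `P` and a faithful
character of degree `d` with `d ^ 2 ≤ |P|` has `P` normal. -/

set_option autoImplicit false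

namespace Cfsg.Agent.Lib.Helper8

open Cfsg.Agent.Lib.Lead
open scoped Pointwise

universe u

theorem ti_sylow_normal8 {G : Type u} [Group G] [Finite G] (p : ℕ) [Fact p.Prime]
    (hsolv : Cfsg.IsPSolvable p G) (P : Sylow p G)
    (hTI : ∀ g : G, g ∉ Subgroup.normalizer ((P : Subgroup G) : Set G) →
      (P : Subgroup G) ⊓ (MulAut.conj g • (P : Subgroup G)) = ⊥)
    (χ : G → ℂ) (hχ : Cfsg.IsCharacter G χ) (hfaith : ∀ g : G, χ g = χ 1 → g = 1)
    (hdeg : Cfsg.charDegree χ ^ 2 ≤ Nat.card ↥(P : Subgroup G)) : (P : Subgroup G).Normal := by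
  have hpp : p.Prime := Fact.out
  by_contra hPn
  have hex : ∃ g : G, g ∉ Subgroup.normalizer ((P : Subgroup G) : Set G) := by
    by_contra h
    push Not at h
    exact hPn (Subgroup.normalizer_eq_top_iff.1 (eq_top_iff.2 (fun g _ => h g)))
  obtain ⟨g0, hg0⟩ := hex
  haveI hQn : (Cfsg.pCore p G).Normal := pCore_normal8 p G
  have hcore : Cfsg.pCore p G = ⊥ := by
    rw [eq_bot_iff, ← hTI g0 hg0]
    have h1 : Cfsg.pCore p G ≤ P := normal_pgroup_le_sylow8 p (Cfsg.pCore p G)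
      (pCore_isPGroup8 p G) P
    refine le_inf h1 ?_
    intro y hy
    rw [mem_conj_smul]
    exact h1 (hQn.conj_mem' y hy g0)
  -- consequences of the trivial intersection property
  have hT1 : ∀ x ∈ (P : Subgroup G), x ≠ 1 → ∀ k : G, k * x = x * k →
      k ∈ Subgroup.normalizer ((P : Subgroup G) : Set G) := by
    intro x hx hx1 k hk
    by_contra hkn
    have h1 := hTI k hkn
    have h2 : x ∈ (P : Subgroup G) ⊓ (MulAut.conj k • (P : Subgroup G)) := by
      refine Subgroup.mem_inf.2 ⟨hx, ?_⟩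
      rw [mem_conj_smul]
      have e : k⁻¹ * x * k = x := by rw [mul_assoc, ← hk]; group
      rw [e]; exact hx
    rw [h1, Subgroup.mem_bot] at h2
    exact hx1 h2
  haveI hKn : (Cfsg.pPrimeCore p G).Normal := Cfsg.Agent.Lib.Helper3.pPrimeCore_normal p G
  have hKc := Cfsg.Agent.Lib.Helper3.pPrimeCore_coprime hpp G
  have hKP : Cfsg.pPrimeCore p G ⊓ (P : Subgroup G) = ⊥ := by
    apply Subgroup.inf_eq_bot_of_coprime
    obtain ⟨j, hj⟩ := IsPGroup.iff_card.1 P.2
    rw [hj]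
    exact Nat.Coprime.pow_right j hKc
  have hinv : tiInv8 (P : Subgroup G) (Cfsg.pPrimeCore p G) := fun x _ t ht => hKn.conj_mem t ht x
  have hfree : tiFree8 (P : Subgroup G) (Cfsg.pPrimeCore p G) := by
    intro x hx hx1 t ht hxt y hy
    have htn := hT1 x hx hx1 t hxt.symm
    have h1 : t * y * t⁻¹ ∈ (P : Subgroup G) := (Subgroup.mem_normalizer_iff.1 htn y).1 hy
    have h2 : t * y * t⁻¹ * y⁻¹ ∈ Cfsg.pPrimeCore p G ⊓ (P : Subgroup G) := by
      refine Subgroup.mem_inf.2 ⟨?_, (P : Subgroup G).mul_mem h1 ((P : Subgroup G).inv_mem hy)⟩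
      have h3 : t * y * t⁻¹ * y⁻¹ = t * (y * t⁻¹ * y⁻¹) := by group
      rw [h3]
      exact (Cfsg.pPrimeCore p G).mul_mem ht
        (hKn.conj_mem _ ((Cfsg.pPrimeCore p G).inv_mem ht) y)
    rw [hKP, Subgroup.mem_bot] at h2
    have h4 : y * t = (t * y * t⁻¹ * y⁻¹)⁻¹ * (t * y) := by group
    rw [h4, h2, inv_one, one_mul]
  have hnc : ¬ tiCent8 (P : Subgroup G) (Cfsg.pPrimeCore p G) := by
    intro hcent
    -- the quotient by `O_{p'}(G)`
    have hQb : Cfsg.pCore p (G ⧸ Cfsg.pPrimeCore p G) ≠ ⊥ := by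
      intro h
      haveI := psolv_cores8 p (psolv_quotient8 p hpp (Cfsg.pPrimeCore p G) hsolv) h
        (Cfsg.Agent.Lib.Helper2.pPrimeCore_quotient_eq_bot p G)
      have hPbot : (P : Subgroup G) = ⊥ := by
        rw [eq_bot_iff, ← hKP]
        intro x hx
        refine Subgroup.mem_inf.2 ⟨?_, hx⟩
        rw [← QuotientGroup.eq_one_iff]
        exact Subsingleton.elim _ _
      apply hPn
      rw [hPbot]
      exact Subgroup.normal_bot
    haveI hQbn : (Cfsg.pCore p (G ⧸ Cfsg.pPrimeCore p G)).Normal :=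
      pCore_normal8 p (G ⧸ Cfsg.pPrimeCore p G)
    have hQble : Cfsg.pCore p (G ⧸ Cfsg.pPrimeCore p G) ≤
        (P.mapSurjective (QuotientGroup.mk'_surjective (Cfsg.pPrimeCore p G)) :
          Sylow p (G ⧸ Cfsg.pPrimeCore p G)) :=
      normal_pgroup_le_sylow8 p _ (pCore_isPGroup8 p (G ⧸ Cfsg.pPrimeCore p G)) _
    -- decomposition of elements of the preimage
    have hdec : ∀ l : G, QuotientGroup.mk' (Cfsg.pPrimeCore p G) l ∈
        Cfsg.pCore p (G ⧸ Cfsg.pPrimeCore p G) →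
        ∃ x ∈ (P : Subgroup G), x⁻¹ * l ∈ Cfsg.pPrimeCore p G := by
      intro l hl
      have h1 := hQble hl
      rw [Sylow.coe_mapSurjective] at h1
      obtain ⟨x, hx, hxl⟩ := h1
      refine ⟨x, hx, ?_⟩
      exact QuotientGroup.eq.1 hxl
    -- the subgroup `P ⊓ L`
    have hLn : ((Cfsg.pCore p (G ⧸ Cfsg.pPrimeCore p G)).comap
        (QuotientGroup.mk' (Cfsg.pPrimeCore p G))).Normal := hQbn.comap _
    have hP0n : ((P : Subgroup G) ⊓ (Cfsg.pCore p (G ⧸ Cfsg.pPrimeCore p G)).comap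
        (QuotientGroup.mk' (Cfsg.pPrimeCore p G))).Normal := by
      constructor
      intro y hy g
      have hyP := (Subgroup.mem_inf.1 hy).1
      have hyL := (Subgroup.mem_inf.1 hy).2
      have hgL := hLn.conj_mem y hyL g
      obtain ⟨x, hx, hk⟩ := hdec _ hgL
      -- `g y g⁻¹ = x * k` with `k ∈ K` commuting with `x`
      have hxk : x * (x⁻¹ * (g * y * g⁻¹)) = (x⁻¹ * (g * y * g⁻¹)) * x := hcent x hx _ hk
      obtain ⟨j, hj⟩ := IsPGroup.iff_card.1 P.2
      have hy1 : y ^ Nat.card (P : Subgroup G) = 1 := pow_card_sub8 _ hyP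
      have hx1 : x ^ Nat.card (P : Subgroup G) = 1 := pow_card_sub8 _ hx
      have hgy : (g * y * g⁻¹) ^ Nat.card (P : Subgroup G) = 1 := by
        rw [conj_pow, hy1]; group
      have hprod : g * y * g⁻¹ = x * (x⁻¹ * (g * y * g⁻¹)) := by group
      have hk1 : (x⁻¹ * (g * y * g⁻¹)) ^ Nat.card (P : Subgroup G) = 1 := by
        have h1 : (x * (x⁻¹ * (g * y * g⁻¹))) ^ Nat.card (P : Subgroup G) =
            x ^ Nat.card (P : Subgroup G) *
              (x⁻¹ * (g * y * g⁻¹)) ^ Nat.card (P : Subgroup G) :=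
          Commute.mul_pow hxk _
        rw [← hprod, hgy, hx1, one_mul] at h1
        exact h1.symm
      have hk2 := eq_one_of_coprime_pow8 P.2 hKc hk hk1
      have hgx : g * y * g⁻¹ = x := by
        rw [hprod, hk2, mul_one]
      refine Subgroup.mem_inf.2 ⟨?_, hgL⟩
      rw [hgx]; exact hx
    have hP0p : IsPGroup p ↥((P : Subgroup G) ⊓ (Cfsg.pCore p (G ⧸ Cfsg.pPrimeCore p G)).comap
        (QuotientGroup.mk' (Cfsg.pPrimeCore p G))) := P.2.to_le inf_le_left
    have hP0le := le_pCore8 hP0n hP0p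
    rw [hcore] at hP0le
    -- a nontrivial element
    obtain ⟨⟨q, hq⟩, hqne⟩ := Subgroup.ne_bot_iff_exists_ne_one.1 hQb
    have hq1 : q ≠ 1 := fun h => hqne (Subtype.ext h)
    obtain ⟨l, rfl⟩ := QuotientGroup.mk'_surjective (Cfsg.pPrimeCore p G) q
    obtain ⟨x, hx, hk⟩ := hdec l hq
    have hxL : x ∈ (Cfsg.pCore p (G ⧸ Cfsg.pPrimeCore p G)).comap
        (QuotientGroup.mk' (Cfsg.pPrimeCore p G)) := by
      rw [Subgroup.mem_comap]
      have h1 : QuotientGroup.mk' (Cfsg.pPrimeCore p G) x =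
          QuotientGroup.mk' (Cfsg.pPrimeCore p G) l := QuotientGroup.eq.2 hk
      rw [h1]; exact hq
    have hx0 : x ∈ (⊥ : Subgroup G) := hP0le (Subgroup.mem_inf.2 ⟨hx, hxL⟩)
    rw [Subgroup.mem_bot] at hx0
    apply hq1
    rw [hx0, inv_one, one_mul] at hk
    exact (QuotientGroup.eq_one_iff l).2 hk
  have hlt := ti_main8 P.2 χ hχ hfaith _ (Cfsg.pPrimeCore p G) rfl hinv hKc hfree hnc
  exact absurd hdeg (not_le.2 hlt)

end Cfsg.Agent.Lib.Helper8
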